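import Cfsg.Agent.Helper16.S4Defs2

/-!
# Piece VX1C of the call for S3702 (seat helper86)

The count of the `t` conjugating `x = φ sx` into `C_G(x) ∖ W ⟨z⟩`:
the conjugates of `x` in `W φ(P₂ ∖ ⟨z⟩)` are `x`, `x⁻¹` and the `W`-conjugates of the four `φ m`,
`m ∈ P₂ ∖ (⟨x⟩ ∪ ⟨z⟩)`; each `W`-class has `|W|` elements.
-/

set_option autoImplicit false

namespace Cfsg.Agent.Helper86

open Cfsg Cfsg.Agent.Helper16 DihedralGroup

/-- the fibres of `t ↦ t⁻¹ x t` are right cosets of the centralizer -/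
theorem vx1c_fib {G : Type*} [Group G] [Finite G] (x : G) (Y : Set G)
    (hY : ∀ y ∈ Y, ∃ t : G, t⁻¹ * x * t = y) :
    Nat.card {t : G // t⁻¹ * x * t ∈ Y} =
      Nat.card Y * Nat.card (Subgroup.centralizer ({x} : Set G)) := by
  classical
  have hY' : ∀ y : Y, ∃ t : G, t⁻¹ * x * t = (y : G) := fun y => hY y y.2
  choose τ hτ using hY'
  have hcen : ∀ c : Subgroup.centralizer ({x} : Set G), (c : G)⁻¹ * x * c = x := by
    intro c
    have h1 : x * (c : G) = (c : G) * x := (Subgroup.mem_centralizer_iff.1 c.2) x rfl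
    rw [mul_assoc, h1, ← mul_assoc, inv_mul_cancel, one_mul]
  have key : ∀ (y : Y) (c : Subgroup.centralizer ({x} : Set G)),
      ((c : G) * τ y)⁻¹ * x * ((c : G) * τ y) = (y : G) := by
    intro y c
    have h2 : ((c : G) * τ y)⁻¹ * x * ((c : G) * τ y) = (τ y)⁻¹ * ((c : G)⁻¹ * x * c) * τ y := by
      simp only [mul_inv_rev, mul_assoc]
    rw [h2, hcen, hτ]
  let f : Y × (Subgroup.centralizer ({x} : Set G)) → {t : G // t⁻¹ * x * t ∈ Y} :=
    fun p => ⟨(p.2 : G) * τ p.1, by rw [key]; exact p.1.2⟩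
  have hf : Function.Bijective f := by
    constructor
    · rintro ⟨y, c⟩ ⟨y', c'⟩ hEq
      have h1 : (c : G) * τ y = (c' : G) * τ y' := congrArg Subtype.val hEq
      have h2 : (y : G) = (y' : G) := by rw [← key y c, ← key y' c', h1]
      have h3 : y = y' := Subtype.ext h2
      subst h3
      have h4 : (c : G) = (c' : G) := mul_right_cancel h1
      exact Prod.ext rfl (Subtype.ext h4)
    · rintro ⟨t, ht⟩
      obtain ⟨s, hs, hs'⟩ : ∃ s : G, s = τ ⟨t⁻¹ * x * t, ht⟩ ∧ s⁻¹ * x * s = t⁻¹ * x * t :=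
        ⟨_, rfl, hτ ⟨t⁻¹ * x * t, ht⟩⟩
      have h6 : s⁻¹ * x = t⁻¹ * x * t * s⁻¹ := by
        calc s⁻¹ * x = (s⁻¹ * x * s) * s⁻¹ := by group
          _ = t⁻¹ * x * t * s⁻¹ := by rw [hs']
      have hc : t * s⁻¹ ∈ Subgroup.centralizer ({x} : Set G) := by
        rw [Subgroup.mem_centralizer_iff]
        intro g hg
        rw [Set.mem_singleton_iff] at hg
        rw [hg]
        calc x * (t * s⁻¹) = t * (t⁻¹ * x * t * s⁻¹) := by group
          _ = t * (s⁻¹ * x) := by rw [h6]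
          _ = t * s⁻¹ * x := by group
      refine ⟨(⟨t⁻¹ * x * t, ht⟩, ⟨t * s⁻¹, hc⟩), ?_⟩
      apply Subtype.ext
      show t * s⁻¹ * τ ⟨t⁻¹ * x * t, ht⟩ = t
      rw [← hs, inv_mul_cancel_right]
  rw [← Nat.card_prod]
  exact (Nat.card_congr (Equiv.ofBijective f hf)).symm

/-! ### model facts -/

theorem vx1c_kap_one : kap (1 : SM) = 0 := by decide

theorem vx1c_kap_inv : kap sx⁻¹ ≠ 0 := by decide

theorem vx1c_mx : sx ^ 3 = 1 ∧ kap sx = 1 ∧ sP sx ∧ sx⁻¹ ≠ sx := by decide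

theorem vx1c_mPinv : sP sx⁻¹ := by decide

theorem vx1c_mb : sb * sx * sb⁻¹ = sx⁻¹ := by decide

set_option maxRecDepth 1000000 in
theorem vx1c_mconj : ∀ m : SM, sP m → kap m ≠ 0 → ∃ s : SM, m = s * sx * s⁻¹ := by
  decide +kernel

theorem vx1c_card_m4 :
    Nat.card {m : SM // sP m ∧ kap m ≠ 0 ∧ m ≠ sx ∧ m ≠ sx⁻¹} = 4 := by
  rw [Nat.card_eq_fintype_card]
  decide +kernel

section

variable {G : Type*} [Group G] {φ : SM →* G} {W : Subgroup G}

/-- an element of `W` of order dividing 3 is trivial -/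
theorem vx1c_w_one (hW : XData φ W) (w : G) (hw : w ∈ W) (h3 : w ^ 3 = 1) : w = 1 := by
  have h1 : orderOf w ∣ 3 := orderOf_dvd_of_pow_eq_one h3
  have h2 : orderOf w ∣ Nat.card W := Subgroup.orderOf_dvd_natCard W hw
  have h4 : orderOf w ∣ Nat.gcd (Nat.card W) 3 := Nat.dvd_gcd h2 h1
  rw [Nat.Coprime.gcd_eq_one hW.cop] at h4
  exact orderOf_eq_one_iff.1 (Nat.dvd_one.1 h4)

/-- VX1C -/
theorem s4_vx1c [Finite G] (h : S4Cfg φ) (hW : XData φ W) (hX : XFacts φ W) :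
    Nat.card (s4NC φ W (φ sx)) = (2 + 4 * Nat.card W) * (9 * Nat.card W) := by
  classical
  obtain ⟨hx3, hkx, hPx, hxinv⟩ := vx1c_mx
  have hx3' : (φ sx) ^ 3 = 1 := by rw [← map_pow, hx3, map_one]
  have hxne : (φ sx)⁻¹ ≠ φ sx := by
    intro hEq
    rw [← map_inv] at hEq
    exact hxinv (h.inj hEq)
  have hcomm : ∀ m : SM, sP m → φ m * φ sx = φ sx * φ m := by
    intro m hm
    have hm' : m * sx = sx * m := hm
    rw [← map_mul, ← map_mul, hm']
  have hne1 : ∀ m : SM, kap m ≠ 0 → m ≠ 1 := by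
    intro m hk h1
    rw [h1] at hk
    exact hk vx1c_kap_one
  -- the `W`-conjugates of `φ m` lie in `W φ m`
  have hF1 : ∀ m : SM, sP m → ∀ c ∈ W, ∃ w ∈ W, c * φ m * c⁻¹ = w * φ m := by
    intro m hm c hc
    refine ⟨c * (φ m * c⁻¹ * (φ m)⁻¹),
      W.mul_mem hc (hW.norm (φ m) (hcomm m hm) c⁻¹ (W.inv_mem hc)), ?_⟩
    group
  -- and are conjugate to `x`
  have hF2 : ∀ m : SM, sP m → kap m ≠ 0 → ∀ c : G, ∃ t : G, t⁻¹ * φ sx * t = c * φ m * c⁻¹ := by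
    intro m hm hk c
    obtain ⟨s, hs⟩ := vx1c_mconj m hm hk
    refine ⟨(c * φ s)⁻¹, ?_⟩
    rw [hs, map_mul, map_mul, map_inv]
    group
  let Y : Set G := {y | (∃ w ∈ W, ∃ m : SM, sP m ∧ kap m ≠ 0 ∧ y = w * φ m) ∧
      ∃ t : G, t⁻¹ * φ sx * t = y}
  have hset : s4NC φ W (φ sx) = {t | t⁻¹ * φ sx * t ∈ Y} := by
    ext t
    constructor
    · rintro ⟨w, hw, m, hm, hk, ht⟩
      exact ⟨⟨w, hw, m, hm, hk, ht⟩, t, rfl⟩
    · rintro ⟨⟨w, hw, m, hm, hk, ht⟩, -⟩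
      exact ⟨w, hw, m, hm, hk, ht⟩
  have hfib := vx1c_fib (φ sx) Y (fun y hy => hy.2)
  -- the parametrisation of `Y`
  let F : Bool ⊕ ({m : SM // sP m ∧ kap m ≠ 0 ∧ m ≠ sx ∧ m ≠ sx⁻¹} × W) → G :=
    Sum.elim (fun b => cond b (φ sx) (φ sx)⁻¹)
      (fun p => (p.2 : G) * φ p.1.1 * (p.2 : G)⁻¹)
  have hFY : ∀ s, F s ∈ Y := by
    rintro (b | ⟨⟨m, hm, hk, hm1, hm2⟩, ⟨c, hc⟩⟩)
    · cases b
      · refine ⟨⟨1, W.one_mem, sx⁻¹, vx1c_mPinv, vx1c_kap_inv, ?_⟩, (φ sb)⁻¹, ?_⟩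
        · show (φ sx)⁻¹ = 1 * φ sx⁻¹
          rw [one_mul, map_inv]
        · show ((φ sb)⁻¹)⁻¹ * φ sx * (φ sb)⁻¹ = (φ sx)⁻¹
          rw [inv_inv, ← map_inv, ← map_mul, ← map_mul, vx1c_mb, map_inv]
      · refine ⟨⟨1, W.one_mem, sx, hPx, ?_, ?_⟩, 1, ?_⟩
        · rw [hkx]; decide
        · show φ sx = 1 * φ sx
          rw [one_mul]
        · show (1 : G)⁻¹ * φ sx * 1 = φ sx
          rw [inv_one, one_mul, mul_one]
    · obtain ⟨w, hw, hEq⟩ := hF1 m hm c hc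
      exact ⟨⟨w, hw, m, hm, hk, hEq⟩, hF2 m hm hk c⟩
  have hFinj : Function.Injective F := by
    rintro (b | ⟨⟨m, hm, hk, hm1, hm2⟩, ⟨c, hc⟩⟩)
      (b' | ⟨⟨m', hm', hk', hm1', hm2'⟩, ⟨c', hc'⟩⟩) hEq
    · cases b <;> cases b'
      · rfl
      · exact absurd hEq hxne
      · exact absurd hEq.symm hxne
      · rfl
    · exfalso
      obtain ⟨w, hw, hEq2⟩ := hF1 m' hm' c' hc'
      cases b
      · have h1 : (1 : G) * φ sx⁻¹ = w * φ m' := by
          rw [one_mul, map_inv, ← hEq2]; exact hEq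
        exact hm2' ((hX.uniq 1 W.one_mem w hw sx⁻¹ m' (vx1c_mPinv) hm' h1).2).symm
      · have h1 : (1 : G) * φ sx = w * φ m' := by
          rw [one_mul, ← hEq2]; exact hEq
        exact hm1' ((hX.uniq 1 W.one_mem w hw sx m' hPx hm' h1).2).symm
    · exfalso
      obtain ⟨w, hw, hEq2⟩ := hF1 m hm c hc
      cases b'
      · have h1 : (1 : G) * φ sx⁻¹ = w * φ m := by
          rw [one_mul, map_inv, ← hEq2]; exact hEq.symm
        exact hm2 ((hX.uniq 1 W.one_mem w hw sx⁻¹ m (vx1c_mPinv) hm h1).2).symm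
      · have h1 : (1 : G) * φ sx = w * φ m := by
          rw [one_mul, ← hEq2]; exact hEq.symm
        exact hm1 ((hX.uniq 1 W.one_mem w hw sx m hPx hm h1).2).symm
    · obtain ⟨w, hw, hEq2⟩ := hF1 m hm c hc
      obtain ⟨w', hw', hEq2'⟩ := hF1 m' hm' c' hc'
      have hEq' : c * φ m * c⁻¹ = c' * φ m' * c'⁻¹ := hEq
      have h1 : w * φ m = w' * φ m' := by rw [← hEq2, ← hEq2', hEq']
      have hmm : m = m' := (hX.uniq w hw w' hw' m m' hm hm' h1).2
      subst hmm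
      have h2 : (c'⁻¹ * c) * φ m = φ m * (c'⁻¹ * c) := by
        calc (c'⁻¹ * c) * φ m = c'⁻¹ * (c * φ m * c⁻¹) * c := by group
          _ = c'⁻¹ * (c' * φ m * c'⁻¹) * c := by rw [hEq']
          _ = φ m * (c'⁻¹ * c) := by group
      have h3 : c'⁻¹ * c = 1 :=
        hX.cent m hm (hne1 m hk) hm1 hm2 (c'⁻¹ * c) (W.mul_mem (W.inv_mem hc') hc) h2
      have h4 : c = c' := by
        have h5 := congrArg (fun u => c' * u) h3
        simpa using h5
      subst h4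
      rfl
  have hFsurj : ∀ y ∈ Y, ∃ s, F s = y := by
    rintro y ⟨⟨w, hw, m, hm, hk, hy⟩, t, ht⟩
    have hy3 : y ^ 3 = 1 := by
      rw [← ht]
      have h0 : t⁻¹ * φ sx * t = t⁻¹ * φ sx * (t⁻¹)⁻¹ := by rw [inv_inv]
      rw [h0, conj_pow, hx3', mul_one, mul_inv_cancel]
    by_cases h1 : m = sx
    · subst h1
      have hwc : Commute w (φ sx) := hW.le w hw
      have hw3 : w ^ 3 = 1 := by
        have h6 := hy3
        rw [hy, hwc.mul_pow, hx3', mul_one] at h6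
        exact h6
      have hw1 := vx1c_w_one hW w hw hw3
      refine ⟨Sum.inl true, ?_⟩
      show φ sx = y
      rw [hy, hw1, one_mul]
    · by_cases h2 : m = sx⁻¹
      · subst h2
        have hwc : Commute w (φ sx⁻¹) := by
          rw [map_inv]
          exact Commute.inv_right (hW.le w hw)
        have hxi3 : (φ sx⁻¹) ^ 3 = 1 := by rw [map_inv, inv_pow, hx3', inv_one]
        have hw3 : w ^ 3 = 1 := by
          have h6 := hy3
          rw [hy, hwc.mul_pow, hxi3, mul_one] at h6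
          exact h6
        have hw1 := vx1c_w_one hW w hw hw3
        refine ⟨Sum.inl false, ?_⟩
        show (φ sx)⁻¹ = y
        rw [hy, hw1, one_mul, map_inv]
      · obtain ⟨c, hc, hcEq⟩ := hX.frob m hm (hne1 m hk) h1 h2 w hw
        refine ⟨Sum.inr (⟨m, hm, hk, h1, h2⟩, ⟨c, hc⟩), ?_⟩
        show c * φ m * c⁻¹ = y
        rw [hcEq, hy]
  have hcardY : Nat.card Y = 2 + 4 * Nat.card W := by
    have e : (Bool ⊕ ({m : SM // sP m ∧ kap m ≠ 0 ∧ m ≠ sx ∧ m ≠ sx⁻¹} × W)) ≃ Y :=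
      Equiv.ofBijective (fun s => (⟨F s, hFY s⟩ : Y))
        ⟨fun a b hab => hFinj (congrArg Subtype.val hab),
         fun y => by
           obtain ⟨s, hs⟩ := hFsurj y.1 y.2
           exact ⟨s, Subtype.ext hs⟩⟩
    rw [← Nat.card_congr e, Nat.card_sum, Nat.card_prod, vx1c_card_m4,
      Nat.card_eq_fintype_card (α := Bool), Fintype.card_bool]
  rw [hset]
  show Nat.card {t : G // t⁻¹ * φ sx * t ∈ Y} = _
  rw [hfib, hcardY, hX.card]

end

end Cfsg.Agent.Helper86
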