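import Mathlib
import Cfsg.Agent.Helper90.MDDefs
import Cfsg.Agent.Helper58.MDCORE

/-!
# Piece CHAR of the call for S2343 (seat helper86)

A finite abelian subgroup has a linear character that is nontrivial on a given nonidentity
element.
-/

set_option autoImplicit false

namespace Cfsg.Agent.Helper86

open Cfsg.Agent.Helper90.MD

/-- PIECE CHAR -/
theorem rmd43_char {G : Type*} [Group G] [Finite G] (A : Subgroup G)
    (hA : ∀ x ∈ A, ∀ y ∈ A, x * y = y * x) (z : G) (hz : z ∈ A) (hz1 : z ≠ 1) :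
    ∃ lam : G → ℂ, IsCharOn A lam ∧ lam z ≠ 1 := by
  obtain ⟨ι, _, lam, hl, h0, h1⟩ := Cfsg.Agent.Helper58.MDCore.exists_chars A hA
  by_contra hcon
  have hall : ∀ i, lam i z = 1 := by
    intro i
    by_contra hi
    exact hcon ⟨lam i, hl i, hi⟩
  have hz0 := h0 z hz hz1
  have e : ∑ i, lam i z = ∑ i, lam i 1 :=
    Finset.sum_congr rfl (fun i _ => by rw [hall i, (hl i).1])
  rw [e, h1] at hz0
  have hpos : (Nat.card A : ℂ) ≠ 0 := by
    exact_mod_cast (Nat.card_pos (α := ↥A)).ne'
  exact hpos hz0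

end Cfsg.Agent.Helper86
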