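import Cfsg.Agent.Helper85.CXDefs

set_option autoImplicit false

/-! # Piece AHAT of S5127: extending an automorphism of `T` to `T C_S(T)` preserving `C_S(E)` -/

namespace Cfsg.Agent.Helper86.CXAHAT

open Cfsg Cfsg.FusionSystem Cfsg.Agent.Helper85 Cfsg.Agent.Helper88

variable {Ω : Type*} [Group Ω] {S : Subgroup Ω}

theorem cx_ahat [Finite S] {p : ℕ} [Fact p.Prime] (hS : IsPGroup p S) {F : FusionSystem S}
    (hF : F.IsSaturated p) {T : Subgroup Ω} {E : FusionSystem T} (hinv : E.IsInvariantIn F)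
    {C : Subgroup Ω} (hC : InCX F E C) (hmax : ∀ Y : Subgroup Ω, InCX F E Y → Y ≤ C) :
    CXAhat F T C := by
  have hT : F.StronglyClosed T := hinv.2.1
  have hTS : T ≤ S := hT.1
  -- `T` is receptive
  have hTrec : F.IsReceptive T := by
    obtain ⟨Q, hconj, -, hrec⟩ := hF T hTS
    obtain ⟨θ, hθ, rfl⟩ := (Helper88.isConj_iff F).1 hconj
    have hQT : img T θ = T := hθ.img_eq_of_mapsTo (fun x hx => sc_apply_mem hT hθ hx hx)
    rwa [hQT] at hrec
  intro f hf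
  have himgf : img T f = T := hf.img_eq_of_mapsTo (fun x hx => sc_apply_mem hT hf hx hx)
  obtain ⟨ah0, hah0, hah0T⟩ := receptive_extend_centralizer hTrec hf himgf
  have hah : IsMap F (T ⊔ centralizerIn S T) ah0 := by rwa [sup_comm] at hah0
  have hahT : ∀ t ∈ T, ah0 t ∈ T := fun t ht => by
    rw [hah0T t ht]; exact sc_apply_mem hT hf ht ht
  have hahC : ∀ c ∈ centralizerIn S T, ah0 c ∈ centralizerIn S T := fun c hc =>
    sc_cent_mem hT hah hc
  have hmaps : ∀ x ∈ T ⊔ centralizerIn S T, ah0 x ∈ T ⊔ centralizerIn S T :=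
    hah.mapsTo_sup (fun x hx => Subgroup.mem_sup_left (hahT x hx))
      (fun x hx => Subgroup.mem_sup_right (hahC x hx))
  have himg : img (T ⊔ centralizerIn S T) ah0 = T ⊔ centralizerIn S T :=
    hah.img_eq_of_mapsTo hmaps
  refine ⟨ah0, hah, hah0T, himg, ?_⟩
  have hCle : C ≤ centralizerIn S T := hC.1
  have hCsup : C ≤ T ⊔ centralizerIn S T := hCle.trans le_sup_right
  have hahCm : IsMap F C ah0 := hah.restrict hCsup
  have hYle : img C ah0 ≤ centralizerIn S T := by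
    intro y hy
    obtain ⟨c, hc, rfl⟩ := hahCm.mem_img.1 hy
    exact hahC c (hCle hc)
  have hY : InCX F E (img C ah0) := by
    refine ⟨hYle, ?_⟩
    intro P f₁ hf₁
    obtain ⟨bh, hbh, hbh1, hbh2, -⟩ := hah.exists_inv
    rw [himg] at hbh hbh2
    have hPT : P ≤ T := hf₁.le
    have hbhT : IsMap F T bh := hbh.restrict le_sup_left
    have hf₁T : ∀ x ∈ P, f₁ x ∈ T := fun x hx => hf₁.mem hx
    have hbhP : IsMap F P bh := hbhT.restrict hPT
    have hf₀ : IsMap E (img P bh) (bh ∘ f₁ ∘ ah0) := by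
      refine invariant_isMap hS hF hinv hPT le_rfl hf₁ hf₁T hbhT (fun x hx => ?_)
      show bh (f₁ (ah0 (bh x))) = bh (f₁ x)
      rw [(hbh2 x (Subgroup.mem_sup_left (hPT hx))).2]
    obtain ⟨f₀', hf₀', hf₀'1, hf₀'2⟩ := hC.2 _ _ hf₀
    have hPY : P ⊔ img C ah0 ≤ T ⊔ centralizerIn S T := sup_le_sup hPT hYle
    have hbhPY : IsMap F (P ⊔ img C ah0) bh := hbh.restrict hPY
    have hm1 : ∀ x ∈ P ⊔ img C ah0, bh x ∈ img P bh ⊔ C := by
      refine hbhPY.mapsTo_sup (fun x hx => Subgroup.mem_sup_left (hbhP.apply_mem_img hx))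
        (fun y hy => ?_)
      obtain ⟨c, hc, rfl⟩ := hahCm.mem_img.1 hy
      rw [hbh1 c (hCsup hc)]
      exact Subgroup.mem_sup_right hc
    have hm2 : ∀ x ∈ img P bh ⊔ C, f₀' x ∈ T ⊔ centralizerIn S T := by
      refine hf₀'.mapsTo_sup (fun x hx => ?_) (fun c hc => ?_)
      · rw [hf₀'1 x hx]
        exact Subgroup.mem_sup_left (hf₀.mem hx)
      · rw [hf₀'2 c hc]
        exact hCsup hc
    have hcomp : IsMap F (P ⊔ img C ah0) (ah0 ∘ (f₀' ∘ bh)) :=
      (hbhPY.comp hf₀' hm1).comp hah (fun x hx => hm2 _ (hm1 x hx))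
    refine ⟨ah0 ∘ (f₀' ∘ bh), hcomp, fun x hx => ?_, fun y hy => ?_⟩
    · show ah0 (f₀' (bh x)) = f₁ x
      rw [hf₀'1 (bh x) (hbhP.apply_mem_img hx)]
      show ah0 (bh (f₁ (ah0 (bh x)))) = f₁ x
      rw [(hbh2 x (Subgroup.mem_sup_left (hPT hx))).2,
        (hbh2 (f₁ x) (Subgroup.mem_sup_left (hf₁T x hx))).2]
    · obtain ⟨c, hc, rfl⟩ := hahCm.mem_img.1 hy
      show ah0 (f₀' (bh (ah0 c))) = ah0 c
      rw [hbh1 c (hCsup hc), hf₀'2 c hc]
  intro c hc
  exact hmax _ hY (hahCm.apply_mem_img hc)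

end Cfsg.Agent.Helper86.CXAHAT
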