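import Cfsg.Agent.Helper85.CXDefs

set_option autoImplicit false

/-! # Piece BASE of S5127: maps defined on a subgroup containing `T` carry `C_S(E)` into itself -/

namespace Cfsg.Agent.Helper86.CXBASE

open Cfsg Cfsg.FusionSystem Cfsg.Agent.Helper85 Cfsg.Agent.Helper88

variable {Ω : Type*} [Group Ω] {S : Subgroup Ω}

theorem cx_base [Finite S] {p : ℕ} [Fact p.Prime] (hS : IsPGroup p S) {F : FusionSystem S}
    {T : Subgroup Ω} {E : FusionSystem T} (hE : E.IsNormalIn F p) {C : Subgroup Ω}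
    (hC : InCX F E C) (hmax : ∀ Y : Subgroup Ω, InCX F E Y → Y ≤ C) (hah : CXAhat F T C) :
    CXM F T C (Nat.card T) := by
  have hinv := hE.1.2.2
  have hT : F.StronglyClosed T := hinv.2.1
  have hTS : T ≤ S := hT.1
  have hfinT : Finite T := Helper88.finite_of_le hTS
  intro D f hf hcard x hxD hxC
  have hTD : T ≤ D := by
    have h1 : D ⊓ T = T := Subgroup.eq_of_le_of_card_ge inf_le_right hcard
    rw [← h1]; exact inf_le_left
  have hfT : IsMap F T f := hf.restrict hTD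
  obtain ⟨ah, hahm, hahT, hahimg, hahC⟩ := hah f hfT
  obtain ⟨bh, hbh, hbh1, hbh2, -⟩ := hahm.exists_inv
  rw [hahimg] at hbh hbh2
  have hZD : Subgroup.zpowers x ≤ D := Subgroup.zpowers_le.2 hxD
  have hZC : Subgroup.zpowers x ≤ C := Subgroup.zpowers_le.2 hxC
  have hZc : Subgroup.zpowers x ≤ centralizerIn S T := hZC.trans hC.1
  have hfZ : ∀ y ∈ Subgroup.zpowers x, f y ∈ centralizerIn S T := by
    intro y hy
    refine mem_centralizerIn_iff.2 ⟨hf.mem (hZD hy), fun t ht => ?_⟩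
    obtain ⟨t₀, ht₀, rfl⟩ := sc_surj hT hf hTD ht
    rw [← hf.map_mul (hTD ht₀) (hZD hy), ← hf.map_mul (hZD hy) (hTD ht₀),
      cent_commute (hZc hy) ht₀]
  have hZT : Subgroup.zpowers x ⊔ T ≤ D := sup_le hZD hTD
  have hfZT : IsMap F (Subgroup.zpowers x ⊔ T) f := hf.restrict hZT
  have hm : ∀ y ∈ Subgroup.zpowers x ⊔ T, f y ∈ T ⊔ centralizerIn S T :=
    hfZT.mapsTo_sup (fun y hy => Subgroup.mem_sup_right (hfZ y hy))
      (fun t ht => Subgroup.mem_sup_left (sc_apply_mem hT hf (hTD ht) ht))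
  have hδ : IsMap F (Subgroup.zpowers x ⊔ T) (bh ∘ f) := hfZT.comp hbh hm
  have hδT : ∀ t ∈ T, (bh ∘ f) t = t := fun t ht => by
    show bh (f t) = t
    rw [← hahT t ht]; exact hbh1 t (Subgroup.mem_sup_left ht)
  have hbhc : ∀ c ∈ centralizerIn S T, bh c ∈ centralizerIn S T := fun c hc =>
    sc_cent_mem hT hbh hc
  have hcm : IsCMap F T (Subgroup.zpowers x) (bh ∘ f) :=
    ⟨hδ.restrict le_sup_left, hZc, fun y hy => hbhc _ (hfZ y hy), bh ∘ f, hδ, fun _ _ => rfl, hδT⟩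
  have hgen : IsFocalGen F T (x⁻¹ * (bh ∘ f) x) :=
    ⟨_, _, x, hcm, Subgroup.mem_zpowers x, rfl⟩
  have hg : InCX F E (Subgroup.zpowers (x⁻¹ * (bh ∘ f) x)) := by
    refine ⟨Subgroup.zpowers_le.2 hgen.mem_centralizerIn, fun P f₁ hf₁ => ?_⟩
    obtain ⟨f', hf', h1, h2⟩ := fixG_all hS hE hgen hf₁
    exact ⟨f', hf', h1, hf'.fix_zpowers (Subgroup.mem_sup_right (Subgroup.mem_zpowers _)) h2⟩
  have hgC : x⁻¹ * (bh ∘ f) x ∈ C := hmax _ hg (Subgroup.mem_zpowers _)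
  have hδx : bh (f x) ∈ C := by
    have h3 : bh (f x) = x * (x⁻¹ * (bh ∘ f) x) := by
      show bh (f x) = x * (x⁻¹ * bh (f x))
      rw [mul_inv_cancel_left]
    rw [h3]; exact C.mul_mem hxC hgC
  have hfx : f x = ah (bh (f x)) :=
    ((hbh2 (f x) (hm x (Subgroup.mem_sup_left (Subgroup.mem_zpowers x)))).2).symm
  rw [hfx]; exact hahC _ hδx

end Cfsg.Agent.Helper86.CXBASE
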