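import Mathlib

set_option autoImplicit false

namespace Cfsg.Agent.Helper86

open Equiv Equiv.Perm

section General

variable {Γ : Type*} [Group Γ]

/-- a subgroup generated by pairwise commuting `p`-elements is a `p`-group -/
theorem isPGroup_closure_comm {p : ℕ} {U : Set Γ} (hc : ∀ x ∈ U, ∀ y ∈ U, x * y = y * x)
    (hp : ∀ x ∈ U, ∃ k : ℕ, x ^ p ^ k = 1) : IsPGroup p ↥(Subgroup.closure U) := by
  have hcomm : ∀ x ∈ Subgroup.closure U, ∀ y ∈ Subgroup.closure U, x * y = y * x := by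
    intro x hx y hy
    have h := (Subgroup.isMulCommutative_closure hc).is_comm.comm (⟨x, hx⟩ : ↥(Subgroup.closure U)) ⟨y, hy⟩
    exact congrArg Subtype.val h
  have key : ∀ y ∈ Subgroup.closure U, ∃ k : ℕ, y ^ p ^ k = 1 := by
    intro y hy
    induction hy using Subgroup.closure_induction with
    | mem x hx => exact hp x hx
    | one => exact ⟨0, one_pow _⟩
    | mul x y hx hy ihx ihy =>
      obtain ⟨k, hk⟩ := ihx
      obtain ⟨l, hl⟩ := ihy
      refine ⟨k + l, ?_⟩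
      have hxy : Commute x y := hcomm x hx y hy
      rw [hxy.mul_pow, pow_add, pow_mul, hk, one_pow, mul_comm (p ^ k), pow_mul, hl, one_pow, one_mul]
    | inv x hx ih =>
      obtain ⟨k, hk⟩ := ih
      exact ⟨k, by rw [inv_pow, hk, inv_one]⟩
  rintro ⟨y, hy⟩
  obtain ⟨k, hk⟩ := key y hy
  exact ⟨k, Subtype.ext hk⟩

/-- relative Sylow property of `S` in `A` -/
def RelSyl (p : ℕ) (A S : Subgroup Γ) : Prop :=
  S ≤ A ∧ IsPGroup p ↥S ∧
    ∀ R : Subgroup Γ, R ≤ A → IsPGroup p ↥R → ∃ h ∈ A, ∀ x ∈ R, h * x * h⁻¹ ∈ S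

/-- the union of the `A`-conjugates of `T` -/
def conjSet (A T : Subgroup Γ) : Set Γ := {x | ∃ g ∈ A, g * x * g⁻¹ ∈ T}

theorem mem_conjSet_of_mem {A T : Subgroup Γ} {x : Γ} (hx : x ∈ T) : x ∈ conjSet A T :=
  ⟨1, A.one_mem, by simpa using hx⟩

theorem conjSet_conj {A T : Subgroup Γ} {x a : Γ} (hx : x ∈ conjSet A T) (ha : a ∈ A) :
    a * x * a⁻¹ ∈ conjSet A T := by
  obtain ⟨g, hg, hgx⟩ := hx
  refine ⟨g * a⁻¹, A.mul_mem hg (A.inv_mem ha), ?_⟩
  have : g * a⁻¹ * (a * x * a⁻¹) * (g * a⁻¹)⁻¹ = g * x * g⁻¹ := by group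
  rw [this]; exact hgx

theorem conjSet_le {A T : Subgroup Γ} (hTA : T ≤ A) {x : Γ} (hx : x ∈ conjSet A T) : x ∈ A := by
  obtain ⟨g, hg, hgx⟩ := hx
  have : x = g⁻¹ * (g * x * g⁻¹) * g := by group
  rw [this]
  exact A.mul_mem (A.mul_mem (A.inv_mem hg) (hTA hgx)) hg

theorem conjSet_pelt {p : ℕ} {A T : Subgroup Γ} (hT : IsPGroup p ↥T) {x : Γ} (hx : x ∈ conjSet A T) :
    ∃ k : ℕ, x ^ p ^ k = 1 := by
  obtain ⟨g, hg, hgx⟩ := hx
  obtain ⟨k, hk⟩ := hT ⟨_, hgx⟩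
  refine ⟨k, ?_⟩
  have h1 : (g * x * g⁻¹) ^ p ^ k = 1 := congrArg Subtype.val hk
  rw [conj_pow] at h1
  have : x ^ p ^ k = g⁻¹ * (g * x ^ p ^ k * g⁻¹) * g := by group
  rw [this, h1]; group

/-- the conjugates of a strongly closed subgroup meet every `p`-subgroup generated by some of them
in the whole subgroup -/
theorem conjSet_closure {p : ℕ} {A S T : Subgroup Γ} (hSyl : RelSyl p A S) (hTS : T ≤ S)
    (hT : ∀ x ∈ T, ∀ g ∈ A, g * x * g⁻¹ ∈ S → g * x * g⁻¹ ∈ T) {U : Set Γ}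
    (hU : U ⊆ conjSet A T) (hp : IsPGroup p ↥(Subgroup.closure U)) :
    ∀ y ∈ Subgroup.closure U, y ∈ conjSet A T := by
  have hUA : Subgroup.closure U ≤ A := by
    rw [Subgroup.closure_le]
    intro x hx
    exact conjSet_le (hTS.trans hSyl.1) (hU hx)
  obtain ⟨h, hhA, hh⟩ := hSyl.2.2 _ hUA hp
  have hsub : Subgroup.closure U ≤ T.comap (MulAut.conj h).toMonoidHom := by
    rw [Subgroup.closure_le]
    intro u hu
    obtain ⟨g, hg, hgu⟩ := hU hu
    show h * u * h⁻¹ ∈ T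
    have h1 := hT _ hgu (h * g⁻¹) (A.mul_mem hhA (A.inv_mem hg))
    have e : h * g⁻¹ * (g * u * g⁻¹) * (h * g⁻¹)⁻¹ = h * u * h⁻¹ := by group
    rw [e] at h1
    exact h1 (hh u (Subgroup.subset_closure hu))
  intro y hy
  exact ⟨h, hhA, hsub hy⟩

theorem conjSet_mul {p : ℕ} {A S T : Subgroup Γ} (hSyl : RelSyl p A S) (hTS : T ≤ S)
    (hT : ∀ x ∈ T, ∀ g ∈ A, g * x * g⁻¹ ∈ S → g * x * g⁻¹ ∈ T) {x y : Γ}
    (hx : x ∈ conjSet A T) (hy : y ∈ conjSet A T)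
    (hp : IsPGroup p ↥(Subgroup.closure ({x, y} : Set Γ))) : x * y ∈ conjSet A T := by
  apply conjSet_closure hSyl hTS hT (U := {x, y}) _ hp
  · exact Subgroup.mul_mem _ (Subgroup.subset_closure (by simp)) (Subgroup.subset_closure (by simp))
  · rintro z (rfl | rfl)
    · exact hx
    · exact hy

theorem conjSet_mul_comm {p : ℕ} {A S T : Subgroup Γ} (hSyl : RelSyl p A S) (hTS : T ≤ S)
    (hT : ∀ x ∈ T, ∀ g ∈ A, g * x * g⁻¹ ∈ S → g * x * g⁻¹ ∈ T) {x y : Γ}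
    (hx : x ∈ conjSet A T) (hy : y ∈ conjSet A T) (hxy : x * y = y * x) : x * y ∈ conjSet A T := by
  have hTp : IsPGroup p ↥T := hSyl.2.1.to_le hTS
  apply conjSet_mul hSyl hTS hT hx hy
  apply isPGroup_closure_comm
  · rintro a (rfl | rfl) b (rfl | rfl)
    · rfl
    · exact hxy
    · exact hxy.symm
    · rfl
  · rintro a (rfl | rfl)
    · exact conjSet_pelt hTp hx
    · exact conjSet_pelt hTp hy

theorem conjSet_pow {A T : Subgroup Γ} {x : Γ}
    (hx : x ∈ conjSet A T) (n : ℕ) : x ^ n ∈ conjSet A T := by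
  obtain ⟨g, hg, hgx⟩ := hx
  refine ⟨g, hg, ?_⟩
  rw [← conj_pow]
  exact T.pow_mem hgx n

theorem conjSet_inv {A T : Subgroup Γ} {x : Γ} (hx : x ∈ conjSet A T) : x⁻¹ ∈ conjSet A T := by
  obtain ⟨g, hg, hgx⟩ := hx
  refine ⟨g, hg, ?_⟩
  have : g * x⁻¹ * g⁻¹ = (g * x * g⁻¹)⁻¹ := by group
  rw [this]
  exact T.inv_mem hgx

theorem conjSet_inter {A S T : Subgroup Γ}
    (hT : ∀ x ∈ T, ∀ g ∈ A, g * x * g⁻¹ ∈ S → g * x * g⁻¹ ∈ T) {x : Γ}
    (hx : x ∈ conjSet A T) (hxS : x ∈ S) : x ∈ T := by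
  obtain ⟨g, hg, hgx⟩ := hx
  have h1 := hT _ hgx g⁻¹ (A.inv_mem hg)
  have e : g⁻¹ * (g * x * g⁻¹) * g⁻¹⁻¹ = x := by group
  rw [e] at h1
  exact h1 hxS

end General

section Perm

variable {Ω : Type*} [Fintype Ω] [DecidableEq Ω]

/-- conjugacy in the alternating group, when the centralizer contains an odd permutation -/
theorem exists_alt_conj {σ τ : Perm Ω} (h : σ.cycleType = τ.cycleType)
    (hc : ¬ Subgroup.centralizer {σ} ≤ alternatingGroup Ω) :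
    ∃ g ∈ alternatingGroup Ω, g * σ * g⁻¹ = τ := by
  obtain ⟨w, hw⟩ := isConj_iff.1 ((isConj_iff_cycleType_eq).2 h)
  rcases Int.units_eq_one_or (sign w) with hs | hs
  · exact ⟨w, mem_alternatingGroup.mpr hs, hw⟩
  · rw [SetLike.not_le_iff_exists] at hc
    obtain ⟨k, hk, hkA⟩ := hc
    have hk' : sign k = -1 := by
      rcases Int.units_eq_one_or (sign k) with h1 | h1
      · exact absurd (mem_alternatingGroup.mpr h1) hkA
      · exact h1
    have hkc : k * σ = σ * k := (Subgroup.mem_centralizer_singleton_iff.mp hk)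
    refine ⟨w * k, ?_, ?_⟩
    · rw [mem_alternatingGroup, map_mul, hs, hk']
      simp
    · rw [← hw]
      have : w * k * σ * (w * k)⁻¹ = w * (k * σ * k⁻¹) * w⁻¹ := by group
      rw [this, hkc]
      group

theorem conjSet_of_cycleType {T : Subgroup (Perm Ω)} {x y : Perm Ω}
    (hx : x ∈ conjSet (alternatingGroup Ω) T) (h : x.cycleType = y.cycleType)
    (hc : ¬ Subgroup.centralizer {x} ≤ alternatingGroup Ω) : y ∈ conjSet (alternatingGroup Ω) T := by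
  obtain ⟨g, hg, hgx⟩ := exists_alt_conj h hc
  rw [← hgx]
  exact conjSet_conj hx hg

end Perm

end Cfsg.Agent.Helper86
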