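import Cfsg.Agent.S5160
import Cfsg.Agent.Helper88.SimpleCrit3

set_option autoImplicit false

namespace Cfsg.Agent.Helper86

open Cfsg Cfsg.FusionSystem Cfsg.Agent.Helper85

section Rel

variable {G : Type*} [Group G]

/-- chain extension inside a subgroup `R₀ ≤ S` normalized by `g` -/
theorem aut_extend_rel [Finite G] {p : ℕ} [Fact p.Prime] (S : Sylow p G)
    (E : FusionSystem (S : Subgroup G)) (hEsat : E.IsSaturated p)
    (hEsub : E.IsSubsystemOf (groupFusionSystem (S : Subgroup G)))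
    (R₀ : Subgroup G) (hR₀ : R₀ ≤ (S : Subgroup G)) :
    ∀ (n : ℕ) (R : Subgroup G), (groupFusionSystem (S : Subgroup G)).IsCentric R → R ≤ R₀ →
      Nat.card ↥R₀ ≤ Nat.card R + n →
      ∀ (g : G) (hgR : g ∈ Subgroup.normalizer (R : Set G))
        (hgR₀ : g ∈ Subgroup.normalizer (R₀ : Set G)),
        R.normalizerMonoidHom ⟨g, hgR⟩ ∈ E.autGroup R →
        R₀.normalizerMonoidHom ⟨g, hgR₀⟩ ∈ E.autGroup R₀ := by
  have hS : IsPGroup p ↥(S : Subgroup G) := S.isPGroup'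
  have hF := Helper84.groupFS_saturated S
  have hR₀p : IsPGroup p ↥R₀ := hS.to_le hR₀
  intro n
  induction n with
  | zero =>
    intro R hRc hRR₀ hcard g hgR hgR₀ hγ
    have hRS : R = R₀ := Subgroup.eq_of_le_of_card_ge hRR₀ (by simpa using hcard)
    subst hRS
    exact hγ
  | succ n ih =>
    intro R hRc hRR₀ hcard g hgR hgR₀ hγ
    by_cases hRS : R = R₀
    · subst hRS
      exact hγ
    · have hR : R ≤ (S : Subgroup G) := hRc.1
      have hlt := card_lt_card_normalizerIn hR₀p hRR₀ hRS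
      have hN₁R₀ : normalizerIn R₀ R ≤ R₀ := inf_le_left
      have hN₁S : normalizerIn R₀ R ≤ (S : Subgroup G) := hN₁R₀.trans hR₀
      have hRN₁ : R ≤ normalizerIn R₀ R := le_inf hRR₀ Subgroup.le_normalizer
      have hN₁c : (groupFusionSystem (S : Subgroup G)).IsCentric (normalizerIn R₀ R) :=
        Helper84.centric_of_le _ hRc hRN₁ hN₁S
      have hfinN : Finite ↥(normalizerIn R₀ R) := inferInstance
      have hgN₁ : g ∈ Subgroup.normalizer ((normalizerIn R₀ R : Subgroup G) : Set G) := by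
        apply mem_normalizer_of_conj_mem
        intro x hx
        exact ⟨(Subgroup.mem_normalizer_iff.mp hgR₀ x).mp hx.1,
          Subgroup.mul_mem _ (Subgroup.mul_mem _ hgR hx.2) (Subgroup.inv_mem _ hgR)⟩
      refine ih _ hN₁c hN₁R₀ (by omega) g hgN₁ hgR₀ ?_
      have hγI : IsIso E (R.normalizerMonoidHom ⟨g, hgR⟩) := (mem_autGroup_iff E hR).1 hγ
      have hrange : (R.subtype.comp (R.normalizerMonoidHom ⟨g, hgR⟩).toMonoidHom).range = R := by
        ext y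
        constructor
        · rintro ⟨x, rfl⟩
          exact Subtype.coe_prop _
        · intro hy
          refine ⟨(R.normalizerMonoidHom ⟨g, hgR⟩).symm ⟨y, hy⟩, ?_⟩
          show (((R.normalizerMonoidHom ⟨g, hgR⟩) ((R.normalizerMonoidHom ⟨g, hgR⟩).symm ⟨y, hy⟩) : R) : G) = y
          rw [MulEquiv.apply_symm_apply]
      have hRcE : E.IsCentric R := isCentric_of_subsystem hEsub hR le_rfl hRc
      have hrecE : E.IsReceptive R := isReceptive_of_isCentric hS E hEsat hRcE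
      obtain ⟨ψ, hψ, hψv⟩ := hrecE.2 R _ hγI hrange
      have hle : normalizerIn R₀ R
          ≤ extender (S : Subgroup G) R (R.subtype.comp (R.normalizerMonoidHom ⟨g, hgR⟩).toMonoidHom) := by
        intro x hx
        refine mem_extender_of (hR₀ hx.1) hx.2 (g * x * g⁻¹)
          (hR₀ ((Subgroup.mem_normalizer_iff.mp hgR₀ x).mp hx.1)) (fun r hr => ?_)
        show g * (x * r * x⁻¹) * g⁻¹ = (g * x * g⁻¹) * (g * r * g⁻¹) * (g * x * g⁻¹)⁻¹
        group
      have hγ' : ψ.comp (Subgroup.inclusion hle) ∈ E.Hom (normalizerIn R₀ R) :=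
        restrict_mem E hψ hle
      have hφ' : conjHom (normalizerIn R₀ R) g
          ∈ (groupFusionSystem (S : Subgroup G)).Hom (normalizerIn R₀ R) :=
        ⟨hN₁S, fun x => hR₀ ((Subgroup.mem_normalizer_iff.mp hgR₀ x).mp x.2.1), g, fun x => rfl⟩
      have hagree : ∀ x : ↥(normalizerIn R₀ R), (x : G) ∈ R →
          (ψ.comp (Subgroup.inclusion hle)) x = conjHom (normalizerIn R₀ R) g x := by
        intro x hx
        exact hψv x hx (hle x.2)
      obtain ⟨z, hzR, hzC, hz⟩ := Cfsg.Agent.S5095.result p hS _ hF _ R hRN₁ hRc _ _ (hEsub _ hγ') hφ' hagree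
      have hzmem : ∀ x : ↥(normalizerIn R₀ R),
          conjHom (normalizerIn R₀ R) (z : G) x ∈ normalizerIn R₀ R :=
        fun x => (z * x * z⁻¹).2
      have hcomp := E.comp_mem (E.conj_mem hN₁S (hN₁S z.2)) hγ' hzmem
      have e' : (normalizerIn R₀ R).subtype.comp
            ((normalizerIn R₀ R).normalizerMonoidHom ⟨g, hgN₁⟩).toMonoidHom
          = (ψ.comp (Subgroup.inclusion hle)).comp
            ((conjHom (normalizerIn R₀ R) (z : G)).codRestrict _ hzmem) := by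
        ext y
        exact hz y
      rw [mem_autGroup_iff E hN₁S]
      show (normalizerIn R₀ R).subtype.comp
            ((normalizerIn R₀ R).normalizerMonoidHom ⟨g, hgN₁⟩).toMonoidHom ∈ E.Hom _
      rw [e']
      exact hcomp

/-- a subgroup of `S` containing its centralizer in `G` is centric -/
theorem isCentric_of_cent_le (S : Subgroup G) {Q : Subgroup G} (hQ : Q ≤ S)
    (hc : ∀ c : G, (∀ x ∈ Q, c * x = x * c) → c ∈ Q) : (groupFusionSystem S).IsCentric Q := by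
  refine ⟨hQ, fun Q' hQ' => ?_⟩
  obtain ⟨φ, ⟨-, -, g, hg⟩, rfl⟩ := hQ'
  intro c hc'
  have h1 : g⁻¹ * c * g ∈ Q := by
    apply hc
    intro x hx
    have h2 : g * x * g⁻¹ ∈ φ.range := ⟨⟨x, hx⟩, hg ⟨x, hx⟩⟩
    have h3 := (Subgroup.mem_centralizer_iff.mp hc'.2) _ h2
    calc g⁻¹ * c * g * x = g⁻¹ * (c * (g * x * g⁻¹)) * g := by group
      _ = g⁻¹ * ((g * x * g⁻¹) * c) * g := by rw [h3]
      _ = x * (g⁻¹ * c * g) := by group
  refine ⟨⟨g⁻¹ * c * g, h1⟩, ?_⟩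
  rw [hg]
  show g * (g⁻¹ * c * g) * g⁻¹ = c
  group

/-- conjugation by a `p`-element normalizing `Q ≤ S` is an automorphism of every invariant subsystem over `S` -/
theorem pelt_aut_mem [Finite G] {p : ℕ} [Fact p.Prime] (S : Sylow p G)
    (E : FusionSystem (S : Subgroup G)) (hinv : E.IsInvariantIn (groupFusionSystem (S : Subgroup G)))
    {Q : Subgroup G} (hQ : Q ≤ (S : Subgroup G)) {x : G} {k : ℕ} (hx : x ^ p ^ k = 1)
    (hxQ : x ∈ Subgroup.normalizer (Q : Set G)) :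
    Q.normalizerMonoidHom ⟨x, hxQ⟩ ∈ E.autGroup Q := by
  have hS : IsPGroup p ↥(S : Subgroup G) := S.isPGroup'
  have hF := Helper84.groupFS_saturated S
  have hQp : IsPGroup p ↥Q := hS.to_le hQ
  have hzp : IsPGroup p ↥(Subgroup.zpowers x) := by
    rintro ⟨y, hy⟩
    obtain ⟨n, rfl⟩ := Subgroup.mem_zpowers_iff.mp hy
    refine ⟨k, Subtype.ext ?_⟩
    show (x ^ n) ^ p ^ k = 1
    rw [← zpow_natCast, ← zpow_mul, mul_comm, zpow_mul, zpow_natCast, hx, one_zpow]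
  have hK : IsPGroup p ↥(Q ⊔ Subgroup.zpowers x) :=
    IsPGroup.to_sup_of_normal_left' hQp hzp (by rw [Subgroup.zpowers_le]; exact hxQ)
  obtain ⟨g, hg⟩ := sylow_conj S hK
  -- the conjugate subgroup
  obtain ⟨Q', hQ'⟩ : ∃ Q' : Subgroup G, Q' = Q.map (MulAut.conj g).toMonoidHom := ⟨_, rfl⟩
  have hmemQ' : ∀ y, y ∈ Q' ↔ g⁻¹ * y * g ∈ Q := by
    intro y
    rw [hQ']
    constructor
    · rintro ⟨q, hq, rfl⟩
      have : g⁻¹ * (g * q * g⁻¹) * g = q := by group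
      show g⁻¹ * (g * q * g⁻¹) * g ∈ Q
      rw [this]; exact hq
    · intro h
      refine ⟨g⁻¹ * y * g, h, ?_⟩
      show g * (g⁻¹ * y * g) * g⁻¹ = y
      group
  have hQ'S : Q' ≤ (S : Subgroup G) := by
    intro y hy
    have h1 := hg _ (Subgroup.mem_sup_left ((hmemQ' y).1 hy) : g⁻¹ * y * g ∈ Q ⊔ Subgroup.zpowers x)
    have : g * (g⁻¹ * y * g) * g⁻¹ = y := by group
    rwa [this] at h1
  have hx'S : g * x * g⁻¹ ∈ (S : Subgroup G) :=
    hg _ (Subgroup.mem_sup_right (Subgroup.mem_zpowers x))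
  have hx'Q' : ∀ y ∈ Q', (g * x * g⁻¹) * y * (g * x * g⁻¹)⁻¹ ∈ Q' := by
    intro y hy
    rw [hmemQ']
    have h1 := (Subgroup.mem_normalizer_iff.mp hxQ _).mp ((hmemQ' y).1 hy)
    have : g⁻¹ * ((g * x * g⁻¹) * y * (g * x * g⁻¹)⁻¹) * g = x * (g⁻¹ * y * g) * x⁻¹ := by group
    rw [this]; exact h1
  have hstrong := (Cfsg.Agent.S5119.result p hS _ hF E hinv.1 hinv.2.1).1 hinv
  have hφ : conjHom Q' (g * x * g⁻¹) ∈ E.Hom Q' := E.conj_mem hQ'S hx'S
  have hφQ : ∀ y : Q', conjHom Q' (g * x * g⁻¹) y ∈ Q' := fun y => hx'Q' y y.2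
  have hψ : conjHom Q' g⁻¹ ∈ (groupFusionSystem (S : Subgroup G)).Hom Q' := by
    refine ⟨hQ'S, fun y => ?_, g⁻¹, fun y => rfl⟩
    have h1 := (hmemQ' y).1 y.2
    show g⁻¹ * y * g⁻¹⁻¹ ∈ (S : Subgroup G)
    rw [inv_inv]
    exact hQ h1
  obtain ⟨χ, hχ, hχv⟩ := hstrong Q' Q' le_rfl hQ'S _ hφ hφQ _ hψ
  have hmap : (Q'.subgroupOf Q').map (conjHom Q' g⁻¹) = Q := by
    ext y
    constructor
    · rintro ⟨q, -, rfl⟩
      have h1 := (hmemQ' q).1 q.2
      show g⁻¹ * q * g⁻¹⁻¹ ∈ Q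
      rw [inv_inv]
      exact h1
    · intro hy
      have hy' : g * y * g⁻¹ ∈ Q' := by
        rw [hmemQ']
        have : g⁻¹ * (g * y * g⁻¹) * g = y := by group
        rw [this]; exact hy
      refine ⟨⟨g * y * g⁻¹, hy'⟩, Subgroup.mem_subgroupOf.mpr hy', ?_⟩
      show g⁻¹ * (g * y * g⁻¹) * g⁻¹⁻¹ = y
      group
  obtain ⟨f, hM, hfχ⟩ : ∃ f : G → G, Helper88.IsMap E ((Q'.subgroupOf Q').map (conjHom Q' g⁻¹)) f ∧
      ∀ (y : G) (hy : y ∈ (Q'.subgroupOf Q').map (conjHom Q' g⁻¹)), f y = χ ⟨y, hy⟩ :=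
    ⟨Helper88.extHom χ, Helper88.isMap_extHom hχ, fun y hy => Helper88.extHom_apply' χ hy⟩
  have hM' : Helper88.IsMap E Q (fun y => x * y * x⁻¹) := by
    have hM2 : Helper88.IsMap E Q f := by
      rw [hmap] at hM
      exact hM
    refine hM2.congr (fun y hy => ?_)
    have hy' : g * y * g⁻¹ ∈ Q' := by
      rw [hmemQ']
      have : g⁻¹ * (g * y * g⁻¹) * g = y := by group
      rw [this]; exact hy
    have hyM : y ∈ (Q'.subgroupOf Q').map (conjHom Q' g⁻¹) := by rw [hmap]; exact hy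
    rw [hfχ y hyM]
    have hmem : conjHom Q' g⁻¹ (Subgroup.inclusion (le_refl Q') ⟨g * y * g⁻¹, hy'⟩)
        ∈ (Q'.subgroupOf Q').map (conjHom Q' g⁻¹) :=
      ⟨⟨g * y * g⁻¹, hy'⟩, Subgroup.mem_subgroupOf.mpr hy', rfl⟩
    have h2 := hχv ⟨g * y * g⁻¹, hy'⟩ hmem
    have h3 : (⟨y, hyM⟩ : ↥((Q'.subgroupOf Q').map (conjHom Q' g⁻¹)))
        = ⟨conjHom Q' g⁻¹ (Subgroup.inclusion (le_refl Q') ⟨g * y * g⁻¹, hy'⟩), hmem⟩ := by
      apply Subtype.ext
      show y = g⁻¹ * (g * y * g⁻¹) * g⁻¹⁻¹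
      group
    rw [h3, h2]
    show x * y * x⁻¹ = g⁻¹ * ((g * x * g⁻¹) * (g * y * g⁻¹) * (g * x * g⁻¹)⁻¹) * g⁻¹⁻¹
    group
  rw [mem_autGroup_iff E hQ]
  exact hM'.hom_mem (fun y => rfl)

end Rel

end Cfsg.Agent.Helper86
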