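import Cfsg.Agent.Helper86.AltCrit

set_option autoImplicit false

namespace Cfsg.Agent.Helper86

open Cfsg Cfsg.FusionSystem Cfsg.Agent.Helper85

/-- the generating elements allowed in `AltHyp` -/
def AltGen {Γ : Type*} [Group Γ] (p : ℕ) (A S P : Subgroup Γ) : Set Γ :=
  {d | d ∈ A ∧ (∀ y ∈ P, d * y * d⁻¹ ∈ P) ∧ ∃ Q R : Subgroup Γ, Q ≤ R ∧ P ≤ R ∧ R ≤ S ∧
      (∀ c ∈ A, (∀ x ∈ Q, c * x = x * c) → c ∈ Q) ∧ (∀ y ∈ Q, d * y * d⁻¹ ∈ Q) ∧
      (∀ y ∈ R, d * y * d⁻¹ ∈ R) ∧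
      d ∈ Subgroup.closure {x | x ∈ A ∧ (∃ k : ℕ, x ^ p ^ k = 1) ∧ ∀ y ∈ Q, x * y * x⁻¹ ∈ Q}}

/-- group-theoretic hypotheses (relative to a subgroup `A` of an ambient group) for simplicity of
the fusion system of `A` on its Sylow subgroup `S` -/
def AltHyp {Γ : Type*} [Group Γ] (p : ℕ) (A S : Subgroup Γ) : Prop :=
  S ≠ ⊥ ∧
  (∀ T : Subgroup Γ, T ≤ S → (∀ x ∈ T, ∀ g ∈ A, g * x * g⁻¹ ∈ S → g * x * g⁻¹ ∈ T) → T = ⊥ ∨ T = S) ∧
  ∃ P : Subgroup Γ, P ≤ S ∧ (∀ c ∈ A, (∀ x ∈ P, c * x = x * c) → c ∈ P) ∧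
    ∀ g ∈ A, (∀ y ∈ S, g * y * g⁻¹ ∈ S) → g ∈ Subgroup.closure (AltGen p A S P)

section Crit

variable {G : Type*} [Group G]

/-- the elements normalizing `P` whose conjugation on `P` is an automorphism in `E` -/
theorem altGen_le [Finite G] {p : ℕ} [Fact p.Prime] (S : Sylow p G)
    (E : FusionSystem (S : Subgroup G)) (hEsat : E.IsSaturated p)
    (hinv : E.IsInvariantIn (groupFusionSystem (S : Subgroup G)))
    {P : Subgroup G} (hP : P ≤ (S : Subgroup G)) :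
    Subgroup.closure (AltGen p ⊤ (S : Subgroup G) P) ≤
      ((E.autGroup P).comap P.normalizerMonoidHom).map (Subgroup.normalizer (P : Set G)).subtype := by
  have hS : IsPGroup p ↥(S : Subgroup G) := S.isPGroup'
  have hEsub := hinv.1
  rw [Subgroup.closure_le]
  rintro d ⟨-, hdP, Q, R, hQR, hPR, hRS, hQc, hdQ, hdR, hdcl⟩
  have hQS : Q ≤ (S : Subgroup G) := hQR.trans hRS
  have hQfin : Finite ↥Q := inferInstance
  have hRfin : Finite ↥R := inferInstance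
  have hPfin : Finite ↥P := inferInstance
  have hdPn : d ∈ Subgroup.normalizer (P : Set G) := mem_normalizer_of_conj_mem hdP
  have hdRn : d ∈ Subgroup.normalizer (R : Set G) := mem_normalizer_of_conj_mem hdR
  -- closure of the p-elements normalizing Q acts on Q inside E
  have hsub : Subgroup.closure {x : G | x ∈ (⊤ : Subgroup G) ∧ (∃ k : ℕ, x ^ p ^ k = 1) ∧
        ∀ y ∈ Q, x * y * x⁻¹ ∈ Q} ≤
      ((E.autGroup Q).comap Q.normalizerMonoidHom).map (Subgroup.normalizer (Q : Set G)).subtype := by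
    rw [Subgroup.closure_le]
    rintro x ⟨-, ⟨k, hk⟩, hxQ⟩
    have hxQn : x ∈ Subgroup.normalizer (Q : Set G) := mem_normalizer_of_conj_mem hxQ
    exact ⟨⟨x, hxQn⟩, pelt_aut_mem S E hinv hQS hk hxQn, rfl⟩
  obtain ⟨⟨d', hd'n⟩, hd'E, hd'⟩ := hsub hdcl
  have hdd : d' = d := hd'
  subst hdd
  have hd'E' : Q.normalizerMonoidHom ⟨d', hd'n⟩ ∈ E.autGroup Q := hd'E
  have hQcent : (groupFusionSystem (S : Subgroup G)).IsCentric Q :=
    isCentric_of_cent_le _ hQS (fun c hc => hQc c (Subgroup.mem_top c) hc)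
  have hRE := aut_extend_rel S E hEsat hEsub R hRS (Nat.card ↥R) Q hQcent hQR (Nat.le_add_left _ _)
    d' hd'n hdRn hd'E'
  refine ⟨⟨d', hdPn⟩, ?_, rfl⟩
  show P.normalizerMonoidHom ⟨d', hdPn⟩ ∈ E.autGroup P
  rw [mem_autGroup_iff E hP]
  have hRI : IsIso E (R.normalizerMonoidHom ⟨d', hdRn⟩) := (mem_autGroup_iff E hRS).1 hRE
  have h1 : (R.subtype.comp (R.normalizerMonoidHom ⟨d', hdRn⟩).toMonoidHom).comp (Subgroup.inclusion hPR)
      ∈ E.Hom P := restrict_mem E hRI hPR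
  have e' : P.subtype.comp (P.normalizerMonoidHom ⟨d', hdPn⟩).toMonoidHom
      = (R.subtype.comp (R.normalizerMonoidHom ⟨d', hdRn⟩).toMonoidHom).comp (Subgroup.inclusion hPR) := by
    ext y
    rfl
  show P.subtype.comp (P.normalizerMonoidHom ⟨d', hdPn⟩).toMonoidHom ∈ E.Hom P
  rw [e']
  exact h1

/-- simplicity criterion, internal form -/
theorem isSimple_of_altHyp_top [Finite G] {p : ℕ} [Fact p.Prime] (S : Sylow p G)
    (h : AltHyp p ⊤ (S : Subgroup G)) : (groupFusionSystem (S : Subgroup G)).IsSimple p := by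
  obtain ⟨hne, hsc, P, hPS, hPc, hgen⟩ := h
  have hS : IsPGroup p ↥(S : Subgroup G) := S.isPGroup'
  have hF := Helper84.groupFS_saturated S
  refine ⟨hF, hne, fun T E hE => ?_⟩
  obtain ⟨⟨hEsat, -, hinv⟩, -⟩ := hE
  have hTsc := hinv.2.1
  have hT : T = ⊥ ∨ T = (S : Subgroup G) := by
    apply hsc T hTsc.1
    intro x hx g _ hg
    have hR : Subgroup.zpowers x ≤ T := by
      rw [Subgroup.zpowers_le]
      exact hx
    have hφ : conjHom (Subgroup.zpowers x) g ∈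
        (groupFusionSystem (S : Subgroup G)).Hom (Subgroup.zpowers x) := by
      refine ⟨hR.trans hTsc.1, ?_, g, fun y => rfl⟩
      rintro ⟨y, hy⟩
      obtain ⟨n, rfl⟩ := Subgroup.mem_zpowers_iff.mp hy
      show g * x ^ n * g⁻¹ ∈ (S : Subgroup G)
      rw [← conj_zpow]
      exact Subgroup.zpow_mem _ hg n
    exact hTsc.2 _ hR _ hφ ⟨x, Subgroup.mem_zpowers _⟩
  rcases hT with hT | hT
  · exact Or.inl hT
  · right
    subst hT
    have hEsub := hinv.1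
    have hfrat := hinv.2.2.2
    refine ⟨rfl, fun P' => ?_⟩
    have hPcent : (groupFusionSystem (S : Subgroup G)).IsCentric P :=
      isCentric_of_cent_le _ hPS (fun c hc => hPc c (Subgroup.mem_top c) hc)
    have hkey : (groupFusionSystem (S : Subgroup G)).autGroup (S : Subgroup G) ≤ E.autGroup (S : Subgroup G) := by
      intro α hα
      obtain ⟨-, -, g, hg⟩ := (mem_autGroup_iff _ le_rfl).1 hα
      have hg' : ∀ x : ↥(S : Subgroup G), ((α x : ↥(S : Subgroup G)) : G) = g * (x : G) * g⁻¹ := hg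
      have hgS' : ∀ y ∈ (S : Subgroup G), g * y * g⁻¹ ∈ (S : Subgroup G) := by
        intro y hy
        rw [← hg' ⟨y, hy⟩]
        exact (α _).2
      have hgS : g ∈ Subgroup.normalizer (((S : Subgroup G)) : Set G) := mem_normalizer_of_conj_mem hgS'
      obtain ⟨⟨g', hg'n⟩, hg'E, hgg⟩ := altGen_le S E hEsat hinv hPS (hgen g (Subgroup.mem_top g) hgS')
      have hgg' : g' = g := hgg
      subst hgg'
      have hγ : P.normalizerMonoidHom ⟨g', hg'n⟩ ∈ E.autGroup P := hg'E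
      have h1 := Cfsg.Agent.S5160.aut_extend S E hEsat hEsub (Nat.card ↥(S : Subgroup G)) P hPcent
        (Nat.le_add_left _ _) g' hg'n hgS hγ
      have h2 : α = (S : Subgroup G).normalizerMonoidHom ⟨g', hgS⟩ := by
        apply MulEquiv.ext
        intro x
        apply Subtype.ext
        exact hg' x
      rw [h2]
      exact h1
    apply Set.Subset.antisymm (hEsub P')
    intro φ hφ
    have hP : P' ≤ (S : Subgroup G) := hφ.1
    obtain ⟨α, hα, φ₀, hφ₀, hv⟩ := hfrat P' hP φ hφ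
    have hαE : α ∈ E.autGroup (S : Subgroup G) := hkey hα
    have hαI : IsIso E α := (mem_autGroup_iff E le_rfl).1 hαE
    have hφ₀S : ∀ x : P', φ₀ x ∈ (S : Subgroup G) := (E.le_of_mem hφ₀).2
    have hcomp := E.comp_mem hφ₀ hαI hφ₀S
    have e' : φ = ((S : Subgroup G).subtype.comp α.toMonoidHom).comp (φ₀.codRestrict _ hφ₀S) := by
      ext x
      exact hv x (hφ₀S x)
    rw [e']
    exact hcomp

end Crit

section Comap

variable {G Γ : Type*} [Group G] [Group Γ]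

/-- pull back `AltHyp` along an injective homomorphism -/
theorem AltHyp.comap {p : ℕ} (ι : G →* Γ) (hι : Function.Injective ι) {S : Subgroup G}
    (h : AltHyp p ι.range (S.map ι)) : AltHyp p ⊤ S := by
  obtain ⟨hne, hsc, P, hPS, hPc, hgen⟩ := h
  have hmemS : ∀ x : G, ι x ∈ S.map ι ↔ x ∈ S := fun x => Subgroup.mem_map_iff_mem hι
  have hconj : ∀ g x : G, ι (g * x * g⁻¹) = ι g * ι x * (ι g)⁻¹ := fun g x => by
    rw [map_mul, map_mul, map_inv]
  -- pulling back a subgroup of `S.map ι` with the centralizer condition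
  have hcent : ∀ Q : Subgroup Γ, Q ≤ S.map ι →
      (∀ c ∈ ι.range, (∀ x ∈ Q, c * x = x * c) → c ∈ Q) →
      ∀ c ∈ (⊤ : Subgroup G), (∀ x ∈ Q.comap ι, c * x = x * c) → c ∈ Q.comap ι := by
    intro Q hQS hQc c _ hc
    show ι c ∈ Q
    apply hQc _ ⟨c, rfl⟩
    intro y hy
    obtain ⟨x, -, rfl⟩ := hQS hy
    rw [← map_mul, ← map_mul, hc x hy]
  have hle : ∀ Q : Subgroup Γ, Q ≤ S.map ι → Q.comap ι ≤ S := fun Q hQ x hx => (hmemS x).1 (hQ hx)
  refine ⟨?_, ?_, P.comap ι, hle P hPS, hcent P hPS hPc, ?_⟩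
  · intro hS
    apply hne
    rw [hS, Subgroup.map_bot]
  · intro T hTS hT
    have h1 := hsc (T.map ι) (Subgroup.map_mono hTS) (by
      rintro _ ⟨x, hx, rfl⟩ _ ⟨g, rfl⟩ hgx
      rw [← hconj] at hgx ⊢
      exact ⟨_, hT x hx g (Subgroup.mem_top g) ((hmemS _).1 hgx), rfl⟩)
    rcases h1 with h1 | h1
    · left
      exact (Subgroup.map_eq_bot_iff_of_injective T hι).1 h1
    · right
      exact Subgroup.map_injective hι h1
  · intro g _ hg
    have h1 := hgen (ι g) ⟨g, rfl⟩ (by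
      rintro _ ⟨y, hy, rfl⟩
      rw [← hconj]
      exact ⟨_, hg y hy, rfl⟩)
    have hsub : Subgroup.closure (AltGen p ι.range (S.map ι) P)
        ≤ (Subgroup.closure (AltGen p ⊤ S (P.comap ι))).map ι := by
      rw [Subgroup.closure_le]
      rintro d ⟨⟨d₀, rfl⟩, hdP, Q, R, hQR, hPR, hRS, hQc, hdQ, hdR, hdcl⟩
      refine ⟨d₀, Subgroup.subset_closure ?_, rfl⟩
      have hnorm : ∀ (e₀ : G) (Q' : Subgroup Γ), (∀ y ∈ Q', ι e₀ * y * (ι e₀)⁻¹ ∈ Q') →
          ∀ y ∈ Q'.comap ι, e₀ * y * e₀⁻¹ ∈ Q'.comap ι := by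
        intro e₀ Q' hQ' y hy
        show ι (e₀ * y * e₀⁻¹) ∈ Q'
        rw [hconj]
        exact hQ' _ hy
      refine ⟨Subgroup.mem_top _, hnorm d₀ P hdP, Q.comap ι, R.comap ι, Subgroup.comap_mono hQR,
        Subgroup.comap_mono hPR, hle R hRS, hcent Q (hQR.trans hRS) hQc, hnorm d₀ Q hdQ, hnorm d₀ R hdR, ?_⟩
      have hsub2 : Subgroup.closure {x | x ∈ ι.range ∧ (∃ k : ℕ, x ^ p ^ k = 1) ∧ ∀ y ∈ Q, x * y * x⁻¹ ∈ Q}
          ≤ (Subgroup.closure {x : G | x ∈ (⊤ : Subgroup G) ∧ (∃ k : ℕ, x ^ p ^ k = 1) ∧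
              ∀ y ∈ Q.comap ι, x * y * x⁻¹ ∈ Q.comap ι}).map ι := by
        rw [Subgroup.closure_le]
        rintro x ⟨⟨x₀, rfl⟩, ⟨k, hk⟩, hxQ⟩
        refine ⟨x₀, Subgroup.subset_closure ⟨Subgroup.mem_top _, ⟨k, ?_⟩, hnorm x₀ Q hxQ⟩, rfl⟩
        apply hι
        rw [map_pow, hk, map_one]
      obtain ⟨d₁, hd₁, hd₁e⟩ := hsub2 hdcl
      rw [← hι hd₁e]
      exact hd₁
    obtain ⟨g₁, hg₁, hg₁e⟩ := hsub h1
    rw [← hι hg₁e]
    exact hg₁

/-- simplicity criterion, relative form -/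
theorem isSimple_of_altHyp [Finite G] {p : ℕ} [Fact p.Prime] (ι : G →* Γ) (hι : Function.Injective ι)
    (S : Sylow p G) (h : AltHyp p ι.range ((S : Subgroup G).map ι)) :
    (groupFusionSystem (S : Subgroup G)).IsSimple p :=
  isSimple_of_altHyp_top S (AltHyp.comap ι hι h)

end Comap

end Cfsg.Agent.Helper86
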