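import Mathlib

set_option autoImplicit false

namespace Cfsg.Agent.Helper86

open Equiv Equiv.Perm

theorem pinv_apply_self {α : Type*} (g : Perm α) (q : α) : g⁻¹ (g q) = q := by
  simp only [Perm.coe_inv, Equiv.symm_apply_apply]

theorem papply_inv_self {α : Type*} (g : Perm α) (q : α) : g (g⁻¹ q) = q := by
  simp only [Perm.coe_inv, Equiv.apply_symm_apply]

section Mono

variable {ι : Type*} [Fintype ι] [DecidableEq ι] (R : Type*) [Fintype R] [DecidableEq R]
  {p : ℕ} [Fact p.Prime]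

/-- affine permutations of `ZMod p` -/
def affP (u : (ZMod p)ˣ) (c : ZMod p) : Perm (ZMod p) where
  toFun x := (u : ZMod p) * x + c
  invFun y := ((u⁻¹ : (ZMod p)ˣ) : ZMod p) * (y - c)
  left_inv x := by
    show ((u⁻¹ : (ZMod p)ˣ) : ZMod p) * ((u : ZMod p) * x + c - c) = x
    rw [add_sub_cancel_right, ← mul_assoc, Units.inv_mul, one_mul]
  right_inv y := by
    show (u : ZMod p) * (((u⁻¹ : (ZMod p)ˣ) : ZMod p) * (y - c)) + c = y
    rw [← mul_assoc, Units.mul_inv, one_mul, sub_add_cancel]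

theorem affP_apply (u : (ZMod p)ˣ) (c x : ZMod p) : affP u c x = (u : ZMod p) * x + c := rfl

/-- multiplication by units as a homomorphism into the permutations -/
def mulP : (ZMod p)ˣ →* Perm (ZMod p) where
  toFun u := affP u 0
  map_one' := by
    ext x
    show ((1 : (ZMod p)ˣ) : ZMod p) * x + 0 = x
    rw [Units.val_one, one_mul, add_zero]
  map_mul' u v := by
    ext x
    show ((u * v : (ZMod p)ˣ) : ZMod p) * x + 0 = (u : ZMod p) * ((v : ZMod p) * x + 0) + 0
    rw [Units.val_mul]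
    ring

theorem affP_eq (u : (ZMod p)ˣ) (c : ZMod p) : affP u c = Equiv.addRight c * mulP u := by
  ext x
  show (u : ZMod p) * x + c = (u : ZMod p) * x + 0 + c
  rw [add_zero]

/-- the monomial permutation on the blocks -/
def monoB (π : Perm ι) (t : ι → (ZMod p)ˣ) (b : ι → ZMod p) : Perm (ι × ZMod p) where
  toFun q := (π q.1, (t q.1 : ZMod p) * q.2 + b q.1)
  invFun q := (π.symm q.1, (((t (π.symm q.1))⁻¹ : (ZMod p)ˣ) : ZMod p) * (q.2 - b (π.symm q.1)))
  left_inv q := by
    obtain ⟨j, x⟩ := q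
    show (π.symm (π j), (((t (π.symm (π j)))⁻¹ : (ZMod p)ˣ) : ZMod p) *
      ((t j : ZMod p) * x + b j - b (π.symm (π j)))) = (j, x)
    rw [Equiv.symm_apply_apply, add_sub_cancel_right, ← mul_assoc, Units.inv_mul, one_mul]
  right_inv q := by
    obtain ⟨k, y⟩ := q
    show (π (π.symm k), (t (π.symm k) : ZMod p) *
      ((((t (π.symm k))⁻¹ : (ZMod p)ˣ) : ZMod p) * (y - b (π.symm k))) + b (π.symm k)) = (k, y)
    rw [Equiv.apply_symm_apply, ← mul_assoc, Units.mul_inv, one_mul, sub_add_cancel]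

/-- the monomial permutation: `(j, x) ↦ (π j, t j * x + b j)`, identity on `R` -/
def mono (π : Perm ι) (t : ι → (ZMod p)ˣ) (b : ι → ZMod p) : Perm ((ι × ZMod p) ⊕ R) :=
  Equiv.sumCongr (monoB π t b) (Equiv.refl R)

@[simp]
theorem mono_inl (π : Perm ι) (t : ι → (ZMod p)ˣ) (b : ι → ZMod p) (j : ι) (x : ZMod p) :
    mono R π t b (Sum.inl (j, x)) = Sum.inl (π j, (t j : ZMod p) * x + b j) := rfl

@[simp]
theorem mono_inr (π : Perm ι) (t : ι → (ZMod p)ˣ) (b : ι → ZMod p) (r : R) :
    mono R π t b (Sum.inr r) = Sum.inr r := rfl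

theorem mono_ext {π π' : Perm ι} {t t' : ι → (ZMod p)ˣ} {b b' : ι → ZMod p}
    (hπ : π = π') (ht : ∀ j, t j = t' j) (hb : ∀ j, b j = b' j) :
    mono R π t b = mono R π' t' b' := by
  rw [hπ, funext ht, funext hb]

theorem mono_mul (π π' : Perm ι) (t t' : ι → (ZMod p)ˣ) (b b' : ι → ZMod p) :
    mono R π t b * mono R π' t' b' =
      mono R (π * π') (fun j => t (π' j) * t' j) (fun j => (t (π' j) : ZMod p) * b' j + b (π' j)) := by
  ext (⟨j, x⟩ | r)
  · rw [Perm.mul_apply, mono_inl, mono_inl, mono_inl]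
    refine congrArg Sum.inl (Prod.ext rfl ?_)
    show (t (π' j) : ZMod p) * ((t' j : ZMod p) * x + b' j) + b (π' j)
      = ((t (π' j) * t' j : (ZMod p)ˣ) : ZMod p) * x + ((t (π' j) : ZMod p) * b' j + b (π' j))
    rw [Units.val_mul]
    ring
  · rfl

theorem mono_one : mono R (1 : Perm ι) (1 : ι → (ZMod p)ˣ) (0 : ι → ZMod p) = 1 := by
  ext (⟨j, x⟩ | r)
  · rw [mono_inl]
    simp only [Perm.one_apply, Pi.one_apply, Units.val_one, one_mul, Pi.zero_apply, add_zero]
  · rfl

theorem mono_inv (π : Perm ι) (t : ι → (ZMod p)ˣ) (b : ι → ZMod p) :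
    (mono R π t b)⁻¹ = mono R π⁻¹ (fun k => (t (π⁻¹ k))⁻¹)
      (fun k => -((((t (π⁻¹ k))⁻¹ : (ZMod p)ˣ) : ZMod p) * b (π⁻¹ k))) := by
  apply inv_eq_of_mul_eq_one_left
  rw [mono_mul]
  rw [← mono_one R]
  refine mono_ext R (inv_mul_cancel π) (fun j => ?_) (fun j => ?_)
  · show (t (π⁻¹ (π j)))⁻¹ * t j = 1
    rw [pinv_apply_self, inv_mul_cancel]
  · show (((t (π⁻¹ (π j)))⁻¹ : (ZMod p)ˣ) : ZMod p) * b j +
      -((((t (π⁻¹ (π j)))⁻¹ : (ZMod p)ˣ) : ZMod p) * b (π⁻¹ (π j))) = 0
    rw [pinv_apply_self, add_neg_cancel]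

theorem mono_injective {π π' : Perm ι} {t t' : ι → (ZMod p)ˣ} {b b' : ι → ZMod p}
    (h : mono R π t b = mono R π' t' b') : π = π' ∧ t = t' ∧ b = b' := by
  have h0 : ∀ j, π j = π' j ∧ b j = b' j := by
    intro j
    have := congrArg (fun f => f (Sum.inl (j, (0 : ZMod p)))) h
    simp only [mono_inl, mul_zero, zero_add] at this
    have h2 := Sum.inl.inj this
    exact ⟨congrArg Prod.fst h2, congrArg Prod.snd h2⟩
  have h1 : ∀ j, t j = t' j := by
    intro j
    have := congrArg (fun f => f (Sum.inl (j, (1 : ZMod p)))) h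
    simp only [mono_inl, mul_one] at this
    have h2 := congrArg Prod.snd (Sum.inl.inj this)
    simp only [(h0 j).2] at h2
    exact Units.ext (add_right_cancel h2)
  exact ⟨Equiv.ext fun j => (h0 j).1, funext h1, funext fun j => (h0 j).2⟩

/-- the sign of a monomial permutation -/
theorem sign_mono (π : Perm ι) (t : ι → (ZMod p)ˣ) (b : ι → ZMod p) :
    sign (mono R π t b) = sign π ^ p * ∏ j, sign (affP (t j) (b j)) := by
  have hB : monoB π t b = (Equiv.prodCongrLeft (fun _ : ZMod p => π) : Perm (ι × ZMod p)) *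
      (Equiv.prodCongrRight (fun j => affP (t j) (b j)) : Perm (ι × ZMod p)) := by
    ext ⟨j, x⟩
    · rfl
    · rfl
  unfold mono
  rw [sign_sumCongr, sign_refl, mul_one, hB, map_mul, sign_prodCongrLeft, sign_prodCongrRight,
    Finset.prod_const, Finset.card_univ, ZMod.card]

theorem sign_addRight_odd (hp2 : p ≠ 2) (c : ZMod p) : sign (Equiv.addRight c) = 1 := by
  have hp : p.Prime := Fact.out
  have h1 : (Equiv.addRight c) ^ p = 1 := by
    rw [Equiv.nsmul_addRight]
    have : p • c = 0 := by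
      rw [nsmul_eq_mul, ZMod.natCast_self, zero_mul]
    rw [this, Equiv.addRight_zero]
  have h2 : sign (Equiv.addRight c) ^ p = 1 := by
    rw [← map_pow, h1, map_one]
  rcases Int.units_eq_one_or (sign (Equiv.addRight c)) with h | h
  · exact h
  · rw [h] at h2
    have hodd : Odd p := hp.odd_of_ne_two hp2
    rw [hodd.neg_one_pow] at h2
    exact absurd h2 (by decide)

/-- for odd `p`, the sign of a monomial permutation -/
theorem sign_mono_odd (hp2 : p ≠ 2) (π : Perm ι) (t : ι → (ZMod p)ˣ) (b : ι → ZMod p) :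
    sign (mono R π t b) = sign π * sign (mulP (∏ j, t j)) := by
  have hp : p.Prime := Fact.out
  have hodd : Odd p := hp.odd_of_ne_two hp2
  rw [sign_mono]
  have h1 : sign π ^ p = sign π := by
    rcases Int.units_eq_one_or (sign π) with h | h
    · rw [h, one_pow]
    · rw [h, hodd.neg_one_pow]
  rw [h1]
  congr 1
  have h2 : sign (mulP (∏ j, t j)) = ∏ j, sign (mulP (t j)) :=
    map_prod ((sign : Perm (ZMod p) →* ℤˣ).comp (mulP : (ZMod p)ˣ →* Perm (ZMod p))) t Finset.univ
  rw [h2]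
  apply Finset.prod_congr rfl
  intro j _
  rw [affP_eq, map_mul, sign_addRight_odd hp2, one_mul]

/-- the sign of a block permutation for `p = 2` -/
theorem sign_mono_block_sq (π : Perm ι) :
    sign (mono R π (1 : ι → (ZMod p)ˣ) (0 : ι → ZMod p)) = sign π ^ p := by
  rw [sign_mono]
  have : ∀ j : ι, sign (affP ((1 : ι → (ZMod p)ˣ) j) ((0 : ι → ZMod p) j)) = 1 := by
    intro j
    have : affP ((1 : ι → (ZMod p)ˣ) j) ((0 : ι → ZMod p) j) = 1 := by
      ext x
      show ((1 : (ZMod p)ˣ) : ZMod p) * x + 0 = x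
      rw [Units.val_one, one_mul, add_zero]
    rw [this, map_one]
  rw [Finset.prod_congr rfl (fun j _ => this j), Finset.prod_const_one, mul_one]

/-- translations -/
def trHom : Multiplicative (ι → ZMod p) →* Perm ((ι × ZMod p) ⊕ R) where
  toFun b := mono R 1 1 (Multiplicative.toAdd b)
  map_one' := mono_one R
  map_mul' b b' := by
    rw [mono_mul]
    refine mono_ext R (mul_one 1).symm (fun j => (mul_one 1).symm) (fun j => ?_)
    show Multiplicative.toAdd b j + Multiplicative.toAdd b' j =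
      ((1 : (ZMod p)ˣ) : ZMod p) * Multiplicative.toAdd b' j + Multiplicative.toAdd b j
    rw [Units.val_one, one_mul, add_comm]

/-- the translation by `b` -/
def tr (b : ι → ZMod p) : Perm ((ι × ZMod p) ⊕ R) := mono R 1 1 b

theorem trHom_apply (b : Multiplicative (ι → ZMod p)) : trHom R b = tr R (Multiplicative.toAdd b) := rfl

@[simp]
theorem tr_inl (b : ι → ZMod p) (j : ι) (x : ZMod p) :
    tr R b (Sum.inl (j, x)) = Sum.inl (j, x + b j) := by
  show mono R 1 1 b (Sum.inl (j, x)) = _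
  rw [mono_inl]
  simp only [Perm.one_apply, Pi.one_apply, Units.val_one, one_mul]

@[simp]
theorem tr_inr (b : ι → ZMod p) (r : R) : tr R b (Sum.inr r) = Sum.inr r := rfl

theorem tr_mul (b b' : ι → ZMod p) : tr R b * tr R b' = tr R (b + b') := by
  have := map_mul (trHom R) (Multiplicative.ofAdd b) (Multiplicative.ofAdd b')
  simp only [trHom_apply] at this
  exact this.symm

theorem tr_zero : tr R (0 : ι → ZMod p) = 1 := mono_one R

theorem tr_pow (b : ι → ZMod p) (n : ℕ) : tr R b ^ n = tr R (n • b) := by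
  induction n with
  | zero => rw [pow_zero, zero_smul, tr_zero]
  | succ n ih => rw [pow_succ, ih, tr_mul, succ_nsmul]

theorem tr_pow_p (b : ι → ZMod p) : tr R b ^ p = 1 := by
  rw [tr_pow]
  have : p • b = 0 := by
    funext j
    rw [Pi.smul_apply, nsmul_eq_mul, ZMod.natCast_self, zero_mul, Pi.zero_apply]
  rw [this, tr_zero]

theorem mono_mul_tr (π : Perm ι) (t : ι → (ZMod p)ˣ) (b β : ι → ZMod p) :
    mono R π t b * tr R β = tr R (fun k => (t (π⁻¹ k) : ZMod p) * β (π⁻¹ k)) * mono R π t b := by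
  unfold tr
  rw [mono_mul, mono_mul]
  refine mono_ext R (by rw [mul_one, one_mul]) (fun j => ?_) (fun j => ?_)
  · show t j * 1 = 1 * t j
    rw [mul_one, one_mul]
  · show (t j : ZMod p) * β j + b j =
      ((1 : (ZMod p)ˣ) : ZMod p) * b j + (t (π⁻¹ (π j)) : ZMod p) * β (π⁻¹ (π j))
    rw [pinv_apply_self, Units.val_one, one_mul, add_comm]

theorem mono_conj_tr (π : Perm ι) (t : ι → (ZMod p)ˣ) (b β : ι → ZMod p) :
    mono R π t b * tr R β * (mono R π t b)⁻¹ = tr R (fun k => (t (π⁻¹ k) : ZMod p) * β (π⁻¹ k)) := by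
  rw [mono_mul_tr, mul_assoc, mul_inv_cancel, mul_one]

theorem mono_conj_tr' (π : Perm ι) (t : ι → (ZMod p)ˣ) (b β : ι → ZMod p) :
    (mono R π t b)⁻¹ * tr R β * mono R π t b =
      tr R (fun j => (((t j)⁻¹ : (ZMod p)ˣ) : ZMod p) * β (π j)) := by
  have h := mono_mul_tr R π t b (fun j => (((t j)⁻¹ : (ZMod p)ˣ) : ZMod p) * β (π j))
  have e : (fun k => (t (π⁻¹ k) : ZMod p) * ((((t (π⁻¹ k))⁻¹ : (ZMod p)ˣ) : ZMod p) * β (π (π⁻¹ k)))) = β := by
    funext k
    rw [papply_inv_self, ← mul_assoc, Units.mul_inv, one_mul]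
  rw [e] at h
  rw [mul_assoc, ← h, ← mul_assoc, inv_mul_cancel, one_mul]

/-- structure of the elements normalizing the translation group -/
theorem exists_mono_of_conj [Subsingleton R] (g : Perm ((ι × ZMod p) ⊕ R))
    (hg : ∀ β : ι → ZMod p, ∃ β' : ι → ZMod p, g * tr R β * g⁻¹ = tr R β') :
    ∃ (π : Perm ι) (t : ι → (ZMod p)ˣ) (b : ι → ZMod p), g = mono R π t b := by
  have h10 : (1 : ZMod p) ≠ 0 := one_ne_zero
  have key : ∀ j : ι, ∃ (j' : ι) (bj tj : ZMod p), tj ≠ 0 ∧
      ∀ x : ZMod p, g (Sum.inl (j, x)) = Sum.inl (j', tj * x + bj) := by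
    intro j
    obtain ⟨β, hβ⟩ := hg (Pi.single j 1)
    have hconj : ∀ q, g (tr R (Pi.single j 1) q) = tr R β (g q) := by
      intro q
      rw [← hβ]
      simp only [Perm.mul_apply, pinv_apply_self]
    have h1 : g (Sum.inl (j, 1)) = tr R β (g (Sum.inl (j, 0))) := by
      rw [← hconj, tr_inl, Pi.single_eq_same, zero_add]
    rcases hq : g (Sum.inl (j, 0)) with ⟨j', bj⟩ | r
    · refine ⟨j', bj, β j', ?_, ?_⟩
      · intro h0
        rw [hq, tr_inl, h0, add_zero, ← hq] at h1
        have := Sum.inl.inj (g.injective h1)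
        exact h10 (congrArg Prod.snd this)
      · have hn : ∀ n : ℕ, g (Sum.inl (j, (n : ZMod p))) = Sum.inl (j', β j' * n + bj) := by
          intro n
          induction n with
          | zero => rw [Nat.cast_zero, mul_zero, zero_add, hq]
          | succ n ih =>
            have h2 := hconj (Sum.inl (j, (n : ZMod p)))
            rw [tr_inl, Pi.single_eq_same, ih, tr_inl] at h2
            rw [Nat.cast_succ, h2]
            refine congrArg Sum.inl (Prod.ext rfl ?_)
            show β j' * (n : ZMod p) + bj + β j' = β j' * ((n : ZMod p) + 1) + bj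
            ring
        intro x
        have := hn x.val
        rwa [ZMod.natCast_zmod_val] at this
    · exfalso
      rw [hq, tr_inr, ← hq] at h1
      have := Sum.inl.inj (g.injective h1)
      exact h10 (congrArg Prod.snd this)
  choose π b t ht hgx using key
  have hπinj : Function.Injective π := by
    intro j₁ j₂ h
    have e : g (Sum.inl (j₁, (b j₂ - b j₁) / t j₁)) = g (Sum.inl (j₂, 0)) := by
      rw [hgx, hgx, h]
      refine congrArg Sum.inl (Prod.ext rfl ?_)
      show t j₁ * ((b j₂ - b j₁) / t j₁) + b j₁ = t j₂ * 0 + b j₂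
      rw [mul_comm, div_mul_cancel₀ _ (ht j₁)]
      ring
    exact congrArg Prod.fst (Sum.inl.inj (g.injective e))
  have hπbij : Function.Bijective π := Finite.injective_iff_bijective.mp hπinj
  have hinr : ∀ r : R, g (Sum.inr r) = Sum.inr r := by
    intro r
    rcases hq : g (Sum.inr r) with ⟨k, y⟩ | r'
    · exfalso
      obtain ⟨j, rfl⟩ := hπbij.2 k
      have e : g (Sum.inl (j, (y - b j) / t j)) = g (Sum.inr r) := by
        rw [hgx, hq]
        refine congrArg Sum.inl (Prod.ext rfl ?_)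
        show t j * ((y - b j) / t j) + b j = y
        rw [mul_comm, div_mul_cancel₀ _ (ht j)]
        ring
      exact Sum.inl_ne_inr (g.injective e)
    · rw [Subsingleton.elim r' r]
  refine ⟨Equiv.ofBijective π hπbij, fun j => Units.mk0 (t j) (ht j), b, ?_⟩
  ext (⟨j, x⟩ | r)
  · rw [hgx]
    rfl
  · rw [hinr]
    rfl

end Mono

end Cfsg.Agent.Helper86
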