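import Cfsg.Agent.Helper86.AltMono
import Cfsg.Agent.Helper86.AltClosure

set_option autoImplicit false
set_option linter.unusedSectionVars false

namespace Cfsg.Agent.Helper86

open Equiv Equiv.Perm

section Gen

theorem conj_mem_closure {G : Type*} [Group G] {U : Set G} {d : G}
    (h : ∀ x ∈ U, d * x * d⁻¹ ∈ Subgroup.closure U) :
    ∀ x ∈ Subgroup.closure U, d * x * d⁻¹ ∈ Subgroup.closure U := by
  have hle : Subgroup.closure U ≤ (Subgroup.closure U).comap (MulAut.conj d).toMonoidHom := by
    rw [Subgroup.closure_le]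
    intro x hx
    exact h x hx
  intro x hx
  exact hle hx

theorem conj_mem_sup {G : Type*} [Group G] {H K : Subgroup G} {d : G}
    (hH : ∀ x ∈ H, d * x * d⁻¹ ∈ H ⊔ K) (hK : ∀ x ∈ K, d * x * d⁻¹ ∈ H ⊔ K) :
    ∀ x ∈ H ⊔ K, d * x * d⁻¹ ∈ H ⊔ K := by
  have hle : H ⊔ K ≤ (H ⊔ K).comap (MulAut.conj d).toMonoidHom :=
    sup_le (fun x hx => hH x hx) (fun x hx => hK x hx)
  intro x hx
  exact hle hx

theorem sign_eq_one_of_pow_odd {Ω : Type*} [Fintype Ω] [DecidableEq Ω] {p : ℕ} [Fact p.Prime]
    (hp2 : p ≠ 2) {x : Perm Ω} {k : ℕ} (h : x ^ p ^ k = 1) : sign x = 1 := by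
  have hp : p.Prime := Fact.out
  have hodd : Odd (p ^ k) := (hp.odd_of_ne_two hp2).pow
  have h2 : sign x ^ (p ^ k) = 1 := by
    rw [← map_pow, h, map_one]
  rcases Int.units_eq_one_or (sign x) with h1 | h1
  · exact h1
  · rw [h1, hodd.neg_one_pow] at h2
    exact absurd h2 (by decide)

end Gen

section FP

variable {Ω : Type*} [Fintype Ω] [DecidableEq Ω] {p : ℕ} [Fact p.Prime]

/-- in a `p`-group of permutations, the number of points moved by one of two given elements is
divisible by `p` -/
theorem card_support_union_dvd {H : Subgroup (Perm Ω)} (hH : IsPGroup p ↥H) {x y : Perm Ω}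
    (hx : x ∈ H) (hy : y ∈ H) : p ∣ (x.support ∪ y.support).card := by
  have hle : Subgroup.closure ({x, y} : Set (Perm Ω)) ≤ H := by
    rw [Subgroup.closure_le]
    rintro z (rfl | rfl)
    · exact hx
    · exact hy
  have hD : IsPGroup p ↥(Subgroup.closure ({x, y} : Set (Perm Ω))) := hH.to_le hle
  have h1 := hD.card_modEq_card_fixedPoints Ω
  have hfix : MulAction.fixedPoints ↥(Subgroup.closure ({x, y} : Set (Perm Ω))) Ω
      = ((x.support ∪ y.support : Finset Ω) : Set Ω)ᶜ := by
    ext q
    rw [MulAction.mem_fixedPoints, Set.mem_compl_iff, Finset.mem_coe, Finset.mem_union, mem_support,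
      mem_support]
    constructor
    · intro h hq
      rcases hq with hq | hq
      · exact hq (h ⟨x, Subgroup.subset_closure (Or.inl rfl)⟩)
      · exact hq (h ⟨y, Subgroup.subset_closure (Or.inr rfl)⟩)
    · rintro h ⟨d, hd⟩
      show d q = q
      have hsub : Subgroup.closure ({x, y} : Set (Perm Ω)) ≤ MulAction.stabilizer (Perm Ω) q := by
        rw [Subgroup.closure_le]
        rintro z (rfl | rfl)
        · show z q = q
          by_contra hne
          exact h (Or.inl hne)
        · show z q = q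
          by_contra hne
          exact h (Or.inr hne)
      exact hsub hd
  rw [hfix, Nat.card_eq_fintype_card] at h1
  have h2 : Nat.card ↑(((x.support ∪ y.support : Finset Ω) : Set Ω)ᶜ)
      = Fintype.card Ω - (x.support ∪ y.support).card := by
    rw [← Finset.coe_compl, Nat.card_coe_set_eq, Set.ncard_coe_finset, Finset.card_compl]
  rw [h2] at h1
  have h3 := (Nat.modEq_iff_dvd' (Nat.sub_le _ _)).1 h1.symm
  rwa [Nat.sub_sub_self (Finset.card_le_univ _)] at h3

end FP

section Tr

variable {ι : Type*} [Fintype ι] [DecidableEq ι] (R : Type*) [Fintype R] [DecidableEq R]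
  {p : ℕ} [Fact p.Prime]

theorem tr_apply_ne_iff (β : ι → ZMod p) (q : (ι × ZMod p) ⊕ R) :
    tr R β q ≠ q ↔ ∃ j x, q = Sum.inl (j, x) ∧ β j ≠ 0 := by
  rcases q with ⟨j, x⟩ | r
  · rw [tr_inl]
    constructor
    · intro h
      refine ⟨j, x, rfl, fun h0 => h ?_⟩
      rw [h0, add_zero]
    · rintro ⟨j', x', he, hne⟩ h
      have he' := Sum.inl.inj he
      have hj : j = j' := congrArg Prod.fst he'
      subst hj
      apply hne
      have h1 : x + β j = x := congrArg Prod.snd (Sum.inl.inj h)
      have h2 : x + β j = x + 0 := by rw [add_zero]; exact h1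
      exact add_left_cancel h2
  · rw [tr_inr]
    constructor
    · intro h
      exact absurd rfl h
    · rintro ⟨j, x, he, -⟩
      exact absurd he Sum.inr_ne_inl

/-- the `j`-th block -/
def blk (j : ι) : Finset ((ι × ZMod p) ⊕ R) := Finset.univ.image (fun x : ZMod p => Sum.inl (j, x))

theorem mem_blk {j : ι} {q : (ι × ZMod p) ⊕ R} : q ∈ blk R j ↔ ∃ x : ZMod p, q = Sum.inl (j, x) := by
  unfold blk
  rw [Finset.mem_image]
  constructor
  · rintro ⟨x, -, rfl⟩
    exact ⟨x, rfl⟩
  · rintro ⟨x, rfl⟩
    exact ⟨x, Finset.mem_univ _, rfl⟩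

theorem card_blk (j : ι) : (blk R j : Finset ((ι × ZMod p) ⊕ R)).card = p := by
  unfold blk
  rw [Finset.card_image_of_injective, Finset.card_univ, ZMod.card]
  intro x y h
  exact congrArg Prod.snd (Sum.inl.inj h)

theorem support_tr_single_le (j : ι) (a : ZMod p) : (tr R (Pi.single j a)).support ⊆ blk R j := by
  intro q hq
  rw [mem_support, tr_apply_ne_iff] at hq
  obtain ⟨j', x, rfl, hne⟩ := hq
  have : j' = j := by
    by_contra hjj
    exact hne (by rw [Pi.single_apply, if_neg hjj])
  subst this
  exact (mem_blk R).2 ⟨x, rfl⟩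

theorem support_tr_single (j : ι) {a : ZMod p} (ha : a ≠ 0) :
    (tr R (Pi.single j a)).support = blk R j := by
  apply Finset.Subset.antisymm (support_tr_single_le R j a)
  intro q hq
  obtain ⟨x, rfl⟩ := (mem_blk R).1 hq
  rw [mem_support, tr_apply_ne_iff]
  exact ⟨j, x, rfl, by rw [Pi.single_eq_same]; exact ha⟩

theorem tr_single_ne_one (j : ι) {a : ZMod p} (ha : a ≠ 0) : tr R (Pi.single j a) ≠ 1 := by
  intro h
  have h1 := support_tr_single R j ha
  rw [h, support_one] at h1
  have hc := card_blk R j (p := p)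
  rw [← h1, Finset.card_empty] at hc
  exact (Fact.out : p.Prime).ne_zero hc.symm

/-- an element of a `p`-group containing the translations that moves exactly `p` points is a
translation -/
theorem pcycle_eq_tr [Subsingleton R] {H : Subgroup (Perm ((ι × ZMod p) ⊕ R))} (hH : IsPGroup p ↥H)
    (hE : ∀ β : ι → ZMod p, tr R β ∈ H) {c : Perm ((ι × ZMod p) ⊕ R)} (hcH : c ∈ H)
    (hcp : c.support.card = p) : ∃ β : ι → ZMod p, c = tr R β := by
  have hp : p.Prime := Fact.out
  have hp0 := hp.pos
  -- a moved point in a block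
  have h1 : ∃ j x, (Sum.inl (j, x) : (ι × ZMod p) ⊕ R) ∈ c.support := by
    by_contra hcon
    push Not at hcon
    have hsub : c.support ⊆ Finset.univ.image (Sum.inr : R → (ι × ZMod p) ⊕ R) := by
      intro q hq
      rcases q with ⟨j, x⟩ | r
      · exact absurd hq (hcon j x)
      · exact Finset.mem_image_of_mem _ (Finset.mem_univ r)
    have hle := Finset.card_le_card hsub
    have h2 : (Finset.univ.image (Sum.inr : R → (ι × ZMod p) ⊕ R)).card ≤ 1 := by
      refine Finset.card_image_le.trans ?_
      rw [Finset.card_univ]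
      exact Fintype.card_le_one_iff_subsingleton.2 inferInstance
    have := hp.two_le
    omega
  obtain ⟨j, x, hjx⟩ := h1
  -- the support of `c` is the block `j`
  have hone : (1 : ZMod p) ≠ 0 := one_ne_zero
  have hdvd := card_support_union_dvd hH (hE (Pi.single j 1)) hcH
  rw [support_tr_single R j hone] at hdvd
  have hjB : (Sum.inl (j, x) : (ι × ZMod p) ⊕ R) ∈ blk R j := (mem_blk R).2 ⟨x, rfl⟩
  have hcb : (blk R j : Finset ((ι × ZMod p) ⊕ R)).card = p := card_blk R j
  have hunion : (blk R j ∪ c.support).card + (blk R j ∩ c.support).card = p + p := by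
    rw [Finset.card_union_add_card_inter, hcb, hcp]
  have hinter : 0 < (blk R j ∩ c.support).card :=
    Finset.card_pos.2 ⟨_, Finset.mem_inter.2 ⟨hjB, hjx⟩⟩
  have hge : (blk R j : Finset ((ι × ZMod p) ⊕ R)).card ≤ (blk R j ∪ c.support).card :=
    Finset.card_le_card Finset.subset_union_left
  have hcardU : (blk R j ∪ c.support).card = p := by
    obtain ⟨k, hk⟩ := hdvd
    have hk1 : k = 1 := by
      have h3 : p * k < p * 2 := by omega
      have h4 : p * 1 ≤ p * k := by omega
      have h5 := Nat.lt_of_mul_lt_mul_left h3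
      have h6 := Nat.le_of_mul_le_mul_left h4 hp0
      omega
    rw [hk, hk1, mul_one]
  have hsupp : c.support ⊆ blk R j := by
    have h7 : blk R j = blk R j ∪ c.support :=
      Finset.eq_of_subset_of_card_le Finset.subset_union_left (by rw [hcardU, hcb])
    rw [h7]
    exact Finset.subset_union_right
  -- the image of the base point
  have hbase : c (Sum.inl (j, x)) ∈ blk R j := hsupp (apply_mem_support.2 hjx)
  obtain ⟨x', hx'⟩ := (mem_blk R).1 hbase
  -- the quotient fixes the base point
  have hd0 : ((tr R (Pi.single j (x' - x)))⁻¹ * c) (Sum.inl (j, x)) = Sum.inl (j, x) := by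
    rw [Perm.mul_apply, hx', Perm.inv_eq_iff_eq, tr_inl, Pi.single_eq_same]
    congr 2
    ring
  have hdsupp : ((tr R (Pi.single j (x' - x)))⁻¹ * c).support ⊆ (blk R j).erase (Sum.inl (j, x)) := by
    intro q hq
    rw [Finset.mem_erase]
    refine ⟨?_, ?_⟩
    · rintro rfl
      exact (mem_support.1 hq) hd0
    · have h8 := support_mul_le _ _ hq
      rw [support_inv] at h8
      rcases Finset.mem_union.1 h8 with h9 | h9
      · exact support_tr_single_le R j _ h9
      · exact hsupp h9
  have hdcard : ((tr R (Pi.single j (x' - x)))⁻¹ * c).support.card < p := by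
    have h10 := Finset.card_le_card hdsupp
    rw [Finset.card_erase_of_mem hjB, hcb] at h10
    omega
  have hdH : (tr R (Pi.single j (x' - x)))⁻¹ * c ∈ H := H.mul_mem (H.inv_mem (hE _)) hcH
  have hdd := card_support_union_dvd hH hdH hdH
  rw [Finset.union_self] at hdd
  have hd1 : (tr R (Pi.single j (x' - x)))⁻¹ * c = 1 :=
    card_support_eq_zero.1 (Nat.eq_zero_of_dvd_of_lt hdd hdcard)
  exact ⟨Pi.single j (x' - x), (inv_mul_eq_one.1 hd1).symm⟩

/-- the translations are generated by the block cycles -/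
theorem tr_mem_closure (β : ι → ZMod p) :
    tr R β ∈ Subgroup.closure (Set.range fun j : ι => tr R (Pi.single j (1 : ZMod p))) := by
  have h1 : ∀ (j : ι) (n : ℕ), tr R (Pi.single j (n : ZMod p)) ∈
      Subgroup.closure (Set.range fun j : ι => tr R (Pi.single j (1 : ZMod p))) := by
    intro j n
    induction n with
    | zero =>
      rw [Nat.cast_zero, Pi.single_zero, tr_zero]
      exact Subgroup.one_mem _
    | succ n ih =>
      rw [Nat.cast_succ, Pi.single_add, ← tr_mul]
      exact Subgroup.mul_mem _ ih (Subgroup.subset_closure ⟨j, rfl⟩)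
  have h2 : ∀ (j : ι) (a : ZMod p), tr R (Pi.single j a) ∈
      Subgroup.closure (Set.range fun j : ι => tr R (Pi.single j (1 : ZMod p))) := by
    intro j a
    have := h1 j a.val
    rwa [ZMod.natCast_zmod_val] at this
  have h3 : ∀ s : Finset ι, tr R (∑ j ∈ s, Pi.single j (β j)) ∈
      Subgroup.closure (Set.range fun j : ι => tr R (Pi.single j (1 : ZMod p))) := by
    intro s
    induction s using Finset.induction_on with
    | empty =>
      rw [Finset.sum_empty, tr_zero]
      exact Subgroup.one_mem _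
    | insert a s ha ih =>
      rw [Finset.sum_insert ha, ← tr_mul]
      exact Subgroup.mul_mem _ (h2 a (β a)) ih
  have h4 := h3 Finset.univ
  rwa [Finset.univ_sum_single] at h4

/-- an element normalizing a `p`-group that contains the translations normalizes the translations -/
theorem conj_tr_of_normalizes [Subsingleton R] {S : Subgroup (Perm ((ι × ZMod p) ⊕ R))}
    (hS : IsPGroup p ↥S) (hE : ∀ β : ι → ZMod p, tr R β ∈ S) {g : Perm ((ι × ZMod p) ⊕ R)}
    (hg : ∀ y ∈ S, g * y * g⁻¹ ∈ S) (β : ι → ZMod p) :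
    ∃ β' : ι → ZMod p, g * tr R β * g⁻¹ = tr R β' := by
  have hle : Subgroup.closure (Set.range fun j : ι => tr R (Pi.single j (1 : ZMod p))) ≤
      ((trHom R : Multiplicative (ι → ZMod p) →* Perm ((ι × ZMod p) ⊕ R)).range).comap
        (MulAut.conj g).toMonoidHom := by
    rw [Subgroup.closure_le]
    rintro _ ⟨j, rfl⟩
    show g * tr R (Pi.single j 1) * g⁻¹ ∈ (trHom R).range
    have hcard : (g * tr R (Pi.single j (1 : ZMod p)) * g⁻¹).support.card = p := by
      rw [card_support_conj, support_tr_single R j one_ne_zero, card_blk]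
    obtain ⟨β', hβ'⟩ := pcycle_eq_tr R hS hE (hg _ (hE _)) hcard
    exact ⟨Multiplicative.ofAdd β', hβ'.symm⟩
  obtain ⟨b, hb⟩ := hle (tr_mem_closure R β)
  exact ⟨Multiplicative.toAdd b, hb.symm⟩

/-- the translations are self-centralizing -/
theorem eq_tr_of_commute [Subsingleton R] (c : Perm ((ι × ZMod p) ⊕ R))
    (hc : ∀ β : ι → ZMod p, c * tr R β = tr R β * c) : ∃ β : ι → ZMod p, c = tr R β := by
  obtain ⟨π, t, b, rfl⟩ := exists_mono_of_conj R c
    (fun β => ⟨β, by rw [hc, mul_assoc, mul_inv_cancel, mul_one]⟩)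
  have key : ∀ j, π j = j ∧ t j = 1 := by
    intro j
    have h1 := mono_conj_tr R π t b (Pi.single j 1)
    rw [hc, mul_assoc, mul_inv_cancel, mul_one] at h1
    have h2 := (mono_injective R h1).2.2
    have h3 := congrFun h2 (π j)
    rw [pinv_apply_self, Pi.single_eq_same, mul_one] at h3
    have hπ : π j = j := by
      by_contra hne
      rw [Pi.single_apply, if_neg hne] at h3
      exact (t j).ne_zero h3.symm
    refine ⟨hπ, ?_⟩
    rw [hπ, Pi.single_eq_same] at h3
    exact Units.ext h3.symm
  refine ⟨b, ?_⟩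
  unfold tr
  exact mono_ext R (Equiv.ext fun j => (key j).1) (fun j => (key j).2) (fun _ => rfl)

end Tr

end Cfsg.Agent.Helper86
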