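import Cfsg.Agent.Helper86.AltCritB
import Cfsg.Agent.Helper86.AltClosure

set_option autoImplicit false

namespace Cfsg.Agent.Helper86

open Cfsg Equiv Equiv.Perm

section Transport

variable {G Γ : Type*} [Group G] [Group Γ]

/-- the image of a Sylow subgroup under an injective homomorphism is relatively Sylow in the
range -/
theorem relSyl_map [Finite G] {p : ℕ} [Fact p.Prime] (f : G →* Γ) (hf : Function.Injective f)
    (S : Sylow p G) : RelSyl p f.range ((S : Subgroup G).map f) := by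
  refine ⟨?_, S.isPGroup'.map f, ?_⟩
  · rintro _ ⟨x, -, rfl⟩
    exact ⟨x, rfl⟩
  · intro R hR hRp
    have hRc : IsPGroup p ↥(R.comap f) := hRp.comap_of_injective f hf
    obtain ⟨g, hg⟩ := Cfsg.Agent.Helper85.sylow_conj S hRc
    refine ⟨f g, ⟨g, rfl⟩, ?_⟩
    intro x hx
    obtain ⟨y, rfl⟩ := hR hx
    refine ⟨g * y * g⁻¹, hg y hx, ?_⟩
    rw [map_mul, map_mul, map_inv]

/-- simplicity criterion: it suffices to check `AltHyp` for the relatively Sylow subgroups
containing a fixed `p`-subgroup -/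
theorem isSimple_of_relSyl [Finite G] {p : ℕ} [Fact p.Prime] (f₀ : G →* Γ)
    (hf₀ : Function.Injective f₀) (S : Sylow p G) (R0 : Subgroup Γ) (hR0A : R0 ≤ f₀.range)
    (hR0p : IsPGroup p ↥R0)
    (H : ∀ S' : Subgroup Γ, RelSyl p f₀.range S' → R0 ≤ S' → AltHyp p f₀.range S') :
    (groupFusionSystem (S : Subgroup G)).IsSimple p := by
  obtain ⟨h, ⟨h₀, rfl⟩, hh⟩ := (relSyl_map f₀ hf₀ S).2.2 R0 hR0A hR0p
  have hf : Function.Injective (f₀.comp (MulAut.conj h₀⁻¹).toMonoidHom) :=
    hf₀.comp (MulAut.conj h₀⁻¹).injective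
  have hrange : (f₀.comp (MulAut.conj h₀⁻¹).toMonoidHom).range = f₀.range := by
    ext y
    constructor
    · rintro ⟨x, rfl⟩
      exact ⟨_, rfl⟩
    · rintro ⟨x, rfl⟩
      refine ⟨h₀ * x * h₀⁻¹, ?_⟩
      show f₀ (h₀⁻¹ * (h₀ * x * h₀⁻¹) * h₀⁻¹⁻¹) = f₀ x
      congr 1
      group
  have hR0 : R0 ≤ (S : Subgroup G).map (f₀.comp (MulAut.conj h₀⁻¹).toMonoidHom) := by
    intro x hx
    obtain ⟨y, hy, hyx⟩ := hh x hx
    refine ⟨y, hy, ?_⟩
    show f₀ (h₀⁻¹ * y * h₀⁻¹⁻¹) = x
    rw [inv_inv, map_mul, map_mul, map_inv, hyx]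
    group
  have hAlt := H ((S : Subgroup G).map (f₀.comp (MulAut.conj h₀⁻¹).toMonoidHom))
    (by rw [← hrange]; exact relSyl_map _ hf S) hR0
  rw [← hrange] at hAlt
  exact isSimple_of_altHyp _ hf S hAlt

end Transport

/-- simplicity criterion for alternating groups, after relabelling the points -/
theorem isSimple_alt_of_equiv {α Ω : Type*} [Fintype α] [DecidableEq α] [Fintype Ω]
    [DecidableEq Ω] (e : α ≃ Ω) {p : ℕ} [Fact p.Prime] (S : Sylow p (alternatingGroup α))
    (R0 : Subgroup (Perm Ω)) (hR0A : R0 ≤ alternatingGroup Ω) (hR0p : IsPGroup p ↥R0)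
    (H : ∀ S' : Subgroup (Perm Ω), RelSyl p (alternatingGroup Ω) S' → R0 ≤ S' →
      AltHyp p (alternatingGroup Ω) S') :
    (groupFusionSystem (S : Subgroup (alternatingGroup α))).IsSimple p := by
  have hf₀ : Function.Injective
      ((e.permCongrHom).toMonoidHom.comp (alternatingGroup α).subtype) :=
    e.permCongrHom.injective.comp Subtype.val_injective
  have hrange : ((e.permCongrHom).toMonoidHom.comp (alternatingGroup α).subtype).range =
      alternatingGroup Ω := by
    ext y
    constructor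
    · rintro ⟨x, rfl⟩
      rw [mem_alternatingGroup]
      show sign (e.permCongr x.1) = 1
      rw [sign_permCongr]
      exact mem_alternatingGroup.1 x.2
    · intro hy
      refine ⟨⟨e.symm.permCongr y, ?_⟩, ?_⟩
      · rw [mem_alternatingGroup, sign_permCongr]
        exact mem_alternatingGroup.1 hy
      · show e.permCongr (e.symm.permCongr y) = y
        refine Equiv.ext (fun q => ?_)
        simp only [Equiv.permCongr_apply, Equiv.symm_symm, Equiv.apply_symm_apply]
  rw [← hrange] at hR0A H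
  exact isSimple_of_relSyl _ hf₀ S R0 hR0A hR0p H

end Cfsg.Agent.Helper86
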