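import Cfsg.Agent.Helper86.FunctorW

/-!
# Control of transfer by a functor: the induction, part A (helper86)

`FocIn F T`: all quotients `x⁻¹ φ(x)` of maps of `F` lie in `T` (i.e. `foc(F) ≤ T`); `FocN F V T`: the same for the
maps of the normalizer system `N_F(V)`. `XT W F`: `foc(N_F(W(S))) ≤ T` implies `foc(F) ≤ T`. This file: the
Alperin-type reduction, the step through normalizer systems of subgroups normal in `S`, and the case where `F` has
no nontrivial normal subgroup.
-/

set_option autoImplicit false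

namespace Cfsg.Agent.Helper86

open Cfsg Cfsg.FusionSystem Cfsg.Agent.Helper84

universe u

section FocDefs

variable {Ω : Type*} [Group Ω] {S : Subgroup Ω}

/-- All quotients `x⁻¹ φ(x)` of maps of the system lie in `T`. -/
def FocIn (F : FusionSystem S) (T : Subgroup Ω) : Prop :=
  ∀ (P : Subgroup Ω) (φ : P →* Ω), φ ∈ F.Hom P → ∀ x : P, (x : Ω)⁻¹ * φ x ∈ T

/-- All quotients `x⁻¹ φ(x)` of maps of the normalizer system of `V` lie in `T`. -/
def FocN (F : FusionSystem S) (V T : Subgroup Ω) : Prop :=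
  ∀ (P : Subgroup Ω) (φ : P →* Ω), φ ∈ F.normalizerHom V P → ∀ x : P, (x : Ω)⁻¹ * φ x ∈ T

theorem focalSubgroup_le_iff (F : FusionSystem S) (T : Subgroup Ω) :
    F.focalSubgroup ≤ T ↔ FocIn F T := by
  constructor
  · intro h P φ hφ x
    exact h (Subgroup.subset_closure ⟨P, φ, x, hφ, rfl⟩)
  · intro h
    refine (Subgroup.closure_le _).2 ?_
    rintro _ ⟨P, φ, x, hφ, rfl⟩
    exact h P φ hφ x

/-- Alperin-type reduction for `FocIn`, for maps with source of order at least `t`. -/
theorem foc_of_aut [Finite S] {p : ℕ} [Fact p.Prime] (hS : IsPGroup p S) (F : FusionSystem S)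
    (hF : F.IsSaturated p) (T : Subgroup Ω) (t : ℕ)
    (h : ∀ R : Subgroup Ω, F.IsFullyNormalized R → t ≤ Nat.card R →
      ∀ α : R →* Ω, α ∈ F.Hom R → (∀ x, α x ∈ R) → ∀ x : R, (x : Ω)⁻¹ * α x ∈ T) :
    ∀ (P : Subgroup Ω) (φ : P →* Ω), φ ∈ F.Hom P → t ≤ Nat.card P →
      ∀ x : P, (x : Ω)⁻¹ * φ x ∈ T := by
  refine Helper87.alperin_induction hS F hF
    (fun P φ => t ≤ Nat.card P → ∀ x : P, (x : Ω)⁻¹ * φ x ∈ T) ?_ ?_ ?_ ?_
  · intro P Q hQP φ θ hφ hθ hC ht x
    have : Finite P := finite_of_le (hom_le F hφ)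
    have h1 := hC (ht.trans (Subgroup.card_le_of_le hQP)) ⟨x, hQP x.2⟩
    rw [hθ x]
    exact h1
  · intro P Q φ ψ θ hφ hψ hPQ hθ hCφ hCψ ht x
    have : Finite Q := finite_of_le (hom_le F hψ)
    have hcard : Nat.card P ≤ Nat.card Q :=
      Nat.card_le_card_of_injective (fun x : P => (⟨φ x, hPQ x⟩ : Q))
        (fun a b hab => F.injective_of_mem hφ (congrArg Subtype.val hab))
    rw [hθ x]
    have h1 := hCφ ht x
    have h2 := hCψ (ht.trans hcard) ⟨φ x, hPQ x⟩
    have e : (x : Ω)⁻¹ * ψ ⟨φ x, hPQ x⟩ = ((x : Ω)⁻¹ * φ x) * ((φ x)⁻¹ * ψ ⟨φ x, hPQ x⟩) := by group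
    rw [e]
    exact T.mul_mem h1 h2
  · intro P Q φ ψ hφ hψ hr hPQ hψφ hCφ ht y
    have hy : (y : Ω) ∈ φ.range := by rw [hr]; exact y.2
    obtain ⟨x, hx⟩ := hy
    have e : y = ⟨φ x, hPQ x⟩ := Subtype.ext hx.symm
    have hcard : Nat.card Q = Nat.card P := by rw [← hr]; exact Helper87.card_range_eq F hφ
    rw [e, hψφ x]
    have h1 := T.inv_mem (hCφ (hcard ▸ ht) x)
    have e2 : (φ x)⁻¹ * (x : Ω) = ((x : Ω)⁻¹ * φ x)⁻¹ := by group
    show (φ x)⁻¹ * (x : Ω) ∈ T
    rw [e2]
    exact h1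
  · intro R hfa hrec hbig α hα ht x
    have hfn : F.IsFullyNormalized R := fullyNormalized_of_automized_receptive hS F hfa hrec
    have hβ : R.subtype.comp α.toMonoidHom ∈ F.Hom R := (mem_autGroup_iff F hfa.1 α).1 hα
    exact h R hfn ht _ hβ (fun x => (α x).2) x

end FocDefs

section FocA

variable {p : ℕ} [Fact p.Prime] (W : ∀ (Q : Type u) [Group Q], Subgroup Q)

/-- Control of transfer, in element form. -/
def XT {Ω : Type u} [Group Ω] {S : Subgroup Ω} (F : FusionSystem S) : Prop :=
  ∀ T : Subgroup Ω, FocN F (Wsub W S) T → FocIn F T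

/-- The induction hypothesis: `XT` for all smaller saturated systems. -/
def IHT (p : ℕ) {Ω : Type u} [Group Ω] {S : Subgroup Ω} (F : FusionSystem S) : Prop :=
  ∀ (Ω' : Type u) [Group Ω'] (S' : Subgroup Ω') [Finite S'], IsPGroup p S' →
    ∀ F' : FusionSystem S', F'.IsSaturated p →
      (Nat.card S' < Nat.card S ∨ (Nat.card S' = Nat.card S ∧ dnn F' < dnn F)) → XT W F'

variable {Ω : Type u} [Group Ω] {S : Subgroup Ω}

/-- `foc(N_F(W(S))) ≤ T` implies `foc(N_F(R)) ≤ T` for `R` normal in `S` but not in `F`. -/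
theorem focN_of_normal_in_S [Finite S] (hS : IsPGroup p S) (F : FusionSystem S) (hF : F.IsSaturated p)
    (ih : IHT W p F) {R : Subgroup Ω} (hRS : R ≤ S) (hR : S ≤ Subgroup.normalizer (R : Set Ω))
    (hRn : ¬ F.IsNormal R) {T : Subgroup Ω} (hT : FocN F (Wsub W S) T) : FocN F R T := by
  obtain ⟨E, hE⟩ := exists_normalizerSystem F R hRS
  have hEsat := normalizerSystem_saturated p hS F hF R (fullyNormalized_of_le_normalizer F hRS hR) E hE
  have hNS : normalizerIn S R = S := normalizerIn_eq_of_le_normalizer hR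
  have hXE := ih Ω (normalizerIn S R) (hS.to_le inf_le_left) E hEsat
    (Or.inr ⟨congrArg (fun X : Subgroup Ω => Nat.card X) hNS, dnn_lt F hRS hR hRn E hE⟩)
  have h1 : FocN E (Wsub W (normalizerIn S R)) T := by
    intro P φ hφ x
    have h2 := normalizerHom_nsys_subset F E hE _ P hφ
    rw [Wsub_congr W hNS] at h2
    exact hT P φ h2 x
  intro P φ hφ x
  exact hXE T h1 P φ (by rw [hE P]; exact hφ) x

/-- The case without nontrivial normal subgroups. -/
theorem xt_caseA (hW1 : WPos p W) (hW2 : WIso p W) [Finite S] (hS : IsPGroup p S) (F : FusionSystem S)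
    (hF : F.IsSaturated p) (ih : IHT W p F) (hA : ∀ Q, F.IsNormal Q → Q = ⊥)
    {T : Subgroup Ω} (hT : FocN F (Wsub W S) T) : FocIn F T := by
  have claim : ∀ m : ℕ, ∀ Q : Subgroup Ω, Q ≠ ⊥ → F.IsFullyNormalized Q →
      Nat.card S - Nat.card (normalizerIn S Q) = m → FocN F Q T := by
    intro m
    induction m using Nat.strong_induction_on with
    | _ m ihm =>
    intro Q hQbot hQfn hm
    have hQS := hQfn.1
    by_cases hQn : S ≤ Subgroup.normalizer (Q : Set Ω)
    · exact focN_of_normal_in_S W hS F hF ih hQS hQn (fun h => hQbot (hA Q h)) hT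
    · obtain ⟨E, hE⟩ := exists_normalizerSystem F Q hQS
      have hEsat := normalizerSystem_saturated p hS F hF Q hQfn E hE
      have hS₁ : IsPGroup p (normalizerIn S Q) := hS.to_le inf_le_left
      have hXE := ih Ω (normalizerIn S Q) hS₁ E hEsat (Or.inl (card_normalizerIn_lt hQn))
      have hS₁S : normalizerIn S Q ≤ S := inf_le_left
      have hS₁ne : normalizerIn S Q ≠ S := by
        intro e
        apply hQn
        rw [← e]
        exact inf_le_right
      have hS₁bot : normalizerIn S Q ≠ ⊥ := by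
        intro e
        apply hQbot
        rw [eq_bot_iff, ← e]
        exact le_normalizerIn hQS
      have hVS₁ : Wsub W (normalizerIn S Q) ≤ normalizerIn S Q := Wsub_le W _
      have hVS : Wsub W (normalizerIn S Q) ≤ S := hVS₁.trans hS₁S
      have hVbot : Wsub W (normalizerIn S Q) ≠ ⊥ := Wsub_ne_bot W hW1 hS₁ hS₁bot
      have hS₁N₂ : normalizerIn S (normalizerIn S Q) ≤ normalizerIn S (Wsub W (normalizerIn S Q)) :=
        inf_le_inf_left S (Wsub_normalizer W hW2 hS₁)
      have hcard1 : Nat.card (normalizerIn S Q) <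
          Nat.card (normalizerIn S (Wsub W (normalizerIn S Q))) :=
        lt_of_lt_of_le (Helper87.card_lt_card_normalizerIn hS hS₁S hS₁ne) (Subgroup.card_le_of_le hS₁N₂)
      obtain ⟨V', hVV', hV'fn⟩ := exists_fullyNormalized_conj F hVS
      obtain ⟨hV'fa, hV'rec⟩ := saturated_fullyNormalized hS F hF hV'fn
      obtain ⟨χ, hχ, hχN, hχV⟩ := exists_normalizer_map p hS F V' _ hV'fa hV'rec hVV'
      have hV'bot : V' ≠ ⊥ := by
        intro e
        apply hVbot
        rw [eq_bot_iff]
        intro v hv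
        have h1 : χ ⟨v, le_normalizerIn hVS hv⟩ ∈ V' := (le_of_eq hχV) ⟨_, hv, rfl⟩
        rw [e, Subgroup.mem_bot] at h1
        have h2 := F.injective_of_mem hχ (h1.trans (map_one χ).symm)
        exact Subgroup.mem_bot.2 (congrArg Subtype.val h2)
      have hcard2 : Nat.card (normalizerIn S (Wsub W (normalizerIn S Q))) ≤
          Nat.card (normalizerIn S V') :=
        Nat.card_le_card_of_injective (fun x => (⟨χ x, hχN x⟩ : normalizerIn S V'))
          (fun a b hab => F.injective_of_mem hχ (congrArg Subtype.val hab))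
      have hcard3 : Nat.card (normalizerIn S V') ≤ Nat.card S := Subgroup.card_le_of_le inf_le_left
      have hV'foc : FocN F V' T := ihm _ (by omega) V' hV'bot hV'fn rfl
      have hχtriv : ∀ x : ↥(normalizerIn S (Wsub W (normalizerIn S Q))), (x : Ω)⁻¹ * χ x ∈ T := by
        refine foc_of_aut hS F hF T (Nat.card (normalizerIn S (Wsub W (normalizerIn S Q)))) ?_
          _ χ hχ le_rfl
        intro R hRfn hRcard α hα hαR x
        have hRS := hRfn.1
        have : Finite R := finite_of_le hRS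
        have hRbot : R ≠ ⊥ := by
          intro e
          rw [e, Subgroup.card_bot] at hRcard
          have : 0 < Nat.card (normalizerIn S Q) := Nat.card_pos
          omega
        have hcard4 : Nat.card R ≤ Nat.card (normalizerIn S R) :=
          Subgroup.card_le_of_le (le_normalizerIn hRS)
        have hcard5 : Nat.card (normalizerIn S R) ≤ Nat.card S := Subgroup.card_le_of_le inf_le_left
        have h1 := ihm _ (by omega) R hRbot hRfn rfl
        exact h1 R α (normalizerHom_of_self F le_rfl (le_normalizerIn hRS) hα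
          (map_subgroupOf_eq_of_forall_mem le_rfl (F.injective_of_mem hα) (fun x _ => hαR x))) x
      have h1 : FocN E (Wsub W (normalizerIn S Q)) T := by
        intro P φ hφ x
        obtain ⟨hφE, hPN, hφN, ψ, hψE, hψφ, hψV⟩ := hφ
        have hψF := nsys_hom_le F E hE hψE
        have hAle : P ⊔ Wsub W (normalizerIn S Q) ≤ normalizerIn S (Wsub W (normalizerIn S Q)) :=
          sup_le (hPN.trans (normalizerIn_normalizerIn_le S Q _)) (le_normalizerIn hVS)
        have hS₁N : normalizerIn S Q ≤ normalizerIn S (Wsub W (normalizerIn S Q)) :=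
          (le_normalizerIn hS₁S).trans hS₁N₂
        have hψN : ∀ a, ψ a ∈ normalizerIn S (Wsub W (normalizerIn S Q)) :=
          fun a => hS₁N (hom_mem E hψE a)
        obtain ⟨A', ψ', hψ', hform⟩ :=
          exists_transport_normalizerHom F hχ hχV le_sup_right hAle hψF hψN hψV
        obtain ⟨a, ha⟩ : ∃ a : ↥(P ⊔ Wsub W (normalizerIn S Q)),
            a = Subgroup.inclusion le_sup_left x := ⟨_, rfl⟩
        have hax : (a : Ω) = x := by rw [ha]; rfl
        obtain ⟨h2, h3⟩ := hform a
        have h4 := hV'foc A' ψ' hψ' ⟨_, h2⟩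
        rw [h3] at h4
        have h5 := hχtriv ((⟨a, hAle a.2⟩ : ↥(normalizerIn S (Wsub W (normalizerIn S Q))))⁻¹ *
          ⟨ψ a, hψN a⟩)
        rw [map_mul, map_inv] at h5
        have h6 := T.mul_mem h4 (T.inv_mem h5)
        rw [← hψφ x, ← ha, ← hax]
        have e : (a : Ω)⁻¹ * ψ a = (χ ⟨a, hAle a.2⟩)⁻¹ * χ ⟨ψ a, hψN a⟩ *
            (((a : Ω)⁻¹ * ψ a)⁻¹ * ((χ ⟨a, hAle a.2⟩)⁻¹ * χ ⟨ψ a, hψN a⟩))⁻¹ := by group
        rw [e]
        exact h6
      intro P φ hφ x
      exact hXE T h1 P φ (by rw [hE P]; exact hφ) x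
  refine (fun P φ hφ x => foc_of_aut hS F hF T 0 ?_ P φ hφ (Nat.zero_le _) x)
  intro R hRfn _ α hα hαR x
  have hRS := hRfn.1
  have : Finite R := finite_of_le hRS
  by_cases hRbot : R = ⊥
  · subst hRbot
    have h1 : x = 1 := Subtype.ext (Subgroup.mem_bot.1 x.2)
    rw [h1, map_one]
    simp
  · exact claim _ R hRbot hRfn rfl R α (normalizerHom_of_self F le_rfl (le_normalizerIn hRS) hα
      (map_subgroupOf_eq_of_forall_mem le_rfl (F.injective_of_mem hα) (fun x _ => hαR x))) x

end FocA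

end Cfsg.Agent.Helper86
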