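import Mathlib

/-!
# Letters and word length in free groups (helper86)

Elementary facts on the word norm of a free group: multiplication by a letter changes the norm by exactly one,
cancellation, a tree inequality, invariance under renaming of the generators. Mathlib-only.
-/

set_option autoImplicit false

namespace Cfsg.Agent.Helper86

open FreeGroup

section FreeWord

variable {α : Type*}

/-- A letter of the free group: a generator or the inverse of a generator. -/
def ltr (x : α) (b : Bool) : FreeGroup α := FreeGroup.mk [(x, b)]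

theorem ltr_true (x : α) : ltr x true = FreeGroup.of x := rfl

theorem ltr_inv (x : α) (b : Bool) : (ltr x b)⁻¹ = ltr x (!b) := by
  rw [ltr, inv_mk]
  rfl

theorem ltr_false (x : α) : ltr x false = (FreeGroup.of x)⁻¹ := by
  rw [← ltr_true, ltr_inv]
  rfl

theorem map_ltr {β : Type*} (f : α → β) (x : α) (b : Bool) :
    FreeGroup.map f (ltr x b) = ltr (f x) b := by
  rw [ltr, map.mk]
  rfl

variable [DecidableEq α]

theorem toWord_ltr (x : α) (b : Bool) : (ltr x b).toWord = [(x, b)] := by
  rw [ltr, toWord_mk]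
  rfl

theorem norm_ltr (x : α) (b : Bool) : norm (ltr x b) = 1 := by
  rw [FreeGroup.norm, toWord_ltr]
  rfl

theorem exists_ltr_of_norm_one (y : FreeGroup α) (h : norm y = 1) : ∃ x b, y = ltr x b := by
  rw [FreeGroup.norm] at h
  obtain ⟨a, ha⟩ := List.length_eq_one_iff.1 h
  refine ⟨a.1, a.2, ?_⟩
  rw [ltr, ← mk_toWord (x := y), ha]

theorem ltr_injective {x x' : α} {b b' : Bool} (h : ltr x b = ltr x' b') : x = x' ∧ b = b' := by
  have h1 := congrArg toWord h
  rw [toWord_ltr, toWord_ltr] at h1
  simpa using h1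

/-- Left multiplication by a letter either cancels the first letter or prepends the letter. -/
theorem toWord_ltr_mul (x : α) (b : Bool) (w : FreeGroup α) :
    w.toWord = (x, !b) :: (ltr x b * w).toWord ∨ (ltr x b * w).toWord = (x, b) :: w.toWord := by
  have h1 : (ltr x b * w).toWord = reduce ((x, b) :: w.toWord) := by
    rw [toWord_mul, toWord_ltr]
    rfl
  by_cases hr : IsReduced ((x, b) :: w.toWord)
  · right
    rw [h1, hr.reduce_eq]
  · left
    cases hw : w.toWord with
    | nil =>
      rw [hw] at hr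
      exact absurd IsReduced.singleton hr
    | cons c L =>
      have hwr : IsReduced (c :: L) := hw ▸ isReduced_toWord (x := w)
      rw [hw] at hr h1
      have hc : c = (x, !b) := by
        by_contra hne
        apply hr
        rw [isReduced_cons_cons]
        refine ⟨fun h2 => ?_, hwr⟩
        by_contra h3
        apply hne
        refine Prod.ext h2.symm ?_
        show c.2 = !b
        cases hb : b <;> cases hc2 : c.2 <;> simp_all
      subst hc
      have hL : IsReduced L := hwr.infix ⟨[(x, !b)], [], by simp⟩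
      rw [h1]
      have h4 : reduce ((x, b) :: (x, !b) :: L) = reduce L := reduce.Step.eq Red.Step.cons_not
      rw [h4, hL.reduce_eq]

theorem norm_ltr_mul (x : α) (b : Bool) (w : FreeGroup α) :
    norm (ltr x b * w) + 1 = norm w ∨ norm (ltr x b * w) = norm w + 1 := by
  rcases toWord_ltr_mul x b w with h | h
  · left
    rw [FreeGroup.norm, FreeGroup.norm, h]
    rfl
  · right
    rw [FreeGroup.norm, FreeGroup.norm, h]
    rfl

theorem norm_mul_ltr (w : FreeGroup α) (x : α) (b : Bool) :
    norm (w * ltr x b) + 1 = norm w ∨ norm (w * ltr x b) = norm w + 1 := by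
  have h := norm_ltr_mul x (!b) w⁻¹
  have e : ltr x (!b) * w⁻¹ = (w * ltr x b)⁻¹ := by rw [mul_inv_rev, ltr_inv]
  rw [e, norm_inv_eq, norm_inv_eq] at h
  exact h

/-- If a letter was appended without cancellation and the next letter cancels, the two letters are inverse. -/
theorem ltr_cancel (w : FreeGroup α) (x₁ : α) (b₁ : Bool) (x : α) (b : Bool)
    (h1 : norm (w * ltr x₁ b₁) = norm w + 1) (h2 : norm (w * ltr x₁ b₁ * ltr x b) = norm w) :
    x = x₁ ∧ b = !b₁ := by
  have e1 : ltr x₁ (!b₁) * w⁻¹ = (w * ltr x₁ b₁)⁻¹ := by rw [mul_inv_rev, ltr_inv]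
  have e2 : ltr x (!b) * (ltr x₁ (!b₁) * w⁻¹) = (w * ltr x₁ b₁ * ltr x b)⁻¹ := by
    rw [mul_inv_rev, ltr_inv, e1]
  have hv : (ltr x₁ (!b₁) * w⁻¹).toWord = (x₁, !b₁) :: (w⁻¹).toWord := by
    rcases toWord_ltr_mul x₁ (!b₁) w⁻¹ with h | h
    · exfalso
      have h3 : norm (ltr x₁ (!b₁) * w⁻¹) + 1 = norm w⁻¹ := by
        rw [FreeGroup.norm, FreeGroup.norm, h]
        rfl
      rw [e1, norm_inv_eq, norm_inv_eq, h1] at h3
      omega
    · exact h
  rcases toWord_ltr_mul x (!b) (ltr x₁ (!b₁) * w⁻¹) with h | h
  · rw [hv] at h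
    have h3 := (List.cons.inj h).1
    have h4 := (Prod.mk.inj h3).1
    have h5 := (Prod.mk.inj h3).2
    refine ⟨h4.symm, ?_⟩
    rw [Bool.not_not] at h5
    exact h5.symm
  · exfalso
    have h3 : norm (ltr x (!b) * (ltr x₁ (!b₁) * w⁻¹)) = norm (ltr x₁ (!b₁) * w⁻¹) + 1 := by
      rw [FreeGroup.norm, FreeGroup.norm, h]
      rfl
    rw [e2, e1, norm_inv_eq, norm_inv_eq, h1, h2] at h3
    omega

/-- The tree inequality: moving one step from `1` towards `c` decreases the distance to every point, measured
by the larger of the distances from `1` and from `c`. -/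
theorem norm_tree (x : α) (b : Bool) (c z : FreeGroup α)
    (hc : norm ((ltr x b)⁻¹ * c) + 1 = norm c) (hc2 : 2 ≤ norm c) :
    norm ((ltr x b)⁻¹ * z) + 1 ≤ max (norm z) (norm (c⁻¹ * z)) := by
  rw [ltr_inv] at hc ⊢
  have hC : c.toWord = (x, b) :: (ltr x (!b) * c).toWord := by
    rcases toWord_ltr_mul x (!b) c with h | h
    · rw [h]
      simp
    · exfalso
      have h3 : norm (ltr x (!b) * c) = norm c + 1 := by
        rw [FreeGroup.norm, FreeGroup.norm, h]
        rfl
      omega
  rcases toWord_ltr_mul x (!b) z with h | h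
  · have h3 : norm (ltr x (!b) * z) + 1 = norm z := by
      rw [FreeGroup.norm, FreeGroup.norm, h]
      rfl
    rw [h3]
    exact le_max_left _ _
  · have e : c⁻¹ * z = (ltr x (!b) * c)⁻¹ * (ltr x (!b) * z) := by group
    have h1 : IsReduced (invRev (ltr x (!b) * c).toWord ++ [(x, !b)]) := by
      have h2 : invRev (ltr x (!b) * c).toWord ++ [(x, !b)] = (c⁻¹).toWord := by
        rw [toWord_inv, hC, invRev_cons]
        rfl
      rw [h2]
      exact isReduced_toWord
    have h2 : IsReduced ([(x, !b)] ++ z.toWord) := by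
      have h3 : [(x, !b)] ++ z.toWord = (ltr x (!b) * z).toWord := by rw [h]; rfl
      rw [h3]
      exact isReduced_toWord
    have h3 := IsReduced.append_overlap h1 h2 (by simp)
    have h4 : (c⁻¹ * z).toWord = invRev (ltr x (!b) * c).toWord ++ [(x, !b)] ++ z.toWord := by
      rw [e, toWord_mul, toWord_inv, h]
      have h5 : invRev (ltr x (!b) * c).toWord ++ (x, !b) :: z.toWord =
          invRev (ltr x (!b) * c).toWord ++ [(x, !b)] ++ z.toWord := by simp
      rw [h5, h3.reduce_eq]
    have h6 : norm (c⁻¹ * z) = norm (ltr x (!b) * c) + 1 + norm z := by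
      rw [FreeGroup.norm, h4]
      simp [FreeGroup.norm]
      omega
    have h7 : norm (ltr x (!b) * z) = norm z + 1 := by
      rw [FreeGroup.norm, FreeGroup.norm, h]
      rfl
    have h8 : norm ((ltr x (!b)) * z) + 1 ≤ norm (c⁻¹ * z) := by omega
    exact le_trans h8 (le_max_right _ _)

theorem norm_ltr_mul_ltr_same (x x' : α) (b : Bool) : norm (ltr x b * ltr x' b) = 2 := by
  have h : (ltr x b * ltr x' b).toWord = [(x, b), (x', b)] := by
    rw [ltr, ltr, mul_mk, toWord_mk]
    apply IsReduced.reduce_eq
    show IsReduced ((x, b) :: (x', b) :: [])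
    rw [isReduced_cons_cons]
    exact ⟨fun _ => rfl, IsReduced.singleton⟩
  rw [FreeGroup.norm, h]
  rfl

omit [DecidableEq α] in
theorem norm_map_le {β : Type*} [DecidableEq α] [DecidableEq β] (f : α → β) (w : FreeGroup α) :
    norm (FreeGroup.map f w) ≤ norm w := by
  have h : FreeGroup.map f w = mk (w.toWord.map fun x => (f x.1, x.2)) := by
    conv_lhs => rw [← mk_toWord (x := w)]
    rw [map.mk]
  rw [h]
  refine le_trans norm_mk_le ?_
  simp [FreeGroup.norm]

omit [DecidableEq α] in
theorem norm_map_equiv {β : Type*} [DecidableEq α] [DecidableEq β] (e : α ≃ β) (w : FreeGroup α) :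
    norm (FreeGroup.map e w) = norm w := by
  refine le_antisymm (norm_map_le _ _) ?_
  have h := norm_map_le e.symm (FreeGroup.map e w)
  have h2 : FreeGroup.map e.symm (FreeGroup.map e w) = w := by
    rw [map.comp]
    have h3 : (⇑e.symm ∘ ⇑e) = id := by
      funext a
      simp
    rw [h3, map.id]
  rwa [h2] at h

end FreeWord

end Cfsg.Agent.Helper86
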