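import Cfsg.Agent.Helper86.QuadCenter

/-!
# Generation of the fusion of a constrained group under a quadratic hypothesis (helper86)

Let `W` be a characteristic `p`-functor satisfying the quadratic hypothesis `WQuad`, and `G` a finite group with
`C_G(O_p(G)) ≤ O_p(G)` and Sylow `p`-subgroup `P`. Then the conjugation maps between subgroups of `P` induced by
elements of `G` are composites of such maps induced by elements centralizing the `p`-th powers of the elements of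
`Z(P)` and by elements of `N_G(W(P))` (`gen_of_quad`, stated for a predicate `Good D g` on pairs closed under
composition).
-/

set_option autoImplicit false

namespace Cfsg.Agent.Helper86

open Cfsg

open scoped commutatorElement Pointwise

universe u

/-- A `p`-subgroup of a subgroup `H` containing the Sylow `p`-subgroup `P` is conjugate into `P` by an element of `H`. -/
theorem exists_conj_into_sylow_of_le {G : Type*} [Group G] [Finite G] {p : ℕ} [Fact p.Prime] (P : Sylow p G)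
    {H D : Subgroup G} (hPH : (P : Subgroup G) ≤ H) (hDH : D ≤ H) (hD : IsPGroup p D) :
    ∃ k ∈ H, ∀ d ∈ D, k * d * k⁻¹ ∈ (P : Subgroup G) := by
  have hD' : IsPGroup p (D.subgroupOf H) := hD.comap_subtype
  obtain ⟨R, hR⟩ := hD'.exists_le_sylow
  obtain ⟨k, hk⟩ := MulAction.exists_smul_eq H R (P.subtype hPH)
  refine ⟨k, k.2, fun d hd => ?_⟩
  have h1 : (⟨d, hDH hd⟩ : H) ∈ (R : Subgroup H) := hR (Subgroup.mem_subgroupOf.2 hd)
  have h2 : MulAut.conj k • (⟨d, hDH hd⟩ : H) ∈ MulAut.conj k • (R : Subgroup H) :=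
    Subgroup.smul_mem_pointwise_smul _ _ _ h1
  have h3 : ((k • R : Sylow p H) : Subgroup H) = MulAut.conj k • (R : Subgroup H) := rfl
  rw [← h3, hk, Sylow.coe_subtype, Subgroup.mem_subgroupOf] at h2
  exact h2

section GenQuad

variable {p : ℕ} [Fact p.Prime] (W : ∀ (Q : Type u) [Group Q], Subgroup Q)

/-- **Generation of the fusion of a constrained group** by the centralizer of the `p`-th powers of `Z(P)` and the
normalizer of `W(P)`. -/
theorem gen_of_quad (hW2 : WIso p W) (hq : WQuad p W) :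
    ∀ (n : ℕ) (G : Type u) [Group G] [Finite G], Nat.card G = n →
      Subgroup.centralizer ((pCore p G : Subgroup G) : Set G) ≤ pCore p G →
      ∀ (P : Sylow p G) (Good : Subgroup G → G → Prop),
        (∀ (D : Subgroup G) (g h : G), D ≤ (P : Subgroup G) → (∀ d ∈ D, g * d * g⁻¹ ∈ (P : Subgroup G)) →
          (∀ d ∈ D, h * (g * d * g⁻¹) * h⁻¹ ∈ (P : Subgroup G)) → Good D g →
          Good (D.map (MulAut.conj g).toMonoidHom) h → Good D (h * g)) →
        (∀ (D : Subgroup G) (g : G), D ≤ (P : Subgroup G) → (∀ d ∈ D, g * d * g⁻¹ ∈ (P : Subgroup G)) →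
          (∀ y ∈ (P : Subgroup G), (∀ s ∈ (P : Subgroup G), s * y = y * s) → g * y ^ p = y ^ p * g) →
          Good D g) →
        (∀ (D : Subgroup G) (g : G), D ≤ (P : Subgroup G) → (∀ d ∈ D, g * d * g⁻¹ ∈ (P : Subgroup G)) →
          g ∈ Subgroup.normalizer ((Wsub W (P : Subgroup G) : Subgroup G) : Set G) → Good D g) →
        ∀ (D : Subgroup G) (x : G), D ≤ (P : Subgroup G) → (∀ d ∈ D, x * d * x⁻¹ ∈ (P : Subgroup G)) →
          Good D x := by
  intro n
  induction n using Nat.strong_induction_on with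
  | _ n ih =>
  intro G _ _ hn hcR P Good hcomp hcent hnorm D x hDP hxD
  by_cases hWn : (Wsub W (P : Subgroup G)).Normal
  · exact hnorm D x hDP hxD (by rw [Subgroup.normalizer_eq_top]; exact Subgroup.mem_top x)
  obtain ⟨g₀, hg₀P, hg₀c, hg₀q⟩ := hq G P hWn
  have hcn : (pCore p G).Normal := Helper49.pCore_normal' p G
  have hcP : pCore p G ≤ (P : Subgroup G) := Helper49.pCore_le_sylow P
  -- a quadratic element `g ∉ O_p(G)` with `g ^ p ∈ O_p(G)`
  have hex : ∃ k : ℕ, g₀ ^ (p ^ k) ∈ pCore p G := by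
    obtain ⟨k, hk⟩ := P.2 ⟨g₀, hg₀P⟩
    refine ⟨k, ?_⟩
    have h1 : g₀ ^ (p ^ k) = 1 := congrArg Subtype.val hk
    rw [h1]
    exact Subgroup.one_mem _
  classical
  obtain ⟨k, hk, hmin⟩ : ∃ k, g₀ ^ (p ^ k) ∈ pCore p G ∧ ∀ j < k, g₀ ^ (p ^ j) ∉ pCore p G :=
    ⟨Nat.find hex, Nat.find_spec hex, fun j hj => Nat.find_min hex hj⟩
  have hk0 : k ≠ 0 := by
    intro h
    rw [h, pow_zero, pow_one] at hk
    exact hg₀c hk
  obtain ⟨k', hk'⟩ := Nat.exists_eq_succ_of_ne_zero hk0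
  obtain ⟨g, hg⟩ : ∃ g, g = g₀ ^ (p ^ k') := ⟨_, rfl⟩
  have hgc : g ∉ pCore p G := by
    rw [hg]
    exact hmin k' (by omega)
  have hgp : g ^ p ∈ pCore p G := by
    rw [hg, ← pow_mul, ← pow_succ, ← Nat.succ_eq_add_one, ← hk']
    exact hk
  have hgP : g ∈ (P : Subgroup G) := by
    rw [hg]
    exact Subgroup.pow_mem _ hg₀P _
  have hzp : Subgroup.zpowers g ≤ Subgroup.zpowers g₀ := by
    rw [Subgroup.zpowers_le, hg]
    exact Subgroup.pow_mem _ (Subgroup.mem_zpowers g₀) _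
  have hgq : ⁅⁅Subgroup.center ↥(Cfsg.pCore p G) |>.map (Cfsg.pCore p G).subtype, Subgroup.zpowers g⁆,
      Subgroup.zpowers g⁆ = ⊥ := by
    rw [eq_bot_iff, ← hg₀q]
    exact Subgroup.commutator_mono (Subgroup.commutator_mono le_rfl hzp) hzp
  -- the subgroup `V = Z(O_p(G))`
  have hVmem : ∀ v : G, v ∈ (Subgroup.center ↥(Cfsg.pCore p G)).map (Cfsg.pCore p G).subtype ↔
      v ∈ pCore p G ∧ ∀ c ∈ pCore p G, c * v = v * c := by
    intro v
    constructor
    · rintro ⟨c, hc, rfl⟩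
      refine ⟨c.2, fun d hd => ?_⟩
      exact congrArg Subtype.val (Subgroup.mem_center_iff.1 hc ⟨d, hd⟩)
    · rintro ⟨hv, hvc⟩
      exact ⟨⟨v, hv⟩, Subgroup.mem_center_iff.2 (fun d => Subtype.ext (hvc d d.2)), rfl⟩
  have hVconj : ∀ v ∈ (Subgroup.center ↥(Cfsg.pCore p G)).map (Cfsg.pCore p G).subtype, ∀ a : G,
      a * v * a⁻¹ ∈ (Subgroup.center ↥(Cfsg.pCore p G)).map (Cfsg.pCore p G).subtype := by
    intro v hv a
    obtain ⟨hv1, hv2⟩ := (hVmem v).1 hv
    refine (hVmem _).2 ⟨hcn.conj_mem v hv1 a, fun c hc => ?_⟩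
    have h1 : a⁻¹ * c * a ∈ pCore p G := by
      have := hcn.conj_mem c hc a⁻¹
      rwa [inv_inv] at this
    have h2 := hv2 _ h1
    calc c * (a * v * a⁻¹) = a * ((a⁻¹ * c * a) * v) * a⁻¹ := by group
      _ = a * (v * (a⁻¹ * c * a)) * a⁻¹ := by rw [h2]
      _ = a * v * a⁻¹ * c := by group
  have hVcomm : ∀ v ∈ (Subgroup.center ↥(Cfsg.pCore p G)).map (Cfsg.pCore p G).subtype,
      ∀ w ∈ (Subgroup.center ↥(Cfsg.pCore p G)).map (Cfsg.pCore p G).subtype, v * w = w * v := by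
    intro v hv w hw
    exact ((hVmem w).1 hw).2 v ((hVmem v).1 hv).1
  -- every conjugate of `g` centralizes the `p`-th powers of the central elements of `P`
  have key : ∀ y ∈ (P : Subgroup G), (∀ s ∈ (P : Subgroup G), s * y = y * s) →
      ∀ a : G, (a * g * a⁻¹) * y ^ p = y ^ p * (a * g * a⁻¹) := by
    intro y hyP hyc
    have hyV : y ∈ (Subgroup.center ↥(Cfsg.pCore p G)).map (Cfsg.pCore p G).subtype := by
      have h1 : ∀ c ∈ pCore p G, c * y = y * c := fun c hc => hyc c (hcP hc)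
      refine (hVmem y).2 ⟨hcR ?_, h1⟩
      rw [Subgroup.mem_centralizer_iff]
      intro c hc
      exact h1 c hc
    intro a
    have hvV : a⁻¹ * y * a ∈ (Subgroup.center ↥(Cfsg.pCore p G)).map (Cfsg.pCore p G).subtype := by
      have := hVconj y hyV a⁻¹
      rwa [inv_inv] at this
    have hcg : ⁅a⁻¹ * y * a, g⁆ * g = g * ⁅a⁻¹ * y * a, g⁆ := by
      have h1 : ⁅⁅a⁻¹ * y * a, g⁆, g⁆ ∈ ⁅⁅Subgroup.center ↥(Cfsg.pCore p G) |>.map
          (Cfsg.pCore p G).subtype, Subgroup.zpowers g⁆, Subgroup.zpowers g⁆ :=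
        Subgroup.commutator_mem_commutator
          (Subgroup.commutator_mem_commutator hvV (Subgroup.mem_zpowers g)) (Subgroup.mem_zpowers g)
      rw [hgq, Subgroup.mem_bot] at h1
      exact commutatorElement_eq_one_iff_mul_comm.1 h1
    have hdV : g * (a⁻¹ * y * a) * g⁻¹ * (a⁻¹ * y * a)⁻¹ ∈
        (Subgroup.center ↥(Cfsg.pCore p G)).map (Cfsg.pCore p G).subtype :=
      Subgroup.mul_mem _ (hVconj _ hvV g) (Subgroup.inv_mem _ hvV)
    have hdg : Commute g (g * (a⁻¹ * y * a) * g⁻¹ * (a⁻¹ * y * a)⁻¹) := by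
      have e1 : g * (a⁻¹ * y * a) * g⁻¹ * (a⁻¹ * y * a)⁻¹ = ⁅a⁻¹ * y * a, g⁆⁻¹ := by
        rw [commutatorElement_def]
        group
      rw [e1]
      show g * ⁅a⁻¹ * y * a, g⁆⁻¹ = ⁅a⁻¹ * y * a, g⁆⁻¹ * g
      calc g * ⁅a⁻¹ * y * a, g⁆⁻¹ = ⁅a⁻¹ * y * a, g⁆⁻¹ * (⁅a⁻¹ * y * a, g⁆ * g) * ⁅a⁻¹ * y * a, g⁆⁻¹ := by
            group
        _ = ⁅a⁻¹ * y * a, g⁆⁻¹ * (g * ⁅a⁻¹ * y * a, g⁆) * ⁅a⁻¹ * y * a, g⁆⁻¹ := by rw [hcg]
        _ = ⁅a⁻¹ * y * a, g⁆⁻¹ * g := by group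
    have h1 := Helper49.conj_pow_eq_pow_mul (y := g) (u := a⁻¹ * y * a)
      (d := g * (a⁻¹ * y * a) * g⁻¹ * (a⁻¹ * y * a)⁻¹) (by group) hdg p
    have h2 : g ^ p * (a⁻¹ * y * a) = (a⁻¹ * y * a) * g ^ p := by
      have h3 : a * g ^ p * a⁻¹ ∈ (P : Subgroup G) := hcP (hcn.conj_mem _ hgp a)
      have h4 := hyc _ h3
      calc g ^ p * (a⁻¹ * y * a) = a⁻¹ * ((a * g ^ p * a⁻¹) * y) * a := by group
        _ = a⁻¹ * (y * (a * g ^ p * a⁻¹)) * a := by rw [h4]
        _ = (a⁻¹ * y * a) * g ^ p := by group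
    have h5 : (g * (a⁻¹ * y * a) * g⁻¹ * (a⁻¹ * y * a)⁻¹) ^ p = 1 := by
      have h6 : g ^ p * (a⁻¹ * y * a) * (g ^ p)⁻¹ = a⁻¹ * y * a := by
        rw [h2]
        group
      rw [h6] at h1
      exact (mul_eq_right.1 h1.symm)
    have h7 : g * (a⁻¹ * y * a) ^ p * g⁻¹ = (a⁻¹ * y * a) ^ p := by
      have e2 : g * (a⁻¹ * y * a) * g⁻¹ =
          (g * (a⁻¹ * y * a) * g⁻¹ * (a⁻¹ * y * a)⁻¹) * (a⁻¹ * y * a) := by group
      have hcv : Commute (g * (a⁻¹ * y * a) * g⁻¹ * (a⁻¹ * y * a)⁻¹) (a⁻¹ * y * a) :=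
        hVcomm _ hdV _ hvV
      rw [← conj_pow, e2, hcv.mul_pow, h5, one_mul]
    have e3 : (a⁻¹ * y * a) ^ p = a⁻¹ * y ^ p * a := by
      have := conj_pow (a := a⁻¹) (b := y) (i := p)
      rwa [inv_inv] at this
    rw [e3] at h7
    calc a * g * a⁻¹ * y ^ p = a * (g * (a⁻¹ * y ^ p * a) * g⁻¹) * (g * a⁻¹) := by group
      _ = a * (a⁻¹ * y ^ p * a) * (g * a⁻¹) := by rw [h7]
      _ = y ^ p * (a * g * a⁻¹) := by group
  -- the normal closure of `g` centralizes these `p`-th powers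
  have hN : ∀ y ∈ (P : Subgroup G), (∀ s ∈ (P : Subgroup G), s * y = y * s) →
      Subgroup.normalClosure ({g} : Set G) ≤ Subgroup.centralizer ({y ^ p} : Set G) := by
    intro y hyP hyc
    refine (Subgroup.closure_le _).2 ?_
    intro e he
    obtain ⟨b, hb, hbe⟩ := Group.mem_conjugatesOfSet_iff.1 he
    rw [Set.mem_singleton_iff] at hb
    subst hb
    obtain ⟨c, rfl⟩ := isConj_iff.1 hbe
    show c * b * c⁻¹ ∈ Subgroup.centralizer ({y ^ p} : Set G)
    rw [Subgroup.mem_centralizer_iff]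
    intro h hh
    rw [Set.mem_singleton_iff] at hh
    rw [hh]
    exact (key y hyP hyc c).symm
  have hgN : g ∈ Subgroup.normalClosure ({g} : Set G) :=
    Subgroup.subset_normalClosure (Set.mem_singleton g)
  -- Frattini argument
  have hP1 : IsPGroup p ↥(((P : Subgroup G) ⊓ Subgroup.normalClosure ({g} : Set G)).subgroupOf
      (Subgroup.normalClosure ({g} : Set G))) := (P.2.to_le inf_le_left).comap_subtype
  have hP2 : ¬ p ∣ (((P : Subgroup G) ⊓ Subgroup.normalClosure ({g} : Set G)).subgroupOf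
      (Subgroup.normalClosure ({g} : Set G))).index :=
    Helper32.not_dvd_relIndex_sylow_inf_normal P (Subgroup.normalClosure ({g} : Set G))
  have hfrat := Sylow.normalizer_sup_eq_top (hP1.toSylow hP2)
  rw [IsPGroup.toSylow_coe, Subgroup.subgroupOf_map_subtype, inf_assoc, inf_idem] at hfrat
  have hPK : (P : Subgroup G) ≤ Subgroup.normalizer
      (((P : Subgroup G) ⊓ Subgroup.normalClosure ({g} : Set G) : Subgroup G) : Set G) := by
    intro u hu
    apply Helper84.mem_normalizer_of_forall_conj_mem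
    intro h hh
    exact ⟨Subgroup.mul_mem _ (Subgroup.mul_mem _ hu hh.1) (Subgroup.inv_mem _ hu),
      Subgroup.normalClosure_normal.conj_mem h hh.2 u⟩
  have hKne : Subgroup.normalizer
      (((P : Subgroup G) ⊓ Subgroup.normalClosure ({g} : Set G) : Subgroup G) : Set G) ≠ ⊤ := by
    intro h
    have hnorm : ((P : Subgroup G) ⊓ Subgroup.normalClosure ({g} : Set G)).Normal :=
      Subgroup.normalizer_eq_top_iff.1 h
    exact hgc (Helper49.le_pCore hnorm (P.2.to_le inf_le_left) ⟨hgP, hgN⟩)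
  have hKlt : Nat.card ↥(Subgroup.normalizer
      (((P : Subgroup G) ⊓ Subgroup.normalClosure ({g} : Set G) : Subgroup G) : Set G)) < n := by
    by_contra hcon
    rw [← hn] at hcon
    exact hKne (Subgroup.eq_top_of_le_card _ (not_lt.1 hcon))
  -- the induction hypothesis for `K = N_G(P ∩ N)`
  obtain ⟨K, hK⟩ : ∃ K : Subgroup G, K = Subgroup.normalizer
      (((P : Subgroup G) ⊓ Subgroup.normalClosure ({g} : Set G) : Subgroup G) : Set G) := ⟨_, rfl⟩
  rw [← hK] at hPK hKne hKlt hfrat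
  have hcK : pCore p G ≤ K := hcP.trans hPK
  have hcRK : Subgroup.centralizer ((pCore p ↥K : Subgroup ↥K) : Set ↥K) ≤ pCore p ↥K := by
    intro c hc
    have h1 : (pCore p G).subgroupOf K ≤ pCore p ↥K :=
      Helper49.subgroupOf_le_pCore hcK (by rw [Subgroup.normalizer_eq_top]; exact le_top)
        (Helper49.pCore_isPGroup p G)
    apply h1
    rw [Subgroup.mem_subgroupOf]
    apply hcR
    rw [Subgroup.mem_centralizer_iff]
    intro d hd
    have h2 := Subgroup.mem_centralizer_iff.1 hc ⟨d, hcK hd⟩ (h1 (Subgroup.mem_subgroupOf.2 hd))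
    exact congrArg Subtype.val h2
  -- decompose `x = k₀ * l₀` with `k₀ ∈ K` and `l₀` in the normal closure
  have hxKL : x ∈ K ⊔ Subgroup.normalClosure ({g} : Set G) := by
    rw [hfrat]
    exact Subgroup.mem_top x
  obtain ⟨k₀, hk₀, l₀, hl₀, hx⟩ := Subgroup.mem_sup_of_normal_right.1 hxKL
  have hLPc : ∀ y ∈ (P : Subgroup G), (∀ s ∈ (P : Subgroup G), s * y = y * s) →
      Subgroup.normalClosure ({g} : Set G) ⊔ (P : Subgroup G) ≤
        Subgroup.centralizer ({y ^ p} : Set G) := by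
    intro y hyP hyc
    refine sup_le (hN y hyP hyc) ?_
    intro s hs
    rw [Subgroup.mem_centralizer_iff]
    intro h hh
    rw [Set.mem_singleton_iff] at hh
    rw [hh]
    have h1 : Commute s y := hyc s hs
    exact (h1.pow_right p).eq.symm
  obtain ⟨D', hD'⟩ : ∃ D' : Subgroup G, D' = D.map (MulAut.conj l₀).toMonoidHom := ⟨_, rfl⟩
  have hD'K : D' ≤ K ⊓ (Subgroup.normalClosure ({g} : Set G) ⊔ (P : Subgroup G)) := by
    rw [hD']
    rintro _ ⟨d, hd, rfl⟩
    constructor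
    · have h1 : x * d * x⁻¹ ∈ K := hPK (hxD d hd)
      have e : (MulAut.conj l₀).toMonoidHom d = k₀⁻¹ * (x * d * x⁻¹) * k₀ := by
        rw [← hx]
        show l₀ * d * l₀⁻¹ = _
        group
      rw [e]
      exact K.mul_mem (K.mul_mem (K.inv_mem hk₀) h1) hk₀
    · show l₀ * d * l₀⁻¹ ∈ _
      exact Subgroup.mul_mem _ (Subgroup.mul_mem _ (Subgroup.mem_sup_left hl₀)
        (Subgroup.mem_sup_right (hDP hd))) (Subgroup.inv_mem _ (Subgroup.mem_sup_left hl₀))
  have hD'p : IsPGroup p D' := by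
    rw [hD']
    exact (P.2.to_le hDP).map _
  obtain ⟨k, hkH, hkD⟩ := exists_conj_into_sylow_of_le P (le_inf hPK le_sup_right) hD'K hD'p
  -- `x = (k₀ * k⁻¹) * (k * l₀)`
  have hl : ∀ d ∈ D, (k * l₀) * d * (k * l₀)⁻¹ ∈ (P : Subgroup G) := by
    intro d hd
    have h1 := hkD (l₀ * d * l₀⁻¹) (by rw [hD']; exact ⟨d, hd, rfl⟩)
    have e : (k * l₀) * d * (k * l₀)⁻¹ = k * (l₀ * d * l₀⁻¹) * k⁻¹ := by group
    rw [e]
    exact h1
  have hGl : Good D (k * l₀) := by
    apply hcent D (k * l₀) hDP hl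
    intro y hyP hyc
    have h1 : k * l₀ ∈ Subgroup.centralizer ({y ^ p} : Set G) :=
      Subgroup.mul_mem _ (hLPc y hyP hyc hkH.2) (hLPc y hyP hyc (Subgroup.mem_sup_left hl₀))
    exact (Subgroup.mem_centralizer_iff.1 h1 (y ^ p) (Set.mem_singleton _)).symm
  have hmK : k₀ * k⁻¹ ∈ K := K.mul_mem hk₀ (K.inv_mem hkH.1)
  have ex : (k₀ * k⁻¹) * (k * l₀) = x := by
    rw [← hx]
    group
  have hD₁P : D.map (MulAut.conj (k * l₀)).toMonoidHom ≤ (P : Subgroup G) := by
    rintro _ ⟨d, hd, rfl⟩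
    exact hl d hd
  have hm : ∀ d ∈ D, (k₀ * k⁻¹) * ((k * l₀) * d * (k * l₀)⁻¹) * (k₀ * k⁻¹)⁻¹ ∈ (P : Subgroup G) := by
    intro d hd
    have e : (k₀ * k⁻¹) * ((k * l₀) * d * (k * l₀)⁻¹) * (k₀ * k⁻¹)⁻¹ =
        ((k₀ * k⁻¹) * (k * l₀)) * d * ((k₀ * k⁻¹) * (k * l₀))⁻¹ := by group
    rw [e, ex]
    exact hxD d hd
  have hGm : Good (D.map (MulAut.conj (k * l₀)).toMonoidHom) (k₀ * k⁻¹) := by
    have hres := ih (Nat.card ↥K) hKlt ↥K rfl hcRK (P.subtype hPK)
      (fun D' g' => Good (D'.map K.subtype) (g' : G)) ?_ ?_ ?_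
      ((D.map (MulAut.conj (k * l₀)).toMonoidHom).subgroupOf K) ⟨k₀ * k⁻¹, hmK⟩ ?_ ?_
    · have e : ((D.map (MulAut.conj (k * l₀)).toMonoidHom).subgroupOf K).map K.subtype =
          D.map (MulAut.conj (k * l₀)).toMonoidHom := by
        rw [Subgroup.subgroupOf_map_subtype]
        exact inf_of_le_left (hD₁P.trans hPK)
      have hres' : Good (((D.map (MulAut.conj (k * l₀)).toMonoidHom).subgroupOf K).map K.subtype)
          (k₀ * k⁻¹) := hres
      rw [e] at hres'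
      exact hres'
    · intro D₂ g' h' hD₂P hg' hh' h1 h2
      have hD₂P' : D₂.map K.subtype ≤ (P : Subgroup G) := by
        rintro _ ⟨d, hd, rfl⟩
        exact Subgroup.mem_subgroupOf.1 (hD₂P hd)
      have hg'' : ∀ d ∈ D₂.map K.subtype, (g' : G) * d * (g' : G)⁻¹ ∈ (P : Subgroup G) := by
        rintro _ ⟨d, hd, rfl⟩
        exact Subgroup.mem_subgroupOf.1 (hg' d hd)
      have hh'' : ∀ d ∈ D₂.map K.subtype,
          (h' : G) * ((g' : G) * d * (g' : G)⁻¹) * (h' : G)⁻¹ ∈ (P : Subgroup G) := by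
        rintro _ ⟨d, hd, rfl⟩
        exact Subgroup.mem_subgroupOf.1 (hh' d hd)
      have ef : K.subtype.comp (MulAut.conj g').toMonoidHom =
          (MulAut.conj (g' : G)).toMonoidHom.comp K.subtype := MonoidHom.ext (fun _ => rfl)
      have e : (D₂.map (MulAut.conj g').toMonoidHom).map K.subtype =
          (D₂.map K.subtype).map (MulAut.conj (g' : G)).toMonoidHom := by
        rw [Subgroup.map_map, Subgroup.map_map, ef]
      have h2' : Good ((D₂.map K.subtype).map (MulAut.conj (g' : G)).toMonoidHom) (h' : G) := by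
        rw [← e]
        exact h2
      exact hcomp (D₂.map K.subtype) (g' : G) (h' : G) hD₂P' hg'' hh'' h1 h2'
    · intro D₂ g' hD₂P hg' hc'
      have hD₂P' : D₂.map K.subtype ≤ (P : Subgroup G) := by
        rintro _ ⟨d, hd, rfl⟩
        exact Subgroup.mem_subgroupOf.1 (hD₂P hd)
      have hg'' : ∀ d ∈ D₂.map K.subtype, (g' : G) * d * (g' : G)⁻¹ ∈ (P : Subgroup G) := by
        rintro _ ⟨d, hd, rfl⟩
        exact Subgroup.mem_subgroupOf.1 (hg' d hd)
      apply hcent (D₂.map K.subtype) (g' : G) hD₂P' hg''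
      intro y hyP hyc
      have h1 := hc' ⟨y, hPK hyP⟩ (Subgroup.mem_subgroupOf.2 hyP)
        (fun s hs => Subtype.ext (hyc s (Subgroup.mem_subgroupOf.1 hs)))
      exact congrArg Subtype.val h1
    · intro D₂ g' hD₂P hg' hm'
      have hD₂P' : D₂.map K.subtype ≤ (P : Subgroup G) := by
        rintro _ ⟨d, hd, rfl⟩
        exact Subgroup.mem_subgroupOf.1 (hD₂P hd)
      have hg'' : ∀ d ∈ D₂.map K.subtype, (g' : G) * d * (g' : G)⁻¹ ∈ (P : Subgroup G) := by
        rintro _ ⟨d, hd, rfl⟩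
        exact Subgroup.mem_subgroupOf.1 (hg' d hd)
      apply hnorm (D₂.map K.subtype) (g' : G) hD₂P' hg''
      have hPKp : IsPGroup p ↥((P.subtype hPK : Sylow p ↥K) : Subgroup ↥K) := (P.subtype hPK).2
      obtain ⟨hWe1, hWe2⟩ := Wsub_equiv W hW2 (S := ((P.subtype hPK : Sylow p ↥K) : Subgroup ↥K))
        (T := (P : Subgroup G)) hPKp (Subgroup.subgroupOfEquivOfLe hPK)
      apply Helper84.mem_normalizer_of_forall_conj_mem
      intro w hw
      obtain ⟨x', hx', hxW, hxw⟩ := hWe2 w hw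
      have h1 : g' * x' * g'⁻¹ ∈ Wsub W ((P.subtype hPK : Sylow p ↥K) : Subgroup ↥K) :=
        (Subgroup.mem_normalizer_iff.1 hm' x').1 hxW
      have h2 := hWe1 _ (Wsub_le W _ h1) h1
      have e1 : (x' : G) = w := hxw
      rw [← e1]
      exact h2
    · intro d hd
      show (d : G) ∈ (P : Subgroup G)
      exact hD₁P (Subgroup.mem_subgroupOf.1 hd)
    · intro d hd
      show (k₀ * k⁻¹) * (d : G) * (k₀ * k⁻¹)⁻¹ ∈ (P : Subgroup G)
      obtain ⟨d₀, hd₀, hd₀e⟩ := Subgroup.mem_subgroupOf.1 hd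
      rw [← hd₀e]
      exact hm d₀ hd₀
  have hfin := hcomp D (k * l₀) (k₀ * k⁻¹) hDP hl hm hGl hGm
  rw [ex] at hfin
  exact hfin

end GenQuad

end Cfsg.Agent.Helper86
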