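import Cfsg.Agent.Helper86.J2FData

/-!
# The 2-local structure of the Hall-Janko group on 100 points: table checks (seat helper86)
-/

set_option autoImplicit false

namespace Cfsg.Agent.Helper86

open Cfsg.Agent.Helper57

set_option maxRecDepth 100000 in
theorem jf_gc_invol : ∀ (j : Fin 8) (x : Fin 100), jfGcT j (jfGcT j x) = x := by decide +kernel

set_option maxRecDepth 100000 in
theorem jf_gc_word : ∀ (j : Fin 8) (x : Fin 100),
    pcWordAct j2GT0 j2GI0 (jfGcW j) x = jfGcT j x := by decide +kernel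

set_option maxRecDepth 100000 in
theorem jf_nf_zero : ∀ x : Fin 100, jfNfT 0 x = x := by decide +kernel

set_option maxRecDepth 100000 in
theorem jf_nf_tree : ∀ e : Fin 128, e ≠ 0 → (jfNfPar e).val < e.val ∧
    ∀ x : Fin 100, jfNfT e x = jfAT (jfNfLt e) (jfNfT (jfNfPar e) x) := by decide +kernel

set_option maxRecDepth 100000 in
theorem jf_q_tree : ∀ e : Fin 128, e.val < 32 → e ≠ 0 →
    (jfNfLt e).val < 5 ∧ (jfNfPar e).val < 32 := by decide +kernel

set_option maxRecDepth 100000 in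
theorem jf_t_zero : ∀ x : Fin 100, jfTT 0 x = x := by decide +kernel

set_option maxRecDepth 100000 in
theorem jf_t_tree : ∀ i : Fin 15, i ≠ 0 → (jfTPar i).val < i.val ∧
    ∀ x : Fin 100, jfTT i x = jfGcT (jfTLt i) (jfTT (jfTPar i) x) := by decide +kernel

set_option maxRecDepth 100000 in
theorem jf_w_zero : ∀ x : Fin 100, jfWT 0 x = x := by decide +kernel

set_option maxRecDepth 100000 in
theorem jf_mul_base : ∀ (j : Fin 7) (e : Fin 128) (b : Fin 4),
    jfAT j (jfNfT e (jfBase b)) = jfNfT (jfMul j e) (jfBase b) := by decide +kernel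

set_option maxRecDepth 100000 in
theorem jf_coset_base : ∀ (j : Fin 8) (i : Fin 15) (b : Fin 4),
    jfGcT j (jfTT i (jfBase b)) = jfTT (jfCt1 j i) (jfNfT (jfCt2 j i) (jfBase b)) := by
  decide +kernel

set_option maxRecDepth 100000 in
theorem jf_class_base : ∀ (j : Fin 2) (k : Fin 315) (b : Fin 4),
    j2GT0 j (jfWT k (jfBase b)) =
      jfWT (jfCl1 j k) (jfTT (jfCl2 j k) (jfNfT (jfCl3 j k) (jfBase b))) := by decide +kernel

set_option maxRecDepth 100000 in
theorem jf_wit4 : ∀ k : Fin 315, k ≠ 0 →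
    jfWT k (jfAT 0 (jfW4 k)) ≠ jfAT 0 (jfWT k (jfW4 k)) := by decide +kernel

set_option maxRecDepth 100000 in
theorem jf_wit5 : ∀ e : Fin 128, 2 ≤ e.val →
    jfAT (jfW5i e) (jfNfT e (jfW5x e)) ≠ jfNfT e (jfAT (jfW5i e) (jfW5x e)) := by decide +kernel

set_option maxRecDepth 100000 in
theorem jf_wit6 : ∀ (i : Fin 15) (e : Fin 128), (i.val = 0 ∧ e.val < 32) ∨
    ((jfW6j i e).val < 5 ∧ jfAT (jfW6j i e) (jfTT i (jfNfT e (jfW6x i e))) ≠
      jfTT i (jfNfT e (jfAT (jfW6j i e) (jfW6x i e)))) := by decide +kernel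

set_option maxRecDepth 100000 in
theorem jf_norm_base : ∀ (j : Fin 8) (l : Fin 7), l.val < 5 → (jfNt j l).val < 32 ∧
    ∀ b : Fin 4, jfGcT j (jfAT l (jfBase b)) = jfNfT (jfNt j l) (jfGcT j (jfBase b)) := by
  decide +kernel

set_option maxRecDepth 100000 in
theorem jf_cent_base : ∀ (j : Fin 8) (b : Fin 4),
    jfGcT j (jfAT 0 (jfBase b)) = jfAT 0 (jfGcT j (jfBase b)) := by decide +kernel

set_option maxRecDepth 100000 in
theorem jf_fus_base : ∀ (m : Fin 6) (b : Fin 4),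
    pcWordAct j2GT0 j2GI0 (jfSig m) (jfNfT (jfFx m) (jfBase b)) =
      jfNfT (jfFy m) (pcWordAct j2GT0 j2GI0 (jfSig m) (jfBase b)) := by decide +kernel

set_option maxRecDepth 100000 in
theorem jf_prod_base : ∀ b : Fin 4,
    jfNfT 13 (jfBase b) = jfNfT 4 (jfNfT 9 (jfBase b)) ∧
    jfAT 0 (jfBase b) = jfNfT 1 (jfBase b) ∧
    jfAT 1 (jfBase b) = jfNfT 2 (jfBase b) ∧
    jfAT 2 (jfBase b) = jfNfT 4 (jfBase b) ∧
    jfAT 3 (jfBase b) = jfNfT 9 (jfNfT 1 (jfBase b)) ∧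
    jfAT 4 (jfBase b) = jfNfT 2 (jfNfT 31 (jfNfT 9 (jfNfT 4 (jfBase b)))) ∧
    jfAT 5 (jfBase b) = jfNfT 121 (jfNfT 88 (jfBase b)) ∧
    jfAT 6 (jfBase b) = jfNfT 88 (jfNfT 2 (jfNfT 4 (jfBase b))) := by decide +kernel

set_option maxRecDepth 100000 in
theorem jf_z_ne : ∃ x : Fin 100, jfAT 0 x ≠ x := by decide +kernel

end Cfsg.Agent.Helper86
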