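import Cfsg.Agent.Helper86.J2FData

/-!
# The 2-local structure of the Hall-Janko group on 100 points: table checks (seat helper86)
-/

set_option autoImplicit false

namespace Cfsg.Agent.Helper86

open Cfsg.Agent.Helper57

set_option maxRecDepth 100000 in
theorem jf_w_tree0 : ∀ k : Fin 315, 0 ≤ k.val → k.val < 105 → k ≠ 0 → (jfWPar k).val < k.val ∧
    ∀ x : Fin 100, jfWT k x = j2GT0 (jfWLt k) (jfWT (jfWPar k) x) := by decide +kernel

set_option maxRecDepth 100000 in
theorem jf_w_tree1 : ∀ k : Fin 315, 105 ≤ k.val → k.val < 210 → k ≠ 0 → (jfWPar k).val < k.val ∧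
    ∀ x : Fin 100, jfWT k x = j2GT0 (jfWLt k) (jfWT (jfWPar k) x) := by decide +kernel

set_option maxRecDepth 100000 in
theorem jf_w_tree2 : ∀ k : Fin 315, 210 ≤ k.val → k.val < 315 → k ≠ 0 → (jfWPar k).val < k.val ∧
    ∀ x : Fin 100, jfWT k x = j2GT0 (jfWLt k) (jfWT (jfWPar k) x) := by decide +kernel

theorem jf_w_tree (k : Fin 315) (hk : k ≠ 0) : (jfWPar k).val < k.val ∧
    ∀ x : Fin 100, jfWT k x = j2GT0 (jfWLt k) (jfWT (jfWPar k) x) := by
  by_cases h1 : k.val < 105
  · exact jf_w_tree0 k (Nat.zero_le _) h1 hk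
  · by_cases h2 : k.val < 210
    · exact jf_w_tree1 k (by omega) h2 hk
    · exact jf_w_tree2 k (by omega) k.isLt hk

end Cfsg.Agent.Helper86
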