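import Cfsg.Agent.Helper86.J2FChkA
import Cfsg.Agent.Helper86.J2FChkB
import Cfsg.Agent.Helper47.J2SpecA
import Cfsg.Agent.Helper86.AltNorm
import Cfsg.Agent.Helper86.AltTransport
import Cfsg.Agent.S0065

/-!
# The 2-fusion system of the Hall-Janko group on 100 points is simple (seat helper86)
-/

set_option autoImplicit false

namespace Cfsg.Agent.Helper86

open Cfsg Cfsg.Agent.Helper57 Cfsg.Agent.S0423 Equiv

section Generic

theorem jf_tree_mem {α : Type*} {k m : ℕ} (g : Fin k → Perm α) (f : Fin m → α → α) (i0 : Fin m)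
    (h1 : ∀ x, f i0 x = x) (par : Fin m → Fin m) (lt : Fin m → Fin k)
    (hpar : ∀ i, i ≠ i0 → (par i).val < i.val ∧ ∀ x, f i x = g (lt i) (f (par i) x)) :
    ∀ i, ∃ σ ∈ Subgroup.closure (Set.range g), ∀ x, σ x = f i x := by
  have key : ∀ n : ℕ, ∀ i : Fin m, i.val = n →
      ∃ σ ∈ Subgroup.closure (Set.range g), ∀ x, σ x = f i x := by
    intro n
    induction n using Nat.strong_induction_on with
    | _ n ih =>
      intro i hi
      by_cases h0 : i = i0
      · subst h0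
        exact ⟨1, Subgroup.one_mem _, fun x => by rw [h1]; rfl⟩
      · obtain ⟨hlt, hn⟩ := hpar i h0
        obtain ⟨σ, hσ, hσf⟩ := ih (par i).val (hi ▸ hlt) (par i) rfl
        refine ⟨g (lt i) * σ, Subgroup.mul_mem _ (Subgroup.subset_closure ⟨_, rfl⟩) hσ,
          fun x => ?_⟩
        rw [Equiv.Perm.mul_apply, hσf, hn]
  exact fun i => key i.val i rfl

theorem jf_cover {α : Type*} [Fintype α] {k m : ℕ} (H : Subgroup (Perm α)) (g : Fin k → Perm α)
    (σ : Fin m → Perm α) (i0 : Fin m) (h1 : σ i0 = 1) (nxt : Fin k → Fin m → Fin m)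
    (hd : ∀ j i, ∃ h ∈ H, g j * σ i = σ (nxt j i) * h) :
    ∀ κ ∈ Subgroup.closure (Set.range g), ∃ i, ∃ h ∈ H, κ = σ i * h := by
  classical
  intro κ hκ
  have key : ∀ τ : Perm α, (∃ i, ∃ h ∈ H, τ = σ i * h) → ∃ i, ∃ h ∈ H, κ * τ = σ i * h := by
    induction hκ using Subgroup.closure_induction with
    | mem y hy =>
      obtain ⟨j, rfl⟩ := hy
      rintro τ ⟨i, h, hh, rfl⟩
      obtain ⟨h0, hh0, hx⟩ := hd j i
      exact ⟨nxt j i, h0 * h, H.mul_mem hh0 hh, by rw [← mul_assoc, hx, mul_assoc]⟩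
    | one =>
      intro τ h
      rw [one_mul]
      exact h
    | mul y z _ _ hy hz =>
      intro τ h
      rw [mul_assoc]
      exact hy _ (hz τ h)
    | inv y _ hy =>
      intro τ h
      have hpow : ∀ n : ℕ, ∃ i, ∃ h ∈ H, y ^ n * τ = σ i * h := by
        intro n
        induction n with
        | zero =>
          rw [pow_zero, one_mul]
          exact h
        | succ n ih =>
          rw [pow_succ', mul_assoc]
          exact hy _ ih
      have hinv : y⁻¹ = y ^ (orderOf y - 1) := by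
        apply inv_eq_of_mul_eq_one_right
        rw [← pow_succ', Nat.sub_add_cancel (orderOf_pos y), pow_orderOf_eq_one]
      rw [hinv]
      exact hpow _
  have h3 := key 1 ⟨i0, 1, H.one_mem, by rw [h1, mul_one]⟩
  rwa [mul_one] at h3

end Generic

/-- Two elements of the group agreeing on the base are equal. -/
theorem jf_eq_of_base {σ τ : Perm (Fin 100)} (hσ : σ ∈ K0) (hτ : τ ∈ K0)
    (h : ∀ b : Fin 4, σ (jfBase b) = τ (jfBase b)) : σ = τ := by
  have h0 : σ 0 = τ 0 := h 0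
  have h1 : σ 1 = τ 1 := h 1
  have h2 : σ 37 = τ 37 := h 2
  have h3 : σ 2 = τ 2 := h 3
  have e : τ⁻¹ * σ = 1 := by
    apply Cfsg.Agent.Helper47.j2s_eq_one _ (K0.mul_mem (K0.inv_mem hτ) hσ)
    · rw [Equiv.Perm.mul_apply, Equiv.Perm.inv_eq_iff_eq]
      exact h0
    · rw [Equiv.Perm.mul_apply, Equiv.Perm.inv_eq_iff_eq]
      exact h1
    · rw [Equiv.Perm.mul_apply, Equiv.Perm.inv_eq_iff_eq]
      exact h2
    · rw [Equiv.Perm.mul_apply, Equiv.Perm.inv_eq_iff_eq]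
      exact h3
  calc σ = τ * (τ⁻¹ * σ) := by rw [mul_inv_cancel_left]
    _ = τ := by rw [e, mul_one]

/-- The eight generating involutions. -/
def jfGC (j : Fin 8) : Perm (Fin 100) := ⟨jfGcT j, jfGcT j, jf_gc_invol j, jf_gc_invol j⟩

theorem jfGC_apply (j : Fin 8) (x : Fin 100) : jfGC j x = jfGcT j x := rfl

/-- The first seven generators. -/
def jfA (j : Fin 7) : Perm (Fin 100) := jfGC j.castSucc

theorem jfA_apply (j : Fin 7) (x : Fin 100) : jfA j x = jfAT j x := rfl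

theorem jfGC_sq (j : Fin 8) : jfGC j * jfGC j = 1 := Equiv.ext (fun x => jf_gc_invol j x)

theorem jfGC_inv (j : Fin 8) : (jfGC j)⁻¹ = jfGC j := inv_eq_of_mul_eq_one_left (jfGC_sq j)

theorem jfGC_mem (j : Fin 8) : jfGC j ∈ K0 := by
  have e : jfGC j = pcWord j2G0 (jfGcW j) := by
    refine Equiv.ext (fun x => ?_)
    rw [pcWord_apply j2G0 j2GT0 j2GI0 j2_g0_apply j2_gt_gi0, jf_gc_word]
    rfl
  rw [e]
  exact pcWord_mem _ _

/-- The centraliser of the central involution. -/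
def jfCC : Subgroup (Perm (Fin 100)) := Subgroup.closure (Set.range jfGC)

/-- The Sylow 2-subgroup. -/
def jfS0 : Subgroup (Perm (Fin 100)) := Subgroup.closure (Set.range jfA)

/-- The largest normal 2-subgroup of the centraliser. -/
def jfQQ : Subgroup (Perm (Fin 100)) := Subgroup.closure {σ | ∃ l : Fin 7, l.val < 5 ∧ σ = jfA l}

theorem jfCC_le : jfCC ≤ K0 := by
  rw [jfCC, Subgroup.closure_le]
  rintro _ ⟨j, rfl⟩
  exact jfGC_mem j

theorem jfS0_le : jfS0 ≤ jfCC := by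
  rw [jfS0, Subgroup.closure_le]
  rintro _ ⟨j, rfl⟩
  exact Subgroup.subset_closure ⟨j.castSucc, rfl⟩

theorem jfQQ_le : jfQQ ≤ jfS0 := by
  rw [jfQQ, Subgroup.closure_le]
  rintro _ ⟨l, -, rfl⟩
  exact Subgroup.subset_closure ⟨l, rfl⟩

theorem jfS0_leK : jfS0 ≤ K0 := jfS0_le.trans jfCC_le

theorem jfA_mem (j : Fin 7) : jfA j ∈ jfS0 := Subgroup.subset_closure ⟨j, rfl⟩

theorem jf_N_ex (e : Fin 128) : ∃ σ ∈ jfS0, ∀ x, σ x = jfNfT e x :=
  jf_tree_mem jfA jfNfT 0 jf_nf_zero jfNfPar jfNfLt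
    (fun e he => ⟨(jf_nf_tree e he).1, fun x => (jf_nf_tree e he).2 x⟩) e

/-- The elements of the Sylow subgroup. -/
noncomputable def jfN (e : Fin 128) : Perm (Fin 100) := Classical.choose (jf_N_ex e)

theorem jfN_mem (e : Fin 128) : jfN e ∈ jfS0 := (Classical.choose_spec (jf_N_ex e)).1

theorem jfN_apply (e : Fin 128) (x : Fin 100) : jfN e x = jfNfT e x :=
  (Classical.choose_spec (jf_N_ex e)).2 x

theorem jfN_memK (e : Fin 128) : jfN e ∈ K0 := jfS0_leK (jfN_mem e)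

theorem jf_T_ex (i : Fin 15) : ∃ σ ∈ jfCC, ∀ x, σ x = jfTT i x :=
  jf_tree_mem jfGC jfTT 0 jf_t_zero jfTPar jfTLt
    (fun i hi => ⟨(jf_t_tree i hi).1, fun x => (jf_t_tree i hi).2 x⟩) i

/-- The coset representatives of the Sylow subgroup in the centraliser. -/
noncomputable def jfT (i : Fin 15) : Perm (Fin 100) := Classical.choose (jf_T_ex i)

theorem jfT_mem (i : Fin 15) : jfT i ∈ jfCC := (Classical.choose_spec (jf_T_ex i)).1

theorem jfT_apply (i : Fin 15) (x : Fin 100) : jfT i x = jfTT i x :=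
  (Classical.choose_spec (jf_T_ex i)).2 x

theorem jf_W_ex (k : Fin 315) : ∃ σ ∈ K0, ∀ x, σ x = jfWT k x :=
  jf_tree_mem j2G0 jfWT 0 jf_w_zero jfWPar jfWLt
    (fun k hk => ⟨(jf_w_tree k hk).1, fun x => (jf_w_tree k hk).2 x⟩) k

/-- The coset representatives of the centraliser in the whole group. -/
noncomputable def jfW (k : Fin 315) : Perm (Fin 100) := Classical.choose (jf_W_ex k)

theorem jfW_mem (k : Fin 315) : jfW k ∈ K0 := (Classical.choose_spec (jf_W_ex k)).1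

theorem jfW_apply (k : Fin 315) (x : Fin 100) : jfW k x = jfWT k x :=
  (Classical.choose_spec (jf_W_ex k)).2 x

theorem jfN_zero : jfN 0 = 1 := Equiv.ext (fun x => by rw [jfN_apply, jf_nf_zero]; rfl)

theorem jfT_zero : jfT 0 = 1 := Equiv.ext (fun x => by rw [jfT_apply, jf_t_zero]; rfl)

theorem jfW_zero : jfW 0 = 1 := Equiv.ext (fun x => by rw [jfW_apply, jf_w_zero]; rfl)

theorem jfA_mul_N (j : Fin 7) (e : Fin 128) : jfA j * jfN e = jfN (jfMul j e) := by
  apply jf_eq_of_base (K0.mul_mem (jfS0_leK (jfA_mem j)) (jfN_memK e)) (jfN_memK _)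
  intro b
  rw [Equiv.Perm.mul_apply, jfN_apply, jfN_apply, jfA_apply]
  exact jf_mul_base j e b

theorem jfS0_cover {s : Perm (Fin 100)} (hs : s ∈ jfS0) : ∃ e, s = jfN e := by
  obtain ⟨e, h, hh, rfl⟩ := jf_cover ⊥ jfA jfN 0 jfN_zero jfMul
    (fun j e => ⟨1, Subgroup.one_mem _, by rw [mul_one]; exact jfA_mul_N j e⟩) s hs
  rw [Subgroup.mem_bot.1 hh, mul_one]
  exact ⟨e, rfl⟩

theorem jfGC_mul_T (j : Fin 8) (i : Fin 15) :
    jfGC j * jfT i = jfT (jfCt1 j i) * jfN (jfCt2 j i) := by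
  apply jf_eq_of_base (K0.mul_mem (jfGC_mem j) (jfCC_le (jfT_mem i)))
    (K0.mul_mem (jfCC_le (jfT_mem _)) (jfN_memK _))
  intro b
  rw [Equiv.Perm.mul_apply, Equiv.Perm.mul_apply, jfN_apply, jfT_apply, jfT_apply, jfGC_apply]
  exact jf_coset_base j i b

theorem jfCC_cover {c : Perm (Fin 100)} (hc : c ∈ jfCC) : ∃ i e, c = jfT i * jfN e := by
  obtain ⟨i, h, hh, rfl⟩ := jf_cover jfS0 jfGC jfT 0 jfT_zero jfCt1
    (fun j i => ⟨jfN (jfCt2 j i), jfN_mem _, jfGC_mul_T j i⟩) c hc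
  obtain ⟨e, rfl⟩ := jfS0_cover hh
  exact ⟨i, e, rfl⟩

theorem j2G0_mul_W (j : Fin 2) (k : Fin 315) :
    j2G0 j * jfW k = jfW (jfCl1 j k) * (jfT (jfCl2 j k) * jfN (jfCl3 j k)) := by
  apply jf_eq_of_base (K0.mul_mem (Subgroup.subset_closure ⟨j, rfl⟩) (jfW_mem k))
    (K0.mul_mem (jfW_mem _) (K0.mul_mem (jfCC_le (jfT_mem _)) (jfN_memK _)))
  intro b
  rw [Equiv.Perm.mul_apply, Equiv.Perm.mul_apply, Equiv.Perm.mul_apply, jfN_apply, jfT_apply,
    jfW_apply, jfW_apply, j2_g0_apply]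
  exact jf_class_base j k b

theorem jfK0_cover {κ : Perm (Fin 100)} (hκ : κ ∈ K0) : ∃ k, ∃ c ∈ jfCC, κ = jfW k * c :=
  jf_cover jfCC j2G0 jfW 0 jfW_zero jfCl1
    (fun j k => ⟨jfT (jfCl2 j k) * jfN (jfCl3 j k),
      jfCC.mul_mem (jfT_mem _) (jfS0_le (jfN_mem _)), j2G0_mul_W j k⟩) κ hκ

theorem jfZ_ne_one : jfA 0 ≠ 1 := by
  intro h
  obtain ⟨x, hx⟩ := jf_z_ne
  apply hx
  rw [← jfA_apply, h]
  rfl

theorem jfGC_comm_Z (j : Fin 8) : jfGC j * jfA 0 = jfA 0 * jfGC j := by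
  apply jf_eq_of_base (K0.mul_mem (jfGC_mem j) (jfS0_leK (jfA_mem 0)))
    (K0.mul_mem (jfS0_leK (jfA_mem 0)) (jfGC_mem j))
  intro b
  rw [Equiv.Perm.mul_apply, Equiv.Perm.mul_apply, jfA_apply, jfA_apply, jfGC_apply, jfGC_apply]
  exact jf_cent_base j b

theorem jfCC_comm_Z {c : Perm (Fin 100)} (hc : c ∈ jfCC) : c * jfA 0 = jfA 0 * c := by
  have hle : jfCC ≤ Subgroup.centralizer {jfA 0} := by
    rw [jfCC, Subgroup.closure_le]
    rintro _ ⟨j, rfl⟩
    rw [SetLike.mem_coe, Subgroup.mem_centralizer_iff]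
    rintro _ rfl
    exact (jfGC_comm_Z j).symm
  exact (Subgroup.mem_centralizer_iff.1 (hle hc) _ rfl).symm

/-- The centraliser of the central involution is generated by the eight involutions. -/
theorem jf_cent_Z {κ : Perm (Fin 100)} (hκ : κ ∈ K0) (hc : κ * jfA 0 = jfA 0 * κ) : κ ∈ jfCC := by
  obtain ⟨k, c, hc', rfl⟩ := jfK0_cover hκ
  have hcz := jfCC_comm_Z hc'
  have hk : k = 0 := by
    by_contra hk
    apply jf_wit4 k hk
    have h1 : jfW k * jfA 0 = jfA 0 * jfW k := by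
      have h2 : jfW k * jfA 0 * c = jfA 0 * jfW k * c :=
        calc jfW k * jfA 0 * c = jfW k * (jfA 0 * c) := mul_assoc _ _ _
          _ = jfW k * (c * jfA 0) := by rw [hcz]
          _ = jfW k * c * jfA 0 := (mul_assoc _ _ _).symm
          _ = jfA 0 * (jfW k * c) := hc
          _ = jfA 0 * jfW k * c := (mul_assoc _ _ _).symm
      exact mul_right_cancel h2
    have h3 := congrArg (fun f : Perm (Fin 100) => f (jfW4 k)) h1
    simp only [Equiv.Perm.mul_apply, jfW_apply, jfA_apply] at h3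
    exact h3
  rw [hk, jfW_zero, one_mul]
  exact hc'

theorem jf_card_S0 : Nat.card jfS0 = 128 := by
  apply le_antisymm
  · have hex : ∀ s : jfS0, ∃ e, (s : Perm (Fin 100)) = jfN e := fun s => jfS0_cover s.2
    choose f hf using hex
    have hinj : Function.Injective f := by
      intro s s' h
      apply Subtype.ext
      rw [hf s, hf s', h]
    have h1 := Nat.card_le_card_of_injective f hinj
    rwa [Nat.card_fin] at h1
  · have hsurj : Function.Surjective (fun p : Fin 315 × Fin 15 × jfS0 =>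
        (⟨jfW p.1 * (jfT p.2.1 * (p.2.2 : Perm (Fin 100))),
          K0.mul_mem (jfW_mem _) (K0.mul_mem (jfCC_le (jfT_mem _)) (jfS0_leK p.2.2.2))⟩ : K0)) := by
      rintro ⟨κ, hκ⟩
      obtain ⟨k, c, hc, rfl⟩ := jfK0_cover hκ
      obtain ⟨i, e, rfl⟩ := jfCC_cover hc
      exact ⟨(k, i, ⟨jfN e, jfN_mem e⟩), rfl⟩
    have h1 := Nat.card_le_card_of_surjective _ hsurj
    rw [step0.1, Nat.card_prod, Nat.card_prod, Nat.card_fin, Nat.card_fin] at h1
    omega

theorem jf_isPGroup_S0 : IsPGroup 2 jfS0 := IsPGroup.of_card (n := 7) jf_card_S0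

/-- The Sylow subgroup is the only 2-subgroup containing it. -/
theorem jf_sylow_unique {S' : Subgroup (Perm (Fin 100))} (hS' : IsPGroup 2 S') (hle : S' ≤ K0)
    (h : jfS0 ≤ S') : S' = jfS0 := by
  obtain ⟨n, hn⟩ := IsPGroup.iff_card.1 hS'
  have hdvd : Nat.card S' ∣ Nat.card K0 := Subgroup.card_dvd_of_le hle
  rw [step0.1, hn] at hdvd
  have hn7 : n ≤ 7 := by
    by_contra hcon
    have h8 : 2 ^ 8 ∣ 2 ^ n := pow_dvd_pow 2 (by omega)
    have h9 := h8.trans hdvd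
    revert h9
    decide
  have hcard : Nat.card S' ≤ Nat.card jfS0 := by
    rw [hn, jf_card_S0]
    calc 2 ^ n ≤ 2 ^ 7 := Nat.pow_le_pow_right (by norm_num) hn7
      _ = 128 := by norm_num
  exact (Subgroup.eq_of_le_of_card_ge h hcard).symm

theorem jfN_one : jfN 1 = jfA 0 := by
  apply jf_eq_of_base (jfN_memK _) (jfS0_leK (jfA_mem 0))
  intro b
  rw [jfN_apply, jfA_apply]
  exact (jf_prod_base b).2.1.symm

/-- The centre of the Sylow subgroup has order two. -/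
theorem jf_center {s : Perm (Fin 100)} (hs : s ∈ jfS0) (hc : ∀ j, jfA j * s = s * jfA j) :
    s = 1 ∨ s = jfA 0 := by
  obtain ⟨e, rfl⟩ := jfS0_cover hs
  by_cases h2 : 2 ≤ e.val
  · exfalso
    apply jf_wit5 e h2
    have h := congrArg (fun f : Perm (Fin 100) => f (jfW5x e)) (hc (jfW5i e))
    simp only [Equiv.Perm.mul_apply, jfN_apply, jfA_apply] at h
    exact h
  · have he : e = 0 ∨ e = 1 := by
      rcases Nat.lt_or_ge e.val 1 with h | h
      · left
        exact Fin.ext (by omega)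
      · right
        exact Fin.ext (by show e.val = 1; omega)
    rcases he with rfl | rfl
    · exact Or.inl jfN_zero
    · exact Or.inr jfN_one

theorem jfN_mem_Q (e : Fin 128) (he : e.val < 32) : jfN e ∈ jfQQ := by
  have key : ∀ n : ℕ, ∀ e : Fin 128, e.val = n → e.val < 32 → jfN e ∈ jfQQ := by
    intro n
    induction n using Nat.strong_induction_on with
    | _ n ih =>
      intro e hn he
      by_cases h0 : e = 0
      · rw [h0, jfN_zero]
        exact Subgroup.one_mem _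
      · obtain ⟨hlt, hx⟩ := jf_nf_tree e h0
        obtain ⟨hl5, hp32⟩ := jf_q_tree e he h0
        have e1 : jfN e = jfA (jfNfLt e) * jfN (jfNfPar e) := by
          refine Equiv.ext (fun x => ?_)
          rw [Equiv.Perm.mul_apply, jfN_apply, jfN_apply, jfA_apply]
          exact hx x
        rw [e1]
        exact Subgroup.mul_mem _ (Subgroup.subset_closure ⟨_, hl5, rfl⟩)
          (ih (jfNfPar e).val (hn ▸ hlt) (jfNfPar e) rfl hp32)
  exact key e.val e rfl he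

/-- The subgroup `Q` is self-centralising in the whole group. -/
theorem jf_cent_Q {c : Perm (Fin 100)} (hc : c ∈ K0) (h : ∀ y ∈ jfQQ, c * y = y * c) :
    c ∈ jfQQ := by
  have hZ : jfA 0 ∈ jfQQ := Subgroup.subset_closure ⟨0, by decide, rfl⟩
  have hcc := jf_cent_Z hc (h _ hZ)
  obtain ⟨i, e, rfl⟩ := jfCC_cover hcc
  rcases jf_wit6 i e with ⟨hi, he⟩ | ⟨hj, hne⟩
  · have hi0 : i = 0 := Fin.ext hi
    rw [hi0, jfT_zero, one_mul]
    exact jfN_mem_Q e he
  · exfalso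
    apply hne
    have h1 := h (jfA (jfW6j i e)) (Subgroup.subset_closure ⟨_, hj, rfl⟩)
    have h2 := congrArg (fun f : Perm (Fin 100) => f (jfW6x i e)) h1
    simp only [Equiv.Perm.mul_apply, jfN_apply, jfA_apply, jfT_apply] at h2
    exact h2.symm

theorem jfGC_conj_A (j : Fin 8) (l : Fin 7) (hl : l.val < 5) :
    jfGC j * jfA l * (jfGC j)⁻¹ = jfN (jfNt j l) := by
  rw [mul_inv_eq_iff_eq_mul]
  apply jf_eq_of_base (K0.mul_mem (jfGC_mem j) (jfS0_leK (jfA_mem l)))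
    (K0.mul_mem (jfN_memK _) (jfGC_mem j))
  intro b
  rw [Equiv.Perm.mul_apply, Equiv.Perm.mul_apply, jfN_apply, jfA_apply, jfGC_apply, jfGC_apply]
  exact (jf_norm_base j l hl).2 b

theorem jfGC_conj_Q (j : Fin 8) : ∀ y ∈ jfQQ, jfGC j * y * (jfGC j)⁻¹ ∈ jfQQ := by
  unfold jfQQ
  apply conj_mem_closure
  rintro _ ⟨l, hl, rfl⟩
  rw [jfGC_conj_A j l hl]
  exact jfN_mem_Q _ (jf_norm_base j l hl).1

theorem jfCC_le_normalizer : jfCC ≤ Subgroup.normalizer (jfQQ : Set (Perm (Fin 100))) := by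
  rw [jfCC, Subgroup.closure_le]
  rintro _ ⟨j, rfl⟩
  exact Cfsg.Agent.Helper85.mem_normalizer_of_conj_mem (jfGC_conj_Q j)

theorem jfCC_conj_Q {d : Perm (Fin 100)} (hd : d ∈ jfCC) : ∀ y ∈ jfQQ, d * y * d⁻¹ ∈ jfQQ :=
  fun y hy => (Subgroup.mem_normalizer_iff.1 (jfCC_le_normalizer hd) y).1 hy

theorem jfCC_le_gen : jfCC ≤ Subgroup.closure {x | x ∈ K0 ∧ (∃ k : ℕ, x ^ 2 ^ k = 1) ∧
    ∀ y ∈ jfQQ, x * y * x⁻¹ ∈ jfQQ} := by
  rw [jfCC, Subgroup.closure_le]
  rintro _ ⟨j, rfl⟩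
  exact Subgroup.subset_closure ⟨jfGC_mem j, ⟨1, by rw [pow_one, sq]; exact jfGC_sq j⟩,
    jfGC_conj_Q j⟩

/-- The normaliser of the Sylow subgroup lies in the centraliser of the central involution. -/
theorem jf_norm_S0 {g : Perm (Fin 100)} (hg : g ∈ K0) (hgS : ∀ y ∈ jfS0, g * y * g⁻¹ ∈ jfS0) :
    g ∈ jfCC := by
  apply jf_cent_Z hg
  have hgn : g ∈ Subgroup.normalizer (jfS0 : Set (Perm (Fin 100))) :=
    Cfsg.Agent.Helper85.mem_normalizer_of_conj_mem hgS
  have hz : g * jfA 0 * g⁻¹ ∈ jfS0 := hgS _ (jfA_mem 0)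
  have hcen : ∀ j, jfA j * (g * jfA 0 * g⁻¹) = (g * jfA 0 * g⁻¹) * jfA j := by
    intro j
    have h1 : g⁻¹ * jfA j * g ∈ jfS0 := by
      rw [Subgroup.mem_normalizer_iff.1 hgn]
      have e : g * (g⁻¹ * jfA j * g) * g⁻¹ = jfA j := by group
      rw [e]
      exact jfA_mem j
    have h2 := jfCC_comm_Z (jfS0_le h1)
    calc jfA j * (g * jfA 0 * g⁻¹) = g * ((g⁻¹ * jfA j * g) * jfA 0) * g⁻¹ := by group
      _ = g * (jfA 0 * (g⁻¹ * jfA j * g)) * g⁻¹ := by rw [h2]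
      _ = (g * jfA 0 * g⁻¹) * jfA j := by group
  rcases jf_center hz hcen with h | h
  · exfalso
    apply jfZ_ne_one
    have e : jfA 0 = g⁻¹ * (g * jfA 0 * g⁻¹) * g := by group
    rw [e, h]
    group
  · rw [mul_inv_eq_iff_eq_mul] at h
    exact h

end Cfsg.Agent.Helper86
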