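import Cfsg.Agent.Helper86.J2FGrp

/-!
# The 2-fusion system of the Hall-Janko group on 100 points is simple: main theorem
(seat helper86)
-/

set_option autoImplicit false

namespace Cfsg.Agent.Helper86

open Cfsg Cfsg.Agent.Helper57 Cfsg.Agent.S0423 Equiv

theorem jfN_thirteen : jfN 13 = jfN 4 * jfN 9 := by
  apply jf_eq_of_base (jfN_memK _) (K0.mul_mem (jfN_memK _) (jfN_memK _))
  intro b
  rw [Equiv.Perm.mul_apply, jfN_apply, jfN_apply, jfN_apply]
  exact (jf_prod_base b).1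

theorem jfA_one_eq : jfA 1 = jfN 2 := by
  apply jf_eq_of_base (jfS0_leK (jfA_mem _)) (jfN_memK _)
  intro b
  rw [jfN_apply, jfA_apply]
  exact (jf_prod_base b).2.2.1

theorem jfA_two_eq : jfA 2 = jfN 4 := by
  apply jf_eq_of_base (jfS0_leK (jfA_mem _)) (jfN_memK _)
  intro b
  rw [jfN_apply, jfA_apply]
  exact (jf_prod_base b).2.2.2.1

theorem jfA_three_eq : jfA 3 = jfN 9 * jfN 1 := by
  apply jf_eq_of_base (jfS0_leK (jfA_mem _)) (K0.mul_mem (jfN_memK _) (jfN_memK _))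
  intro b
  rw [Equiv.Perm.mul_apply, jfN_apply, jfN_apply, jfA_apply]
  exact (jf_prod_base b).2.2.2.2.1

theorem jfA_four_eq : jfA 4 = jfN 2 * (jfN 31 * (jfN 9 * jfN 4)) := by
  apply jf_eq_of_base (jfS0_leK (jfA_mem _))
    (K0.mul_mem (jfN_memK _) (K0.mul_mem (jfN_memK _) (K0.mul_mem (jfN_memK _) (jfN_memK _))))
  intro b
  rw [Equiv.Perm.mul_apply, Equiv.Perm.mul_apply, Equiv.Perm.mul_apply, jfN_apply, jfN_apply,
    jfN_apply, jfN_apply, jfA_apply]
  exact (jf_prod_base b).2.2.2.2.2.1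

theorem jfA_five_eq : jfA 5 = jfN 121 * jfN 88 := by
  apply jf_eq_of_base (jfS0_leK (jfA_mem _)) (K0.mul_mem (jfN_memK _) (jfN_memK _))
  intro b
  rw [Equiv.Perm.mul_apply, jfN_apply, jfN_apply, jfA_apply]
  exact (jf_prod_base b).2.2.2.2.2.2.1

theorem jfA_six_eq : jfA 6 = jfN 88 * (jfN 2 * jfN 4) := by
  apply jf_eq_of_base (jfS0_leK (jfA_mem _))
    (K0.mul_mem (jfN_memK _) (K0.mul_mem (jfN_memK _) (jfN_memK _)))
  intro b
  rw [Equiv.Perm.mul_apply, Equiv.Perm.mul_apply, jfN_apply, jfN_apply, jfN_apply, jfA_apply]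
  exact (jf_prod_base b).2.2.2.2.2.2.2

/-- One fusion step: a conjugation inside the whole group carrying one element of the Sylow
subgroup to another. -/
theorem jf_fus_step (m : Fin 6) {T : Subgroup (Perm (Fin 100))}
    (hT : ∀ x ∈ T, ∀ g ∈ K0, g * x * g⁻¹ ∈ jfS0 → g * x * g⁻¹ ∈ T)
    (h : jfN (jfFx m) ∈ T) : jfN (jfFy m) ∈ T := by
  have e : pcWord j2G0 (jfSig m) * jfN (jfFx m) * (pcWord j2G0 (jfSig m))⁻¹ = jfN (jfFy m) := by
    rw [mul_inv_eq_iff_eq_mul]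
    apply jf_eq_of_base (K0.mul_mem (pcWord_mem _ _) (jfN_memK _))
      (K0.mul_mem (jfN_memK _) (pcWord_mem _ _))
    intro b
    rw [Equiv.Perm.mul_apply, Equiv.Perm.mul_apply, jfN_apply, jfN_apply,
      pcWord_apply j2G0 j2GT0 j2GI0 j2_g0_apply j2_gt_gi0,
      pcWord_apply j2G0 j2GT0 j2GI0 j2_g0_apply j2_gt_gi0]
    exact jf_fus_base m b
  rw [← e]
  apply hT _ h _ (pcWord_mem _ _)
  rw [e]
  exact jfN_mem _

/-- A nontrivial strongly closed subgroup contains the central involution. -/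
theorem jf_center_mem {T : Subgroup (Perm (Fin 100))} (hTS : T ≤ jfS0)
    (hT : ∀ x ∈ T, ∀ g ∈ K0, g * x * g⁻¹ ∈ jfS0 → g * x * g⁻¹ ∈ T) (hne : T ≠ ⊥) :
    jfA 0 ∈ T := by
  have : Finite jfS0 := Nat.finite_of_card_ne_zero (by rw [jf_card_S0]; norm_num)
  have : Group.IsNilpotent jfS0 := jf_isPGroup_S0.isNilpotent
  have hNn : (T.subgroupOf jfS0).Normal := by
    constructor
    intro n hn g
    rw [Subgroup.mem_subgroupOf] at hn ⊢
    exact hT _ hn g (jfS0_leK g.2) (jfS0.mul_mem (jfS0.mul_mem g.2 (hTS hn)) (jfS0.inv_mem g.2))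
  have hN : T.subgroupOf jfS0 ≠ ⊥ := by
    intro h
    apply hne
    rw [Subgroup.eq_bot_iff_forall]
    intro x hx
    have h1 : (⟨x, hTS hx⟩ : jfS0) ∈ T.subgroupOf jfS0 := Subgroup.mem_subgroupOf.2 hx
    rw [h, Subgroup.mem_bot] at h1
    exact congrArg Subtype.val h1
  have h := Cfsg.Agent.S0065.result (T.subgroupOf jfS0) hN
  have hex : ∃ s ∈ T.subgroupOf jfS0 ⊓ Subgroup.center jfS0, s ≠ 1 := by
    by_contra hcon
    apply h
    rw [Subgroup.eq_bot_iff_forall]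
    intro x hx
    by_contra hx1
    exact hcon ⟨x, hx, hx1⟩
  obtain ⟨s, hs, hs1⟩ := hex
  obtain ⟨hsT, hsZ⟩ := Subgroup.mem_inf.1 hs
  rw [Subgroup.mem_subgroupOf] at hsT
  have hcomm : ∀ j, jfA j * (s : Perm (Fin 100)) = (s : Perm (Fin 100)) * jfA j := by
    intro j
    have h1 := Subgroup.mem_center_iff.1 hsZ ⟨jfA j, jfA_mem j⟩
    exact congrArg Subtype.val h1
  rcases jf_center s.2 hcomm with h1 | h1
  · exfalso
    exact hs1 (Subtype.ext h1)
  · rw [← h1]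
    exact hsT

/-- The Sylow subgroup has no proper nontrivial strongly closed subgroup. -/
theorem jf_strongly_closed {T : Subgroup (Perm (Fin 100))} (hTS : T ≤ jfS0)
    (hT : ∀ x ∈ T, ∀ g ∈ K0, g * x * g⁻¹ ∈ jfS0 → g * x * g⁻¹ ∈ T) (hne : T ≠ ⊥) :
    T = jfS0 := by
  have h1 : jfN 1 ∈ T := by
    rw [jfN_one]
    exact jf_center_mem hTS hT hne
  have h4 : jfN 4 ∈ T := jf_fus_step 0 hT h1
  have h9 : jfN 9 ∈ T := jf_fus_step 1 hT h1
  have h31 : jfN 31 ∈ T := jf_fus_step 2 hT h9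
  have h2 : jfN 2 ∈ T := jf_fus_step 3 hT h31
  have h13 : jfN 13 ∈ T := by
    rw [jfN_thirteen]
    exact T.mul_mem h4 h9
  have h88 : jfN 88 ∈ T := jf_fus_step 4 hT h13
  have h121 : jfN 121 ∈ T := jf_fus_step 5 hT h88
  apply le_antisymm hTS
  rw [jfS0, Subgroup.closure_le]
  rintro _ ⟨j, rfl⟩
  rw [SetLike.mem_coe]
  fin_cases j
  · show jfA 0 ∈ T
    rw [← jfN_one]
    exact h1
  · show jfA 1 ∈ T
    rw [jfA_one_eq]
    exact h2
  · show jfA 2 ∈ T
    rw [jfA_two_eq]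
    exact h4
  · show jfA 3 ∈ T
    rw [jfA_three_eq]
    exact T.mul_mem h9 h1
  · show jfA 4 ∈ T
    rw [jfA_four_eq]
    exact T.mul_mem h2 (T.mul_mem h31 (T.mul_mem h9 h4))
  · show jfA 5 ∈ T
    rw [jfA_five_eq]
    exact T.mul_mem h121 h88
  · show jfA 6 ∈ T
    rw [jfA_six_eq]
    exact T.mul_mem h88 (T.mul_mem h2 h4)

/-- The hypotheses of the simplicity criterion hold for the Hall-Janko group at the prime two. -/
theorem jf_altHyp : AltHyp 2 K0 jfS0 := by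
  refine ⟨?_, ?_, jfQQ, jfQQ_le, fun c hc h => jf_cent_Q hc h, ?_⟩
  · intro h
    apply jfZ_ne_one
    have h1 := jfA_mem 0
    rw [h, Subgroup.mem_bot] at h1
    exact h1
  · intro T hTS hT
    by_cases hne : T = ⊥
    · exact Or.inl hne
    · exact Or.inr (jf_strongly_closed hTS hT hne)
  · intro g hg hgS
    have hgC : g ∈ jfCC := jf_norm_S0 hg hgS
    exact Subgroup.subset_closure ⟨hg, jfCC_conj_Q hgC, jfQQ, jfQQ, le_rfl, le_rfl, jfQQ_le,
      fun c hc h => jf_cent_Q hc h, jfCC_conj_Q hgC, jfCC_conj_Q hgC, jfCC_le_gen hgC⟩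

/-- The 2-fusion system of any group isomorphic to the Hall-Janko group on 100 points is
simple. -/
theorem jf_isSimple {G : Type*} [Group G] [Finite G] (e : G ≃* ↥K0) (S : Sylow 2 G) :
    (groupFusionSystem (S : Subgroup G)).IsSimple 2 := by
  have : Fact (Nat.Prime 2) := ⟨Nat.prime_two⟩
  have hinj : Function.Injective (K0.subtype.comp e.toMonoidHom) :=
    (Subgroup.subtype_injective K0).comp e.injective
  have hrange : (K0.subtype.comp e.toMonoidHom).range = K0 := by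
    ext y
    constructor
    · rintro ⟨x, rfl⟩
      exact (e x).2
    · intro hy
      exact ⟨e.symm ⟨y, hy⟩, by simp⟩
  apply isSimple_of_relSyl (K0.subtype.comp e.toMonoidHom) hinj S jfS0
  · rw [hrange]
    exact jfS0_leK
  · exact jf_isPGroup_S0
  · intro S' hS' hle
    rw [hrange] at hS' ⊢
    rw [jf_sylow_unique hS'.2.1 hS'.1 hle]
    exact jf_altHyp

end Cfsg.Agent.Helper86
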