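import Cfsg.Agent.Helper86.J3FData

/-!
# The 2-local structure of the Janko group `J₃`: kernel-checked certificates, part A (seat helper86)
-/

set_option autoImplicit false

namespace Cfsg.Agent.Helper86

open Cfsg.Agent.Helper7.J3
open Cfsg.Agent.Helper7 (rgAll rgAll_spec)

theorem jt_chkG : rgAll jtChkG 3 0 = true := by decide +kernel
theorem jt_chkN : rgAll jtChkN 7 0 = true := by decide +kernel
theorem jt_chkM : rgAll jtChkM 10 0 = true := by decide +kernel
theorem jt_chkT : rgAll jtChkT 4 0 = true := by decide +kernel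
theorem jt_chkC : rgAll jtChkC 7 0 = true := by decide +kernel
theorem jt_chkW5 : rgAll jtChkW5 7 0 = true := by decide +kernel
theorem jt_chkW6 : rgAll jtChkW6 11 0 = true := by decide +kernel
theorem jt_chkS : rgAll jtChkS 11 0 = true := by decide +kernel
theorem jt_chkNt : rgAll jtChkNt 6 0 = true := by decide +kernel
theorem jt_chkD : rgAll jtChkD 14 0 = true := by decide +kernel
theorem jt_gc_zero : jtGC 0 = cX := by decide +kernel
theorem jt_nc_zero : jtNC 0 = idC := by decide +kernel
theorem jt_nc_one : jtNC 1 = cX := by decide +kernel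
theorem jt_tc_zero : jtTC 0 = idC := by decide +kernel
theorem jt_wc : packSym (eScal 2) = jtWC := by decide +kernel
theorem jt_z_sq : mulF cX cX = idC := by decide +kernel
theorem jt_c3 : mulF jtC3 (mulF jtC3 jtC3) = idC ∧ jtC3 ≠ idC := by decide +kernel
theorem jt_c5 : mulF jtC5 (mulF jtC5 (mulF jtC5 (mulF jtC5 jtC5))) = idC ∧ jtC5 ≠ idC := by
  decide +kernel

end Cfsg.Agent.Helper86
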