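import Cfsg.Agent.Helper86.J3FData

/-!
# The 2-local structure of the Janko group `J₃`: kernel-checked certificates, part X2 (seat helper86)
-/

set_option autoImplicit false

namespace Cfsg.Agent.Helper86

open Cfsg.Agent.Helper7.J3
open Cfsg.Agent.Helper7 (rgAll rgAll_spec)

theorem jt_chkX_14 : rgAll jtChkX 10 (1024 * 14) = true := by decide +kernel
theorem jt_chkX_15 : rgAll jtChkX 10 (1024 * 15) = true := by decide +kernel
theorem jt_chkX_16 : rgAll jtChkX 10 (1024 * 16) = true := by decide +kernel
theorem jt_chkX_17 : rgAll jtChkX 10 (1024 * 17) = true := by decide +kernel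
theorem jt_chkX_18 : rgAll jtChkX 10 (1024 * 18) = true := by decide +kernel
theorem jt_chkX_19 : rgAll jtChkX 10 (1024 * 19) = true := by decide +kernel
theorem jt_chkX_20 : rgAll jtChkX 10 (1024 * 20) = true := by decide +kernel

end Cfsg.Agent.Helper86
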