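import Cfsg.Agent.Helper86.J3FSpec
import Cfsg.Agent.Helper86.AltNorm
import Cfsg.Agent.S0065

/-!
# The 2-local structure of the Janko group `J₃` inside its triple cover (seat helper86)

`jtG H j` (`j < 8`) are eight involutions of the triple cover, all conjugate to `jtG H 0 = gx`;
`jtCC H` is the subgroup they generate (of order 1920; with the centre it is the centraliser of
`gx`), `jtS0 H` a Sylow 2-subgroup (order 128) and `jtQQ H` the normal subgroup of order 32.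
-/

set_option autoImplicit false

namespace Cfsg.Agent.Helper86

open Cfsg Cfsg.Agent.Helper7.J3

section Generic

theorem jt_cover {G : Type*} [Group G] [Finite G] (Hs : Subgroup G) (gens : Set G) (σ : ℕ → G)
    (m : ℕ) (h1 : σ 0 = 1) (hm : 0 < m)
    (hd : ∀ g ∈ gens, ∀ i, i < m → ∃ i', i' < m ∧ ∃ h ∈ Hs, g * σ i = σ i' * h) :
    ∀ κ ∈ Subgroup.closure gens, ∃ i, i < m ∧ ∃ h ∈ Hs, κ = σ i * h := by
  intro κ hκ
  have key : ∀ τ : G, (∃ i, i < m ∧ ∃ h ∈ Hs, τ = σ i * h) →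
      ∃ i, i < m ∧ ∃ h ∈ Hs, κ * τ = σ i * h := by
    induction hκ using Subgroup.closure_induction with
    | mem y hy =>
      rintro τ ⟨i, hi, h, hh, rfl⟩
      obtain ⟨i', hi', h0, hh0, hx⟩ := hd y hy i hi
      exact ⟨i', hi', h0 * h, Hs.mul_mem hh0 hh, by rw [← mul_assoc, hx, mul_assoc]⟩
    | one =>
      intro τ h
      rw [one_mul]
      exact h
    | mul y z _ _ hy hz =>
      intro τ h
      rw [mul_assoc]
      exact hy _ (hz τ h)
    | inv y _ hy =>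
      intro τ h
      have hpow : ∀ n : ℕ, ∃ i, i < m ∧ ∃ h ∈ Hs, y ^ n * τ = σ i * h := by
        intro n
        induction n with
        | zero =>
          rw [pow_zero, one_mul]
          exact h
        | succ n ih =>
          rw [pow_succ', mul_assoc]
          exact hy _ ih
      have hinv : y⁻¹ = y ^ (orderOf y - 1) := by
        apply inv_eq_of_mul_eq_one_right
        rw [← pow_succ', Nat.sub_add_cancel (orderOf_pos y), pow_orderOf_eq_one]
      rw [hinv]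
      exact hpow _
  have h3 := key 1 ⟨0, hm, 1, Hs.one_mem, by rw [h1, mul_one]⟩
  rwa [mul_one] at h3

end Generic

section
variable {F : Type*} [Field F] {ω : F}

/-- `c` is the code of the element `x` of the triple cover. -/
def IsC (x : ↥(Spor.threeJ3 F ω)) (c : ℕ) : Prop := IsCode ω (x : GL Spor.F9 F) c

theorem IsC.mul (H : Ctx ω) {x y : ↥(Spor.threeJ3 F ω)} {c d : ℕ} (hx : IsC x c) (hy : IsC y d) :
    IsC (x * y) (mulC c d) := IsCode.mul H.two H.om hx hy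

theorem IsC.eq {x y : ↥(Spor.threeJ3 F ω)} {c : ℕ} (hx : IsC x c) (hy : IsC y c) : x = y :=
  Subtype.ext (IsCode.eq hx hy)

theorem isC_one : IsC (1 : ↥(Spor.threeJ3 F ω)) idC := isCode_one

theorem IsC.ne (H : Ctx ω) {x y : ↥(Spor.threeJ3 F ω)} {c d : ℕ} (hx : IsC x c) (hy : IsC y d)
    (hc : c < 2 ^ 162) (hd : d < 2 ^ 162) (hne : c ≠ d) : x ≠ y := by
  intro e
  rw [e] at hx
  exact hne (IsCodeM.code_eq H.two H.om hx hy hc hd)

theorem IsC.mul_inv (H : Ctx ω) {a b : ↥(Spor.threeJ3 F ω)} {c d : ℕ} (hab : IsC a (mulC c d))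
    (hb : IsC b d) : IsC (a * b⁻¹) c := isCode_mul_inv H hab hb

theorem jt_finite (H : Ctx ω) : Finite ↥(Spor.threeJ3 F ω) :=
  Nat.finite_of_card_ne_zero (by rw [card_threeJ3 H]; norm_num)

/-- The two generators as elements of the triple cover. -/
noncomputable def jtGg (H : Ctx ω) (g : ℕ) : ↥(Spor.threeJ3 F ω) :=
  if g = 0 then ⟨gx H, (gens_spec H).1⟩ else ⟨gy H, (gens_spec H).2.1⟩

theorem jtGg_code (H : Ctx ω) (g : ℕ) : IsC (jtGg H g) (gC g) := by
  unfold jtGg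
  split_ifs with h
  · subst h
    exact (gens_spec H).2.2.2.1
  · have e : gC g = cY := by
      unfold gC
      rw [beq_false h]
      rfl
    rw [e]
    exact (gens_spec H).2.2.2.2.1

theorem jt_X_ex (H : Ctx ω) : ∀ n k, k < 26163 → jtLev k = n →
    ∃ x : ↥(Spor.threeJ3 F ω), IsC x (jtXC k) ∧ IsConj (jtGg H 0) x := by
  intro n
  induction n using Nat.strong_induction_on with
  | _ n ih =>
    intro k hk hn
    obtain ⟨-, h305, hne⟩ := jt_chkX_spec hk
    by_cases hr : k = 305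
    · refine ⟨jtGg H 0, ?_, IsConj.refl _⟩
      rw [h305 hr]
      exact jtGg_code H 0
    · obtain ⟨h1, h2, -, h4⟩ := hne hr
      obtain ⟨y, hy, hyc⟩ := ih _ (hn ▸ h1) _ h2 rfl
      refine ⟨jtGg H (jtLab k) * y * (jtGg H (jtLab k))⁻¹, ?_, ?_⟩
      · apply IsC.mul_inv H _ (jtGg_code H _)
        rw [h4]
        exact IsC.mul H (jtGg_code H _) hy
      · exact hyc.trans (isConj_iff.2 ⟨jtGg H (jtLab k), rfl⟩)

/-- The conjugate of the involution with code `jtXC k`. -/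
noncomputable def jtXe (H : Ctx ω) (k : ℕ) : ↥(Spor.threeJ3 F ω) :=
  if h : k < 26163 then Classical.choose (jt_X_ex H _ k h rfl) else 1

theorem jtXe_code (H : Ctx ω) {k : ℕ} (hk : k < 26163) : IsC (jtXe H k) (jtXC k) := by
  unfold jtXe
  rw [dif_pos hk]
  exact (Classical.choose_spec (jt_X_ex H _ k hk rfl)).1

theorem jtXe_conj (H : Ctx ω) {k : ℕ} (hk : k < 26163) : IsConj (jtGg H 0) (jtXe H k) := by
  unfold jtXe
  rw [dif_pos hk]
  exact (Classical.choose_spec (jt_X_ex H _ k hk rfl)).2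

theorem jtXe_inj (H : Ctx ω) {i j : ℕ} (hi : i < 26163) (hj : j < 26163)
    (h : jtXe H i = jtXe H j) : i = j := by
  by_contra hne
  rcases Nat.lt_or_gt_of_ne hne with hlt | hlt
  · exact IsC.ne H (jtXe_code H hi) (jtXe_code H hj) (jtXC_lt _) (jtXC_lt _)
      (Nat.ne_of_lt (jtXC_strict j i hlt hj)) h
  · exact IsC.ne H (jtXe_code H hi) (jtXe_code H hj) (jtXC_lt _) (jtXC_lt _)
      (Nat.ne_of_gt (jtXC_strict i j hlt hi)) h

/-- The eight generators of the centraliser. -/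
noncomputable def jtG (H : Ctx ω) (j : ℕ) : ↥(Spor.threeJ3 F ω) := jtXe H (jtGk j)

theorem jtG_code (H : Ctx ω) {j : ℕ} (hj : j < 8) : IsC (jtG H j) (jtGC j) := by
  obtain ⟨h1, h2, -⟩ := jt_chkG_spec hj
  rw [← h2]
  exact jtXe_code H h1

theorem jtG_conj (H : Ctx ω) {j : ℕ} (hj : j < 8) : IsConj (jtGg H 0) (jtG H j) :=
  jtXe_conj H (jt_chkG_spec hj).1

theorem jtG_zero (H : Ctx ω) : jtG H 0 = jtGg H 0 := by
  have h := jtG_code H (j := 0) (by norm_num)
  rw [jt_gc_zero] at h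
  exact IsC.eq h (jtGg_code H 0)

theorem jtZ_sq (H : Ctx ω) : jtG H 0 * jtG H 0 = 1 := by
  have h := jtG_code H (j := 0) (by norm_num)
  rw [jt_gc_zero] at h
  have h2 := IsC.mul H h h
  rw [← mulF_eq, jt_z_sq] at h2
  exact IsC.eq h2 isC_one

theorem jtG_sq (H : Ctx ω) {j : ℕ} (hj : j < 8) : jtG H j * jtG H j = 1 := by
  obtain ⟨c, hc⟩ := isConj_iff.1 (jtG_conj H hj)
  rw [← jtG_zero] at hc
  rw [← hc]
  calc c * jtG H 0 * c⁻¹ * (c * jtG H 0 * c⁻¹) = c * (jtG H 0 * jtG H 0) * c⁻¹ := by group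
    _ = 1 := by rw [jtZ_sq]; group

theorem jtG_inv (H : Ctx ω) {j : ℕ} (hj : j < 8) : (jtG H j)⁻¹ = jtG H j :=
  inv_eq_of_mul_eq_one_left (jtG_sq H hj)

theorem jtZ_ne_one (H : Ctx ω) : jtG H 0 ≠ 1 := by
  have h := jtG_code H (j := 0) (by norm_num)
  rw [jt_gc_zero] at h
  apply IsC.ne H h isC_one (by decide) (by decide)
  decide

/-- The subgroup generated by the eight involutions. -/
noncomputable def jtCC (H : Ctx ω) : Subgroup ↥(Spor.threeJ3 F ω) :=
  Subgroup.closure {x | ∃ j, j < 8 ∧ x = jtG H j}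

/-- The Sylow 2-subgroup. -/
noncomputable def jtS0 (H : Ctx ω) : Subgroup ↥(Spor.threeJ3 F ω) :=
  Subgroup.closure {x | ∃ j, j < 7 ∧ x = jtG H j}

/-- The normal subgroup of order 32 of the centraliser. -/
noncomputable def jtQQ (H : Ctx ω) : Subgroup ↥(Spor.threeJ3 F ω) :=
  Subgroup.closure {x | ∃ j, j < 5 ∧ x = jtG H j}

theorem jtS0_le (H : Ctx ω) : jtS0 H ≤ jtCC H := by
  rw [jtS0, Subgroup.closure_le]
  rintro _ ⟨j, hj, rfl⟩
  exact Subgroup.subset_closure ⟨j, by omega, rfl⟩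

theorem jtQQ_le (H : Ctx ω) : jtQQ H ≤ jtS0 H := by
  rw [jtQQ, Subgroup.closure_le]
  rintro _ ⟨j, hj, rfl⟩
  exact Subgroup.subset_closure ⟨j, by omega, rfl⟩

theorem jtG_mem_S0 (H : Ctx ω) {j : ℕ} (hj : j < 7) : jtG H j ∈ jtS0 H :=
  Subgroup.subset_closure ⟨j, hj, rfl⟩

theorem jtG_mem_QQ (H : Ctx ω) {j : ℕ} (hj : j < 5) : jtG H j ∈ jtQQ H :=
  Subgroup.subset_closure ⟨j, hj, rfl⟩

theorem jtG_mem_CC (H : Ctx ω) {j : ℕ} (hj : j < 8) : jtG H j ∈ jtCC H :=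
  Subgroup.subset_closure ⟨j, hj, rfl⟩

theorem jt_N_ex (H : Ctx ω) : ∀ e, e < 128 → ∃ x ∈ jtS0 H, IsC x (jtNC e) := by
  intro e
  induction e using Nat.strong_induction_on with
  | _ e ih =>
    intro he
    by_cases h0 : e = 0
    · subst h0
      exact ⟨1, Subgroup.one_mem _, by rw [jt_nc_zero]; exact isC_one⟩
    · obtain ⟨h1, h2, h3, -⟩ := jt_chkN_spec he h0
      obtain ⟨y, hy, hyc⟩ := ih _ h1 (by omega)
      refine ⟨jtG H (jtNLt e) * y, Subgroup.mul_mem _ (jtG_mem_S0 H h2) hy, ?_⟩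
      rw [← h3]
      exact IsC.mul H (jtG_code H (by omega)) hyc

/-- The elements of the Sylow subgroup. -/
noncomputable def jtN (H : Ctx ω) (e : ℕ) : ↥(Spor.threeJ3 F ω) :=
  if h : e < 128 then Classical.choose (jt_N_ex H e h) else 1

theorem jtN_mem (H : Ctx ω) (e : ℕ) : jtN H e ∈ jtS0 H := by
  unfold jtN
  split_ifs with h
  · exact (Classical.choose_spec (jt_N_ex H e h)).1
  · exact Subgroup.one_mem _

theorem jtN_code (H : Ctx ω) {e : ℕ} (he : e < 128) : IsC (jtN H e) (jtNC e) := by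
  unfold jtN
  rw [dif_pos he]
  exact (Classical.choose_spec (jt_N_ex H e he)).2

theorem jtN_zero (H : Ctx ω) : jtN H 0 = 1 := by
  have h := jtN_code H (e := 0) (by norm_num)
  rw [jt_nc_zero] at h
  exact IsC.eq h isC_one

theorem jtN_one (H : Ctx ω) : jtN H 1 = jtG H 0 := by
  have h := jtN_code H (e := 1) (by norm_num)
  rw [jt_nc_one, ← jt_gc_zero] at h
  exact IsC.eq h (jtG_code H (by norm_num))

theorem jtN_tree (H : Ctx ω) {e : ℕ} (he : e < 128) (h0 : e ≠ 0) :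
    jtN H e = jtG H (jtNLt e) * jtN H (jtNPar e) := by
  obtain ⟨h1, h2, h3, -⟩ := jt_chkN_spec he h0
  have h := IsC.mul H (jtG_code H (j := jtNLt e) (by omega)) (jtN_code H (e := jtNPar e) (by omega))
  rw [h3] at h
  exact IsC.eq (jtN_code H he) h

theorem jtN_mem_Q (H : Ctx ω) : ∀ e, e < 32 → jtN H e ∈ jtQQ H := by
  intro e
  induction e using Nat.strong_induction_on with
  | _ e ih =>
    intro he
    by_cases h0 : e = 0
    · rw [h0, jtN_zero]
      exact Subgroup.one_mem _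
    · obtain ⟨h1, -, -, h4⟩ := jt_chkN_spec (e := e) (by omega) h0
      rw [jtN_tree H (by omega) h0]
      exact Subgroup.mul_mem _ (jtG_mem_QQ H (h4 he)) (ih _ h1 (by omega))

theorem jtG_mul_N (H : Ctx ω) {j e : ℕ} (hj : j < 7) (he : e < 128) :
    jtMul (128 * j + e) < 128 ∧ jtG H j * jtN H e = jtN H (jtMul (128 * j + e)) := by
  obtain ⟨h1, h2⟩ := jt_chkM_spec hj he
  refine ⟨h1, ?_⟩
  have h := IsC.mul H (jtG_code H (j := j) (by omega)) (jtN_code H he)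
  rw [h2] at h
  exact IsC.eq h (jtN_code H h1)

theorem jtS0_cover (H : Ctx ω) {s : ↥(Spor.threeJ3 F ω)} (hs : s ∈ jtS0 H) :
    ∃ e, e < 128 ∧ s = jtN H e := by
  have := jt_finite H
  obtain ⟨e, he, h, hh, rfl⟩ := jt_cover ⊥ {x | ∃ j, j < 7 ∧ x = jtG H j} (jtN H) 128 (jtN_zero H)
    (by norm_num) (by
      rintro _ ⟨j, hj, rfl⟩ e he
      obtain ⟨h1, h2⟩ := jtG_mul_N H hj he
      exact ⟨_, h1, 1, Subgroup.one_mem _, by rw [mul_one]; exact h2⟩) s hs
  rw [Subgroup.mem_bot.1 hh, mul_one]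
  exact ⟨e, he, rfl⟩

theorem jtN_inj (H : Ctx ω) {e e' : ℕ} (he : e < 128) (he' : e' < 128) (h : jtN H e = jtN H e') :
    e = e' := by
  by_contra hne
  exact IsC.ne H (jtN_code H he) (jtN_code H he') (jtNC_lt _) (jtNC_lt _)
    (jt_chkD_spec he he' hne) h

theorem jt_card_S0 (H : Ctx ω) : Nat.card ↥(jtS0 H) = 128 := by
  have := jt_finite H
  apply le_antisymm
  · have hex : ∀ s : ↥(jtS0 H), ∃ e : Fin 128, (s : ↥(Spor.threeJ3 F ω)) = jtN H e.val := by
      intro s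
      obtain ⟨e, he, h⟩ := jtS0_cover H s.2
      exact ⟨⟨e, he⟩, h⟩
    choose f hf using hex
    have hinj : Function.Injective f := by
      intro s s' h
      apply Subtype.ext
      rw [hf s, hf s', h]
    have h1 := Nat.card_le_card_of_injective f hinj
    rwa [Nat.card_fin] at h1
  · have hinj : Function.Injective (fun e : Fin 128 => (⟨jtN H e.val, jtN_mem H e.val⟩ : ↥(jtS0 H))) := by
      intro e e' h
      exact Fin.ext (jtN_inj H e.2 e'.2 (congrArg Subtype.val h))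
    have h1 := Nat.card_le_card_of_injective _ hinj
    rwa [Nat.card_fin] at h1

theorem jt_isPGroup_S0 (H : Ctx ω) : IsPGroup 2 ↥(jtS0 H) :=
  IsPGroup.of_card (n := 7) (jt_card_S0 H)

theorem jt_T_ex (H : Ctx ω) : ∀ i, i < 15 → ∃ x ∈ jtCC H, IsC x (jtTC i) := by
  intro i
  induction i using Nat.strong_induction_on with
  | _ i ih =>
    intro hi
    by_cases h0 : i = 0
    · subst h0
      exact ⟨1, Subgroup.one_mem _, by rw [jt_tc_zero]; exact isC_one⟩
    · obtain ⟨h1, h2, h3⟩ := jt_chkT_spec hi h0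
      obtain ⟨y, hy, hyc⟩ := ih _ h1 (by omega)
      refine ⟨jtG H (jtTLt i) * y, Subgroup.mul_mem _ (jtG_mem_CC H h2) hy, ?_⟩
      rw [← h3]
      exact IsC.mul H (jtG_code H h2) hyc

/-- The coset representatives of the Sylow subgroup in the centraliser. -/
noncomputable def jtT (H : Ctx ω) (i : ℕ) : ↥(Spor.threeJ3 F ω) :=
  if h : i < 15 then Classical.choose (jt_T_ex H i h) else 1

theorem jtT_mem (H : Ctx ω) (i : ℕ) : jtT H i ∈ jtCC H := by
  unfold jtT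
  split_ifs with h
  · exact (Classical.choose_spec (jt_T_ex H i h)).1
  · exact Subgroup.one_mem _

theorem jtT_code (H : Ctx ω) {i : ℕ} (hi : i < 15) : IsC (jtT H i) (jtTC i) := by
  unfold jtT
  rw [dif_pos hi]
  exact (Classical.choose_spec (jt_T_ex H i hi)).2

theorem jtT_zero (H : Ctx ω) : jtT H 0 = 1 := by
  have h := jtT_code H (i := 0) (by norm_num)
  rw [jt_tc_zero] at h
  exact IsC.eq h isC_one

theorem jtG_mul_T (H : Ctx ω) {j i : ℕ} (hj : j < 8) (hi : i < 15) :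
    jtCt1 (15 * j + i) < 15 ∧ jtCt2 (15 * j + i) < 128 ∧
      jtG H j * jtT H i = jtT H (jtCt1 (15 * j + i)) * jtN H (jtCt2 (15 * j + i)) := by
  obtain ⟨h1, h2, h3⟩ := jt_chkC_spec hj hi
  refine ⟨h1, h2, ?_⟩
  have h := IsC.mul H (jtG_code H hj) (jtT_code H hi)
  rw [h3] at h
  exact IsC.eq h (IsC.mul H (jtT_code H h1) (jtN_code H h2))

theorem jtCC_cover (H : Ctx ω) {c : ↥(Spor.threeJ3 F ω)} (hc : c ∈ jtCC H) :
    ∃ i, i < 15 ∧ ∃ e, e < 128 ∧ c = jtT H i * jtN H e := by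
  have := jt_finite H
  obtain ⟨i, hi, h, hh, rfl⟩ := jt_cover (jtS0 H) {x | ∃ j, j < 8 ∧ x = jtG H j} (jtT H) 15
    (jtT_zero H) (by norm_num) (by
      rintro _ ⟨j, hj, rfl⟩ i hi
      obtain ⟨h1, -, h3⟩ := jtG_mul_T H hj hi
      exact ⟨_, h1, _, jtN_mem H _, h3⟩) c hc
  obtain ⟨e, he, rfl⟩ := jtS0_cover H hh
  exact ⟨i, hi, e, he, rfl⟩

theorem jtG_comm_Z (H : Ctx ω) {j : ℕ} (hj : j < 8) : jtG H j * jtG H 0 = jtG H 0 * jtG H j := by
  obtain ⟨-, -, h3⟩ := jt_chkG_spec hj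
  have h0 := jtG_code H (j := 0) (by norm_num)
  rw [jt_gc_zero] at h0
  have h := IsC.mul H (jtG_code H hj) h0
  rw [h3] at h
  exact IsC.eq h (IsC.mul H h0 (jtG_code H hj))

theorem jtCC_comm_Z (H : Ctx ω) {c : ↥(Spor.threeJ3 F ω)} (hc : c ∈ jtCC H) :
    c * jtG H 0 = jtG H 0 * c := by
  have hle : jtCC H ≤ Subgroup.centralizer {jtG H 0} := by
    rw [jtCC, Subgroup.closure_le]
    rintro _ ⟨j, hj, rfl⟩
    rw [SetLike.mem_coe, Subgroup.mem_centralizer_iff]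
    rintro _ rfl
    exact (jtG_comm_Z H hj).symm
  exact (Subgroup.mem_centralizer_iff.1 (hle hc) _ rfl).symm

/-- The centre of the Sylow subgroup has order two. -/
theorem jt_center (H : Ctx ω) {s : ↥(Spor.threeJ3 F ω)} (hs : s ∈ jtS0 H)
    (hc : ∀ j, j < 7 → jtG H j * s = s * jtG H j) : s = 1 ∨ s = jtG H 0 := by
  obtain ⟨e, he, rfl⟩ := jtS0_cover H hs
  by_cases h2 : 2 ≤ e
  · exfalso
    obtain ⟨h1, hne⟩ := jt_chkW5_spec he h2
    exact IsC.ne H (IsC.mul H (jtG_code H (j := jtW5 e) (by omega)) (jtN_code H he))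
      (IsC.mul H (jtN_code H he) (jtG_code H (j := jtW5 e) (by omega))) (mulC_lt _ _) (mulC_lt _ _)
      hne (hc _ h1)
  · have he' : e = 0 ∨ e = 1 := by omega
    rcases he' with rfl | rfl
    · exact Or.inl (jtN_zero H)
    · exact Or.inr (jtN_one H)

theorem jtG_conj_G (H : Ctx ω) {j l : ℕ} (hj : j < 8) (hl : l < 5) :
    jtNt (5 * j + l) < 32 ∧ jtG H j * jtG H l * (jtG H j)⁻¹ = jtN H (jtNt (5 * j + l)) := by
  obtain ⟨h1, h2⟩ := jt_chkNt_spec hj hl
  refine ⟨h1, ?_⟩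
  rw [mul_inv_eq_iff_eq_mul]
  have h := IsC.mul H (jtG_code H hj) (jtG_code H (j := l) (by omega))
  rw [h2] at h
  exact IsC.eq h (IsC.mul H (jtN_code H (by omega)) (jtG_code H hj))

theorem jtG_conj_Q (H : Ctx ω) {j : ℕ} (hj : j < 8) :
    ∀ y ∈ jtQQ H, jtG H j * y * (jtG H j)⁻¹ ∈ jtQQ H := by
  unfold jtQQ
  apply conj_mem_closure
  rintro _ ⟨l, hl, rfl⟩
  obtain ⟨h1, h2⟩ := jtG_conj_G H hj hl
  rw [h2]
  exact jtN_mem_Q H _ h1

end

end Cfsg.Agent.Helper86
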