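import Cfsg.Agent.Helper86.J3FGrp
import Cfsg.Agent.Helper86.AltTransport
import Cfsg.Agent.Helper52.J3PieceQ
import Cfsg.Agent.Helper52.J3PieceK

/-!
# The 2-fusion system of the Janko group `J₃` is simple (seat helper86)
-/

set_option autoImplicit false

namespace Cfsg.Agent.Helper86

open Cfsg Cfsg.Agent.Helper7.J3

theorem jt_pow3 {G : Type*} [Monoid G] (x : G) : x ^ 3 = x * (x * x) := by
  rw [pow_succ, pow_two, mul_assoc]

theorem jt_pow5 {G : Type*} [Monoid G] (x : G) : x ^ 5 = x * (x * (x * (x * x))) := by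
  rw [pow_succ, pow_succ, pow_succ, pow_two]
  simp only [mul_assoc]

section
variable {F : Type*} [Field F] {ω : F}

/-- The subgroup generated by the eight involutions has order at least 1920. -/
theorem jt_card_CC (H : Ctx ω) : 1920 ≤ Nat.card ↥(jtCC H) := by
  have := jt_finite H
  have h128 : 128 ∣ Nat.card ↥(jtCC H) := by
    rw [← jt_card_S0 H]
    exact Subgroup.card_dvd_of_le (jtS0_le H)
  have hmem : ∀ i e, jtT H i * jtN H e ∈ jtCC H := fun i e =>
    Subgroup.mul_mem _ (jtT_mem H i) (jtS0_le H (jtN_mem H e))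
  have hx3c : IsC (jtT H 1 * jtN H 34) jtC3 := by
    have h := IsC.mul H (jtT_code H (i := 1) (by norm_num)) (jtN_code H (e := 34) (by norm_num))
    rw [← mulF_eq] at h
    exact h
  have hx5c : IsC (jtT H 1 * jtN H 64) jtC5 := by
    have h := IsC.mul H (jtT_code H (i := 1) (by norm_num)) (jtN_code H (e := 64) (by norm_num))
    rw [← mulF_eq] at h
    exact h
  have hlt3 : jtC3 < 2 ^ 162 := by
    show mulF (jtTC 1) (jtNC 34) < 2 ^ 162
    rw [mulF_eq]
    exact mulC_lt _ _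
  have hlt5 : jtC5 < 2 ^ 162 := by
    show mulF (jtTC 1) (jtNC 64) < 2 ^ 162
    rw [mulF_eq]
    exact mulC_lt _ _
  have h3 : 3 ∣ Nat.card ↥(jtCC H) := by
    have hpow : (jtT H 1 * jtN H 34) ^ 3 = 1 := by
      have h := IsC.mul H hx3c (IsC.mul H hx3c hx3c)
      have e := jt_c3.1
      simp only [mulF_eq] at e
      rw [e] at h
      rw [jt_pow3]
      exact IsC.eq h isC_one
    have hne : jtT H 1 * jtN H 34 ≠ 1 := IsC.ne H hx3c isC_one hlt3 (by decide) jt_c3.2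
    have ho : orderOf (jtT H 1 * jtN H 34) = 3 := orderOf_eq_prime hpow hne
    have hd := Subgroup.orderOf_dvd_natCard _ (hmem 1 34)
    rwa [ho] at hd
  have h5 : 5 ∣ Nat.card ↥(jtCC H) := by
    have hpow : (jtT H 1 * jtN H 64) ^ 5 = 1 := by
      have h := IsC.mul H hx5c (IsC.mul H hx5c (IsC.mul H hx5c (IsC.mul H hx5c hx5c)))
      have e := jt_c5.1
      simp only [mulF_eq] at e
      rw [e] at h
      rw [jt_pow5]
      exact IsC.eq h isC_one
    have hne : jtT H 1 * jtN H 64 ≠ 1 := IsC.ne H hx5c isC_one hlt5 (by decide) jt_c5.2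
    have : Fact (Nat.Prime 5) := ⟨by norm_num⟩
    have ho : orderOf (jtT H 1 * jtN H 64) = 5 := orderOf_eq_prime hpow hne
    have hd := Subgroup.orderOf_dvd_natCard _ (hmem 1 64)
    rwa [ho] at hd
  have h15 : 15 ∣ Nat.card ↥(jtCC H) :=
    Nat.Coprime.mul_dvd_of_dvd_of_dvd (by norm_num : Nat.Coprime 3 5) h3 h5
  have h1920 : 1920 ∣ Nat.card ↥(jtCC H) :=
    Nat.Coprime.mul_dvd_of_dvd_of_dvd (by norm_num : Nat.Coprime 15 128) h15 h128
  exact Nat.le_of_dvd Nat.card_pos h1920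

theorem jt_zG_code (H : Ctx ω) : IsC (zG H) jtWC := by
  show IsCode ω (gz H) jtWC
  rw [← jt_wc]
  exact (gens_spec H).2.2.2.2.2.1

theorem jt_zG_not_mem (H : Ctx ω) : zG H ∉ jtCC H := by
  intro h
  obtain ⟨i, hi, e, he, h1⟩ := jtCC_cover H h
  exact IsC.ne H (jt_zG_code H) (IsC.mul H (jtT_code H hi) (jtN_code H he)) (by decide)
    (mulC_lt _ _) (Ne.symm (jt_chkS_spec hi he)) h1

theorem jt_orderOf_zG (H : Ctx ω) : orderOf (zG H) = 3 := by
  have h := card_center H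
  rw [center_eq H, Nat.card_zpowers] at h
  exact h

theorem jt_center_cases (H : Ctx ω) {x : ↥(Spor.threeJ3 F ω)}
    (hx : x ∈ Subgroup.center ↥(Spor.threeJ3 F ω)) : x = 1 ∨ x = zG H ∨ x = zG H * zG H := by
  rw [center_eq H] at hx
  obtain ⟨n, rfl⟩ := Subgroup.mem_zpowers_iff.1 hx
  have h1 : zG H ^ (n % ((orderOf (zG H) : ℕ) : ℤ)) = zG H ^ n := zpow_mod_orderOf _ _
  rw [jt_orderOf_zG H] at h1
  rw [← h1]
  have h2 : 0 ≤ n % ((3 : ℕ) : ℤ) := Int.emod_nonneg _ (by norm_num)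
  have h3 : n % ((3 : ℕ) : ℤ) < ((3 : ℕ) : ℤ) := Int.emod_lt_of_pos _ (by norm_num)
  have h4 : n % ((3 : ℕ) : ℤ) = 0 ∨ n % ((3 : ℕ) : ℤ) = 1 ∨ n % ((3 : ℕ) : ℤ) = 2 := by omega
  rcases h4 with h | h | h
  · left
    rw [h, zpow_zero]
  · right; left
    rw [h, zpow_one]
  · right; right
    rw [h]
    exact zpow_two _

theorem jt_CC_inter_center (H : Ctx ω) {x : ↥(Spor.threeJ3 F ω)} (hx : x ∈ jtCC H)
    (hz : x ∈ Subgroup.center ↥(Spor.threeJ3 F ω)) : x = 1 := by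
  rcases jt_center_cases H hz with h | h | h
  · exact h
  · exfalso
    rw [h] at hx
    exact jt_zG_not_mem H hx
  · exfalso
    rw [h] at hx
    have h2 := Subgroup.mul_mem _ hx hx
    have h3 : zG H ^ 3 = 1 := by
      have h4 := pow_orderOf_eq_one (zG H)
      rwa [jt_orderOf_zG H] at h4
    have e : zG H * zG H * (zG H * zG H) = zG H := by
      calc zG H * zG H * (zG H * zG H) = zG H * (zG H * zG H) * zG H := by
            simp only [mul_assoc]
        _ = zG H := by rw [← jt_pow3, h3, one_mul]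
    rw [e] at h2
    exact jt_zG_not_mem H h2

/-- The centraliser of the involution is generated by the eight involutions and the centre. -/
theorem jt_cent_Z (H : Ctx ω) {g : ↥(Spor.threeJ3 F ω)} (hg : g * jtG H 0 = jtG H 0 * g) :
    ∃ c ∈ jtCC H, ∃ ζ ∈ Subgroup.center ↥(Spor.threeJ3 F ω), g = c * ζ := by
  have := jt_finite H
  refine Cfsg.Agent.Helper52.cent_of_class_count (jtG H 0) (jtCC H) (Subgroup.center _) 26163 5760
    ?_ (by norm_num) ?_ ?_ ?_ ?_ ?_ g hg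
  · rw [card_threeJ3 H]
  · refine ⟨fun k => jtXe H k.val, fun a b h => Fin.ext (jtXe_inj H a.2 b.2 h), fun k => ?_⟩
    rw [jtG_zero]
    exact jtXe_conj H k.2
  · intro c hc
    exact jtCC_comm_Z H hc
  · intro ζ hζ g
    exact (Subgroup.mem_center_iff.1 hζ g).symm
  · intro x hx hz
    exact jt_CC_inter_center H hx hz
  · rw [card_center H]
    have := jt_card_CC H
    omega

/-- The subgroup `Q` is self-centralising modulo the centre. -/
theorem jt_cent_Q (H : Ctx ω) {c : ↥(Spor.threeJ3 F ω)} (h : ∀ x ∈ jtQQ H, c * x = x * c) :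
    ∃ ζ ∈ Subgroup.center ↥(Spor.threeJ3 F ω), c * ζ ∈ jtQQ H := by
  obtain ⟨c', hc', ζ, hζ, rfl⟩ := jt_cent_Z H (h _ (jtG_mem_QQ H (by norm_num)))
  refine ⟨ζ⁻¹, Subgroup.inv_mem _ hζ, ?_⟩
  rw [mul_assoc, mul_inv_cancel, mul_one]
  have hc'Q : ∀ x ∈ jtQQ H, c' * x = x * c' := by
    intro x hx
    have h1 := h x hx
    have hz : ζ * x = x * ζ := (Subgroup.mem_center_iff.1 hζ x).symm
    have h2 : c' * x * ζ = x * c' * ζ := by
      calc c' * x * ζ = c' * (x * ζ) := mul_assoc _ _ _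
        _ = c' * (ζ * x) := by rw [hz]
        _ = c' * ζ * x := (mul_assoc _ _ _).symm
        _ = x * (c' * ζ) := h1
        _ = x * c' * ζ := (mul_assoc _ _ _).symm
    exact mul_right_cancel h2
  obtain ⟨i, hi, e, he, rfl⟩ := jtCC_cover H hc'
  by_cases h32 : 32 ≤ 128 * i + e
  · exfalso
    obtain ⟨h1, hne⟩ := jt_chkW6_spec hi he h32
    have hcomm := hc'Q _ (jtG_mem_QQ H h1)
    exact IsC.ne H
      (IsC.mul H (jtG_code H (by omega)) (IsC.mul H (jtT_code H hi) (jtN_code H he)))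
      (IsC.mul H (IsC.mul H (jtT_code H hi) (jtN_code H he)) (jtG_code H (by omega)))
      (mulC_lt _ _) (mulC_lt _ _) hne hcomm.symm
  · have hi0 : i = 0 := by omega
    have he32 : e < 32 := by omega
    rw [hi0, jtT_zero, one_mul]
    exact jtN_mem_Q H e he32

theorem jtCC_conj_Q (H : Ctx ω) {d : ↥(Spor.threeJ3 F ω)} (hd : d ∈ jtCC H) :
    ∀ y ∈ jtQQ H, d * y * d⁻¹ ∈ jtQQ H := by
  have := jt_finite H
  have hle : jtCC H ≤ Subgroup.normalizer (jtQQ H : Set ↥(Spor.threeJ3 F ω)) := by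
    rw [jtCC, Subgroup.closure_le]
    rintro _ ⟨j, hj, rfl⟩
    exact Cfsg.Agent.Helper85.mem_normalizer_of_conj_mem (jtG_conj_Q H hj)
  exact fun y hy => (Subgroup.mem_normalizer_iff.1 (hle hd) y).1 hy

theorem jtCC_le_gen (H : Ctx ω) : jtCC H ≤ Subgroup.closure
    {x : ↥(Spor.threeJ3 F ω) | (∃ k : ℕ, x ^ 2 ^ k = 1) ∧ ∀ y ∈ jtQQ H, x * y * x⁻¹ ∈ jtQQ H} := by
  rw [jtCC, Subgroup.closure_le]
  rintro _ ⟨j, hj, rfl⟩
  exact Subgroup.subset_closure ⟨⟨1, by rw [pow_one, sq]; exact jtG_sq H hj⟩, jtG_conj_Q H hj⟩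

/-- The normaliser of the Sylow subgroup lies in the centraliser of the involution. -/
theorem jt_norm_S0 (H : Ctx ω) {g : ↥(Spor.threeJ3 F ω)}
    (hgS : ∀ y ∈ jtS0 H, g * y * g⁻¹ ∈ jtS0 H) :
    ∃ ζ ∈ Subgroup.center ↥(Spor.threeJ3 F ω), g * ζ ∈ jtCC H := by
  have := jt_finite H
  have hgn : g ∈ Subgroup.normalizer (jtS0 H : Set ↥(Spor.threeJ3 F ω)) :=
    Cfsg.Agent.Helper85.mem_normalizer_of_conj_mem hgS
  have hz : g * jtG H 0 * g⁻¹ ∈ jtS0 H := hgS _ (jtG_mem_S0 H (by norm_num))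
  have hcen : ∀ j, j < 7 → jtG H j * (g * jtG H 0 * g⁻¹) = (g * jtG H 0 * g⁻¹) * jtG H j := by
    intro j hj
    have h1 : g⁻¹ * jtG H j * g ∈ jtS0 H := by
      rw [Subgroup.mem_normalizer_iff.1 hgn]
      have e : g * (g⁻¹ * jtG H j * g) * g⁻¹ = jtG H j := by group
      rw [e]
      exact jtG_mem_S0 H hj
    have h2 := jtCC_comm_Z H (jtS0_le H h1)
    calc jtG H j * (g * jtG H 0 * g⁻¹) = g * ((g⁻¹ * jtG H j * g) * jtG H 0) * g⁻¹ := by group
      _ = g * (jtG H 0 * (g⁻¹ * jtG H j * g)) * g⁻¹ := by rw [h2]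
      _ = (g * jtG H 0 * g⁻¹) * jtG H j := by group
  rcases jt_center H hz hcen with h | h
  · exfalso
    apply jtZ_ne_one H
    have e : jtG H 0 = g⁻¹ * (g * jtG H 0 * g⁻¹) * g := by group
    rw [e, h]
    group
  · rw [mul_inv_eq_iff_eq_mul] at h
    obtain ⟨c, hc, ζ, hζ, rfl⟩ := jt_cent_Z H h
    exact ⟨ζ⁻¹, Subgroup.inv_mem _ hζ, by rw [mul_assoc, mul_inv_cancel, mul_one]; exact hc⟩

/-- A nontrivial strongly closed subgroup contains the central involution. -/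
theorem jt_center_mem (H : Ctx ω) {T : Subgroup ↥(Spor.threeJ3 F ω)} (hTS : T ≤ jtS0 H)
    (hT : ∀ x ∈ T, ∀ g : ↥(Spor.threeJ3 F ω), g * x * g⁻¹ ∈ jtS0 H → g * x * g⁻¹ ∈ T)
    (hne : T ≠ ⊥) : jtG H 0 ∈ T := by
  have := jt_finite H
  have : Group.IsNilpotent ↥(jtS0 H) := (jt_isPGroup_S0 H).isNilpotent
  have hNn : (T.subgroupOf (jtS0 H)).Normal := by
    constructor
    intro n hn g
    rw [Subgroup.mem_subgroupOf] at hn ⊢
    exact hT _ hn g ((jtS0 H).mul_mem ((jtS0 H).mul_mem g.2 (hTS hn)) ((jtS0 H).inv_mem g.2))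
  have hN : T.subgroupOf (jtS0 H) ≠ ⊥ := by
    intro h
    apply hne
    rw [Subgroup.eq_bot_iff_forall]
    intro x hx
    have h1 : (⟨x, hTS hx⟩ : ↥(jtS0 H)) ∈ T.subgroupOf (jtS0 H) := Subgroup.mem_subgroupOf.2 hx
    rw [h, Subgroup.mem_bot] at h1
    exact congrArg Subtype.val h1
  have h := Cfsg.Agent.S0065.result (T.subgroupOf (jtS0 H)) hN
  have hex : ∃ s ∈ T.subgroupOf (jtS0 H) ⊓ Subgroup.center ↥(jtS0 H), s ≠ 1 := by
    by_contra hcon
    apply h
    rw [Subgroup.eq_bot_iff_forall]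
    intro x hx
    by_contra hx1
    exact hcon ⟨x, hx, hx1⟩
  obtain ⟨s, hs, hs1⟩ := hex
  obtain ⟨hsT, hsZ⟩ := Subgroup.mem_inf.1 hs
  rw [Subgroup.mem_subgroupOf] at hsT
  have hcomm : ∀ j, j < 7 → jtG H j * (s : ↥(Spor.threeJ3 F ω)) =
      (s : ↥(Spor.threeJ3 F ω)) * jtG H j := by
    intro j hj
    have h1 := Subgroup.mem_center_iff.1 hsZ ⟨jtG H j, jtG_mem_S0 H hj⟩
    exact congrArg Subtype.val h1
  rcases jt_center H s.2 hcomm with h1 | h1
  · exfalso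
    exact hs1 (Subtype.ext h1)
  · rw [← h1]
    exact hsT

/-- The Sylow subgroup has no proper nontrivial strongly closed subgroup. -/
theorem jt_strongly_closed (H : Ctx ω) {T : Subgroup ↥(Spor.threeJ3 F ω)} (hTS : T ≤ jtS0 H)
    (hT : ∀ x ∈ T, ∀ g : ↥(Spor.threeJ3 F ω), g * x * g⁻¹ ∈ jtS0 H → g * x * g⁻¹ ∈ T)
    (hne : T ≠ ⊥) : T = jtS0 H := by
  have hz : jtG H 0 ∈ T := jt_center_mem H hTS hT hne
  apply le_antisymm hTS
  rw [jtS0, Subgroup.closure_le]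
  rintro _ ⟨j, hj, rfl⟩
  obtain ⟨c, hc⟩ := isConj_iff.1 (jtG_conj H (j := j) (by omega))
  rw [← jtG_zero] at hc
  rw [SetLike.mem_coe, ← hc]
  apply hT _ hz
  rw [hc]
  exact jtG_mem_S0 H hj

/-- The hypotheses of the simplicity criterion hold in `J₃` at the prime two. -/
theorem jt_altHyp (H : Ctx ω) :
    AltHyp 2 (⊤ : Subgroup (Spor.J3 F ω))
        ((jtS0 H).map (QuotientGroup.mk' (Subgroup.center ↥(Spor.threeJ3 F ω)))) ∧
      Nat.card ↥((jtS0 H).map (QuotientGroup.mk' (Subgroup.center ↥(Spor.threeJ3 F ω)))) = 128 := by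
  have := jt_finite H
  have hZp : ∀ ζ ∈ Subgroup.center ↥(Spor.threeJ3 F ω), ∀ k : ℕ, ζ ^ 2 ^ k = 1 → ζ = 1 := by
    intro ζ hζ k hk
    have h3 : ζ ^ 3 = 1 := by
      have h := pow_card_eq_one' (G := ↥(Subgroup.center ↥(Spor.threeJ3 F ω))) (x := ⟨ζ, hζ⟩)
      rw [card_center H] at h
      exact congrArg Subtype.val h
    have d1 : orderOf ζ ∣ 3 := orderOf_dvd_of_pow_eq_one h3
    have d2 : orderOf ζ ∣ 2 ^ k := orderOf_dvd_of_pow_eq_one hk
    have hcop : Nat.Coprime 3 (2 ^ k) := Nat.Coprime.pow_right k (by norm_num)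
    have d3 : orderOf ζ ∣ 1 := by
      have := Nat.dvd_gcd d1 d2
      rwa [hcop] at this
    exact orderOf_eq_one_iff.1 (Nat.dvd_one.1 d3)
  have hSp : ∀ y ∈ jtS0 H, ∃ k : ℕ, y ^ 2 ^ k = 1 := by
    intro y hy
    refine ⟨7, ?_⟩
    have h := pow_card_eq_one' (G := ↥(jtS0 H)) (x := ⟨y, hy⟩)
    rw [jt_card_S0 H] at h
    exact congrArg Subtype.val h
  have hS1 : jtS0 H ≠ ⊥ := by
    intro h
    apply jtZ_ne_one H
    have h1 := jtG_mem_S0 H (j := 0) (by norm_num)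
    rw [h, Subgroup.mem_bot] at h1
    exact h1
  have h := Cfsg.Agent.Helper52.altHyp_central_quot (p := 2)
    (Subgroup.center ↥(Spor.threeJ3 F ω)) (fun ζ hζ g => (Subgroup.mem_center_iff.1 hζ g).symm)
    hZp (jtS0 H) (jtQQ H) (jtCC H) hSp hS1
    (fun T hTS hT => by
      by_cases hne : T = ⊥
      · exact Or.inl hne
      · exact Or.inr (jt_strongly_closed H hTS hT hne))
    (jtQQ_le H) (fun c hc => jt_cent_Q H hc) (fun d hd => jtCC_conj_Q H hd) (jtCC_le_gen H)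
    (fun g hg => jt_norm_S0 H hg)
  exact ⟨h.1, by rw [h.2, jt_card_S0]⟩

/-- The 2-fusion system of any group isomorphic to `J₃` is simple. -/
theorem jt_isSimple (H : Ctx ω) {G : Type*} [Group G] [Finite G] (e : G ≃* Spor.J3 F ω)
    (S : Sylow 2 G) : (groupFusionSystem (S : Subgroup G)).IsSimple 2 := by
  have : Fact (Nat.Prime 2) := ⟨Nat.prime_two⟩
  obtain ⟨hA, hcard⟩ := jt_altHyp H
  have hrange : e.toMonoidHom.range = ⊤ := MonoidHom.range_eq_top.2 e.surjective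
  have : Finite (Spor.J3 F ω) := Nat.finite_of_card_ne_zero (by rw [card_J3 H]; norm_num)
  apply isSimple_of_relSyl e.toMonoidHom e.injective S
    ((jtS0 H).map (QuotientGroup.mk' (Subgroup.center ↥(Spor.threeJ3 F ω))))
  · rw [hrange]
    exact le_top
  · exact IsPGroup.of_card (n := 7) hcard
  · intro S' hS' hle
    rw [hrange] at hS' ⊢
    have hS'eq : S' = (jtS0 H).map (QuotientGroup.mk' (Subgroup.center ↥(Spor.threeJ3 F ω))) := by
      obtain ⟨n, hn⟩ := IsPGroup.iff_card.1 hS'.2.1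
      have hdvd : Nat.card S' ∣ Nat.card (Spor.J3 F ω) := Subgroup.card_subgroup_dvd_card S'
      rw [card_J3 H, hn] at hdvd
      have hn7 : n ≤ 7 := by
        by_contra hcon
        have h8 : 2 ^ 8 ∣ 2 ^ n := pow_dvd_pow 2 (by omega)
        have h9 := h8.trans hdvd
        revert h9
        decide
      have hc : Nat.card S' ≤
          Nat.card ↥((jtS0 H).map (QuotientGroup.mk' (Subgroup.center ↥(Spor.threeJ3 F ω)))) := by
        rw [hn, hcard]
        calc 2 ^ n ≤ 2 ^ 7 := Nat.pow_le_pow_right (by norm_num) hn7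
          _ = 128 := by norm_num
      exact (Subgroup.eq_of_le_of_card_ge hle hc).symm
    rw [hS'eq]
    exact hA

end

end Cfsg.Agent.Helper86
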