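import Cfsg.Agent.Helper86.J3FChkA
import Cfsg.Agent.Helper86.J3FChkX0
import Cfsg.Agent.Helper86.J3FChkX1
import Cfsg.Agent.Helper86.J3FChkX2
import Cfsg.Agent.Helper86.J3FChkX3
import Cfsg.Agent.Helper7.J3Simple

/-!
# The 2-local structure of the Janko group `J₃`: the certificates as statements (seat helper86)
-/

set_option autoImplicit false

namespace Cfsg.Agent.Helper86

open Cfsg Cfsg.Agent.Helper7.J3
open Cfsg.Agent.Helper7 (rgAll rgAll_spec)

theorem jt_nbeq_ne {a b : ℕ} (h : (!Nat.beq a b) = true) : a ≠ b := by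
  intro e
  rw [e, Nat.beq_refl] at h
  exact absurd h (by decide)

theorem jt_p162 : (5846006549323611672814739330865132078623730171904 : ℕ) = 2 ^ 162 := by norm_num

theorem jtXC_lt (k : ℕ) : jtXC k < 2 ^ 162 := by
  unfold jtXC
  rw [jt_p162]
  exact Nat.mod_lt _ (by positivity)

theorem jtNC_lt (k : ℕ) : jtNC k < 2 ^ 162 := by
  unfold jtNC
  rw [jt_p162]
  exact Nat.mod_lt _ (by positivity)

theorem jt_chkX_all (k : ℕ) (hk : k < 26163) : jtChkX k = true := by
  refine rg_cover jtChkX 10 26 (fun i hi => ?_) k (by norm_num; omega)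
  interval_cases i
  · exact jt_chkX_0
  · exact jt_chkX_1
  · exact jt_chkX_2
  · exact jt_chkX_3
  · exact jt_chkX_4
  · exact jt_chkX_5
  · exact jt_chkX_6
  · exact jt_chkX_7
  · exact jt_chkX_8
  · exact jt_chkX_9
  · exact jt_chkX_10
  · exact jt_chkX_11
  · exact jt_chkX_12
  · exact jt_chkX_13
  · exact jt_chkX_14
  · exact jt_chkX_15
  · exact jt_chkX_16
  · exact jt_chkX_17
  · exact jt_chkX_18
  · exact jt_chkX_19
  · exact jt_chkX_20
  · exact jt_chkX_21
  · exact jt_chkX_22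
  · exact jt_chkX_23
  · exact jt_chkX_24
  · exact jt_chkX_25

theorem jt_chkX_spec {k : ℕ} (hk : k < 26163) :
    (k < 26162 → jtXC k < jtXC (k + 1)) ∧ (k = 305 → jtXC k = cX) ∧
    (k ≠ 305 → jtLev (jtPar k) < jtLev k ∧ jtPar k < 26163 ∧ jtLab k < 2 ∧
      mulC (jtXC k) (gC (jtLab k)) = mulC (gC (jtLab k)) (jtXC (jtPar k))) := by
  have h := jt_chkX_all k hk
  rw [jtChkX, ble_false hk, Bool.false_or, Bool.and_eq_true] at h
  refine ⟨fun hk' => ?_, fun h305 => ?_, fun h305 => ?_⟩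
  · have h1 := h.1
    rw [ble_false hk', Bool.false_or] at h1
    exact Nat.le_of_ble_eq_true h1
  · have h2 := h.2
    subst h305
    have e : Nat.beq 305 305 = true := rfl
    rw [e, cond_true] at h2
    exact Nat.eq_of_beq_eq_true h2
  · have h2 := h.2
    rw [beq_false h305, cond_false, Bool.and_eq_true, Bool.and_eq_true, Bool.and_eq_true, mulF_eq,
      mulF_eq] at h2
    exact ⟨Nat.le_of_ble_eq_true h2.1, Nat.le_of_ble_eq_true h2.2.1, Nat.le_of_ble_eq_true h2.2.2.1,
      Nat.eq_of_beq_eq_true h2.2.2.2⟩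

theorem jtXC_strict : ∀ j i, i < j → j < 26163 → jtXC i < jtXC j := by
  intro j
  induction j with
  | zero => intro i hi; omega
  | succ j ih =>
    intro i hi hj
    have h1 := (jt_chkX_spec (k := j) (by omega)).1 (by omega)
    rcases Nat.lt_succ_iff_lt_or_eq.1 hi with h | h
    · exact (ih i h (by omega)).trans h1
    · rw [h]; exact h1

theorem jt_chkG_spec {j : ℕ} (hj : j < 8) :
    jtGk j < 26163 ∧ jtXC (jtGk j) = jtGC j ∧ mulC (jtGC j) cX = mulC cX (jtGC j) := by
  have h := rgAll_spec _ _ _ jt_chkG j (by omega) (by norm_num; omega)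
  rw [jtChkG, ble_false hj, Bool.false_or, Bool.and_eq_true, Bool.and_eq_true, mulF_eq, mulF_eq] at h
  exact ⟨Nat.le_of_ble_eq_true h.1, Nat.eq_of_beq_eq_true h.2.1, Nat.eq_of_beq_eq_true h.2.2⟩

theorem jt_chkN_spec {e : ℕ} (he : e < 128) (h0 : e ≠ 0) :
    jtNPar e < e ∧ jtNLt e < 7 ∧ mulC (jtGC (jtNLt e)) (jtNC (jtNPar e)) = jtNC e ∧
      (e < 32 → jtNLt e < 5) := by
  have h := rgAll_spec _ _ _ jt_chkN e (by omega) (by norm_num; omega)
  rw [jtChkN, ble_false he, beq_false h0, Bool.false_or, Bool.false_or, Bool.and_eq_true,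
    Bool.and_eq_true, Bool.and_eq_true, mulF_eq] at h
  refine ⟨Nat.le_of_ble_eq_true h.1, Nat.le_of_ble_eq_true h.2.1, Nat.eq_of_beq_eq_true h.2.2.1,
    fun h32 => ?_⟩
  have h3 := h.2.2.2
  rw [ble_false h32, Bool.false_or] at h3
  exact Nat.le_of_ble_eq_true h3

theorem jt_chkM_spec {j e : ℕ} (hj : j < 7) (he : e < 128) :
    jtMul (128 * j + e) < 128 ∧ mulC (jtGC j) (jtNC e) = jtNC (jtMul (128 * j + e)) := by
  have h := rgAll_spec _ _ _ jt_chkM (128 * j + e) (by omega) (by norm_num; omega)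
  have e1 : Nat.div (128 * j + e) 128 = j := by
    show (128 * j + e) / 128 = j
    omega
  have e2 : Nat.mod (128 * j + e) 128 = e := by
    show (128 * j + e) % 128 = e
    omega
  rw [jtChkM, ble_false (by omega), Bool.false_or, Bool.and_eq_true, e1, e2, mulF_eq] at h
  exact ⟨Nat.le_of_ble_eq_true h.1, Nat.eq_of_beq_eq_true h.2⟩

theorem jt_chkT_spec {i : ℕ} (hi : i < 15) (h0 : i ≠ 0) :
    jtTPar i < i ∧ jtTLt i < 8 ∧ mulC (jtGC (jtTLt i)) (jtTC (jtTPar i)) = jtTC i := by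
  have h := rgAll_spec _ _ _ jt_chkT i (by omega) (by norm_num; omega)
  rw [jtChkT, ble_false hi, beq_false h0, Bool.false_or, Bool.false_or, Bool.and_eq_true,
    Bool.and_eq_true, mulF_eq] at h
  exact ⟨Nat.le_of_ble_eq_true h.1, Nat.le_of_ble_eq_true h.2.1, Nat.eq_of_beq_eq_true h.2.2⟩

theorem jt_chkC_spec {j i : ℕ} (hj : j < 8) (hi : i < 15) :
    jtCt1 (15 * j + i) < 15 ∧ jtCt2 (15 * j + i) < 128 ∧
      mulC (jtGC j) (jtTC i) = mulC (jtTC (jtCt1 (15 * j + i))) (jtNC (jtCt2 (15 * j + i))) := by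
  have h := rgAll_spec _ _ _ jt_chkC (15 * j + i) (by omega) (by norm_num; omega)
  have e1 : Nat.div (15 * j + i) 15 = j := by
    show (15 * j + i) / 15 = j
    omega
  have e2 : Nat.mod (15 * j + i) 15 = i := by
    show (15 * j + i) % 15 = i
    omega
  rw [jtChkC, ble_false (by omega), Bool.false_or, Bool.and_eq_true, Bool.and_eq_true, e1, e2,
    mulF_eq, mulF_eq] at h
  exact ⟨Nat.le_of_ble_eq_true h.1, Nat.le_of_ble_eq_true h.2.1, Nat.eq_of_beq_eq_true h.2.2⟩

theorem jt_chkW5_spec {e : ℕ} (he : e < 128) (h2 : 2 ≤ e) :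
    jtW5 e < 7 ∧ mulC (jtGC (jtW5 e)) (jtNC e) ≠ mulC (jtNC e) (jtGC (jtW5 e)) := by
  have h := rgAll_spec _ _ _ jt_chkW5 e (by omega) (by norm_num; omega)
  rw [jtChkW5, ble_false he, Bool.false_or] at h
  have e1 : Nat.blt e 2 = false := ble_false (by omega)
  rw [e1, Bool.false_or, Bool.and_eq_true, mulF_eq, mulF_eq] at h
  exact ⟨Nat.le_of_ble_eq_true h.1, jt_nbeq_ne h.2⟩

theorem jt_chkW6_spec {i e : ℕ} (hi : i < 15) (he : e < 128) (h32 : 32 ≤ 128 * i + e) :
    jtW6 (128 * i + e) < 5 ∧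
      mulC (jtGC (jtW6 (128 * i + e))) (mulC (jtTC i) (jtNC e)) ≠
        mulC (mulC (jtTC i) (jtNC e)) (jtGC (jtW6 (128 * i + e))) := by
  have h := rgAll_spec _ _ _ jt_chkW6 (128 * i + e) (by omega) (by norm_num; omega)
  have e1 : Nat.div (128 * i + e) 128 = i := by
    show (128 * i + e) / 128 = i
    omega
  have e2 : Nat.mod (128 * i + e) 128 = e := by
    show (128 * i + e) % 128 = e
    omega
  have e3 : Nat.blt (128 * i + e) 32 = false := ble_false (by omega)
  rw [jtChkW6, ble_false (by omega), Bool.false_or, e3, Bool.false_or, Bool.and_eq_true, e1, e2] at h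
  simp only [mulF_eq] at h
  exact ⟨Nat.le_of_ble_eq_true h.1, jt_nbeq_ne h.2⟩

theorem jt_chkS_spec {i e : ℕ} (hi : i < 15) (he : e < 128) :
    mulC (jtTC i) (jtNC e) ≠ jtWC := by
  have h := rgAll_spec _ _ _ jt_chkS (128 * i + e) (by omega) (by norm_num; omega)
  have e1 : Nat.div (128 * i + e) 128 = i := by
    show (128 * i + e) / 128 = i
    omega
  have e2 : Nat.mod (128 * i + e) 128 = e := by
    show (128 * i + e) % 128 = e
    omega
  rw [jtChkS, ble_false (by omega), Bool.false_or, e1, e2, mulF_eq] at h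
  exact jt_nbeq_ne h

theorem jt_chkNt_spec {j l : ℕ} (hj : j < 8) (hl : l < 5) :
    jtNt (5 * j + l) < 32 ∧ mulC (jtGC j) (jtGC l) = mulC (jtNC (jtNt (5 * j + l))) (jtGC j) := by
  have h := rgAll_spec _ _ _ jt_chkNt (5 * j + l) (by omega) (by norm_num; omega)
  have e1 : Nat.div (5 * j + l) 5 = j := by
    show (5 * j + l) / 5 = j
    omega
  have e2 : Nat.mod (5 * j + l) 5 = l := by
    show (5 * j + l) % 5 = l
    omega
  rw [jtChkNt, ble_false (by omega), Bool.false_or, Bool.and_eq_true, e1, e2, mulF_eq, mulF_eq] at h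
  exact ⟨Nat.le_of_ble_eq_true h.1, Nat.eq_of_beq_eq_true h.2⟩

theorem jt_chkD_spec {e e' : ℕ} (he : e < 128) (he' : e' < 128) (hne : e ≠ e') :
    jtNC e ≠ jtNC e' := by
  have h := rgAll_spec _ _ _ jt_chkD (128 * e + e') (by omega) (by norm_num; omega)
  have e1 : Nat.div (128 * e + e') 128 = e := by
    show (128 * e + e') / 128 = e
    omega
  have e2 : Nat.mod (128 * e + e') 128 = e' := by
    show (128 * e + e') % 128 = e'
    omega
  rw [jtChkD, ble_false (by omega), Bool.false_or, e1, e2, beq_false hne, Bool.false_or] at h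
  exact jt_nbeq_ne h

end Cfsg.Agent.Helper86
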