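import Cfsg.Agent.Helper86.FreeWord

/-!
# An HNN-type group inside a free group extended by a permutation group (helper86)

Data: an injective homomorphism `Λ : Sg →* Γ`, and for every index `i` two subgroups `P i`, `Q i` of `Sg` and an
element `σ i` of `Γ` conjugating `Λ (P i)` onto `Λ (Q i)`. Inside the semidirect product of the free group on
`⊔ i, Γ / Λ (Q i)` by `Γ` we study the subgroup generated by `Sg` and the elements `t i = (x i, σ i)`.
This file: the ambient group, the action on the vertices of the Cayley tree, the pinching relations.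
-/

set_option autoImplicit false

namespace Cfsg.Agent.Helper86

open FreeGroup

noncomputable section

/-- The action of a group on the free group over a set it acts on, by renaming the generators. -/
def freeAut (Γ : Type*) (X : Type*) [Group Γ] [MulAction Γ X] : Γ →* MulAut (FreeGroup X) where
  toFun g := FreeGroup.freeGroupCongr (MulAction.toPerm g)
  map_one' := by
    apply MulEquiv.ext
    intro w
    show FreeGroup.map (fun x => (1 : Γ) • x) w = w
    have h : (fun x : X => (1 : Γ) • x) = id := by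
      funext x
      exact one_smul Γ x
    rw [h, map.id]
  map_mul' g h := by
    apply MulEquiv.ext
    intro w
    show FreeGroup.map (fun x => (g * h) • x) w =
      FreeGroup.map (fun x => g • x) (FreeGroup.map (fun x => h • x) w)
    rw [map.comp]
    have h2 : (fun x : X => (g * h) • x) = (fun x => g • x) ∘ (fun x => h • x) := by
      funext x
      exact mul_smul g h x
    rw [h2]

theorem freeAut_apply {Γ : Type*} {X : Type*} [Group Γ] [MulAction Γ X] (g : Γ) (w : FreeGroup X) :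
    freeAut Γ X g w = FreeGroup.map (fun x => g • x) w := rfl

theorem freeAut_ltr {Γ : Type*} {X : Type*} [Group Γ] [MulAction Γ X] (g : Γ) (x : X) (b : Bool) :
    freeAut Γ X g (ltr x b) = ltr (g • x) b := by
  rw [freeAut_apply, map_ltr]

theorem norm_freeAut {Γ : Type*} {X : Type*} [Group Γ] [MulAction Γ X] [DecidableEq X] (g : Γ)
    (w : FreeGroup X) : norm (freeAut Γ X g w) = norm w :=
  norm_map_equiv (MulAction.toPerm g) w

/-- The data of the construction. -/
structure LSDat (Sg : Type*) (Γ : Type*) (I : Type*) [Group Sg] [Group Γ] where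
  /-- the embedding -/
  Λ : Sg →* Γ
  inj : Function.Injective Λ
  /-- sources -/
  P : I → Subgroup Sg
  /-- targets -/
  Q : I → Subgroup Sg
  /-- conjugators -/
  σ : I → Γ
  fwd : ∀ i, ∀ u ∈ P i, ∃ v ∈ Q i, σ i * Λ u * (σ i)⁻¹ = Λ v
  bwd : ∀ i, ∀ v ∈ Q i, ∃ u ∈ P i, (σ i)⁻¹ * Λ v * σ i = Λ u

variable {Sg : Type*} {Γ : Type*} {I : Type*} [Group Sg] [Group Γ] (D : LSDat Sg Γ I)

/-- The generators of the free group. -/
abbrev LSDat.X : Type _ := Σ i : I, Γ ⧸ (D.Q i).map D.Λ

/-- The ambient group. -/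
abbrev LSDat.Amb : Type _ := FreeGroup D.X ⋊[freeAut Γ D.X] Γ

/-- The base points. -/
def LSDat.pt (i : I) : D.X := ⟨i, ((1 : Γ) : Γ ⧸ (D.Q i).map D.Λ)⟩

/-- The copy of `Sg`. -/
def LSDat.iot : Sg →* D.Amb := SemidirectProduct.inr.comp D.Λ

/-- The stable letters. -/
def LSDat.tt (i : I) : D.Amb := ⟨FreeGroup.of (D.pt i), D.σ i⟩

/-- The group. -/
def LSDat.LG : Subgroup D.Amb := Subgroup.closure (Set.range D.iot ∪ Set.range D.tt)

/-- The action on the vertices of the Cayley tree. -/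
def LSDat.vact (g : D.Amb) (v : FreeGroup D.X) : FreeGroup D.X := g.left * freeAut Γ D.X g.right v

theorem LSDat.smul_pt_eq_iff (γ γ' : Γ) (i j : I) :
    γ • D.pt i = γ' • D.pt j ↔ i = j ∧ γ⁻¹ * γ' ∈ (D.Q i).map D.Λ := by
  constructor
  · intro h
    have h1 : i = j := congrArg Sigma.fst h
    subst h1
    refine ⟨rfl, ?_⟩
    have h2 : ((γ * 1 : Γ) : Γ ⧸ (D.Q i).map D.Λ) = ((γ' * 1 : Γ) : Γ ⧸ (D.Q i).map D.Λ) :=
      eq_of_heq (Sigma.mk.inj h).2
    rw [mul_one, mul_one] at h2
    exact QuotientGroup.eq.1 h2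
  · rintro ⟨rfl, h⟩
    have h2 : ((γ : Γ) : Γ ⧸ (D.Q i).map D.Λ) = ((γ' : Γ) : Γ ⧸ (D.Q i).map D.Λ) :=
      QuotientGroup.eq.2 h
    show (⟨i, ((γ * 1 : Γ) : Γ ⧸ (D.Q i).map D.Λ)⟩ : D.X) = ⟨i, ((γ' * 1 : Γ) : Γ ⧸ (D.Q i).map D.Λ)⟩
    rw [mul_one, mul_one, h2]

theorem LSDat.iot_left (s : Sg) : (D.iot s).left = 1 := rfl

theorem LSDat.iot_right (s : Sg) : (D.iot s).right = D.Λ s := rfl

theorem LSDat.iot_injective : Function.Injective D.iot := fun _ _ h =>
  D.inj (congrArg SemidirectProduct.right h)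

theorem LSDat.tt_left (i : I) : (D.tt i).left = ltr (D.pt i) true := rfl

theorem LSDat.tt_right (i : I) : (D.tt i).right = D.σ i := rfl

theorem LSDat.tt_inv_left (i : I) : ((D.tt i)⁻¹).left = ltr ((D.σ i)⁻¹ • D.pt i) false := by
  rw [SemidirectProduct.inv_left, D.tt_left, D.tt_right, ltr_inv, freeAut_ltr]
  rfl

theorem LSDat.tt_inv_right (i : I) : ((D.tt i)⁻¹).right = (D.σ i)⁻¹ := rfl

theorem LSDat.mul_left' (g h : D.Amb) : (g * h).left = D.vact g h.left := rfl

theorem LSDat.vact_one_eq (g : D.Amb) : D.vact g 1 = g.left := by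
  rw [LSDat.vact, _root_.map_one, mul_one]

theorem LSDat.vact_mul (g h : D.Amb) (v : FreeGroup D.X) : D.vact (g * h) v = D.vact g (D.vact h v) := by
  rw [LSDat.vact, LSDat.vact, LSDat.vact, SemidirectProduct.mul_left, SemidirectProduct.mul_right,
    _root_.map_mul, _root_.map_mul, MulAut.mul_apply, mul_assoc]

theorem LSDat.vact_one (v : FreeGroup D.X) : D.vact 1 v = v := by
  rw [LSDat.vact, SemidirectProduct.one_left, SemidirectProduct.one_right, _root_.map_one, one_mul]
  rfl

theorem LSDat.vact_inv_vact (g : D.Amb) (v : FreeGroup D.X) : D.vact g⁻¹ (D.vact g v) = v := by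
  rw [← D.vact_mul, inv_mul_cancel, D.vact_one]

theorem LSDat.vact_vact_inv (g : D.Amb) (v : FreeGroup D.X) : D.vact g (D.vact g⁻¹ v) = v := by
  rw [← D.vact_mul, mul_inv_cancel, D.vact_one]

theorem LSDat.vact_mul_right (g : D.Amb) (u v : FreeGroup D.X) :
    D.vact g (u * v) = D.vact g u * freeAut Γ D.X g.right v := by
  rw [LSDat.vact, LSDat.vact, _root_.map_mul, mul_assoc]

theorem LSDat.vact_dist [DecidableEq D.X] (g : D.Amb) (u v : FreeGroup D.X) :
    norm ((D.vact g u)⁻¹ * D.vact g v) = norm (u⁻¹ * v) := by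
  have h : (D.vact g u)⁻¹ * D.vact g v = freeAut Γ D.X g.right (u⁻¹ * v) := by
    rw [LSDat.vact, LSDat.vact, _root_.map_mul, _root_.map_inv]
    group
  rw [h, norm_freeAut]

theorem LSDat.iot_mem (s : Sg) : D.iot s ∈ D.LG :=
  Subgroup.subset_closure (Or.inl ⟨s, rfl⟩)

theorem LSDat.tt_mem (i : I) : D.tt i ∈ D.LG :=
  Subgroup.subset_closure (Or.inr ⟨i, rfl⟩)

/-- The relation realized by the stable letter. -/
theorem LSDat.tt_mul_iot (i : I) (u v : Sg) (hv : v ∈ D.Q i)
    (h : D.σ i * D.Λ u * (D.σ i)⁻¹ = D.Λ v) : D.tt i * D.iot u = D.iot v * D.tt i := by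
  have h1 : D.Λ v • D.pt i = D.pt i := by
    have h2 := (D.smul_pt_eq_iff (D.Λ v) 1 i i).2 ⟨rfl, ?_⟩
    · rw [h2, one_smul]
    · rw [mul_one]
      exact inv_mem (Subgroup.mem_map_of_mem _ hv)
  apply SemidirectProduct.ext
  · rw [SemidirectProduct.mul_left, SemidirectProduct.mul_left, D.iot_left, D.iot_left, _root_.map_one,
      mul_one, one_mul, D.tt_left, D.iot_right, freeAut_ltr, h1]
  · rw [SemidirectProduct.mul_right, SemidirectProduct.mul_right, D.iot_right, D.iot_right,
      D.tt_right, ← h]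
    group

/-- Converse: only elements of `P i` are conjugated into `Sg` by the stable letter. -/
theorem LSDat.of_tt_mul_iot (i : I) (a c : Sg) (h : D.tt i * D.iot a = D.iot c * D.tt i) :
    a ∈ D.P i ∧ c ∈ D.Q i ∧ D.σ i * D.Λ a * (D.σ i)⁻¹ = D.Λ c := by
  have hl := congrArg SemidirectProduct.left h
  have hr := congrArg SemidirectProduct.right h
  rw [SemidirectProduct.mul_left, SemidirectProduct.mul_left, D.iot_left, D.iot_left, _root_.map_one,
    mul_one, one_mul, D.tt_left, D.iot_right, freeAut_ltr] at hl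
  rw [SemidirectProduct.mul_right, SemidirectProduct.mul_right, D.iot_right, D.iot_right,
    D.tt_right] at hr
  have h1 : D.pt i = D.Λ c • D.pt i := by
    classical
    exact (ltr_injective hl).1
  have h2 : (1 : Γ) • D.pt i = D.Λ c • D.pt i := by rw [one_smul]; exact h1
  have h3 := ((D.smul_pt_eq_iff 1 (D.Λ c) i i).1 h2).2
  rw [inv_one, one_mul] at h3
  obtain ⟨q, hq, hqc⟩ := h3
  have hc : c ∈ D.Q i := by
    have := D.inj hqc
    rwa [← this]
  have h4 : D.σ i * D.Λ a * (D.σ i)⁻¹ = D.Λ c := by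
    rw [hr]
    group
  obtain ⟨u, hu, hu2⟩ := D.bwd i c hc
  have h5 : D.Λ a = D.Λ u := by
    rw [← hu2, ← h4]
    group
  have h6 := D.inj h5
  exact ⟨h6 ▸ hu, hc, h4⟩

end

end Cfsg.Agent.Helper86
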