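import Cfsg.Agent.Helper86.LSNormal

/-!
# Finite subgroups and a free normal subgroup of the HNN-type group (helper86)

A finite subgroup of the group fixes a vertex of the orbit of the base vertex in the Cayley tree (the centre of
one of its orbits), hence is conjugate into `Sg`. The elements with trivial `Γ`-component form a free normal
subgroup whose index divides the order of `Γ`.
-/

set_option autoImplicit false

namespace Cfsg.Agent.Helper86

open FreeGroup

noncomputable section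

open Classical

variable {Sg : Type*} {Γ : Type*} {I : Type*} [Group Sg] [Group Γ] (D : LSDat Sg Γ I)

/-- Two vertices of the orbit at distance at least two have a vertex of the orbit strictly between them. -/
theorem LSDat.exists_mid (ga gb : D.Amb) (hga : ga ∈ D.LG) (hgb : gb ∈ D.LG)
    (h : 2 ≤ norm (ga.left⁻¹ * gb.left)) :
    ∃ gm ∈ D.LG, ∀ o : FreeGroup D.X,
      norm (gm.left⁻¹ * o) + 1 ≤ max (norm (ga.left⁻¹ * o)) (norm (gb.left⁻¹ * o)) := by
  have hb' : norm (ga⁻¹ * gb).left = norm (ga.left⁻¹ * gb.left) := by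
    have h1 := D.vact_dist ga⁻¹ ga.left gb.left
    rw [← D.mul_left', ← D.mul_left', inv_mul_cancel, SemidirectProduct.one_left, inv_one,
      one_mul] at h1
    exact h1
  obtain ⟨m, hm⟩ : ∃ m, norm (ga⁻¹ * gb).left = m + 1 :=
    ⟨norm (ga⁻¹ * gb).left - 1, by omega⟩
  obtain ⟨g₀, hg₀, h1, h2⟩ := D.exists_first m (ga⁻¹ * gb) (mul_mem (inv_mem hga) hgb) hm
  obtain ⟨x, b, hxb⟩ := exists_ltr_of_norm_one _ h1
  refine ⟨ga * g₀, mul_mem hga hg₀, fun o => ?_⟩
  obtain ⟨z, hz⟩ : ∃ z, z = D.vact ga⁻¹ o := ⟨_, rfl⟩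
  have ho : o = D.vact ga z := by rw [hz, D.vact_vact_inv]
  have e1 : norm ((ga * g₀).left⁻¹ * o) = norm (g₀.left⁻¹ * z) := by
    rw [ho, D.mul_left', D.vact_dist]
  have e2 : norm (ga.left⁻¹ * o) = norm z := by
    have h3 := D.vact_dist ga 1 z
    rw [D.vact_one_eq, inv_one, one_mul] at h3
    rw [ho, h3]
  have e3 : norm (gb.left⁻¹ * o) = norm ((ga⁻¹ * gb).left⁻¹ * z) := by
    have h3 : gb.left = D.vact ga (ga⁻¹ * gb).left := by
      rw [← D.mul_left', mul_inv_cancel_left]
    rw [ho, h3, D.vact_dist]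
  rw [e1, e2, e3, hxb]
  apply norm_tree
  · rw [← hxb, h2, hm]
  · omega

/-- A finite subgroup is conjugate into `Sg`. -/
theorem LSDat.exists_conj_finite (H : Subgroup D.Amb) (hH : H ≤ D.LG) [Finite H] :
    ∃ g ∈ D.LG, ∀ h ∈ H, ∃ s, g * h * g⁻¹ = D.iot s := by
  obtain ⟨h₀, hh₀⟩ := Finite.exists_max (fun h : H => norm (h : D.Amb).left)
  have hex : ∃ r, ∃ g ∈ D.LG, ∀ h ∈ H, norm (g.left⁻¹ * h.left) ≤ r := by
    refine ⟨norm (h₀ : D.Amb).left, 1, one_mem _, fun h hh => ?_⟩
    rw [SemidirectProduct.one_left, inv_one, one_mul]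
    exact hh₀ ⟨h, hh⟩
  obtain ⟨ga, hga, hB⟩ := Nat.find_spec hex
  have hmin : ∀ r, r < Nat.find hex → ¬ ∃ g ∈ D.LG, ∀ h ∈ H, norm (g.left⁻¹ * h.left) ≤ r :=
    fun r hr => Nat.find_min hex hr
  have hinv : ∀ k ∈ H, ∀ h ∈ H, norm ((k * ga).left⁻¹ * h.left) ≤ Nat.find hex := by
    intro k hk h hh
    have h1 := hB (k⁻¹ * h) (mul_mem (inv_mem hk) hh)
    have h2 := D.vact_dist k ga.left (k⁻¹ * h).left
    rw [← D.mul_left', ← D.mul_left', mul_inv_cancel_left] at h2
    rw [h2]
    exact h1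
  have hfar : ∀ k ∈ H, ¬ 2 ≤ norm (ga.left⁻¹ * (k * ga).left) := by
    intro k hk h2
    obtain ⟨gm, hgm, hgm2⟩ := D.exists_mid ga (k * ga) hga (mul_mem (hH hk) hga) h2
    have h3 : ∀ h ∈ H, norm (gm.left⁻¹ * h.left) + 1 ≤ Nat.find hex := fun h hh =>
      le_trans (hgm2 h.left) (max_le (hB h hh) (hinv k hk h hh))
    have hr1 : 1 ≤ Nat.find hex := le_trans (by omega) (h3 1 (one_mem _))
    refine hmin (Nat.find hex - 1) (by omega) ⟨gm, hgm, fun h hh => ?_⟩
    have h4 := h3 h hh
    omega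
  have hfix : ∀ k ∈ H, (k * ga).left = ga.left := by
    intro k hk
    by_contra hne
    have h1 : norm (ga.left⁻¹ * (k * ga).left) = 1 := by
      have h2 := hfar k hk
      have h3 : norm (ga.left⁻¹ * (k * ga).left) ≠ 0 := by
        rw [Ne, FreeGroup.norm_eq_zero, inv_mul_eq_one]
        exact fun h => hne h.symm
      omega
    obtain ⟨x, b, hxb⟩ := exists_ltr_of_norm_one _ h1
    have h4 : (k * ga).left = ga.left * ltr x b := by
      rw [← hxb]
      group
    have h5 : (k * k * ga).left = ga.left * ltr x b * ltr (k.right • x) b := by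
      rw [mul_assoc, D.mul_left', h4, D.vact_mul_right, ← D.mul_left', h4, freeAut_ltr]
    apply hfar (k * k) (mul_mem hk hk)
    rw [h5, ← mul_assoc, ← mul_assoc, inv_mul_cancel, one_mul, norm_ltr_mul_ltr_same]
  refine ⟨ga⁻¹, inv_mem hga, fun h hh => ?_⟩
  rw [inv_inv]
  apply D.eq_iot_of_left_eq_one _ (mul_mem (mul_mem (inv_mem hga) (hH hh)) hga)
  rw [mul_assoc, D.mul_left', hfix h hh, ← D.mul_left', inv_mul_cancel]
  rfl

/-- The elements with trivial `Γ`-component form a free normal subgroup of index dividing `|Γ|`. -/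
theorem LSDat.exists_free_normal :
    ∃ N : Subgroup D.LG, N.Normal ∧ IsFreeGroup N ∧ N.index ∣ Nat.card Γ := by
  obtain ⟨f, hf⟩ : ∃ f : D.LG →* Γ, ∀ g : D.LG, f g = (g : D.Amb).right :=
    ⟨SemidirectProduct.rightHom.comp D.LG.subtype, fun g => rfl⟩
  refine ⟨f.ker, inferInstance, ?_, ?_⟩
  · have hker : ∀ a : f.ker, ((a : D.LG) : D.Amb).right = 1 := fun a => by
      rw [← hf]
      exact a.2
    obtain ⟨φ, hφ⟩ : ∃ φ : f.ker →* FreeGroup D.X, ∀ a : f.ker, φ a = ((a : D.LG) : D.Amb).left := by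
      refine ⟨{ toFun := fun a => ((a : D.LG) : D.Amb).left, map_one' := rfl, map_mul' := ?_ },
        fun a => rfl⟩
      intro a b
      show (((a : D.LG) : D.Amb) * ((b : D.LG) : D.Amb)).left = _
      rw [SemidirectProduct.mul_left, hker a, _root_.map_one]
      rfl
    have hinj : Function.Injective φ := by
      intro a b hab
      rw [hφ, hφ] at hab
      apply Subtype.ext
      apply Subtype.ext
      apply SemidirectProduct.ext
      · exact hab
      · rw [hker a, hker b]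
    exact IsFreeGroup.ofMulEquiv (MonoidHom.ofInjective hinj).symm
  · rw [Subgroup.index_ker]
    exact Subgroup.card_subgroup_dvd_card _

end

end Cfsg.Agent.Helper86
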