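import Cfsg.Agent.Helper86.LSReal

/-!
# The HNN-type group realizes the fusion system (helper86)

Conjugation by an element of the group between subgroups of `S` is a map of the system (induction along the
normal form), and every map of the system is conjugation by a stable letter.
-/

set_option autoImplicit false

namespace Cfsg.Agent.Helper86

open Cfsg Cfsg.FusionSystem Cfsg.Agent.Helper87

universe u

variable {Ω : Type u} [Group Ω] {S : Subgroup Ω}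

/-- Conjugation by `g` between subgroups of `S` is a map of the system. -/
def LSGood [Finite S] (F : FusionSystem S) (g : (lsDat F).Amb) : Prop :=
  ∀ (P : Subgroup Ω) (hP : P ≤ S) (φ : P →* Ω) (hφ : ∀ x : P, φ x ∈ S),
    (∀ x : P, g * (lsDat F).iot ⟨x, hP x.2⟩ = (lsDat F).iot ⟨φ x, hφ x⟩ * g) → φ ∈ F.Hom P

theorem lsGood_iot [Finite S] (F : FusionSystem S) (s : ↥S) : LSGood F ((lsDat F).iot s) := by
  intro P hP φ hφ h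
  refine hom_of_eq F (F.conj_mem hP s.2) (fun x => ?_)
  have h1 := h x
  rw [← map_mul, ← map_mul] at h1
  have h2 := (lsDat F).iot_injective h1
  have h3 : (s : Ω) * (x : Ω) = φ x * (s : Ω) := congrArg Subtype.val h2
  rw [conjHom_apply, h3]
  group

theorem lsGood_tail [Finite S] (F : FusionSystem S) (g₁ : (lsDat F).Amb) (hg₁ : LSGood F g₁)
    {P : Subgroup Ω} (φ : P →* Ω) (hφ : ∀ x : P, φ x ∈ S) (ψ : P →* Ω)
    (hψ : ψ ∈ F.Hom P)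
    (h : ∀ x : P, g₁ * (lsDat F).iot ⟨ψ x, hom_mem F hψ x⟩ = (lsDat F).iot ⟨φ x, hφ x⟩ * g₁) :
    φ ∈ F.Hom P := by
  obtain ⟨ψ', hψ', hψ'2⟩ := F.inv_mem hψ
  have h' : ∀ z : ψ.range, ψ' z ∈ P := by
    rintro ⟨_, x, rfl⟩
    rw [hψ'2 x]
    exact x.2
  have hval : ∀ z : ψ.range, (φ.comp (ψ'.codRestrict P h')) z ∈ S := fun z => hφ _
  have hcomp : ∀ x : P, (φ.comp (ψ'.codRestrict P h')) ⟨ψ x, ⟨x, rfl⟩⟩ = φ x := by
    intro x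
    show φ (ψ'.codRestrict P h' ⟨ψ x, ⟨x, rfl⟩⟩) = φ x
    congr 1
    exact Subtype.ext (hψ'2 x)
  have h2 : φ.comp (ψ'.codRestrict P h') ∈ F.Hom ψ.range := by
    refine hg₁ ψ.range (hom_range_le F hψ) (φ.comp (ψ'.codRestrict P h')) hval ?_
    rintro ⟨_, x, rfl⟩
    have e : (⟨(φ.comp (ψ'.codRestrict P h')) ⟨ψ x, ⟨x, rfl⟩⟩, hval _⟩ : ↥S) = ⟨φ x, hφ x⟩ :=
      Subtype.ext (hcomp x)
    rw [e]
    exact h x
  exact hom_of_comp F hψ h2 (fun x => ⟨x, rfl⟩) (fun x => (hcomp x).symm)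

theorem lsGood_all [Finite S] (F : FusionSystem S) : ∀ g ∈ (lsDat F).LG, LSGood F g := by
  apply (lsDat F).conj_induction (LSGood F) (lsGood_iot F)
  intro g₁ hg₁ τ s hτ hC hdec P hP φ hφ h
  have hx : ∀ x : P, ∃ c, g₁ * (lsDat F).iot c = (lsDat F).iot ⟨φ x, hφ x⟩ * g₁ ∧
      τ * (lsDat F).iot (s * ⟨x, hP x.2⟩ * s⁻¹) = (lsDat F).iot c * τ := fun x => hdec _ _ (h x)
  rcases hτ with ⟨i, rfl⟩ | ⟨i, rfl⟩
  · obtain ⟨P₀, φ₀, hφ₀⟩ := i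
    have hmem : ∀ x : P, conjHom P (s : Ω) x ∈ P₀ := by
      intro x
      obtain ⟨c, -, hc2⟩ := hx x
      exact ((lsDat F).of_tt_mul_iot _ _ _ hc2).1
    have hψ : φ₀.comp ((conjHom P (s : Ω)).codRestrict P₀ hmem) ∈ F.Hom P :=
      F.comp_mem (F.conj_mem hP s.2) hφ₀ hmem
    refine lsGood_tail F g₁ hC φ hφ _ hψ (fun x => ?_)
    obtain ⟨c, hc1, hc2⟩ := hx x
    obtain ⟨h1, h2, h3⟩ := (lsDat F).of_tt_mul_iot _ _ _ hc2
    have h4 := lsSigma_conj F ⟨P₀, ⟨φ₀, hφ₀⟩⟩ ⟨conjHom P (s : Ω) x, hmem x⟩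
    have h5 : c = ⟨φ₀ ⟨conjHom P (s : Ω) x, hmem x⟩, hom_mem F hφ₀ _⟩ :=
      lsLam_injective (h3.symm.trans h4)
    rw [← hc1, h5]
    rfl
  · obtain ⟨P₀, φ₀, hφ₀⟩ := i
    obtain ⟨χ, hχ, hχ2⟩ := F.inv_mem hφ₀
    have hflip : ∀ (a c : ↥S), ((lsDat F).tt ⟨P₀, ⟨φ₀, hφ₀⟩⟩)⁻¹ * (lsDat F).iot a =
        (lsDat F).iot c * ((lsDat F).tt ⟨P₀, ⟨φ₀, hφ₀⟩⟩)⁻¹ →
        (lsDat F).tt ⟨P₀, ⟨φ₀, hφ₀⟩⟩ * (lsDat F).iot c =
          (lsDat F).iot a * (lsDat F).tt ⟨P₀, ⟨φ₀, hφ₀⟩⟩ := by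
      intro a c hac
      have h1 : (lsDat F).iot a = (lsDat F).tt ⟨P₀, ⟨φ₀, hφ₀⟩⟩ * ((lsDat F).iot c *
          ((lsDat F).tt ⟨P₀, ⟨φ₀, hφ₀⟩⟩)⁻¹) := by
        rw [← hac]
        group
      rw [h1]
      group
    have hmem : ∀ x : P, conjHom P (s : Ω) x ∈ φ₀.range := by
      intro x
      obtain ⟨c, -, hc2⟩ := hx x
      exact ((lsDat F).of_tt_mul_iot _ _ _ (hflip _ c hc2)).2.1
    have hψ : χ.comp ((conjHom P (s : Ω)).codRestrict φ₀.range hmem) ∈ F.Hom P :=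
      F.comp_mem (F.conj_mem hP s.2) hχ hmem
    refine lsGood_tail F g₁ hC φ hφ _ hψ (fun x => ?_)
    obtain ⟨c, hc1, hc2⟩ := hx x
    obtain ⟨h1, h2, h3⟩ := (lsDat F).of_tt_mul_iot _ _ _ (hflip _ c hc2)
    have h4 := lsSigma_conj F ⟨P₀, ⟨φ₀, hφ₀⟩⟩ ⟨(c : Ω), h1⟩
    have h5 : (s * ⟨x, hP x.2⟩ * s⁻¹ : ↥S) = ⟨φ₀ ⟨(c : Ω), h1⟩, hom_mem F hφ₀ _⟩ :=
      lsLam_injective (h3.symm.trans h4)
    have h6 : χ ⟨conjHom P (s : Ω) x, hmem x⟩ = (c : Ω) := by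
      have h5' : (s : Ω) * (x : Ω) * (s : Ω)⁻¹ = φ₀ ⟨(c : Ω), h1⟩ := congrArg Subtype.val h5
      have h7 : (⟨conjHom P (s : Ω) x, hmem x⟩ : φ₀.range) = ⟨φ₀ ⟨(c : Ω), h1⟩, ⟨_, rfl⟩⟩ :=
        Subtype.ext h5'
      rw [h7, hχ2]
    have h8 : (⟨(χ.comp ((conjHom P (s : Ω)).codRestrict φ₀.range hmem)) x, hom_mem F hψ x⟩ : ↥S) = c :=
      Subtype.ext h6
    rw [h8]
    exact hc1

/-- The embedding of `S`. -/
noncomputable def lsIota [Finite S] (F : FusionSystem S) : ↥S →* ↥(lsDat F).LG :=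
  (lsDat F).iot.codRestrict (lsDat F).LG (fun s => (lsDat F).iot_mem s)

/-- **Leary–Stancu.** The group realizes the fusion system. -/
theorem ls_realized [Finite S] (F : FusionSystem S) : F.IsRealizedBy (lsIota F) := by
  refine ⟨fun a b h => (lsDat F).iot_injective (congrArg Subtype.val h),
    fun P hP φ hφ => ⟨fun hF => ?_, ?_⟩⟩
  · refine ⟨⟨(lsDat F).tt ⟨P, ⟨φ, hF⟩⟩, (lsDat F).tt_mem _⟩, fun x => ?_⟩
    apply Subtype.ext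
    show (lsDat F).iot ⟨φ x, hφ x⟩ = (lsDat F).tt ⟨P, ⟨φ, hF⟩⟩ * (lsDat F).iot ⟨x, hP x.2⟩ *
      ((lsDat F).tt ⟨P, ⟨φ, hF⟩⟩)⁻¹
    have h1 := (lsDat F).tt_mul_iot ⟨P, ⟨φ, hF⟩⟩ ⟨x, hP x.2⟩ ⟨φ x, hφ x⟩
      (Subgroup.mem_subgroupOf.2 ⟨x, rfl⟩) (lsSigma_conj F ⟨P, ⟨φ, hF⟩⟩ x)
    rw [h1]
    group
  · rintro ⟨g, hg⟩
    refine lsGood_all F g.1 g.2 P hP φ hφ (fun x => ?_)
    have h2 : (lsDat F).iot ⟨φ x, hφ x⟩ = (g : (lsDat F).Amb) * (lsDat F).iot ⟨x, hP x.2⟩ *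
        (g : (lsDat F).Amb)⁻¹ := congrArg Subtype.val (hg x)
    rw [h2]
    group

/-- Finite subgroups are conjugate into the image of `S`. -/
theorem ls_finite [Finite S] (F : FusionSystem S) (H : Subgroup ↥(lsDat F).LG) (hH : Finite ↥H) :
    ∃ g : ↥(lsDat F).LG, ∀ h ∈ H, g * h * g⁻¹ ∈ (lsIota F).range := by
  have hfin : Finite ↥(H.map (lsDat F).LG.subtype) :=
    Finite.of_surjective (fun h : H => (⟨(lsDat F).LG.subtype h, Subgroup.mem_map_of_mem _ h.2⟩ :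
      ↥(H.map (lsDat F).LG.subtype))) (by
        rintro ⟨_, h, hh, rfl⟩
        exact ⟨⟨h, hh⟩, rfl⟩)
  obtain ⟨g, hg, hgH⟩ := (lsDat F).exists_conj_finite (H.map (lsDat F).LG.subtype) (by
    rintro _ ⟨h, -, rfl⟩
    exact h.2)
  refine ⟨⟨g, hg⟩, fun h hh => ?_⟩
  obtain ⟨s, hs⟩ := hgH h.1 ⟨h, hh, rfl⟩
  exact ⟨s, Subtype.ext hs.symm⟩

/-- A free normal subgroup of index dividing `|S|!`. -/
theorem ls_free [Finite S] (F : FusionSystem S) :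
    ∃ N : Subgroup ↥(lsDat F).LG, N.Normal ∧ IsFreeGroup ↥N ∧
      N.index ∣ (Nat.card ↥S).factorial := by
  obtain ⟨N, hN, hfree, hidx⟩ := (lsDat F).exists_free_normal
  refine ⟨N, hN, hfree, ?_⟩
  rwa [Nat.card_perm] at hidx

end Cfsg.Agent.Helper86
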