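import Cfsg.Agent.Helper86.LSBase

/-!
# Normal forms in the HNN-type group (helper86)

Every element of the group generated by `Sg` and the stable letters is a product of exactly as many stable letters
(and their inverses) as the length of its free component: Britton's lemma in this model. Consequences: the
stabilizer of the base vertex is `Sg`, conjugations between subgroups of `Sg` decompose along the normal form,
and the set of vertices in the orbit of the base vertex is closed under taking first letters.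
-/

set_option autoImplicit false

namespace Cfsg.Agent.Helper86

open FreeGroup

noncomputable section

open Classical

variable {Sg : Type*} {Γ : Type*} {I : Type*} [Group Sg] [Group Γ]

/-- `g` is a product of an element of `Sg` and `m` stable letters or inverses, each followed by an element of
`Sg`. -/
inductive LSRep (D : LSDat Sg Γ I) : ℕ → D.Amb → Prop
  | base (s : Sg) : LSRep D 0 (D.iot s)
  | pos (m : ℕ) (g : D.Amb) (i : I) (s : Sg) : LSRep D m g → LSRep D (m + 1) (g * D.tt i * D.iot s)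
  | neg (m : ℕ) (g : D.Amb) (i : I) (s : Sg) :
      LSRep D m g → LSRep D (m + 1) (g * (D.tt i)⁻¹ * D.iot s)

variable (D : LSDat Sg Γ I)

theorem LSDat.mul_iot_left (g : D.Amb) (s : Sg) : (g * D.iot s).left = g.left := by
  rw [SemidirectProduct.mul_left, D.iot_left, _root_.map_one, mul_one]

theorem LSDat.mul_tt_left (g : D.Amb) (i : I) :
    (g * D.tt i).left = g.left * ltr (g.right • D.pt i) true := by
  rw [SemidirectProduct.mul_left, D.tt_left, freeAut_ltr]

theorem LSDat.mul_tt_inv_left (g : D.Amb) (i : I) :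
    (g * (D.tt i)⁻¹).left = g.left * ltr ((g.right * (D.σ i)⁻¹) • D.pt i) false := by
  rw [SemidirectProduct.mul_left, D.tt_inv_left, freeAut_ltr, mul_smul]

theorem LSRep.mem {D : LSDat Sg Γ I} {m : ℕ} {g : D.Amb} (h : LSRep D m g) : g ∈ D.LG := by
  induction h with
  | base s => exact D.iot_mem s
  | pos m g i s _ ih => exact mul_mem (mul_mem ih (D.tt_mem i)) (D.iot_mem s)
  | neg m g i s _ ih => exact mul_mem (mul_mem ih (inv_mem (D.tt_mem i))) (D.iot_mem s)

theorem LSRep.norm_le {D : LSDat Sg Γ I} {m : ℕ} {g : D.Amb} (h : LSRep D m g) :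
    norm g.left ≤ m := by
  induction h with
  | base s => rw [D.iot_left, FreeGroup.norm_one]
  | pos m g i s _ ih =>
    rw [D.mul_iot_left, D.mul_tt_left]
    refine le_trans (norm_mul_le _ _) ?_
    rw [norm_ltr]
    omega
  | neg m g i s _ ih =>
    rw [D.mul_iot_left, D.mul_tt_inv_left]
    refine le_trans (norm_mul_le _ _) ?_
    rw [norm_ltr]
    omega

theorem LSRep.mul_iot {D : LSDat Sg Γ I} {m : ℕ} {g : D.Amb} (h : LSRep D m g) (s : Sg) :
    LSRep D m (g * D.iot s) := by
  cases h with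
  | base s' =>
    rw [← _root_.map_mul]
    exact LSRep.base _
  | pos m g i s' h' =>
    rw [mul_assoc, ← _root_.map_mul]
    exact LSRep.pos m g i _ h'
  | neg m g i s' h' =>
    rw [mul_assoc, ← _root_.map_mul]
    exact LSRep.neg m g i _ h'

theorem LSDat.rep_mul_tt (x : D.Amb) (i : I) (ih : LSRep D (norm x.left) x) :
    LSRep D (norm (x * D.tt i).left) (x * D.tt i) := by
  rw [D.mul_tt_left]
  rcases norm_mul_ltr x.left (x.right • D.pt i) true with h | h
  · rw [← h] at ih
    generalize hn : norm (x.left * ltr (x.right • D.pt i) true) = n at ih h ⊢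
    cases ih with
    | pos m g j s hg =>
      exfalso
      have h0 := hg.norm_le
      rw [D.mul_iot_left, D.mul_tt_left] at hn h
      have h1 : norm (g.left * ltr (g.right • D.pt j) true) = norm g.left + 1 := by
        rcases norm_mul_ltr g.left (g.right • D.pt j) true with h' | h' <;> omega
      have h2 : norm (g.left * ltr (g.right • D.pt j) true *
          ltr ((g * D.tt j * D.iot s).right • D.pt i) true) = norm g.left := by omega
      have h3 := (ltr_cancel _ _ _ _ _ h1 h2).2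
      simp at h3
    | neg m g j s hg =>
      have h0 := hg.norm_le
      rw [D.mul_iot_left, D.mul_tt_inv_left] at hn h
      have h1 : norm (g.left * ltr ((g.right * (D.σ j)⁻¹) • D.pt j) false) = norm g.left + 1 := by
        rcases norm_mul_ltr g.left ((g.right * (D.σ j)⁻¹) • D.pt j) false with h' | h' <;> omega
      have h2 : norm (g.left * ltr ((g.right * (D.σ j)⁻¹) • D.pt j) false *
          ltr ((g * (D.tt j)⁻¹ * D.iot s).right • D.pt i) true) = norm g.left := by omega
      have h3 := (ltr_cancel _ _ _ _ _ h1 h2).1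
      obtain ⟨rfl, h4⟩ := (D.smul_pt_eq_iff _ _ _ _).1 h3
      have h5 : ((g * (D.tt i)⁻¹ * D.iot s).right)⁻¹ * (g.right * (D.σ i)⁻¹) = D.Λ s⁻¹ := by
        rw [SemidirectProduct.mul_right, SemidirectProduct.mul_right, D.iot_right, D.tt_inv_right,
          _root_.map_inv]
        group
      rw [h5] at h4
      obtain ⟨q, hq, hqs⟩ := h4
      have hs : s ∈ D.Q i := by
        have h6 := D.inj hqs
        rw [h6] at hq
        exact inv_mem_iff.1 hq
      obtain ⟨u, hu, hu2⟩ := D.bwd i s hs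
      have h7 := D.tt_mul_iot i u s hs (by rw [← hu2]; group)
      have h8 : g * (D.tt i)⁻¹ * D.iot s * D.tt i = g * D.iot u := by
        rw [mul_assoc, ← h7]
        group
      rw [h8]
      exact hg.mul_iot u
  · rw [h]
    have h1 := LSRep.pos _ x i 1 ih
    rwa [_root_.map_one, mul_one] at h1

theorem LSDat.rep_mul_tt_inv (x : D.Amb) (i : I) (ih : LSRep D (norm x.left) x) :
    LSRep D (norm (x * (D.tt i)⁻¹).left) (x * (D.tt i)⁻¹) := by
  rw [D.mul_tt_inv_left]
  rcases norm_mul_ltr x.left ((x.right * (D.σ i)⁻¹) • D.pt i) false with h | h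
  · rw [← h] at ih
    generalize hn : norm (x.left * ltr ((x.right * (D.σ i)⁻¹) • D.pt i) false) = n at ih h ⊢
    cases ih with
    | pos m g j s hg =>
      have h0 := hg.norm_le
      rw [D.mul_iot_left, D.mul_tt_left] at hn h
      have h1 : norm (g.left * ltr (g.right • D.pt j) true) = norm g.left + 1 := by
        rcases norm_mul_ltr g.left (g.right • D.pt j) true with h' | h' <;> omega
      have h2 : norm (g.left * ltr (g.right • D.pt j) true *
          ltr (((g * D.tt j * D.iot s).right * (D.σ i)⁻¹) • D.pt i) false) = norm g.left := by omega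
      have h3 := (ltr_cancel _ _ _ _ _ h1 h2).1
      obtain ⟨rfl, h4⟩ := (D.smul_pt_eq_iff _ _ _ _).1 h3
      have h5 : ((g * D.tt i * D.iot s).right * (D.σ i)⁻¹)⁻¹ * g.right =
          D.σ i * D.Λ s⁻¹ * (D.σ i)⁻¹ := by
        rw [SemidirectProduct.mul_right, SemidirectProduct.mul_right, D.iot_right, D.tt_right,
          _root_.map_inv]
        group
      rw [h5] at h4
      obtain ⟨q, hq, hqs⟩ := h4
      obtain ⟨u, hu, hu2⟩ := D.bwd i q hq
      have h6 : D.Λ u = D.Λ s⁻¹ := by
        rw [← hu2, hqs]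
        group
      have hs : s ∈ D.P i := by
        have h7 := D.inj h6
        rw [h7] at hu
        exact inv_mem_iff.1 hu
      obtain ⟨v, hv, hv2⟩ := D.fwd i s hs
      have h7 := D.tt_mul_iot i s v hv hv2
      have h8 : g * D.tt i * D.iot s * (D.tt i)⁻¹ = g * D.iot v := by
        rw [mul_assoc g, h7]
        group
      rw [h8]
      exact hg.mul_iot v
    | neg m g j s hg =>
      exfalso
      have h0 := hg.norm_le
      rw [D.mul_iot_left, D.mul_tt_inv_left] at hn h
      have h1 : norm (g.left * ltr ((g.right * (D.σ j)⁻¹) • D.pt j) false) = norm g.left + 1 := by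
        rcases norm_mul_ltr g.left ((g.right * (D.σ j)⁻¹) • D.pt j) false with h' | h' <;> omega
      have h2 : norm (g.left * ltr ((g.right * (D.σ j)⁻¹) • D.pt j) false *
          ltr (((g * (D.tt j)⁻¹ * D.iot s).right * (D.σ i)⁻¹) • D.pt i) false) = norm g.left := by
        omega
      have h3 := (ltr_cancel _ _ _ _ _ h1 h2).2
      simp at h3
  · rw [h]
    have h1 := LSRep.neg _ x i 1 ih
    rwa [_root_.map_one, mul_one] at h1

/-- **Britton's lemma** in this model. -/
theorem LSDat.rep_of_mem (g : D.Amb) (hg : g ∈ D.LG) : LSRep D (norm g.left) g := by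
  induction hg using Subgroup.closure_induction_right with
  | one =>
    have h := LSRep.base (D := D) 1
    rw [_root_.map_one] at h
    rw [SemidirectProduct.one_left, FreeGroup.norm_one]
    exact h
  | mul_right x hx y hy ih =>
    rcases hy with ⟨s, rfl⟩ | ⟨i, rfl⟩
    · rw [D.mul_iot_left]
      exact ih.mul_iot s
    · exact D.rep_mul_tt x i ih
  | mul_inv_cancel x hx y hy ih =>
    rcases hy with ⟨s, rfl⟩ | ⟨i, rfl⟩
    · rw [← _root_.map_inv, D.mul_iot_left]
      exact ih.mul_iot s⁻¹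
    · exact D.rep_mul_tt_inv x i ih

/-- The stabilizer of the base vertex is `Sg`. -/
theorem LSDat.eq_iot_of_left_eq_one (g : D.Amb) (hg : g ∈ D.LG) (h : g.left = 1) :
    ∃ s, g = D.iot s := by
  have h1 := D.rep_of_mem g hg
  rw [h, FreeGroup.norm_one] at h1
  cases h1 with
  | base s => exact ⟨s, rfl⟩

/-- The last syllable of an element. -/
theorem LSDat.exists_decomp (g : D.Amb) (hg : g ∈ D.LG) (m : ℕ) (h : norm g.left = m + 1) :
    ∃ g₁ ∈ D.LG, ∃ (τ : D.Amb) (s : Sg) (x₀ : D.X) (b₀ : Bool), norm g₁.left = m ∧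
      g = g₁ * τ * D.iot s ∧ (g₁ * τ).left = g₁.left * ltr x₀ b₀ ∧
      ((∃ i, τ = D.tt i) ∨ (∃ i, τ = (D.tt i)⁻¹)) := by
  have h1 := D.rep_of_mem g hg
  rw [h] at h1
  cases h1 with
  | pos m g₁ i s hg₁ =>
    have h0 := hg₁.norm_le
    rw [D.mul_iot_left, D.mul_tt_left] at h
    refine ⟨g₁, hg₁.mem, D.tt i, s, _, _, ?_, rfl, D.mul_tt_left g₁ i, Or.inl ⟨i, rfl⟩⟩
    rcases norm_mul_ltr g₁.left (g₁.right • D.pt i) true with h' | h' <;> omega
  | neg m g₁ i s hg₁ =>
    have h0 := hg₁.norm_le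
    rw [D.mul_iot_left, D.mul_tt_inv_left] at h
    refine ⟨g₁, hg₁.mem, (D.tt i)⁻¹, s, _, _, ?_, rfl, D.mul_tt_inv_left g₁ i, Or.inr ⟨i, rfl⟩⟩
    rcases norm_mul_ltr g₁.left ((g₁.right * (D.σ i)⁻¹) • D.pt i) false with h' | h' <;> omega

/-- Conjugations between elements of `Sg` decompose along the last syllable. -/
theorem LSDat.conj_decomp (g₁ : D.Amb) (hg₁ : g₁ ∈ D.LG) (τ : D.Amb) (s : Sg) (x₀ : D.X) (b₀ : Bool)
    (hτ : (g₁ * τ).left = g₁.left * ltr x₀ b₀)
    (hn : norm (g₁ * τ * D.iot s).left = norm g₁.left + 1) (a b : Sg)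
    (hab : g₁ * τ * D.iot s * D.iot a = D.iot b * (g₁ * τ * D.iot s)) :
    ∃ c, g₁ * D.iot c = D.iot b * g₁ ∧ τ * D.iot (s * a * s⁻¹) = D.iot c * τ := by
  have hl := congrArg SemidirectProduct.left hab
  rw [D.mul_iot_left, D.mul_iot_left, hτ, SemidirectProduct.mul_left, D.iot_left, one_mul,
    D.iot_right, D.mul_iot_left, hτ, _root_.map_mul, freeAut_ltr] at hl
  rw [D.mul_iot_left, hτ] at hn
  have h1 : norm (freeAut Γ D.X (D.Λ b) g₁.left * ltr (D.Λ b • x₀) b₀) =
      norm (freeAut Γ D.X (D.Λ b) g₁.left) + 1 := by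
    rw [← hl, hn, norm_freeAut]
  have h2 : norm (freeAut Γ D.X (D.Λ b) g₁.left * ltr (D.Λ b • x₀) b₀ * ltr x₀ (!b₀)) =
      norm (freeAut Γ D.X (D.Λ b) g₁.left) := by
    rw [← hl, ← ltr_inv, mul_inv_cancel_right, norm_freeAut]
  have h3 := (ltr_cancel _ _ _ _ _ h1 h2).1
  rw [← h3] at hl
  have h4 : freeAut Γ D.X (D.Λ b) g₁.left = g₁.left := (mul_right_cancel hl).symm
  have h5 : (g₁⁻¹ * (D.iot b * g₁)).left = 1 := by
    rw [D.mul_left', SemidirectProduct.mul_left, D.iot_left, one_mul, D.iot_right, h4,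
      ← D.mul_left', inv_mul_cancel]
    rfl
  obtain ⟨c, hc⟩ := D.eq_iot_of_left_eq_one _
    (mul_mem (inv_mem hg₁) (mul_mem (D.iot_mem b) hg₁)) h5
  have h6 : g₁ * D.iot c = D.iot b * g₁ := by
    rw [← hc]
    group
  refine ⟨c, h6, ?_⟩
  have h7 : g₁ * (τ * D.iot (s * a * s⁻¹)) = g₁ * (D.iot c * τ) := by
    rw [← mul_assoc g₁ (D.iot c), h6]
    have h8 : D.iot (s * a * s⁻¹) = D.iot s * D.iot a * (D.iot s)⁻¹ := by
      rw [_root_.map_mul, _root_.map_mul, _root_.map_inv]
    rw [h8]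
    calc g₁ * (τ * (D.iot s * D.iot a * (D.iot s)⁻¹))
        = (g₁ * τ * D.iot s * D.iot a) * (D.iot s)⁻¹ := by group
      _ = D.iot b * (g₁ * τ * D.iot s) * (D.iot s)⁻¹ := by rw [hab]
      _ = D.iot b * g₁ * τ := by group
  exact mul_left_cancel h7

/-- The first letter of a vertex in the orbit of the base vertex is in the orbit. -/
theorem LSDat.exists_first : ∀ (m : ℕ) (g : D.Amb), g ∈ D.LG → norm g.left = m + 1 →
    ∃ g₀ ∈ D.LG, norm g₀.left = 1 ∧ norm (g₀.left⁻¹ * g.left) = m := by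
  intro m
  induction m with
  | zero =>
    intro g hg h
    refine ⟨g, hg, h, ?_⟩
    rw [inv_mul_cancel, FreeGroup.norm_one]
  | succ m ih =>
    intro g hg h
    obtain ⟨g₁, hg₁, τ, s, x₀, b₀, hn₁, rfl, hτ, -⟩ := D.exists_decomp g hg (m + 1) h
    obtain ⟨g₀, hg₀, h1, h2⟩ := ih g₁ hg₁ hn₁
    refine ⟨g₀, hg₀, h1, ?_⟩
    rw [D.mul_iot_left, hτ] at h ⊢
    have h3 : norm (g₀.left⁻¹ * (g₁.left * ltr x₀ b₀)) ≤ m + 1 := by
      rw [← mul_assoc]
      refine le_trans (norm_mul_le _ _) ?_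
      rw [norm_ltr, h2]
    have h4 : norm (g₁.left * ltr x₀ b₀) ≤ norm g₀.left + norm (g₀.left⁻¹ * (g₁.left * ltr x₀ b₀)) := by
      have h5 := norm_mul_le g₀.left (g₀.left⁻¹ * (g₁.left * ltr x₀ b₀))
      rwa [mul_inv_cancel_left] at h5
    omega

/-- Induction along the normal form, for properties of the conjugation action on `Sg`. -/
theorem LSDat.conj_induction (Cj : D.Amb → Prop) (h0 : ∀ s, Cj (D.iot s))
    (h1 : ∀ g₁ ∈ D.LG, ∀ (τ : D.Amb) (s : Sg), ((∃ i, τ = D.tt i) ∨ (∃ i, τ = (D.tt i)⁻¹)) → Cj g₁ →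
      (∀ a b, g₁ * τ * D.iot s * D.iot a = D.iot b * (g₁ * τ * D.iot s) →
        ∃ c, g₁ * D.iot c = D.iot b * g₁ ∧ τ * D.iot (s * a * s⁻¹) = D.iot c * τ) →
      Cj (g₁ * τ * D.iot s)) : ∀ g ∈ D.LG, Cj g := by
  have key : ∀ (m : ℕ) (g : D.Amb), g ∈ D.LG → norm g.left = m → Cj g := by
    intro m
    induction m with
    | zero =>
      intro g hg h
      obtain ⟨s, rfl⟩ := D.eq_iot_of_left_eq_one g hg (FreeGroup.norm_eq_zero.1 h)
      exact h0 s
    | succ m ih =>
      intro g hg h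
      obtain ⟨g₁, hg₁, τ, s, x₀, b₀, hn₁, rfl, hτ, hτ2⟩ := D.exists_decomp g hg m h
      exact h1 g₁ hg₁ τ s hτ2 (ih g₁ hg₁ hn₁) (fun a b hab =>
        D.conj_decomp g₁ hg₁ τ s x₀ b₀ hτ (by rw [h, hn₁]) a b hab)
  exact fun g hg => key _ g hg rfl

end

end Cfsg.Agent.Helper86
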