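import Cfsg.Agent.Helper86.LSFix
import Cfsg.Agent.Helper86.RealD

/-!
# Every fusion system is realized by an HNN-type group (helper86)

The construction of Leary–Stancu in the model of `LSBase`: `Γ` is the symmetric group on `S`, `S` acts by left
multiplication, the indices are the maps of the system, and `σ i` is a permutation of `S` intertwining the two
actions of the source of the map.
-/

set_option autoImplicit false

namespace Cfsg.Agent.Helper86

open Cfsg Cfsg.FusionSystem Cfsg.Agent.Helper87 MulAction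

universe u

variable {Ω : Type u} [Group Ω] {S : Subgroup Ω}

/-- Fixed points of the trivial subgroup acting by left multiplication. -/
theorem card_fix_left_bot {G : Type*} [Group G] [Finite G] (K : Subgroup G) (hK : K = ⊥) :
    Nat.card (fixedPoints K G) = Nat.card G := by
  subst hK
  rw [fix_bot_eq_univ, Nat.card_congr (Equiv.Set.univ G)]

/-- A nontrivial subgroup acting by left multiplication has no fixed points. -/
theorem card_fix_left_ne_bot {G : Type*} [Group G] [Finite G] (K : Subgroup G) (hK : K ≠ ⊥) :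
    Nat.card (fixedPoints K G) = 0 := by
  obtain ⟨k, hk, hk1⟩ : ∃ k : G, k ∈ K ∧ k ≠ 1 := by
    by_contra hcon
    apply hK
    rw [Subgroup.eq_bot_iff_forall]
    intro x hx
    by_contra hx1
    exact hcon ⟨x, hx, hx1⟩
  have hempty : IsEmpty (fixedPoints K G) := by
    refine ⟨fun x => hk1 ?_⟩
    have h1 : (⟨k, hk⟩ : K) • (x : G) = x := x.2 ⟨k, hk⟩
    have h2 : k * (x : G) = x := h1
    exact mul_eq_right.1 h2
  exact Nat.card_of_isEmpty

/-- A permutation of `S` intertwining left multiplication by `P` with left multiplication through `φ`. -/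
theorem exists_twist_perm [Finite S] (F : FusionSystem S) {P : Subgroup Ω} (φ : P →* Ω)
    (hφ : φ ∈ F.Hom P) :
    ∃ σ : Equiv.Perm ↥S, ∀ (u : P) (x : ↥S),
      σ (⟨u, hom_le F hφ u.2⟩ * x) = ⟨φ u, hom_mem F hφ u⟩ * σ x := by
  have hP := hom_le F hφ
  have : Finite ↥P := finite_of_le hP
  obtain ⟨Θ₁, hΘ₁, hi₁⟩ : ∃ Θ₁ : ↥P →* ↥S, (∀ u : P, Θ₁ u = ⟨u, hP u.2⟩) ∧ Function.Injective Θ₁ :=
    ⟨Subgroup.inclusion hP, fun u => rfl, Subgroup.inclusion_injective hP⟩
  obtain ⟨Θ₂, hΘ₂, hi₂⟩ : ∃ Θ₂ : ↥P →* ↥S, (∀ u : P, Θ₂ u = ⟨φ u, hom_mem F hφ u⟩) ∧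
      Function.Injective Θ₂ := by
    refine ⟨φ.codRestrict S (hom_mem F hφ), fun u => rfl, fun a b hab => ?_⟩
    exact F.injective_of_mem hφ (congrArg Subtype.val hab)
  have hcard : ∀ D : Subgroup ↥P, Nat.card (fixedPoints D (Tw Θ₁ ↥S)) =
      Nat.card (fixedPoints D (Tw Θ₂ ↥S)) := by
    intro D
    rw [card_fix_tw, card_fix_tw]
    by_cases hD : D = ⊥
    · rw [card_fix_left_bot _ ((Subgroup.map_eq_bot_iff_of_injective D hi₁).2 hD),
        card_fix_left_bot _ ((Subgroup.map_eq_bot_iff_of_injective D hi₂).2 hD)]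
    · rw [card_fix_left_ne_bot _ (fun h => hD ((Subgroup.map_eq_bot_iff_of_injective D hi₁).1 h)),
        card_fix_left_ne_bot _ (fun h => hD ((Subgroup.map_eq_bot_iff_of_injective D hi₂).1 h))]
  obtain ⟨e, he⟩ := exists_equiv_of_card_fixedPoints (N := ↥P) (X := Tw Θ₁ ↥S) (Y := Tw Θ₂ ↥S) hcard
  refine ⟨e, fun u x => ?_⟩
  have h1 := he u x
  rw [← hΘ₁, ← hΘ₂]
  exact h1

/-- The indices: the maps of the system. -/
abbrev LSIdx (F : FusionSystem S) : Type u := Σ P : Subgroup Ω, {φ : P →* Ω // φ ∈ F.Hom P}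

/-- The chosen intertwining permutation. -/
noncomputable def lsSigma [Finite S] (F : FusionSystem S) (i : LSIdx F) : Equiv.Perm ↥S :=
  Classical.choose (exists_twist_perm F i.2.1 i.2.2)

theorem lsSigma_spec [Finite S] (F : FusionSystem S) (i : LSIdx F) (u : i.1) (x : ↥S) :
    lsSigma F i (⟨u, hom_le F i.2.2 u.2⟩ * x) = ⟨i.2.1 u, hom_mem F i.2.2 u⟩ * lsSigma F i x :=
  Classical.choose_spec (exists_twist_perm F i.2.1 i.2.2) u x

/-- Left multiplication. -/
def lsLam (S : Subgroup Ω) : ↥S →* Equiv.Perm ↥S := MulAction.toPermHom ↥S ↥S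

theorem lsLam_apply (s x : ↥S) : lsLam S s x = s * x := rfl

theorem lsLam_injective : Function.Injective (lsLam S) := by
  intro a b h
  have h1 : lsLam S a 1 = lsLam S b 1 := by rw [h]
  rwa [lsLam_apply, lsLam_apply, mul_one, mul_one] at h1

theorem lsSigma_conj [Finite S] (F : FusionSystem S) (i : LSIdx F) (u : i.1) :
    lsSigma F i * lsLam S ⟨u, hom_le F i.2.2 u.2⟩ * (lsSigma F i)⁻¹ =
      lsLam S ⟨i.2.1 u, hom_mem F i.2.2 u⟩ := by
  apply Equiv.ext
  intro x
  have h2 : (lsSigma F i) ((lsSigma F i)⁻¹ x) = x := Equiv.apply_symm_apply (lsSigma F i) x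
  rw [Equiv.Perm.mul_apply, Equiv.Perm.mul_apply, lsLam_apply, lsSigma_spec, h2, lsLam_apply]

/-- The data of the construction attached to a fusion system. -/
noncomputable def lsDat [Finite S] (F : FusionSystem S) :
    LSDat ↥S (Equiv.Perm ↥S) (LSIdx F) where
  Λ := lsLam S
  inj := lsLam_injective
  P i := i.1.subgroupOf S
  Q i := i.2.1.range.subgroupOf S
  σ i := lsSigma F i
  fwd := by
    intro i u hu
    refine ⟨⟨i.2.1 ⟨u, hu⟩, hom_mem F i.2.2 _⟩, ?_, ?_⟩
    · exact Subgroup.mem_subgroupOf.2 ⟨⟨u, hu⟩, rfl⟩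
    · exact lsSigma_conj F i ⟨u, hu⟩
  bwd := by
    intro i v hv
    obtain ⟨u', hu'⟩ := Subgroup.mem_subgroupOf.1 hv
    refine ⟨⟨u', hom_le F i.2.2 u'.2⟩, Subgroup.mem_subgroupOf.2 u'.2, ?_⟩
    have h := lsSigma_conj F i u'
    have hv' : (⟨i.2.1 u', hom_mem F i.2.2 u'⟩ : ↥S) = v := Subtype.ext hu'
    rw [hv'] at h
    rw [← h]
    group

end Cfsg.Agent.Helper86
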