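import Cfsg.Agent.Helper86.McLFWord

/-!
# The 2-local structure of the McLaughlin group: certificates A (seat helper86)

Kernel evaluations of the boolean checks of `Cfsg.Agent.Helper86.McLFWord`.
-/

set_option autoImplicit false
set_option maxRecDepth 100000

namespace Cfsg.Agent.Helper86

theorem mc_chkI : mcChkI = true := by decide +kernel

theorem mc_chkS1 : mcChkS1 = true := by decide +kernel

theorem mc_chkS2 : mcChkS2 = true := by decide +kernel

theorem mc_chkS3 : mcChkS3 = true := by decide +kernel

theorem mc_chkS4 : mcChkS4 = true := by decide +kernel

theorem mc_chkS5 : mcChkS5 = true := by decide +kernel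

theorem mc_chkS7 : mcChkS7 = true := by decide +kernel

theorem mc_chkC1 : mcChkC1 = true := by decide +kernel

theorem mc_chkT2 : mcChkT2 = true := by decide +kernel


end Cfsg.Agent.Helper86
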