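import Cfsg.Agent.Helper86.McLFWord

/-!
# The 2-local structure of the McLaughlin group: certificates T (seat helper86)

Kernel evaluations of the boolean checks of `Cfsg.Agent.Helper86.McLFWord`.
-/

set_option autoImplicit false
set_option maxRecDepth 100000

namespace Cfsg.Agent.Helper86

theorem mc_chkT_0 : mcChkT (35 * 0) 35 = true := by decide +kernel

theorem mc_chkT_1 : mcChkT (35 * 1) 35 = true := by decide +kernel

theorem mc_chkT_2 : mcChkT (35 * 2) 35 = true := by decide +kernel

theorem mc_chkT_3 : mcChkT (35 * 3) 35 = true := by decide +kernel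

theorem mc_chkT_4 : mcChkT (35 * 4) 35 = true := by decide +kernel

theorem mc_chkT_5 : mcChkT (35 * 5) 35 = true := by decide +kernel

theorem mc_chkT_6 : mcChkT (35 * 6) 35 = true := by decide +kernel

theorem mc_chkT_7 : mcChkT (35 * 7) 35 = true := by decide +kernel

theorem mc_chkT_8 : mcChkT (35 * 8) 35 = true := by decide +kernel

theorem mc_chkT_all (c : ℕ) (hc : c < 9) : mcChkT (35 * c) 35 = true := by
  interval_cases c
  · exact mc_chkT_0
  · exact mc_chkT_1
  · exact mc_chkT_2
  · exact mc_chkT_3
  · exact mc_chkT_4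
  · exact mc_chkT_5
  · exact mc_chkT_6
  · exact mc_chkT_7
  · exact mc_chkT_8

end Cfsg.Agent.Helper86
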