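import Cfsg.Agent.Helper86.McLFSpec
import Cfsg.Agent.Helper86.AltNorm
import Cfsg.Agent.Helper85.Sat

/-!
# The 2-local structure of the McLaughlin group (seat helper86)

Inside the model `Cfsg.Agent.Helper92.McLOut.mclSub` of the McLaughlin group: the subgroup `mcS`
generated by seven involutions has order `128`, its centre is generated by the involution `mcZ`,
and the centraliser of `mcZ` is the union of the `315` cosets `mcT i * mcS`.
-/

set_option autoImplicit false

namespace Cfsg.Agent.Helper86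

open Cfsg MulAction Cfsg.Agent.Helper92 Cfsg.Agent.Helper92.Mat Cfsg.Agent.Helper92.Co3Out
  Cfsg.Agent.Helper92.McLOut

section Generic

/-- the closure of an involution `a` and generators of a subgroup `N` normalised by `a` -/
theorem mc_chain_step {G : Type*} [Group G] (a : G) (N : Subgroup G) (gens : Set G)
    (ha : a * a = 1) (hN : ∀ y ∈ N, a * y * a ∈ N) (hg : ∀ y ∈ gens, y = a ∨ y ∈ N) :
    ∀ x ∈ Subgroup.closure gens, x ∈ N ∨ a * x ∈ N := by
  intro x hx
  induction hx using Subgroup.closure_induction with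
  | mem y hy =>
    rcases hg y hy with h | h
    · right
      rw [h, ha]
      exact N.one_mem
    · left
      exact h
  | one =>
    left
    exact N.one_mem
  | mul y z _ _ hy hz =>
    rcases hy with hy | hy <;> rcases hz with hz | hz
    · left
      exact N.mul_mem hy hz
    · right
      have e : a * (y * z) = a * y * a * (a * z) := by
        calc a * (y * z) = a * y * (1 * z) := by rw [one_mul, mul_assoc]
          _ = a * y * (a * a * z) := by rw [ha]
          _ = a * y * a * (a * z) := by simp only [mul_assoc]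
      rw [e]
      exact N.mul_mem (hN y hy) hz
    · right
      rw [← mul_assoc]
      exact N.mul_mem hy hz
    · left
      have e : y * z = a * (a * y) * a * (a * z) := by
        calc y * z = 1 * y * (1 * z) := by rw [one_mul, one_mul]
          _ = a * a * y * (a * a * z) := by rw [ha]
          _ = a * (a * y) * a * (a * z) := by simp only [mul_assoc]
      rw [e]
      exact N.mul_mem (hN _ hy) hz
  | inv y _ hy =>
    rcases hy with hy | hy
    · left
      exact N.inv_mem hy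
    · right
      have h2 := hN _ (N.inv_mem hy)
      have e : a * (a * y)⁻¹ * a = a * y⁻¹ := by
        rw [mul_inv_rev, mul_assoc, mul_assoc, inv_mul_cancel, mul_one]
      rw [e] at h2
      exact h2

theorem mc_conj_aux {G : Type*} [Group G] (w c z : G) (h : c * z = z * c) :
    (w * c) * z * (w * c)⁻¹ = w * z * w⁻¹ := by
  calc (w * c) * z * (w * c)⁻¹ = w * (c * z) * c⁻¹ * w⁻¹ := by group
    _ = w * (z * c) * c⁻¹ * w⁻¹ := by rw [h]
    _ = w * z * w⁻¹ := by group

end Generic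

/-- the chain of subgroups generated by the last generators -/
noncomputable def mcSk (i : ℕ) : Subgroup Co0 :=
  Subgroup.closure {x | ∃ j, i ≤ j ∧ j < 7 ∧ x = mcA j}

/-- the Sylow 2-subgroup -/
noncomputable def mcS : Subgroup Co0 := mcSk 0

theorem mcA_mem {j : ℕ} (hj : j < 7) : mcA j ∈ mcS :=
  Subgroup.subset_closure ⟨j, Nat.zero_le j, hj, rfl⟩

theorem mcZ_mem : mcZ ∈ mcS := by
  rw [← mcA_four]
  exact mcA_mem (by norm_num)

theorem mcS_le : mcS ≤ mclSub := by
  unfold mcS mcSk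
  rw [Subgroup.closure_le]
  rintro _ ⟨j, -, -, rfl⟩
  exact mcElt_mem _

theorem mc_bit_low : ∀ i, i < 7 → ∀ r, r < 128 → r % 2 ^ (i + 1) = 0 →
    ∀ l, l < 7 → mcBit r l = true → i + 1 ≤ l := by
  decide +kernel

theorem mcBitE_mem_Sk {i r l : ℕ} (hi : i < 7) (hr : r < 128) (h : r % 2 ^ (i + 1) = 0)
    (hl : l < 7) : mcBitE r l ∈ mcSk (i + 1) := by
  rcases Bool.eq_false_or_eq_true (mcBit r l) with hb | hb
  · rw [mcBitE_true hb]
    exact Subgroup.subset_closure ⟨l, mc_bit_low i hi r hr h l hl hb, hl, rfl⟩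
  · rw [mcBitE_false hb]
    exact Subgroup.one_mem _

theorem mcXs_mem_Sk {i r : ℕ} (hi : i < 7) (hr : r < 128) (h : r % 2 ^ (i + 1) = 0) :
    mcXs r ∈ mcSk (i + 1) := by
  unfold mcXs
  exact mul_mem (mcBitE_mem_Sk hi hr h (by norm_num)) (mul_mem (mcBitE_mem_Sk hi hr h (by norm_num))
    (mul_mem (mcBitE_mem_Sk hi hr h (by norm_num)) (mul_mem (mcBitE_mem_Sk hi hr h (by norm_num))
    (mul_mem (mcBitE_mem_Sk hi hr h (by norm_num)) (mul_mem (mcBitE_mem_Sk hi hr h (by norm_num))
    (mcBitE_mem_Sk hi hr h (by norm_num)))))))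

theorem mcBitE_mem (e : ℕ) {i : ℕ} (hi : i < 7) : mcBitE e i ∈ mcS := by
  rcases Bool.eq_false_or_eq_true (mcBit e i) with hb | hb
  · rw [mcBitE_true hb]
    exact mcA_mem hi
  · rw [mcBitE_false hb]
    exact Subgroup.one_mem _

theorem mcXs_mem (e : ℕ) : mcXs e ∈ mcS := by
  unfold mcXs
  exact mul_mem (mcBitE_mem e (by norm_num)) (mul_mem (mcBitE_mem e (by norm_num))
    (mul_mem (mcBitE_mem e (by norm_num)) (mul_mem (mcBitE_mem e (by norm_num))
    (mul_mem (mcBitE_mem e (by norm_num)) (mul_mem (mcBitE_mem e (by norm_num))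
    (mcBitE_mem e (by norm_num)))))))

theorem mcA_conj_Sk {i : ℕ} (hi : i < 7) : ∀ y ∈ mcSk (i + 1), mcA i * y * mcA i ∈ mcSk (i + 1) := by
  have hinv : (mcA i)⁻¹ = mcA i := inv_eq_of_mul_eq_one_left (mcA_sq hi)
  have key : ∀ y ∈ mcSk (i + 1), mcA i * y * (mcA i)⁻¹ ∈ mcSk (i + 1) := by
    unfold mcSk
    apply conj_mem_closure
    rintro _ ⟨j, hij, hj, rfl⟩
    rw [hinv]
    obtain ⟨h1, h2, h3⟩ := mc_rel (i := i) (j := j) (by omega) hj
    rw [h3]
    exact mcXs_mem_Sk hi h1 h2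
  intro y hy
  have h := key y hy
  rwa [hinv] at h

theorem mcSk_pow : ∀ d, d ≤ 7 → ∀ x ∈ mcSk (7 - d), x ^ 2 ^ d = 1 := by
  intro d
  induction d with
  | zero =>
    intro _ x hx
    have h : mcSk 7 = ⊥ := by
      unfold mcSk
      rw [Subgroup.closure_eq_bot_iff]
      rintro _ ⟨j, h1, h2, -⟩
      omega
    rw [show 7 - 0 = 7 from rfl, h, Subgroup.mem_bot] at hx
    rw [hx, one_pow]
  | succ d ih =>
    intro hd x hx
    have hi : 7 - (d + 1) < 7 := by omega
    have e : 7 - (d + 1) + 1 = 7 - d := by omega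
    have ha := mcA_sq hi
    have h1 := mc_chain_step (mcA (7 - (d + 1))) (mcSk (7 - (d + 1) + 1))
      {x | ∃ j, 7 - (d + 1) ≤ j ∧ j < 7 ∧ x = mcA j} ha (mcA_conj_Sk hi) (by
        rintro _ ⟨j, h1, h2, rfl⟩
        rcases Nat.eq_or_lt_of_le h1 with h | h
        · left
          rw [h]
        · right
          exact Subgroup.subset_closure ⟨j, h, h2, rfl⟩) x hx
    have h2 : x * x ∈ mcSk (7 - d) := by
      rw [← e]
      rcases h1 with h | h
      · exact Subgroup.mul_mem _ h h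
      · have h3 := mcA_conj_Sk hi _ h
        have e2 : x * x = mcA (7 - (d + 1)) * (mcA (7 - (d + 1)) * x) * mcA (7 - (d + 1)) *
            (mcA (7 - (d + 1)) * x) := by
          calc x * x = 1 * x * (1 * x) := by rw [one_mul]
            _ = mcA (7 - (d + 1)) * mcA (7 - (d + 1)) * x *
                (mcA (7 - (d + 1)) * mcA (7 - (d + 1)) * x) := by rw [ha]
            _ = _ := by simp only [mul_assoc]
        rw [e2]
        exact Subgroup.mul_mem _ h3 h
    have h3 := ih (by omega) (x * x) h2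
    rw [pow_succ, pow_mul', sq]
    exact h3

theorem mcS_pow {x : Co0} (hx : x ∈ mcS) : x ^ 2 ^ 7 = 1 := mcSk_pow 7 (le_refl _) x hx

theorem mcS_isPGroup : IsPGroup 2 ↥mcS := fun g =>
  ⟨7, Subtype.ext (by
    rw [Subgroup.coe_pow, Subgroup.coe_one]
    exact mcS_pow g.2)⟩

theorem mcl_finite : Finite ↥mclSub :=
  Nat.finite_of_card_ne_zero (by rw [card_mclSub]; norm_num)

/-- the elements of the Sylow subgroup -/
noncomputable def mcSFun (e : Fin 128) : ↥mcS := ⟨mcXs e.val, mcXs_mem e.val⟩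

theorem mcSFun_inj : Function.Injective mcSFun := by
  intro e e' h
  exact Fin.ext (mcXs_inj e.2 e'.2 (congrArg Subtype.val h))

theorem mcS_card : Nat.card ↥mcS = 128 := by
  have hfin : Finite ↥mclSub := mcl_finite
  have : Fact (Nat.Prime 2) := ⟨Nat.prime_two⟩
  obtain ⟨n, hn⟩ := IsPGroup.iff_card.1 mcS_isPGroup
  have hdvd : Nat.card ↥mcS ∣ Nat.card ↥mclSub := Subgroup.card_dvd_of_le mcS_le
  rw [card_mclSub, hn] at hdvd
  have hn7 : n ≤ 7 := by
    by_contra hcon
    have h8 : 2 ^ 8 ∣ 2 ^ n := pow_dvd_pow 2 (by omega)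
    have h9 := h8.trans hdvd
    revert h9
    decide
  have hge : 128 ≤ Nat.card ↥mcS := by
    have h1 := Nat.card_le_card_of_injective _ mcSFun_inj
    rwa [Nat.card_fin] at h1
  have hle : Nat.card ↥mcS ≤ 128 := by
    rw [hn]
    calc 2 ^ n ≤ 2 ^ 7 := Nat.pow_le_pow_right (by norm_num) hn7
      _ = 128 := by norm_num
  omega

theorem mcSFun_bij : Function.Bijective mcSFun :=
  Function.Injective.bijective_of_nat_card_le mcSFun_inj (by rw [mcS_card, Nat.card_fin])

theorem mcS_cover {s : Co0} (hs : s ∈ mcS) : ∃ e, e < 128 ∧ s = mcXs e := by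
  obtain ⟨e, he⟩ := mcSFun_bij.2 ⟨s, hs⟩
  exact ⟨e.val, e.2, (congrArg Subtype.val he).symm⟩

/-- the centre of the Sylow subgroup has order two -/
theorem mc_center {s : Co0} (hs : s ∈ mcS) (hc : ∀ j, j < 7 → mcA j * s = s * mcA j) :
    s = 1 ∨ s = mcZ := by
  obtain ⟨e, he, rfl⟩ := mcS_cover hs
  by_cases h0 : e = 0
  · left
    rw [h0]
    exact mcXs_zero
  by_cases h16 : e = 16
  · right
    rw [h16, mcXs_z]
    exact mcA_four
  exfalso
  obtain ⟨h1, h2⟩ := mc_centre he h0 h16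
  exact h2 (hc _ h1)

theorem mcS_comm {s : Co0} (hs : s ∈ mcS) : s * mcZ = mcZ * s := by
  have hle : mcS ≤ Subgroup.centralizer {mcZ} := by
    unfold mcS mcSk
    rw [Subgroup.closure_le]
    rintro _ ⟨j, -, hj, rfl⟩
    rw [SetLike.mem_coe, Subgroup.mem_centralizer_iff]
    rintro _ rfl
    exact (mcA_comm hj).symm
  exact (Subgroup.mem_centralizer_iff.1 (hle hs) _ rfl).symm

/-! ### The coset invariant -/

/-- the coset invariant -/
noncomputable def mcInv (t : Co0) : ℕ := ∑ᶠ s : ↥mcS, mcCode ((t * (s : Co0)) • mcV0)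

theorem mcInv_mul (t : Co0) {s' : Co0} (hs' : s' ∈ mcS) : mcInv (t * s') = mcInv t := by
  unfold mcInv
  have h := finsum_comp_equiv (Equiv.mulLeft (⟨s', hs'⟩ : ↥mcS))
    (f := fun s : ↥mcS => mcCode ((t * (s : Co0)) • mcV0))
  rw [← h]
  apply finsum_congr
  intro s
  show mcCode ((t * s' * (s : Co0)) • mcV0) = mcCode ((t * (s' * (s : Co0))) • mcV0)
  rw [mul_assoc]

theorem mcInv_eq (t : Co0) :
    mcInv t = ∑ e ∈ Finset.range 128, mcCode ((t * mcXs e) • mcV0) := by
  have h := finsum_comp_equiv (Equiv.ofBijective mcSFun mcSFun_bij)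
    (f := fun s : ↥mcS => mcCode ((t * (s : Co0)) • mcV0))
  unfold mcInv
  rw [← h, finsum_eq_sum_of_fintype,
    ← Fin.sum_univ_eq_sum_range (fun e => mcCode ((t * mcXs e) • mcV0)) 128]
  rfl

theorem mcTInv_eq {i : ℕ} (hi : i < 315) : mcTInv i = mcInv (mcT i) := by
  rw [mcInv_eq]
  exact (mc_chkT_spec hi).1

theorem mcT_inj {i i' : ℕ} (hi : i < 315) (hi' : i' < 315) (h : mcInv (mcT i) = mcInv (mcT i')) :
    i = i' := by
  by_contra hne
  rw [← mcTInv_eq hi, ← mcTInv_eq hi'] at h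
  rcases Nat.lt_or_gt_of_ne hne with hlt | hlt
  · exact mcTInv_ne hi' hlt h.symm
  · exact mcTInv_ne hi hlt h

/-! ### The centraliser of the involution -/

/-- the product map -/
noncomputable def mcPhi (x : Fin 22275 × Fin 315 × Fin 128) : ↥mclSub :=
  ⟨mcW x.1.val * (mcT x.2.1.val * mcXs x.2.2.val),
    mul_mem (mcW_mem _) (mul_mem (mcT_mem _) (mcS_le (mcXs_mem _)))⟩

theorem mc_conj_prod (k i e : ℕ) :
    (mcW k * (mcT i * mcXs e)) * mcZ * (mcW k * (mcT i * mcXs e))⁻¹ = mcXe k := by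
  have h1 : mcT i * mcXs e * mcZ = mcZ * (mcT i * mcXs e) := by
    rw [mul_assoc, mcS_comm (mcXs_mem e), ← mul_assoc, mcT_comm, mul_assoc]
  exact mc_conj_aux _ _ _ h1

theorem mcPhi_inj : Function.Injective mcPhi := by
  rintro ⟨k, i, e⟩ ⟨k', i', e'⟩ h
  have h0 : mcW k.val * (mcT i.val * mcXs e.val) = mcW k'.val * (mcT i'.val * mcXs e'.val) :=
    congrArg Subtype.val h
  have hk : k = k' := by
    apply Fin.ext
    apply mcXe_inj k.2 k'.2
    rw [← mc_conj_prod k.val i.val e.val, ← mc_conj_prod k'.val i'.val e'.val, h0]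
  subst hk
  have h1 : mcT i.val * mcXs e.val = mcT i'.val * mcXs e'.val := mul_left_cancel h0
  have hi : i = i' := by
    apply Fin.ext
    apply mcT_inj i.2 i'.2
    have e1 : mcT i'.val = mcT i.val * (mcXs e.val * (mcXs e'.val)⁻¹) := by
      rw [← mul_assoc, h1, mul_assoc, mul_inv_cancel, mul_one]
    rw [e1, mcInv_mul _ (mul_mem (mcXs_mem _) (inv_mem (mcXs_mem _)))]
  subst hi
  have h2 : mcXs e.val = mcXs e'.val := mul_left_cancel h1
  have he : e = e' := Fin.ext (mcXs_inj e.2 e'.2 h2)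
  rw [he]

theorem mcPhi_bij : Function.Bijective mcPhi := by
  have hfin : Finite ↥mclSub := mcl_finite
  have hc : Nat.card (Fin 22275 × Fin 315 × Fin 128) = 898128000 := by
    rw [Nat.card_prod, Nat.card_prod, Nat.card_fin, Nat.card_fin, Nat.card_fin]
  exact Function.Injective.bijective_of_nat_card_le mcPhi_inj (by rw [card_mclSub, hc])

/-- the centraliser of the involution is the union of `315` cosets of the Sylow subgroup -/
theorem mc_cent_cover {g : Co0} (hg : g ∈ mclSub) (hc : g * mcZ = mcZ * g) :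
    ∃ i, i < 315 ∧ ∃ e, e < 128 ∧ g = mcT i * mcXs e := by
  obtain ⟨⟨k, i, e⟩, h⟩ := mcPhi_bij.2 ⟨g, hg⟩
  have h0 : mcW k.val * (mcT i.val * mcXs e.val) = g := congrArg Subtype.val h
  have h1 : mcXe k.val = mcXe 3527 := by
    rw [← mc_conj_prod k.val i.val e.val, h0, mcXe_base, hc, mul_assoc, mul_inv_cancel, mul_one]
  have hk : k.val = 3527 := mcXe_inj k.2 (by norm_num) h1
  rw [hk, mcW_base, one_mul] at h0
  exact ⟨i.val, i.2, e.val, e.2, h0.symm⟩

theorem mcT_not_norm {i : ℕ} (hi : i < 315) (h0 : i ≠ 0)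
    (hn : ∀ y ∈ mcS, (mcT i)⁻¹ * y * mcT i ∈ mcS) : False := by
  obtain ⟨h1, h2⟩ := (mc_chkT_spec hi).2 h0
  obtain ⟨e, he, h3⟩ := mcS_cover (hn _ (mcA_mem h1))
  apply h2 e he
  rw [← h3]
  group

/-- the Sylow subgroup is self-normalising -/
theorem mc_norm_S {g : Co0} (hg : g ∈ mclSub) (hgS : ∀ y ∈ mcS, g * y * g⁻¹ ∈ mcS) : g ∈ mcS := by
  have hgn : g ∈ Subgroup.normalizer (mcS : Set Co0) :=
    Cfsg.Agent.Helper85.mem_normalizer_of_conj_mem hgS
  have hz : g * mcZ * g⁻¹ ∈ mcS := hgS _ mcZ_mem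
  have hcen : ∀ j, j < 7 → mcA j * (g * mcZ * g⁻¹) = (g * mcZ * g⁻¹) * mcA j := by
    intro j hj
    have h1 : g⁻¹ * mcA j * g ∈ mcS := by
      rw [Subgroup.mem_normalizer_iff.1 hgn]
      have e : g * (g⁻¹ * mcA j * g) * g⁻¹ = mcA j := by group
      rw [e]
      exact mcA_mem hj
    have h2 := mcS_comm h1
    calc mcA j * (g * mcZ * g⁻¹) = g * ((g⁻¹ * mcA j * g) * mcZ) * g⁻¹ := by group
      _ = g * (mcZ * (g⁻¹ * mcA j * g)) * g⁻¹ := by rw [h2]
      _ = (g * mcZ * g⁻¹) * mcA j := by group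
  rcases mc_center hz hcen with h | h
  · exfalso
    apply mcZ_ne_one
    have e : mcZ = g⁻¹ * (g * mcZ * g⁻¹) * g := by group
    rw [e, h]
    group
  · rw [mul_inv_eq_iff_eq_mul] at h
    obtain ⟨i, hi, e, he, rfl⟩ := mc_cent_cover hg h
    by_cases h0 : i = 0
    · rw [h0, mcT_zero, one_mul]
      exact mcXs_mem e
    · exfalso
      apply mcT_not_norm hi h0
      have ht : mcT i ∈ Subgroup.normalizer (mcS : Set Co0) := by
        have h5 : mcXs e ∈ Subgroup.normalizer (mcS : Set Co0) :=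
          Subgroup.le_normalizer (mcXs_mem e)
        have h6 := Subgroup.mul_mem _ hgn (Subgroup.inv_mem _ h5)
        rwa [mul_assoc, mul_inv_cancel, mul_one] at h6
      intro y hy
      have h7 := (Subgroup.mem_normalizer_iff.1 (Subgroup.inv_mem _ ht) y).1 hy
      rwa [inv_inv] at h7

end Cfsg.Agent.Helper86
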