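import Cfsg.Agent.Helper86.McLFGrp
import Cfsg.Agent.Helper86.AltTransport
import Cfsg.Agent.S0065

/-!
# The 2-fusion system of the McLaughlin group is simple (seat helper86)
-/

set_option autoImplicit false

namespace Cfsg.Agent.Helper86

open Cfsg MulAction Cfsg.Agent.Helper92 Cfsg.Agent.Helper92.Mat Cfsg.Agent.Helper92.Co3Out
  Cfsg.Agent.Helper92.McLOut

/-- A nontrivial strongly closed subgroup contains the central involution. -/
theorem mc_center_mem {T : Subgroup Co0} (hTS : T ≤ mcS)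
    (hT : ∀ x ∈ T, ∀ g ∈ mclSub, g * x * g⁻¹ ∈ mcS → g * x * g⁻¹ ∈ T) (hne : T ≠ ⊥) : mcZ ∈ T := by
  have : Fact (Nat.Prime 2) := ⟨Nat.prime_two⟩
  have : Group.IsNilpotent ↥mcS := mcS_isPGroup.isNilpotent
  have hNn : (T.subgroupOf mcS).Normal := by
    constructor
    intro n hn g
    rw [Subgroup.mem_subgroupOf] at hn ⊢
    exact hT _ hn g (mcS_le g.2) (mcS.mul_mem (mcS.mul_mem g.2 (hTS hn)) (mcS.inv_mem g.2))
  have hN : T.subgroupOf mcS ≠ ⊥ := by
    intro h
    apply hne
    rw [Subgroup.eq_bot_iff_forall]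
    intro x hx
    have h1 : (⟨x, hTS hx⟩ : ↥mcS) ∈ T.subgroupOf mcS := Subgroup.mem_subgroupOf.2 hx
    rw [h, Subgroup.mem_bot] at h1
    exact congrArg Subtype.val h1
  have h := Cfsg.Agent.S0065.result (T.subgroupOf mcS) hN
  have hex : ∃ s ∈ T.subgroupOf mcS ⊓ Subgroup.center ↥mcS, s ≠ 1 := by
    by_contra hcon
    apply h
    rw [Subgroup.eq_bot_iff_forall]
    intro x hx
    by_contra hx1
    exact hcon ⟨x, hx, hx1⟩
  obtain ⟨s, hs, hs1⟩ := hex
  obtain ⟨hsT, hsZ⟩ := Subgroup.mem_inf.1 hs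
  rw [Subgroup.mem_subgroupOf] at hsT
  have hcomm : ∀ j, j < 7 → mcA j * (s : Co0) = (s : Co0) * mcA j := by
    intro j hj
    have h1 := Subgroup.mem_center_iff.1 hsZ ⟨mcA j, mcA_mem hj⟩
    exact congrArg Subtype.val h1
  rcases mc_center s.2 hcomm with h1 | h1
  · exfalso
    exact hs1 (Subtype.ext h1)
  · rw [← h1]
    exact hsT

/-- The Sylow subgroup has no proper nontrivial strongly closed subgroup. -/
theorem mc_strongly_closed {T : Subgroup Co0} (hTS : T ≤ mcS)
    (hT : ∀ x ∈ T, ∀ g ∈ mclSub, g * x * g⁻¹ ∈ mcS → g * x * g⁻¹ ∈ T) (hne : T ≠ ⊥) : T = mcS := by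
  have hz : mcZ ∈ T := mc_center_mem hTS hT hne
  apply le_antisymm hTS
  unfold mcS mcSk
  rw [Subgroup.closure_le]
  rintro _ ⟨j, -, hj, rfl⟩
  have h1 := mc_conj hj
  have e : mcA j = mcWd (mcGW j) * mcZ * (mcWd (mcGW j))⁻¹ := by
    rw [← h1, mul_assoc, mul_inv_cancel, mul_one]
  rw [SetLike.mem_coe, e]
  apply hT _ hz _ (mcWd_mem _)
  rw [← e]
  exact mcA_mem hj

/-- The hypotheses of the simplicity criterion hold in the McLaughlin group at the prime two. -/
theorem mc_altHyp : AltHyp 2 mclSub mcS := by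
  have hcent : ∀ c ∈ mclSub, (∀ x ∈ mcS, c * x = x * c) → c ∈ mcS := by
    intro c hc hcS
    apply mc_norm_S hc
    intro y hy
    rw [hcS y hy, mul_assoc, mul_inv_cancel, mul_one]
    exact hy
  refine ⟨?_, ?_, mcS, le_refl _, hcent, ?_⟩
  · intro h
    apply mcZ_ne_one
    have h1 := mcZ_mem
    rw [h, Subgroup.mem_bot] at h1
    exact h1
  · intro T hTS hT
    by_cases hne : T = ⊥
    · exact Or.inl hne
    · exact Or.inr (mc_strongly_closed hTS hT hne)
  · intro g hg hgS
    have hgS' := mc_norm_S hg hgS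
    apply Subgroup.subset_closure
    exact ⟨hg, hgS, mcS, mcS, le_refl _, le_refl _, le_refl _, hcent, hgS, hgS,
      Subgroup.subset_closure ⟨hg, ⟨7, mcS_pow hgS'⟩, hgS⟩⟩

/-- The 2-fusion system of any group isomorphic to the McLaughlin group is simple. -/
theorem mc_isSimple {G : Type*} [Group G] [Finite G] (e : G ≃* ↥Spor.McL) (S : Sylow 2 G) :
    (groupFusionSystem (S : Subgroup G)).IsSimple 2 := by
  have : Fact (Nat.Prime 2) := ⟨Nat.prime_two⟩
  have hfin : Finite ↥mclSub := mcl_finite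
  have hinj : Function.Injective
      (mclSub.subtype.comp (mclEquiv.symm.toMonoidHom.comp e.toMonoidHom)) := by
    intro x y h
    apply e.injective
    apply mclEquiv.symm.injective
    exact Subtype.ext h
  have hrange : (mclSub.subtype.comp (mclEquiv.symm.toMonoidHom.comp e.toMonoidHom)).range =
      mclSub := by
    ext y
    constructor
    · rintro ⟨x, rfl⟩
      exact (mclEquiv.symm (e x)).2
    · intro hy
      refine ⟨e.symm (mclEquiv ⟨y, hy⟩), ?_⟩
      show ((mclEquiv.symm (e (e.symm (mclEquiv ⟨y, hy⟩))) : ↥mclSub) : Co0) = y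
      rw [MulEquiv.apply_symm_apply, MulEquiv.symm_apply_apply]
  apply isSimple_of_relSyl (mclSub.subtype.comp (mclEquiv.symm.toMonoidHom.comp e.toMonoidHom))
    hinj S mcS
  · rw [hrange]
    exact mcS_le
  · exact mcS_isPGroup
  · intro S' hS' hle
    rw [hrange] at hS' ⊢
    have hS'eq : S' = mcS := by
      obtain ⟨n, hn⟩ := IsPGroup.iff_card.1 hS'.2.1
      have hdvd : Nat.card S' ∣ Nat.card ↥mclSub := Subgroup.card_dvd_of_le hS'.1
      rw [card_mclSub, hn] at hdvd
      have hn7 : n ≤ 7 := by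
        by_contra hcon
        have h8 : 2 ^ 8 ∣ 2 ^ n := pow_dvd_pow 2 (by omega)
        have h9 := h8.trans hdvd
        revert h9
        decide
      have hc : Nat.card S' ≤ Nat.card ↥mcS := by
        rw [hn, mcS_card]
        calc 2 ^ n ≤ 2 ^ 7 := Nat.pow_le_pow_right (by norm_num) hn7
          _ = 128 := by norm_num
      exact (Subgroup.eq_of_le_of_card_ge hle hc).symm
    rw [hS'eq]
    exact mc_altHyp

end Cfsg.Agent.Helper86
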