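import Cfsg.Agent.Helper86.McLFChkA
import Cfsg.Agent.Helper86.McLFChkT
import Cfsg.Agent.Helper86.McLFChkX0
import Cfsg.Agent.Helper86.McLFChkX1
import Cfsg.Agent.Helper86.McLFChkX2
import Cfsg.Agent.Helper86.McLFChkX3
import Cfsg.Agent.Helper86.McLFChkX4
import Cfsg.Agent.Helper86.McLFChkX5
import Cfsg.Agent.Helper86.McLFChkX6
import Cfsg.Agent.Helper86.McLFChkX7
import Cfsg.Agent.Helper86.McLFChkX8

/-!
# The 2-local structure of the McLaughlin group: the certificates as statements (seat helper86)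
-/

set_option autoImplicit false

namespace Cfsg.Agent.Helper86

open Cfsg MulAction Cfsg.Agent.Helper92 Cfsg.Agent.Helper92.Mat Cfsg.Agent.Helper92.Co3Out
  Cfsg.Agent.Helper92.McLOut
open Cfsg.Agent.Helper7 (idx pt)

theorem mc_nbeq_ne {a b : ℕ} (h : (!Nat.beq a b) = true) : a ≠ b := by
  intro e
  rw [e, Nat.beq_refl] at h
  exact absurd h (by decide)

theorem mc_bnot {b : Bool} (h : (!b) = true) : b = false := by
  cases b
  · rfl
  · exact absurd h (by decide)

theorem mc_beq_false {a b : ℕ} (h : a ≠ b) : Nat.beq a b = false := by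
  rw [Bool.eq_false_iff]
  intro hc
  exact h (Nat.eq_of_beq_eq_true hc)

theorem mc_ble_false {a b : ℕ} (h : a < b) : Nat.ble b a = false := by
  rw [Bool.eq_false_iff]
  intro hc
  exact absurd (Nat.le_of_ble_eq_true hc) (Nat.not_le_of_lt h)

/-- the involution -/
noncomputable def mcZ : Co0 := mcElt (nat_lit 48)

/-- the conjugating word of conjugate `k` -/
noncomputable def mcW (k : ℕ) : Co0 := mcXw (nat_lit 7) k

/-- coset representative `i` -/
noncomputable def mcT (i : ℕ) : Co0 := mcTw (nat_lit 4) i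

/-- conjugate `k` of the involution -/
noncomputable def mcXe (k : ℕ) : Co0 := mcW k * mcZ * (mcW k)⁻¹

theorem mcW_mem (k : ℕ) : mcW k ∈ mclSub := mcXw_mem _ _

theorem mcT_mem (i : ℕ) : mcT i ∈ mclSub := mcTw_mem _ _

theorem mcZ_mem_mcl : mcZ ∈ mclSub := mcElt_mem _

theorem mc_chkX_all (c : ℕ) (hc : c < 891) : mcChkX (25 * c) 25 = true := by
  rcases Nat.lt_or_ge c 100 with h0 | h0
  · exact mc_chkX_f0 c (Nat.zero_le _) h0
  rcases Nat.lt_or_ge c 200 with h1 | h1
  · exact mc_chkX_f1 c h0 h1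
  rcases Nat.lt_or_ge c 300 with h2 | h2
  · exact mc_chkX_f2 c h1 h2
  rcases Nat.lt_or_ge c 400 with h3 | h3
  · exact mc_chkX_f3 c h2 h3
  rcases Nat.lt_or_ge c 500 with h4 | h4
  · exact mc_chkX_f4 c h3 h4
  rcases Nat.lt_or_ge c 600 with h5 | h5
  · exact mc_chkX_f5 c h4 h5
  rcases Nat.lt_or_ge c 700 with h6 | h6
  · exact mc_chkX_f6 c h5 h6
  rcases Nat.lt_or_ge c 800 with h7 | h7
  · exact mc_chkX_f7 c h6 h7
  exact mc_chkX_f8 c h7 hc

theorem mc_chkX1 {k : ℕ} (hk : k < 22275) : mcChkX1 k = true :=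
  mcChkX_get (mc_chkX_all (k / 25) (by omega)) (by omega) (by omega)

theorem mc_chkT1 {i : ℕ} (hi : i < 315) : mcChkT1 i = true :=
  mcChkT_get (mc_chkT_all (i / 35) (by omega)) (by omega) (by omega)

/-! ### Inverses -/

theorem mc_pair {p : ℕ} (hp : p < 16) : mcElt (2 * p) * mcElt (2 * p + 1) = 1 := by
  have h := (mcAll_iff _ _).1 mc_chkI p hp
  exact mc_eq_of_basis
    (fun X => mcAct (Nat.mul (nat_lit 2) p) (mcAct (Nat.succ (Nat.mul (nat_lit 2) p)) X)) (fun X => X)
    (fun x hn => by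
      show mcAct (2 * p) (mcAct (2 * p + 1) (mcCode x)) = _
      rw [mul_smul, mcAct_spec _ x hn]
      exact mcAct_spec _ _ (mc_norm _ hn))
    (fun x _ => by rw [one_smul]) h

theorem mcElt_inv {j : ℕ} (hj : j < 32) : mcElt (mcInvI j) = (mcElt j)⁻¹ := by
  have hp := mc_pair (p := j / 2) (by omega)
  rcases Nat.mod_two_eq_zero_or_one j with h | h
  · have e1 : mcInvI j = 2 * (j / 2) + 1 := by
      have hb : Nat.beq (Nat.mod j (nat_lit 2)) (nat_lit 0) = true := by
        show Nat.beq (j % 2) 0 = true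
        rw [h]
        rfl
      unfold mcInvI
      rw [hb, cond_true]
      show j + 1 = _
      omega
    have e2 : 2 * (j / 2) = j := by omega
    rw [e1]
    rw [e2] at hp ⊢
    exact eq_inv_of_mul_eq_one_right hp
  · have e1 : mcInvI j = 2 * (j / 2) := by
      have hb : Nat.beq (Nat.mod j (nat_lit 2)) (nat_lit 0) = false := by
        show Nat.beq (j % 2) 0 = false
        rw [h]
        rfl
      unfold mcInvI
      rw [hb, cond_false]
      show j - 1 = _
      omega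
    have e2 : 2 * (j / 2) + 1 = j := by omega
    rw [e1]
    rw [e2] at hp
    exact eq_inv_of_mul_eq_one_left hp

/-! ### The conjugates -/

theorem mcXU_spec : ∀ f k : ℕ, mcXU f k = mcCode ((mcXw f k)⁻¹ • mcV0)
  | 0, k => by rw [mcXU, mcXw, inv_one, one_smul, mcV0_code]
  | f + 1, k => by
    rw [mcXU, mcXw]
    rcases Bool.eq_false_or_eq_true (Nat.beq k (nat_lit 3527)) with hb | hb
    · rw [hb, cond_true, cond_true, inv_one, one_smul, mcV0_code]
    · rw [hb, cond_false, cond_false]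
      simp only [mcLet_eq]
      rw [mul_inv_rev, mul_smul, ← mcElt_inv (mcXLab_lt k)]
      have h := mcXU_spec f (mcXPar k)
      show mcAct (mcInvI (mcXLab k)) (mcXU f (mcXPar k)) = _
      rw [h]
      exact mcAct_spec _ _ (mc_norm _ mcV0_norm)

theorem mc_chkX_spec {k : ℕ} (hk : k < 22275) :
    mcXC k = mcCode (mcXe k • mcV0) % 2305843009213693951 ∧ mcXC k < mcXC (k + 1) := by
  have h := mc_chkX1 hk
  rw [mcChkX1, Bool.and_eq_true] at h
  refine ⟨?_, Nat.le_of_ble_eq_true h.2⟩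
  have h1 := Nat.eq_of_beq_eq_true h.1
  rw [mcXU_spec, mcAct_spec _ _ (mc_norm _ mcV0_norm),
    mcXF_spec _ _ _ (mc_norm _ (mc_norm _ mcV0_norm))] at h1
  rw [mcXe, mul_smul, mul_smul]
  exact h1.symm

theorem mcXC_strict : ∀ j i, i < j → j ≤ 22275 → mcXC i < mcXC j := by
  intro j
  induction j with
  | zero => intro i hi; omega
  | succ j ih =>
    intro i hi hj
    have h1 := (mc_chkX_spec (k := j) (by omega)).2
    rcases Nat.lt_succ_iff_lt_or_eq.1 hi with h | h
    · exact (ih i h (by omega)).trans h1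
    · rw [h]; exact h1

theorem mcXe_inj {i j : ℕ} (hi : i < 22275) (hj : j < 22275) (h : mcXe i = mcXe j) : i = j := by
  by_contra hne
  have e : mcXC i = mcXC j := by rw [(mc_chkX_spec hi).1, (mc_chkX_spec hj).1, h]
  rcases Nat.lt_or_gt_of_ne hne with hlt | hlt
  · exact absurd e (Nat.ne_of_lt (mcXC_strict j i hlt (by omega)))
  · exact absurd e (Nat.ne_of_gt (mcXC_strict i j hlt (by omega)))

theorem mcW_base : mcW 3527 = 1 := by
  show mcXw (6 + 1) 3527 = 1
  rw [mcXw]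
  rfl

theorem mcXe_base : mcXe 3527 = mcZ := by
  rw [mcXe, mcW_base, inv_one, one_mul, mul_one]

/-! ### The Sylow subgroup -/

theorem mcSC_spec {e : ℕ} (he : e < 128) : mcSC e = mcCode (mcXs e • mcV0) := by
  have h := Nat.eq_of_beq_eq_true ((mcAll_iff _ _).1 mc_chkS1 e he)
  rw [← mcV0_code, mcSAct_spec e mcV0 mcV0_norm] at h
  exact h.symm

theorem mcSC_ne {e e' : ℕ} (he : e < 128) (hlt : e' < e) : mcSC e ≠ mcSC e' :=
  mc_nbeq_ne ((mcAll_iff _ _).1 ((mcAll_iff _ _).1 mc_chkS2 e he) e' hlt)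

theorem mcXs_inj {e e' : ℕ} (he : e < 128) (he' : e' < 128) (h : mcXs e = mcXs e') : e = e' := by
  by_contra hne
  have e1 : mcSC e = mcSC e' := by rw [mcSC_spec he, mcSC_spec he', h]
  rcases Nat.lt_or_gt_of_ne hne with hlt | hlt
  · exact mcSC_ne he' hlt e1.symm
  · exact mcSC_ne he hlt e1

theorem mc_rel {i j : ℕ} (hij : i < j) (hj : j < 7) :
    mcRel (7 * i + j) < 128 ∧ mcRel (7 * i + j) % 2 ^ (i + 1) = 0 ∧
      mcA i * mcA j * mcA i = mcXs (mcRel (7 * i + j)) := by
  have h := (mcAll_iff _ _).1 ((mcAll_iff _ _).1 mc_chkS3 i (by omega)) j hj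
  simp only [mc_ble_false hij, Bool.false_or, Bool.and_eq_true] at h
  obtain ⟨⟨h1, h2⟩, h3⟩ := h
  refine ⟨Nat.le_of_ble_eq_true h1, Nat.eq_of_beq_eq_true h2, ?_⟩
  exact mc_eq_of_basis
    (fun X => mcAct (Nat.add (nat_lit 44) i) (mcAct (Nat.add (nat_lit 44) j)
      (mcAct (Nat.add (nat_lit 44) i) X)))
    (fun X => mcSAct (mcRel (Nat.add (Nat.mul (nat_lit 7) i) j)) X)
    (fun x hn => by
      show mcAct (Nat.add (nat_lit 44) i) (mcAct (Nat.add (nat_lit 44) j)
        (mcAct (Nat.add (nat_lit 44) i) (mcCode x))) = mcCode ((mcA i * mcA j * mcA i) • x)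
      rw [mul_smul, mul_smul, mcAct_spec _ x hn, mcAct_spec _ _ (mc_norm _ hn)]
      exact mcAct_spec _ _ (mc_norm _ (mc_norm _ hn)))
    (fun x hn => mcSAct_spec _ x hn) h3

theorem mcA_sq {i : ℕ} (hi : i < 7) : mcA i * mcA i = 1 := by
  have h := (mcAll_iff _ _).1 mc_chkS4 i hi
  exact mc_eq_of_basis
    (fun X => mcAct (Nat.add (nat_lit 44) i) (mcAct (Nat.add (nat_lit 44) i) X)) (fun X => X)
    (fun x hn => by
      show mcAct (Nat.add (nat_lit 44) i) (mcAct (Nat.add (nat_lit 44) i) (mcCode x)) =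
        mcCode ((mcA i * mcA i) • x)
      rw [mul_smul, mcAct_spec _ x hn]
      exact mcAct_spec _ _ (mc_norm _ hn))
    (fun x _ => by rw [one_smul]) h

theorem mc_centre {e : ℕ} (he : e < 128) (h0 : e ≠ 0) (h16 : e ≠ 16) :
    mcZW e < 7 ∧ mcA (mcZW e) * mcXs e ≠ mcXs e * mcA (mcZW e) := by
  have h := (mcAll_iff _ _).1 mc_chkS5 e he
  simp only [mc_beq_false (b := nat_lit 0) h0, mc_beq_false (b := nat_lit 16) h16, Bool.false_or,
    Bool.and_eq_true] at h
  obtain ⟨h1, h2⟩ := h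
  refine ⟨Nat.le_of_ble_eq_true h1, fun hc => ?_⟩
  apply mc_nbeq_ne h2
  rw [mcSC_spec he, ← mcV0_code, mcAct_spec _ _ (mc_norm _ mcV0_norm), mcAct_spec _ _ mcV0_norm,
    mcSAct_spec _ _ (mc_norm _ mcV0_norm), ← mul_smul, ← mul_smul]
  exact congrArg (fun g => mcCode (g • mcV0)) hc

theorem mcBitE_false {e i : ℕ} (h : mcBit e i = false) : mcBitE e i = 1 := by
  unfold mcBitE
  rw [h, cond_false]

theorem mcBitE_true {e i : ℕ} (h : mcBit e i = true) : mcBitE e i = mcA i := by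
  unfold mcBitE
  rw [h, cond_true]

theorem mcXs_zero : mcXs 0 = 1 := by
  unfold mcXs
  rw [mcBitE_false (show mcBit 0 0 = false from rfl), mcBitE_false (show mcBit 0 1 = false from rfl),
    mcBitE_false (show mcBit 0 2 = false from rfl), mcBitE_false (show mcBit 0 3 = false from rfl),
    mcBitE_false (show mcBit 0 4 = false from rfl), mcBitE_false (show mcBit 0 5 = false from rfl),
    mcBitE_false (show mcBit 0 6 = false from rfl)]
  simp only [mul_one]

theorem mcXs_z : mcXs 16 = mcA 4 := by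
  unfold mcXs
  rw [mcBitE_false (show mcBit 16 0 = false from rfl), mcBitE_false (show mcBit 16 1 = false from rfl),
    mcBitE_false (show mcBit 16 2 = false from rfl), mcBitE_false (show mcBit 16 3 = false from rfl),
    mcBitE_true (show mcBit 16 4 = true from rfl), mcBitE_false (show mcBit 16 5 = false from rfl),
    mcBitE_false (show mcBit 16 6 = false from rfl)]
  simp only [mul_one, one_mul]

theorem mcA_four : mcA 4 = mcZ := rfl

theorem mcZ_ne_one : mcZ ≠ 1 := by
  intro h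
  rw [← mcA_four, ← mcXs_z, ← mcXs_zero] at h
  have := mcXs_inj (by norm_num) (by norm_num) h
  omega

/-- the generators are conjugate to the involution -/
theorem mc_conj {j : ℕ} (hj : j < 7) : mcA j * mcWd (mcGW j) = mcWd (mcGW j) * mcZ := by
  have h := mcWordEq_spec ((mcAll_iff _ _).1 mc_chkS7 j hj)
  rw [mcWd_append] at h
  have e1 : mcWd [nat_lit 48] = mcZ := by
    rw [mcWd, mcWd, mul_one]
    rfl
  rw [e1, mcWd] at h
  exact h

/-- the generators of the centraliser commute with the involution -/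
theorem mc_comm {j : ℕ} (hj : j < 19) :
    mcElt (Nat.add (nat_lit 32) j) * mcZ = mcZ * mcElt (Nat.add (nat_lit 32) j) := by
  have h := mcWordEq_spec ((mcAll_iff _ _).1 mc_chkC1 j hj)
  simp only [mcWd, mul_one] at h
  exact h

theorem mcA_comm {i : ℕ} (hi : i < 7) : mcA i * mcZ = mcZ * mcA i := by
  have h := mc_comm (j := 12 + i) (by omega)
  have e : Nat.add (nat_lit 32) (12 + i) = Nat.add (nat_lit 44) i := by
    show 32 + (12 + i) = 44 + i
    omega
  rw [e] at h
  exact h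

theorem mcTw_comm : ∀ f i : ℕ, mcTw f i * mcZ = mcZ * mcTw f i
  | 0, _ => by rw [mcTw, one_mul, mul_one]
  | f + 1, i => by
    rw [mcTw]
    rcases Bool.eq_false_or_eq_true (Nat.beq i (nat_lit 0)) with hb | hb
    · rw [hb, cond_true, one_mul, mul_one]
    · rw [hb, cond_false]
      have h1 := mc_comm (j := Nat.mod (mcTLab i) (nat_lit 12))
        (lt_of_lt_of_le (Nat.mod_lt _ (by norm_num)) (by norm_num))
      rw [mul_assoc, mcTw_comm f (mcTPar i), ← mul_assoc, h1, mul_assoc]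

theorem mcT_comm (i : ℕ) : mcT i * mcZ = mcZ * mcT i := mcTw_comm _ i

theorem mcT_zero : mcT 0 = 1 := by
  show mcTw (3 + 1) 0 = 1
  rw [mcTw]
  rfl

/-! ### The cosets -/

theorem mcCSum_spec (i : ℕ) : ∀ n, n ≤ 128 →
    mcCSum n i = ∑ e ∈ Finset.range n, mcCode ((mcT i * mcXs e) • mcV0)
  | 0, _ => by rw [mcCSum, Finset.sum_range_zero]
  | n + 1, hn => by
    rw [mcCSum, Finset.sum_range_succ, mcCSum_spec i n (by omega), mcSC_spec (by omega),
      mcTA_spec _ _ _ (mc_norm _ mcV0_norm), mul_smul]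
    rfl

theorem mcCAny_spec (i w : ℕ) : ∀ n, mcCAny n i w = false →
    ∀ e, e < n → mcTA (nat_lit 4) i (mcSC e) ≠ w
  | 0, _, e, he => absurd he (Nat.not_lt_zero e)
  | n + 1, h, e, he => by
    rw [mcCAny, Bool.or_eq_false_iff] at h
    rcases Nat.lt_succ_iff_lt_or_eq.1 he with h1 | h1
    · exact mcCAny_spec i w n h.2 e h1
    · rw [h1]
      intro hc
      have h2 := h.1
      rw [hc, Nat.beq_refl] at h2
      exact Bool.noConfusion h2

theorem mc_chkT_spec {i : ℕ} (hi : i < 315) :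
    mcTInv i = ∑ e ∈ Finset.range 128, mcCode ((mcT i * mcXs e) • mcV0) ∧
    (i ≠ 0 → mcNW i < 7 ∧ ∀ e, e < 128 → mcA (mcNW i) * mcT i ≠ mcT i * mcXs e) := by
  have h := mc_chkT1 hi
  rw [mcChkT1, Bool.and_eq_true] at h
  refine ⟨?_, fun h0 => ?_⟩
  · rw [← mcCSum_spec i 128 (le_refl _)]
    exact (Nat.eq_of_beq_eq_true h.1).symm
  · have h2 := h.2
    rw [mc_beq_false (b := nat_lit 0) h0, Bool.false_or, Bool.and_eq_true] at h2
    refine ⟨Nat.le_of_ble_eq_true h2.1, fun e he hc => ?_⟩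
    apply mcCAny_spec i _ _ (mc_bnot h2.2) e he
    rw [mcSC_spec he, ← mcV0_code, mcTA_spec _ _ _ (mc_norm _ mcV0_norm), mcTA_spec _ _ _ mcV0_norm,
      mcAct_spec _ _ (mc_norm _ mcV0_norm), ← mul_smul, ← mul_smul]
    exact (congrArg (fun g => mcCode (g • mcV0)) hc).symm

theorem mcTInv_ne {i i' : ℕ} (hi : i < 315) (hlt : i' < i) : mcTInv i ≠ mcTInv i' :=
  mc_nbeq_ne ((mcAll_iff _ _).1 ((mcAll_iff _ _).1 mc_chkT2 i hi) i' hlt)

end Cfsg.Agent.Helper86
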