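import Cfsg.Agent.Helper86.McLFElts

/-!
# The 2-local structure of the McLaughlin group: words and checks (seat helper86)

The fast action of words, the test vector, and the boolean functions evaluated by the kernel in
the certificates, with the group elements they describe.
-/

set_option autoImplicit false

namespace Cfsg.Agent.Helper86

open Cfsg MulAction Cfsg.Agent.Helper92 Cfsg.Agent.Helper92.Mat Cfsg.Agent.Helper92.Co3Out
  Cfsg.Agent.Helper92.McLOut
open Cfsg.Agent.Helper7 (idx pt)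

theorem mc_norm (g : Co0) {x : leechLattice} (hn : sqNorm (x : GolayPt → ℤ) ≤ 1024) :
    sqNorm ((g • x : leechLattice) : GolayPt → ℤ) ≤ 1024 := by
  rw [co0_sqNorm]
  exact hn

/-- the test vector -/
noncomputable def mcV0 : leechLattice := yv4 - yv3 + yv2 - byv4

theorem mcV0_vec : ((mcV0 : leechLattice) : GolayPt → ℤ) =
    vecL [0, 0, 0, -4, 0, 4, 2, 0, -2, -2, 2, 0, -2, -2, -2, 6, -2, -2, 0, -2, 2, 4, 0, 0] := by
  funext p
  show ((yv4 : leechLattice) : GolayPt → ℤ) p - ((yv3 : leechLattice) : GolayPt → ℤ) p +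
    ((yv2 : leechLattice) : GolayPt → ℤ) p - ((byv4 : leechLattice) : GolayPt → ℤ) p = _
  rw [yv4_vec, yv3_vec, yv2_vec, byv4_vec]
  revert p
  decide

theorem mcV0_norm : sqNorm ((mcV0 : leechLattice) : GolayPt → ℤ) ≤ 1024 :=
  sqNorm_le_of_normOk mcV0_vec (by decide)

theorem mcV0_code : mcCode mcV0 = mcV0C := by
  rw [mcCode, mcV0_vec, pkV_vecL]
  decide +kernel

/-- a loop evaluating `p n` before the rest -/
def mcAll : ℕ → (ℕ → Bool) → Bool
  | 0, _ => true
  | n + 1, p => p n && mcAll n p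

theorem mcAll_iff (n : ℕ) (p : ℕ → Bool) : mcAll n p = true ↔ ∀ j < n, p j = true := by
  induction n with
  | zero => simp [mcAll]
  | succ n ih =>
    rw [mcAll, Bool.and_eq_true, ih]
    constructor
    · rintro ⟨h1, h2⟩ j hj
      rcases Nat.lt_succ_iff_lt_or_eq.1 hj with h | rfl
      · exact h2 j h
      · exact h1
    · intro h
      exact ⟨h n (Nat.lt_succ_self n), fun j hj => h j (Nat.lt_succ_of_lt hj)⟩

/-! ### Words -/

/-- the product of a word -/
noncomputable def mcWd : List ℕ → Co0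
  | [] => 1
  | j :: l => mcElt j * mcWd l

/-- the fast action of a word -/
def mcActs : List ℕ → ℕ → ℕ
  | [], X => X
  | j :: l, X => mcAct j (mcActs l X)

theorem mcWd_mem : ∀ l : List ℕ, mcWd l ∈ mclSub
  | [] => Subgroup.one_mem _
  | j :: l => Subgroup.mul_mem _ (mcElt_mem j) (mcWd_mem l)

theorem mcActs_spec : ∀ (l : List ℕ) (x : leechLattice), sqNorm (x : GolayPt → ℤ) ≤ 1024 →
    mcActs l (mcCode x) = mcCode (mcWd l • x)
  | [], x, _ => by rw [mcActs, mcWd, one_smul]
  | j :: l, x, hn => by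
    rw [mcActs, mcWd, mul_smul, mcActs_spec l x hn]
    exact mcAct_spec j _ (mc_norm _ hn)

theorem mcWd_append : ∀ l l' : List ℕ, mcWd (l ++ l') = mcWd l * mcWd l'
  | [], l' => by rw [List.nil_append, mcWd, one_mul]
  | j :: l, l' => by rw [List.cons_append, mcWd, mcWd, mcWd_append l l', mul_assoc]

/-- two words agree on the vectors `8 e_i` -/
def mcWordEq (l l' : List ℕ) : Bool :=
  allTo 24 fun i => Nat.beq (mcActs l (mcB8 i)) (mcActs l' (mcB8 i))

theorem mcWordEq_spec {l l' : List ℕ} (h : mcWordEq l l' = true) : mcWd l = mcWd l' :=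
  mc_eq_of_basis (mcActs l) (mcActs l') (mcActs_spec l) (mcActs_spec l') h

/-! ### The Sylow subgroup -/

/-- generator `i` of the Sylow subgroup -/
noncomputable def mcA (i : ℕ) : Co0 := mcElt (Nat.add (nat_lit 44) i)

/-- bit `i` of `e` -/
def mcBit (e i : ℕ) : Bool := Nat.beq (Nat.mod (Nat.shiftRight e i) (nat_lit 2)) (nat_lit 1)

/-- the action of `a i` to the power bit `i` of `e` -/
def mcBitA (e i X : ℕ) : ℕ := cond (mcBit e i) (mcAct (Nat.add (nat_lit 44) i) X) X

/-- `a i` to the power bit `i` of `e` -/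
noncomputable def mcBitE (e i : ℕ) : Co0 := cond (mcBit e i) (mcA i) 1

theorem mcBitA_spec (e i : ℕ) (x : leechLattice) (hn : sqNorm (x : GolayPt → ℤ) ≤ 1024) :
    mcBitA e i (mcCode x) = mcCode (mcBitE e i • x) := by
  unfold mcBitA mcBitE
  rcases Bool.eq_false_or_eq_true (mcBit e i) with hb | hb
  · rw [hb, cond_true, cond_true]
    exact mcAct_spec _ x hn
  · rw [hb, cond_false, cond_false, one_smul]

/-- the action of element `e` of the Sylow subgroup -/
def mcSAct (e X : ℕ) : ℕ :=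
  mcBitA e 0 (mcBitA e 1 (mcBitA e 2 (mcBitA e 3 (mcBitA e 4 (mcBitA e 5 (mcBitA e 6 X))))))

/-- element `e` of the Sylow subgroup -/
noncomputable def mcXs (e : ℕ) : Co0 :=
  mcBitE e 0 * (mcBitE e 1 * (mcBitE e 2 * (mcBitE e 3 * (mcBitE e 4 * (mcBitE e 5 * mcBitE e 6)))))

theorem mcSAct_spec (e : ℕ) (x : leechLattice) (hn : sqNorm (x : GolayPt → ℤ) ≤ 1024) :
    mcSAct e (mcCode x) = mcCode (mcXs e • x) := by
  unfold mcSAct mcXs
  simp only [mul_smul]
  have h6 := mc_norm (mcBitE e 6) hn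
  have h5 := mc_norm (mcBitE e 5) h6
  have h4 := mc_norm (mcBitE e 4) h5
  have h3 := mc_norm (mcBitE e 3) h4
  have h2 := mc_norm (mcBitE e 2) h3
  have h1 := mc_norm (mcBitE e 1) h2
  rw [mcBitA_spec e 6 x hn, mcBitA_spec e 5 _ h6, mcBitA_spec e 4 _ h5, mcBitA_spec e 3 _ h4,
    mcBitA_spec e 2 _ h3, mcBitA_spec e 1 _ h2, mcBitA_spec e 0 _ h1]

/-! ### The coset representatives -/

/-- the action of coset representative `i` -/
def mcTA : ℕ → ℕ → ℕ → ℕ
  | 0, _, X => X
  | f + 1, i, X => cond (Nat.beq i (nat_lit 0)) X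
      (mcLet (Nat.add (nat_lit 32) (Nat.mod (mcTLab i) (nat_lit 12))) fun j =>
        mcLet (mcTPar i) fun i' => mcAct j (mcTA f i' X))

/-- coset representative `i` -/
noncomputable def mcTw : ℕ → ℕ → Co0
  | 0, _ => 1
  | f + 1, i => cond (Nat.beq i (nat_lit 0)) 1
      (mcElt (Nat.add (nat_lit 32) (Nat.mod (mcTLab i) (nat_lit 12))) * mcTw f (mcTPar i))

theorem mcTA_spec : ∀ (f i : ℕ) (x : leechLattice), sqNorm (x : GolayPt → ℤ) ≤ 1024 →
    mcTA f i (mcCode x) = mcCode (mcTw f i • x)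
  | 0, i, x, _ => by rw [mcTA, mcTw, one_smul]
  | f + 1, i, x, hn => by
    rw [mcTA, mcTw]
    rcases Bool.eq_false_or_eq_true (Nat.beq i (nat_lit 0)) with hb | hb
    · rw [hb, cond_true, cond_true, one_smul]
    · rw [hb, cond_false, cond_false]
      simp only [mcLet_eq]
      rw [mul_smul, mcTA_spec f _ x hn]
      exact mcAct_spec _ _ (mc_norm _ hn)

theorem mcTw_mem : ∀ f i : ℕ, mcTw f i ∈ mclSub
  | 0, _ => Subgroup.one_mem _
  | f + 1, i => by
    rw [mcTw]
    rcases Bool.eq_false_or_eq_true (Nat.beq i (nat_lit 0)) with hb | hb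
    · rw [hb, cond_true]
      exact Subgroup.one_mem _
    · rw [hb, cond_false]
      exact Subgroup.mul_mem _ (mcElt_mem _) (mcTw_mem f _)

/-! ### The conjugates of the involution -/

/-- the index of the inverse generator -/
def mcInvI (j : ℕ) : ℕ := cond (Nat.beq (Nat.mod j (nat_lit 2)) (nat_lit 0)) (Nat.succ j) (Nat.pred j)

/-- the image of the test vector under the inverse of the conjugating word of conjugate `k` -/
def mcXU : ℕ → ℕ → ℕ
  | 0, _ => mcV0C
  | f + 1, k => cond (Nat.beq k (nat_lit 3527)) mcV0C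
      (mcLet (mcXPL k) fun pl =>
        mcLet (mcInvI (Nat.mod (Nat.div pl (nat_lit 65536)) (nat_lit 32))) fun j =>
          mcAct j (mcXU f (Nat.mod pl (nat_lit 65536))))

/-- the action of the conjugating word of conjugate `k` -/
def mcXF : ℕ → ℕ → ℕ → ℕ
  | 0, _, X => X
  | f + 1, k, X => cond (Nat.beq k (nat_lit 3527)) X
      (mcLet (mcXPL k) fun pl =>
        mcXF f (Nat.mod pl (nat_lit 65536)) (mcAct (Nat.mod (Nat.div pl (nat_lit 65536)) (nat_lit 32)) X))

/-- the conjugating word of conjugate `k` -/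
noncomputable def mcXw : ℕ → ℕ → Co0
  | 0, _ => 1
  | f + 1, k => cond (Nat.beq k (nat_lit 3527)) 1 (mcXw f (mcXPar k) * mcElt (mcXLab k))

theorem mcXw_mem : ∀ f k : ℕ, mcXw f k ∈ mclSub
  | 0, _ => Subgroup.one_mem _
  | f + 1, k => by
    rw [mcXw]
    rcases Bool.eq_false_or_eq_true (Nat.beq k (nat_lit 3527)) with hb | hb
    · rw [hb, cond_true]
      exact Subgroup.one_mem _
    · rw [hb, cond_false]
      exact Subgroup.mul_mem _ (mcXw_mem f _) (mcElt_mem _)

theorem mcXF_spec : ∀ (f k : ℕ) (x : leechLattice), sqNorm (x : GolayPt → ℤ) ≤ 1024 →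
    mcXF f k (mcCode x) = mcCode (mcXw f k • x)
  | 0, k, x, _ => by rw [mcXF, mcXw, one_smul]
  | f + 1, k, x, hn => by
    rw [mcXF, mcXw]
    rcases Bool.eq_false_or_eq_true (Nat.beq k (nat_lit 3527)) with hb | hb
    · rw [hb, cond_true, cond_true, one_smul]
    · rw [hb, cond_false, cond_false]
      simp only [mcLet_eq]
      rw [mul_smul, mcAct_spec _ x hn, mcXF_spec f _ _ (mc_norm _ hn)]
      rfl

theorem mcXLab_lt (k : ℕ) : mcXLab k < 32 := Nat.mod_lt _ (by norm_num)

/-! ### The checks -/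

/-- the generators come in inverse pairs -/
def mcChkI : Bool :=
  mcAll 16 fun p => allTo 24 fun b =>
    Nat.beq (mcAct (Nat.mul (nat_lit 2) p) (mcAct (Nat.succ (Nat.mul (nat_lit 2) p)) (mcB8 b))) (mcB8 b)

/-- the images of the test vector under the Sylow subgroup -/
def mcChkS1 : Bool := mcAll 128 fun e => Nat.beq (mcSAct e mcV0C) (mcSC e)

/-- they are distinct -/
def mcChkS2 : Bool := mcAll 128 fun e => mcAll e fun e' => !(Nat.beq (mcSC e) (mcSC e'))

/-- the relations `a i * a j * a i = x (mcRel (7 i + j))` -/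
def mcChkS3 : Bool :=
  mcAll 7 fun i => mcAll 7 fun j => Nat.ble j i ||
    (Nat.blt (mcRel (Nat.add (Nat.mul (nat_lit 7) i) j)) (nat_lit 128) &&
      Nat.beq (Nat.mod (mcRel (Nat.add (Nat.mul (nat_lit 7) i) j)) (Nat.pow (nat_lit 2) (Nat.succ i))) (nat_lit 0) &&
      allTo 24 fun b =>
        Nat.beq (mcAct (Nat.add (nat_lit 44) i) (mcAct (Nat.add (nat_lit 44) j) (mcAct (Nat.add (nat_lit 44) i) (mcB8 b))))
          (mcSAct (mcRel (Nat.add (Nat.mul (nat_lit 7) i) j)) (mcB8 b)))

/-- the generators are involutions -/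
def mcChkS4 : Bool :=
  mcAll 7 fun i => allTo 24 fun b =>
    Nat.beq (mcAct (Nat.add (nat_lit 44) i) (mcAct (Nat.add (nat_lit 44) i) (mcB8 b))) (mcB8 b)

/-- the centre of the Sylow subgroup -/
def mcChkS5 : Bool :=
  mcAll 128 fun e => Nat.beq e (nat_lit 0) || Nat.beq e (nat_lit 16) ||
    (Nat.blt (mcZW e) (nat_lit 7) &&
      !(Nat.beq (mcAct (Nat.add (nat_lit 44) (mcZW e)) (mcSC e))
        (mcSAct e (mcAct (Nat.add (nat_lit 44) (mcZW e)) mcV0C))))

/-- the generators are conjugate to the involution -/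
def mcChkS7 : Bool :=
  mcAll 7 fun j => mcWordEq (Nat.add (nat_lit 44) j :: mcGW j) (mcGW j ++ [nat_lit 48])

/-- the generators of the centraliser commute with the involution -/
def mcChkC1 : Bool :=
  mcAll 19 fun j => mcWordEq [Nat.add (nat_lit 32) j, nat_lit 48] [nat_lit 48, Nat.add (nat_lit 32) j]

/-- the sum of the images of the test vector under coset `i` -/
def mcCSum : ℕ → ℕ → ℕ
  | 0, _ => 0
  | n + 1, i => Nat.add (mcCSum n i) (mcTA (nat_lit 4) i (mcSC n))

/-- whether `w` is an image of the test vector under coset `i` -/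
def mcCAny : ℕ → ℕ → ℕ → Bool
  | 0, _, _ => false
  | n + 1, i, w => Nat.beq (mcTA (nat_lit 4) i (mcSC n)) w || mcCAny n i w

/-- the invariant of coset `i`, and a generator not normalised by its representative -/
def mcChkT1 (i : ℕ) : Bool :=
  Nat.beq (mcCSum (nat_lit 128) i) (mcTInv i) &&
    (Nat.beq i (nat_lit 0) || (Nat.blt (mcNW i) (nat_lit 7) &&
      !(mcCAny (nat_lit 128) i (mcAct (Nat.add (nat_lit 44) (mcNW i)) (mcTA (nat_lit 4) i mcV0C)))))

def mcChkT (lo n : ℕ) : Bool := mcAll n fun i => mcChkT1 (Nat.add lo i)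

/-- the invariants are distinct -/
def mcChkT2 : Bool := mcAll 315 fun i => mcAll i fun i' => !(Nat.beq (mcTInv i) (mcTInv i'))

/-- the hash of the image of the test vector under conjugate `k`, and the order of the hashes -/
def mcChkX1 (k : ℕ) : Bool :=
  Nat.beq (Nat.mod (mcXF (nat_lit 7) k (mcAct (nat_lit 48) (mcXU (nat_lit 7) k))) (nat_lit 2305843009213693951)) (mcXC k) &&
    Nat.blt (mcXC k) (mcXC (Nat.succ k))

def mcChkX (lo n : ℕ) : Bool := mcAll n fun i => mcChkX1 (Nat.add lo i)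

theorem mcChkX_get {lo n : ℕ} (h : mcChkX lo n = true) {k : ℕ} (h1 : lo ≤ k) (h2 : k < lo + n) :
    mcChkX1 k = true := by
  have h3 : mcChkX1 (Nat.add lo (k - lo)) = true := (mcAll_iff _ _).1 h (k - lo) (by omega)
  have e : Nat.add lo (k - lo) = k := by
    show lo + (k - lo) = k
    omega
  rw [e] at h3
  exact h3

theorem mcChkT_get {lo n : ℕ} (h : mcChkT lo n = true) {k : ℕ} (h1 : lo ≤ k) (h2 : k < lo + n) :
    mcChkT1 k = true := by
  have h3 : mcChkT1 (Nat.add lo (k - lo)) = true := (mcAll_iff _ _).1 h (k - lo) (by omega)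
  have e : Nat.add lo (k - lo) = k := by
    show lo + (k - lo) = k
    omega
  rw [e] at h3
  exact h3

end Cfsg.Agent.Helper86
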