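import Mathlib

set_option autoImplicit false

namespace Cfsg.Agent.Helper86

open scoped Pointwise

open Polynomial in
/-- `(X+1)^p = X^p + 1 + p X (1 + X r₁)` in `ℤ[X]` for a prime `p`. -/
theorem poly_add_one_pow_prime (p : ℕ) (hp : p.Prime) :
    ∃ r₁ : Polynomial ℤ, (X + 1 : Polynomial ℤ) ^ p = X ^ p + 1 + (p : Polynomial ℤ) * X * (1 + X * r₁) := by
  obtain ⟨r, hr⟩ := exists_add_pow_prime_eq hp (X : Polynomial ℤ) 1
  have hc : r.coeff 0 = 1 := by
    have h1 := congrArg (fun q : Polynomial ℤ => q.coeff 1) hr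
    simp only [coeff_X_add_one_pow, one_pow, mul_one, coeff_add] at h1
    have h2 : ((X : Polynomial ℤ) ^ p).coeff 1 = 0 := by
      rw [coeff_X_pow, if_neg hp.one_lt.ne]
    have h3 : ((p : Polynomial ℤ) * X * r).coeff 1 = (p : ℤ) * r.coeff 0 := by
      rw [mul_assoc, ← C_eq_natCast, coeff_C_mul, coeff_X_mul]
    rw [h2, h3] at h1
    simp only [Nat.choose_one_right, coeff_one, zero_add] at h1
    have hp0 : (p : ℤ) ≠ 0 := by exact_mod_cast hp.ne_zero
    have h4 : (p : ℤ) * 1 = (p : ℤ) * r.coeff 0 := by simpa using h1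
    exact (mul_left_cancel₀ hp0 h4).symm
  have hdvd : (X : Polynomial ℤ) ∣ r - 1 := by
    rw [X_dvd_iff]; simp [hc]
  obtain ⟨r₁, hr₁⟩ := hdvd
  refine ⟨r₁, ?_⟩
  rw [hr, one_pow, mul_one, ← hr₁]
  ring

/-- The commutative algebra behind the lemma: modulo an ideal containing `X^(n(p-1)+1)` and
`X^p + pX(1 + X r₁)`, the element `p^n X` vanishes. -/
theorem ideal_pow_mul_mem {R : Type*} [CommRing R] (I : Ideal R) (p n : ℕ) (hp : 1 ≤ p) (X r₁ : R)
    (h1 : X ^ (n * (p - 1) + 1) ∈ I) (h2 : X ^ p + (p : R) * X * (1 + X * r₁) ∈ I) :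
    (p : R) ^ n * X ∈ I := by
  rw [← Ideal.Quotient.eq_zero_iff_mem] at h1 h2 ⊢
  set π := Ideal.Quotient.mk I
  set ξ := π X with hξ
  set ρ := π r₁ with hρ
  simp only [map_pow, map_add, map_mul, map_natCast, map_one] at h1 h2 ⊢
  rw [← hξ] at h1 h2 ⊢
  rw [← hρ] at h2
  set u := 1 + ξ * ρ with hu
  have hxp : ξ ^ p = -((p : R ⧸ I) * u) * ξ := by
    have : ξ ^ p = -((p : R ⧸ I) * ξ * u) := eq_neg_of_add_eq_zero_left h2
    rw [this]; ring
  have hA : ∀ i : ℕ, ξ ^ (i * (p - 1) + 1) = (-((p : R ⧸ I) * u)) ^ i * ξ := by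
    intro i
    induction i with
    | zero => simp
    | succ i ih =>
      have e : (i + 1) * (p - 1) + 1 = (i * (p - 1) + 1) + (p - 1) := by ring
      rw [e, pow_add, ih]
      have e2 : ξ * ξ ^ (p - 1) = ξ ^ p := by
        rw [← pow_succ']; congr 1; omega
      calc (-((p : R ⧸ I) * u)) ^ i * ξ * ξ ^ (p - 1) = (-((p : R ⧸ I) * u)) ^ i * (ξ * ξ ^ (p - 1)) := by ring
        _ = (-((p : R ⧸ I) * u)) ^ i * (-((p : R ⧸ I) * u) * ξ) := by rw [e2, hxp]
        _ = (-((p : R ⧸ I) * u)) ^ (i + 1) * ξ := by ring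
  have hB : (p : R ⧸ I) ^ n * u ^ n * ξ = 0 := by
    have h3 := hA n
    rw [h1] at h3
    have h4 : (-((p : R ⧸ I) * u)) ^ n * ξ = (-1) ^ n * ((p : R ⧸ I) ^ n * u ^ n * ξ) := by
      rw [neg_pow, mul_pow]; ring
    rw [h4] at h3
    have h5 : ((-1 : R ⧸ I) ^ n) * ((-1) ^ n * ((p : R ⧸ I) ^ n * u ^ n * ξ)) = 0 := by
      rw [← h3, mul_zero]
    rw [← mul_assoc, ← mul_pow] at h5
    simpa using h5
  obtain ⟨t, ht⟩ : ∃ t, u ^ n = 1 + ξ * t := by
    have := sub_dvd_pow_sub_pow u 1 n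
    obtain ⟨t', ht'⟩ := this
    refine ⟨ρ * t', ?_⟩
    have e : u - 1 = ξ * ρ := by rw [hu]; ring
    rw [e, one_pow] at ht'
    rw [← mul_assoc, ← ht']; ring
  set w := (p : R ⧸ I) ^ n * ξ with hw
  have hw1 : w = (-(ξ * t)) * w := by
    have : w + ξ * t * w = 0 := by
      have : w + ξ * t * w = (p : R ⧸ I) ^ n * u ^ n * ξ := by rw [ht, hw]; ring
      rw [this, hB]
    rw [neg_mul]; exact eq_neg_of_add_eq_zero_left this
  have hw2 : ∀ k : ℕ, w = (-(ξ * t)) ^ k * w := by
    intro k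
    induction k with
    | zero => simp
    | succ k ih =>
      rw [pow_succ, mul_assoc, ← hw1]; exact ih
  have := hw2 (n * (p - 1) + 1)
  rw [neg_pow, mul_pow, h1] at this
  simpa using this

/-- Key lemma on a single endomorphism: if `(f - 1)^(n(p-1)+1) = 0` and `f^p` fixes `x`, then `f` fixes `p^n • x`. -/
theorem end_fix_smul {M : Type*} [AddCommGroup M] (p n : ℕ) (hp : p.Prime) (f : AddMonoid.End M) (x : M)
    (hT : (f - 1) ^ (n * (p - 1) + 1) = 0) (hx : (f ^ p) x = x) : f (p ^ n • x) = p ^ n • x := by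
  set T : AddMonoid.End M := f - 1 with hTdef
  let I : Ideal (Polynomial ℤ) :=
    { carrier := {q | (Polynomial.aeval T q) x = 0}
      add_mem' := by
        intro a b ha hb
        have ha' : (Polynomial.aeval T a) x = 0 := ha
        have hb' : (Polynomial.aeval T b) x = 0 := hb
        show (Polynomial.aeval T (a + b)) x = 0
        rw [map_add]
        show (Polynomial.aeval T a) x + (Polynomial.aeval T b) x = 0
        rw [ha', hb', add_zero]
      zero_mem' := by
        show (Polynomial.aeval T 0) x = 0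
        rw [map_zero]; rfl
      smul_mem' := by
        intro c q hq
        have hq' : (Polynomial.aeval T q) x = 0 := hq
        show (Polynomial.aeval T (c * q)) x = 0
        rw [map_mul]
        show (Polynomial.aeval T c) ((Polynomial.aeval T q) x) = 0
        rw [hq', map_zero] }
  obtain ⟨r₁, hr₁⟩ := poly_add_one_pow_prime p hp
  have h1 : (Polynomial.X : Polynomial ℤ) ^ (n * (p - 1) + 1) ∈ I := by
    show (Polynomial.aeval T (Polynomial.X ^ (n * (p - 1) + 1))) x = 0
    rw [map_pow, Polynomial.aeval_X, hT]; rfl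
  have h2 : (Polynomial.X : Polynomial ℤ) ^ p + (p : Polynomial ℤ) * Polynomial.X * (1 + Polynomial.X * r₁) ∈ I := by
    have e : (Polynomial.X : Polynomial ℤ) ^ p + (p : Polynomial ℤ) * Polynomial.X * (1 + Polynomial.X * r₁)
        = (Polynomial.X + 1) ^ p - 1 := by rw [hr₁]; ring
    rw [e]
    show (Polynomial.aeval T ((Polynomial.X + 1) ^ p - 1)) x = 0
    rw [map_sub, map_pow, map_add, Polynomial.aeval_X, map_one]
    have : T + 1 = f := by rw [hTdef]; abel
    rw [this]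
    show (f ^ p) x - x = 0
    rw [hx, sub_self]
  have h3 := ideal_pow_mul_mem I p n hp.one_le Polynomial.X r₁ h1 h2
  have h4 : (Polynomial.aeval T ((p : Polynomial ℤ) ^ n * Polynomial.X)) x = 0 := h3
  rw [map_mul, map_pow, map_natCast, Polynomial.aeval_X] at h4
  have h5 : (((p : AddMonoid.End M) ^ n * T) x) = p ^ n • (f x - x) := by
    show ((p : AddMonoid.End M) ^ n) (T x) = _
    have : T x = f x - x := by rw [hTdef]; rfl
    rw [this, ← Nat.cast_pow, AddMonoid.End.natCast_apply]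
  rw [h5] at h4
  rw [map_nsmul]
  rw [smul_sub, sub_eq_zero] at h4
  exact h4

/-- Multiplicative form of `end_fix_smul` for an automorphism of a commutative group. -/
theorem mulAut_fix_pow {V : Type*} [CommGroup V] (p n : ℕ) (hp : p.Prime) (α : MulAut V) (x : V)
    (hT : ∀ v : V, (fun u => α u / u)^[n * (p - 1) + 1] v = 1) (hx : (α ^ p) x = x) :
    α (x ^ p ^ n) = x ^ p ^ n := by
  let f : AddMonoid.End (Additive V) := MonoidHom.toAdditive α.toMonoidHom
  have h1 : ∀ (k : ℕ) (v : Additive V),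
      ((f - 1) ^ k) v = Additive.ofMul ((fun u => α u / u)^[k] (Additive.toMul v)) := by
    intro k
    induction k with
    | zero => intro v; rfl
    | succ k ih =>
      intro v
      rw [pow_succ, Function.iterate_succ_apply]
      show ((f - 1) ^ k) ((f - 1) v) = _
      rw [ih]
      rfl
  have h2 : ∀ (k : ℕ) (v : Additive V), (f ^ k) v = Additive.ofMul ((α ^ k) (Additive.toMul v)) := by
    intro k
    induction k with
    | zero => intro v; rfl
    | succ k ih =>
      intro v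
      rw [pow_succ, pow_succ]
      show (f ^ k) (f v) = _
      rw [ih]
      rfl
  have hT' : (f - 1) ^ (n * (p - 1) + 1) = 0 := by
    ext v
    rw [h1, hT]
    rfl
  have hx' : (f ^ p) (Additive.ofMul x) = Additive.ofMul x := by
    rw [h2]
    exact congrArg Additive.ofMul hx
  have h3 := end_fix_smul p n hp f (Additive.ofMul x) hT' hx'
  rw [← ofMul_pow] at h3
  exact congrArg Additive.toMul h3

/-- A `p`-element of a finite group is conjugate into any given Sylow `p`-subgroup. -/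
theorem exists_conj_mem_sylow {A : Type*} [Group A] [Finite A] {p : ℕ} [Fact p.Prime] (P : Sylow p A)
    (a : A) (ha : ∃ k : ℕ, a ^ p ^ k = 1) : ∃ g : A, g⁻¹ * a * g ∈ P := by
  obtain ⟨k, hk⟩ := ha
  have hzp : IsPGroup p (Subgroup.zpowers a) := by
    rintro ⟨g, m, rfl⟩
    refine ⟨k, ?_⟩
    apply Subtype.ext
    show (a ^ m) ^ p ^ k = 1
    rw [← zpow_natCast, ← zpow_mul, mul_comm, zpow_mul, zpow_natCast, hk, one_zpow]
  obtain ⟨Q, hQ⟩ := hzp.exists_le_sylow
  obtain ⟨g, hg⟩ := MulAction.exists_smul_eq A P Q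
  refine ⟨g, ?_⟩
  have hmem : a ∈ MulAut.conj g • (P : Subgroup A) := by
    rw [← Sylow.coe_subgroup_smul, hg]; exact hQ (Subgroup.mem_zpowers _)
  rw [Subgroup.mem_pointwise_smul_iff_inv_smul_mem] at hmem
  have e : (MulAut.conj g)⁻¹ • a = g⁻¹ * a * g := by
    rw [MulAut.smul_def, MulAut.conj_inv_apply]
  rw [← e]; exact hmem

/-- **Fixed points of a Sylow subgroup, raised to the `p^n`-th power, are fixed by all `p`-elements**, provided
every element `a` of the Sylow subgroup acts with `(a - 1)^(n(p-1)+1) = 0`. -/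
theorem pow_fixed_of_sylow {A V : Type*} [Group A] [Finite A] [CommGroup V] (ρ : A →* MulAut V)
    (p n : ℕ) [Fact p.Prime] (P : Sylow p A) (x : V) (hx : ∀ a ∈ P, ρ a x = x)
    (hT : ∀ a ∈ P, ∀ v : V, (fun u => ρ a u / u)^[n * (p - 1) + 1] v = 1)
    (a : A) (ha : ∃ k : ℕ, a ^ p ^ k = 1) : ρ a (x ^ p ^ n) = x ^ p ^ n := by
  have hp : p.Prime := Fact.out
  -- the nilpotency hypothesis for all `p`-elements
  have hT' : ∀ a : A, (∃ k : ℕ, a ^ p ^ k = 1) → ∀ v : V, (fun u => ρ a u / u)^[n * (p - 1) + 1] v = 1 := by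
    intro a ha v
    obtain ⟨g, hg⟩ := exists_conj_mem_sylow P a ha
    have hsc : Function.Semiconj (ρ g) (fun u => ρ (g⁻¹ * a * g) u / u) (fun u => ρ a u / u) := by
      intro u
      show ρ g (ρ (g⁻¹ * a * g) u / u) = ρ a (ρ g u) / ρ g u
      rw [map_div, ← MulAut.mul_apply, ← map_mul, ← MulAut.mul_apply, ← map_mul]
      congr 3
      group
    have h1 := hsc.iterate_right (n * (p - 1) + 1) ((ρ g)⁻¹ v)
    rw [MulAut.apply_inv_self, hT _ hg, map_one] at h1
    exact h1.symm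
  obtain ⟨k, hk⟩ := ha
  induction k generalizing a with
  | zero =>
    have : a = 1 := by simpa using hk
    rw [this, map_one]; rfl
  | succ k ih =>
    set y := x ^ p ^ n with hy
    -- the stabilizer of y
    let H : Subgroup A :=
      { carrier := {g | ρ g y = y}
        mul_mem' := by
          intro g h hg hh
          show ρ (g * h) y = y
          rw [map_mul, MulAut.mul_apply, (hh : ρ h y = y), (hg : ρ g y = y)]
        one_mem' := by
          show ρ 1 y = y
          rw [map_one]; rfl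
        inv_mem' := by
          intro g hg
          show ρ g⁻¹ y = y
          rw [map_inv]
          conv_lhs => rw [← (hg : ρ g y = y)]
          exact MulAut.inv_apply_self _ _ _ }
    have hPH : (P : Subgroup A) ≤ H := by
      intro g hg
      show ρ g (x ^ p ^ n) = x ^ p ^ n
      rw [map_pow, hx g hg]
    have hb : a ^ p ∈ H := by
      apply ih
      rw [← pow_mul, ← pow_succ']; exact hk
    -- conjugate `a^p` into `P` inside `H`
    obtain ⟨h, hh⟩ := exists_conj_mem_sylow (P.subtype hPH) (⟨a ^ p, hb⟩ : H) ⟨k, by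
      apply Subtype.ext
      show (a ^ p) ^ p ^ k = 1
      rw [← pow_mul, ← pow_succ']; exact hk⟩
    have hc : (h : A)⁻¹ * a ^ p * (h : A) ∈ P := hh
    -- the new fixed point
    set x' := ρ (h : A) x with hx'
    have hfix : (ρ a ^ p) x' = x' := by
      have h1 := hx _ hc
      rw [map_mul, map_mul, MulAut.mul_apply, MulAut.mul_apply, map_inv] at h1
      rw [← map_pow, hx']
      have h2 := congrArg (ρ (h : A)) h1
      rw [MulAut.apply_inv_self] at h2
      exact h2
    have hpow : x' ^ p ^ n = y := by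
      rw [hx', ← map_pow]
      exact h.2
    have h3 := mulAut_fix_pow p n hp (ρ a) x' (hT' a ⟨k + 1, hk⟩) hfix
    rw [hpow] at h3
    exact h3

/-- Frattini form: under the hypotheses of `pow_fixed_of_sylow`, every element of the group acts on the
`p^n`-th power of a fixed point of the Sylow subgroup `P` like some element normalizing `P`. -/
theorem exists_normalizing_of_sylow {A V : Type*} [Group A] [Finite A] [CommGroup V] (ρ : A →* MulAut V)
    (p n : ℕ) [Fact p.Prime] (P : Sylow p A) (x : V) (hx : ∀ a ∈ P, ρ a x = x)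
    (hT : ∀ a ∈ P, ∀ v : V, (fun u => ρ a u / u)^[n * (p - 1) + 1] v = 1) (α : A) :
    ∃ ν : A, (∀ b ∈ P, ν * b * ν⁻¹ ∈ P) ∧ (∀ b ∈ P, ν⁻¹ * b * ν ∈ P) ∧
      ρ α (x ^ p ^ n) = ρ ν (x ^ p ^ n) := by
  -- the subgroup fixing all `p^n`-th powers of fixed points of `P`
  let H : Subgroup A :=
    { carrier := {g | ∀ v : V, (∀ b ∈ P, ρ b v = v) → ρ g (v ^ p ^ n) = v ^ p ^ n}
      mul_mem' := by
        intro g h hg hh v hv
        show ρ (g * h) (v ^ p ^ n) = v ^ p ^ n
        rw [map_mul, MulAut.mul_apply, hh v hv, hg v hv]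
      one_mem' := by
        intro v _
        show ρ 1 (v ^ p ^ n) = v ^ p ^ n
        rw [map_one]; rfl
      inv_mem' := by
        intro g hg v hv
        show ρ g⁻¹ (v ^ p ^ n) = v ^ p ^ n
        rw [map_inv]
        conv_lhs => rw [← hg v hv]
        exact MulAut.inv_apply_self _ _ _ }
  have hpel : ∀ a : A, (∃ k : ℕ, a ^ p ^ k = 1) → a ∈ H := by
    intro a ha v hv
    exact pow_fixed_of_sylow ρ p n P v hv hT a ha
  have hPH : (P : Subgroup A) ≤ H := fun b hb => hpel b (P.2 ⟨b, hb⟩ |>.imp fun k hk => by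
    simpa using congrArg Subtype.val hk)
  have hPαH : ((α • P : Sylow p A) : Subgroup A) ≤ H := by
    intro b hb
    apply hpel
    obtain ⟨k, hk⟩ := (α • P).2 ⟨b, hb⟩
    exact ⟨k, by simpa using congrArg Subtype.val hk⟩
  obtain ⟨h, hh⟩ := MulAction.exists_smul_eq H (P.subtype hPH) ((α • P).subtype hPαH)
  -- for `u ∈ H`: `α⁻¹ u α ∈ P ↔ h⁻¹ u h ∈ P`
  have key : ∀ u : A, u ∈ H → ((α⁻¹ * u * α ∈ P) ↔ ((h : A)⁻¹ * u * (h : A) ∈ P)) := by
    intro u hu
    have h1 : (⟨u, hu⟩ : H) ∈ ((α • P).subtype hPαH : Sylow p H) ↔ α⁻¹ * u * α ∈ P := by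
      show u ∈ ((α • P : Sylow p A) : Subgroup A) ↔ _
      rw [Sylow.coe_subgroup_smul, Subgroup.mem_pointwise_smul_iff_inv_smul_mem, MulAut.smul_def,
        MulAut.conj_inv_apply]
      rfl
    have h2 : (⟨u, hu⟩ : H) ∈ (h • P.subtype hPH : Sylow p H) ↔ (h : A)⁻¹ * u * (h : A) ∈ P := by
      show (⟨u, hu⟩ : H) ∈ MulAut.conj h • ((P.subtype hPH : Sylow p H) : Subgroup H) ↔ _
      rw [Subgroup.mem_pointwise_smul_iff_inv_smul_mem, MulAut.smul_def, MulAut.conj_inv_apply]
      rfl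
    rw [← h1, ← h2, hh]
  have hν1 : ∀ b ∈ P, ((h : A)⁻¹ * α) * b * ((h : A)⁻¹ * α)⁻¹ ∈ P := by
    intro b hb
    have hu : α * b * α⁻¹ ∈ H := by
      apply hPαH
      rw [Sylow.coe_subgroup_smul, Subgroup.mem_pointwise_smul_iff_inv_smul_mem, MulAut.smul_def,
        MulAut.conj_inv_apply]
      have : α⁻¹ * (α * b * α⁻¹) * α = b := by group
      rw [this]; exact hb
    have h3 := (key _ hu).mp (by
      have : α⁻¹ * (α * b * α⁻¹) * α = b := by group
      rw [this]; exact hb)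
    have e : ((h : A)⁻¹ * α) * b * ((h : A)⁻¹ * α)⁻¹ = (h : A)⁻¹ * (α * b * α⁻¹) * (h : A) := by group
    rw [e]; exact h3
  have hν2 : ∀ b ∈ P, ((h : A)⁻¹ * α)⁻¹ * b * ((h : A)⁻¹ * α) ∈ P := by
    intro b hb
    have hu : (h : A) * b * (h : A)⁻¹ ∈ H := H.mul_mem (H.mul_mem h.2 (hPH hb)) (H.inv_mem h.2)
    have h3 := (key _ hu).mpr (by
      have : (h : A)⁻¹ * ((h : A) * b * (h : A)⁻¹) * (h : A) = b := by group
      rw [this]; exact hb)
    have e : ((h : A)⁻¹ * α)⁻¹ * b * ((h : A)⁻¹ * α) = α⁻¹ * ((h : A) * b * (h : A)⁻¹) * α := by group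
    rw [e]; exact h3
  refine ⟨(h : A)⁻¹ * α, hν1, hν2, ?_⟩
  -- `ν x` is again fixed by `P`
  have hfix : ∀ b ∈ P, ρ b (ρ ((h : A)⁻¹ * α) x) = ρ ((h : A)⁻¹ * α) x := by
    intro b hb
    have h4 := hx _ (hν2 b hb)
    rw [map_mul, map_mul, MulAut.mul_apply, MulAut.mul_apply, map_inv] at h4
    have h5 := congrArg (ρ ((h : A)⁻¹ * α)) h4
    rw [MulAut.apply_inv_self] at h5
    exact h5
  have h6 : ρ (h : A) ((ρ ((h : A)⁻¹ * α) x) ^ p ^ n) = (ρ ((h : A)⁻¹ * α) x) ^ p ^ n := h.2 _ hfix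
  rw [← map_pow] at h6
  rw [← h6, ← MulAut.mul_apply, ← map_mul]
  congr 2
  group

end Cfsg.Agent.Helper86
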