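import Mathlib
import Cfsg.Prelude.Def_FusionSystem
import Cfsg.Agent.Helper86.FusBase

set_option autoImplicit false

namespace Cfsg.Agent.Helper86

open Cfsg Cfsg.FusionSystem
open scoped Pointwise

variable {Ω : Type*} [Group Ω] {S : Subgroup Ω}

/-- The action of automorphisms of `Q` on homomorphisms from `Q` to a commutative group: `α • ν = ν ∘ α⁻¹`. -/
def dualAct (Q : Type*) [Group Q] (A : Type*) [CommGroup A] : MulAut Q →* MulAut (Q →* A) where
  toFun α :=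
    { toFun := fun ν => ν.comp (α⁻¹ : MulAut Q).toMonoidHom
      invFun := fun ν => ν.comp α.toMonoidHom
      left_inv := by
        intro ν
        ext x
        show ν (α⁻¹ (α x)) = ν x
        rw [MulAut.inv_apply_self]
      right_inv := by
        intro ν
        ext x
        show ν (α (α⁻¹ x)) = ν x
        rw [MulAut.apply_inv_self]
      map_mul' := by
        intro ν μ
        ext x
        rfl }
  map_one' := by
    ext ν x
    rfl
  map_mul' := by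
    intro α β
    ext ν x
    show ν ((α * β)⁻¹ x) = ν (β⁻¹ (α⁻¹ x))
    rw [mul_inv_rev, MulAut.mul_apply]

theorem dualAct_apply (Q : Type*) [Group Q] (A : Type*) [CommGroup A] (α : MulAut Q) (ν : Q →* A)
    (x : Q) : dualAct Q A α ν x = ν (α⁻¹ x) := rfl

/-- The transfer relation: see the proof of `autGroup_isPGroup`. -/
theorem transfer_relation [Finite S] {p : ℕ} [Fact p.Prime] (hS : IsPGroup p S)
    (F : FusionSystem S) (hF : F.IsSaturated p)
    (hInn : ∀ ψ ∈ F.Hom S, ∃ s ∈ S, ∀ x : S, ψ x = s * (x : Ω) * s⁻¹)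
    {Q : Subgroup Ω} (hQS : Q ≤ S)
    (hcomm : ∀ s ∈ S, ∀ t ∈ S, s * t * s⁻¹ * t⁻¹ ∈ Q)
    (hfrat : ∀ x : S, (x : Ω) ∈ Q → x ∈ frattini S)
    (hQn : ∀ g ∈ S, g ∈ Subgroup.normalizer (Q : Set Ω))
    (hRec : F.IsReceptive Q)
    (α : MulAut Q) (hα : α ∈ F.autGroup Q)
    (H₀ : Subgroup S) (hQH : ∀ x : S, (x : Ω) ∈ Q → x ∈ H₀)
    (ha : ∀ s ∈ H₀, ∃ t : S, α * conjS hQn s * α⁻¹ = conjS hQn t)
    (hc : ∀ s ∈ H₀, ∀ t : S, α * conjS hQn s * α⁻¹ = conjS hQn t → t ∈ H₀)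
    (ν : Q →* Multiplicative (ZMod p)) (hν : ∀ (s : S) (x : Q), ν (conjS hQn s x) = ν x) (z : Q) :
    ∏ᶠ q : S ⧸ H₀, ν z / ν ((conjS hQn q.out * α * (conjS hQn q.out)⁻¹) z) = 1 := by
  classical
  let α' : Q →* Ω := Q.subtype.comp α.toMonoidHom
  have hα' : α' ∈ F.Hom Q := (mem_autGroup_iff F hQS).1 hα
  have hrange : α'.range = Q := by
    ext y
    constructor
    · rintro ⟨x, rfl⟩; exact (α x).2
    · intro hy
      refine ⟨α⁻¹ ⟨y, hy⟩, ?_⟩
      show ((α (α⁻¹ ⟨y, hy⟩) : Q) : Ω) = y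
      rw [MulAut.apply_inv_self]
  let H : Subgroup Ω := H₀.map S.subtype
  have hHS : H ≤ S := by
    rintro _ ⟨s, -, rfl⟩; exact s.2
  have hQH' : Q ≤ H := fun x hx => ⟨⟨x, hQS hx⟩, hQH _ hx, rfl⟩
  have hmemH : ∀ (g : Ω), g ∈ H → ∃ hgS : g ∈ S, (⟨g, hgS⟩ : S) ∈ H₀ := by
    rintro _ ⟨s, hs, rfl⟩; exact ⟨s.2, hs⟩
  have hHext : H ≤ extender S Q α' := by
    rintro _ ⟨s, hs, rfl⟩
    obtain ⟨t, ht⟩ := ha s hs
    refine mem_extender_of s.2 (hQn s s.2) t t.2 (fun x hx => ?_)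
    have h1 : (α * conjS hQn s * α⁻¹) (α x) = conjS hQn t (α x) := by rw [ht]
    rw [MulAut.mul_apply, MulAut.mul_apply, MulAut.inv_apply_self] at h1
    exact congrArg Subtype.val h1
  obtain ⟨ψ₀, hψ₀, hψ₀α⟩ := hRec.2 Q α' hα' hrange
  let ψ : H →* Ω := ψ₀.comp (Subgroup.inclusion hHext)
  have hψ : ψ ∈ F.Hom H := hom_of_restrict F hψ₀ hHext (fun x => rfl)
  have hψQ : ∀ (x : Q), ψ ⟨x, hQH' x.2⟩ = ((α x : Q) : Ω) :=
    fun x => hψ₀α x x.2 (hHext (hQH' x.2))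
  have hψS : ∀ g : H, ψ g ∈ S := (F.le_of_mem hψ).2
  have hψH : ∀ g : H, ψ g ∈ H := by
    intro g
    obtain ⟨hgS, hg₀⟩ := hmemH g g.2
    refine ⟨⟨ψ g, hψS g⟩, ?_, rfl⟩
    apply hc ⟨g, hgS⟩ hg₀
    ext y
    show ((α (conjS hQn ⟨g, hgS⟩ (α⁻¹ y)) : Q) : Ω) = ψ g * (y : Ω) * (ψ g)⁻¹
    rw [← hψQ]
    have h1 : (⟨((conjS hQn ⟨g, hgS⟩ (α⁻¹ y) : Q) : Ω), hQH' (conjS hQn ⟨g, hgS⟩ (α⁻¹ y)).2⟩ : H) =
        g * ⟨((α⁻¹ y : Q) : Ω), hQH' (α⁻¹ y).2⟩ * g⁻¹ := Subtype.ext rfl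
    rw [h1, map_mul, map_mul, map_inv, hψQ, MulAut.apply_inv_self]
  have hfinH : Finite H := finite_of_le hHS
  let ψ' : H →* H := ψ.codRestrict H hψH
  have hψ'inj : Function.Injective ψ' :=
    fun a b hab => F.injective_of_mem hψ (congrArg Subtype.val hab)
  let β : MulAut H := MulEquiv.ofBijective ψ' (Finite.injective_iff_bijective.mp hψ'inj)
  have hβ : β ∈ F.autGroup H := (mem_autGroup_iff F hHS).2 (hom_of_eq F hψ (fun x => rfl))
  have hβQ : ∀ x : H, (x : Ω) ∈ Q → ((β x : H) : Ω) ∈ Q := by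
    intro x hx
    have h1 : ((β x : H) : Ω) = ψ ⟨(⟨x, hx⟩ : Q), hQH' hx⟩ := rfl
    rw [h1, hψQ]; exact (α _).2
  have hD := aut_mul_inv_mem hS F hF hInn hQH' hHS hcomm β hβ hβQ
  have hd : ∀ x : H, (x : Ω) * (ψ x)⁻¹ ∈ Q := by
    intro x
    have h1 := Q.inv_mem (hD x)
    have h2 : (((β x : H) : Ω) * (x : Ω)⁻¹)⁻¹ = (x : Ω) * (ψ x)⁻¹ := by
      rw [mul_inv_rev, inv_inv]; rfl
    rw [h2] at h1
    exact h1
  have hmemH₀ : ∀ s : H₀, ((s : S) : Ω) ∈ H := fun s => ⟨s, s.2, rfl⟩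
  let lam : H₀ →* Multiplicative (ZMod p) :=
    { toFun := fun s => ν ⟨((s : S) : Ω) * (ψ ⟨_, hmemH₀ s⟩)⁻¹, hd ⟨_, hmemH₀ s⟩⟩
      map_one' := by
        have h1 : (⟨(((1 : H₀) : S) : Ω), hmemH₀ 1⟩ : H) = 1 := Subtype.ext rfl
        have h2 : (⟨(((1 : H₀) : S) : Ω) * (ψ ⟨_, hmemH₀ 1⟩)⁻¹, hd ⟨_, hmemH₀ 1⟩⟩ : Q) = 1 := by
          apply Subtype.ext
          show (((1 : H₀) : S) : Ω) * (ψ ⟨_, hmemH₀ 1⟩)⁻¹ = 1
          rw [h1, map_one]
          simp
        rw [h2, map_one]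
      map_mul' := by
        intro s t
        have h1 : (⟨(((s * t : H₀) : S) : Ω), hmemH₀ (s * t)⟩ : H) =
            ⟨_, hmemH₀ s⟩ * ⟨_, hmemH₀ t⟩ := Subtype.ext rfl
        have hψst : ψ ⟨(((s * t : H₀) : S) : Ω), hmemH₀ (s * t)⟩ =
            ψ ⟨_, hmemH₀ s⟩ * ψ ⟨_, hmemH₀ t⟩ := by
          rw [h1, map_mul]
        have h2 : (⟨(((s * t : H₀) : S) : Ω) * (ψ ⟨_, hmemH₀ (s * t)⟩)⁻¹,
              hd ⟨_, hmemH₀ (s * t)⟩⟩ : Q) =
            conjS hQn (s : S) ⟨((t : S) : Ω) * (ψ ⟨_, hmemH₀ t⟩)⁻¹, hd ⟨_, hmemH₀ t⟩⟩ *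
              ⟨((s : S) : Ω) * (ψ ⟨_, hmemH₀ s⟩)⁻¹, hd ⟨_, hmemH₀ s⟩⟩ := by
          apply Subtype.ext
          show (((s * t : H₀) : S) : Ω) * (ψ ⟨_, hmemH₀ (s * t)⟩)⁻¹ =
            ((s : S) : Ω) * (((t : S) : Ω) * (ψ ⟨_, hmemH₀ t⟩)⁻¹) * ((s : S) : Ω)⁻¹ *
              (((s : S) : Ω) * (ψ ⟨_, hmemH₀ s⟩)⁻¹)
          rw [hψst]
          show ((s : S) : Ω) * ((t : S) : Ω) * (ψ ⟨_, hmemH₀ s⟩ * ψ ⟨_, hmemH₀ t⟩)⁻¹ = _
          group
        rw [h2, map_mul, hν, mul_comm] }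
  have hz₀ : ∀ g : S, g⁻¹ * (⟨z, hQS z.2⟩ : S) * g ∈ H₀ := by
    intro g
    apply hQH
    have h1 := (conjS hQn g⁻¹ z).2
    rw [conjS_apply] at h1
    simpa using h1
  let _ : Fintype (S ⧸ H₀) := Fintype.ofFinite _
  have hV := transfer_eq_prod_of_forall_conj_mem lam (⟨z, hQS z.2⟩ : S) hz₀
  have hV1 : MonoidHom.transfer lam (⟨z, hQS z.2⟩ : S) = 1 :=
    frattini_le_ker (MonoidHom.transfer lam) (hfrat _ z.2)
  rw [hV1] at hV
  rw [finprod_eq_prod_of_fintype, hV]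
  refine Finset.prod_congr rfl (fun q _ => ?_)
  set t : S := q.out with ht
  let y : Q := (conjS hQn t)⁻¹ z
  have hy : ((y : Q) : Ω) = ((t⁻¹ * (⟨z, hQS z.2⟩ : S) * t : S) : Ω) := by
    have h1 : y = conjS hQn t⁻¹ z := by
      show (conjS hQn t)⁻¹ z = conjS hQn t⁻¹ z
      rw [map_inv]
    rw [h1, conjS_apply]
    simp
  have hψy : ψ ⟨((t⁻¹ * (⟨z, hQS z.2⟩ : S) * t : S) : Ω), hmemH₀ ⟨_, hz₀ t⟩⟩ = ((α y : Q) : Ω) := by
    rw [← hψQ y]
    congr 1
    exact Subtype.ext hy.symm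
  have h3 : lam ⟨t⁻¹ * (⟨z, hQS z.2⟩ : S) * t, hz₀ t⟩ = ν (y * (α y)⁻¹) := by
    show ν ⟨((t⁻¹ * (⟨z, hQS z.2⟩ : S) * t : S) : Ω) * (ψ ⟨_, hmemH₀ ⟨_, hz₀ t⟩⟩)⁻¹, _⟩ =
      ν (y * (α y)⁻¹)
    congr 1
    apply Subtype.ext
    show ((t⁻¹ * (⟨z, hQS z.2⟩ : S) * t : S) : Ω) * (ψ ⟨_, hmemH₀ ⟨_, hz₀ t⟩⟩)⁻¹ =
      (y : Ω) * ((α y : Q) : Ω)⁻¹
    rw [hψy, hy]
  rw [h3, map_mul, map_inv, div_eq_mul_inv]
  have h4 : ν y = ν z := by
    have := hν t y
    rw [← this]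
    show ν (conjS hQn t ((conjS hQn t)⁻¹ z)) = ν z
    rw [MulAut.apply_inv_self]
  have h5 : ν (α y) = ν ((conjS hQn t * α * (conjS hQn t)⁻¹) z) := by
    rw [MulAut.mul_apply, MulAut.mul_apply, hν]
  rw [h4, h5]

/-- The heart of the argument: if every automorphism of `S` in a saturated system is inner and
`[S,S] ≤ Q ≤ Φ(S)`, then `Aut_F(Q)` is a `p`-group. -/
theorem autGroup_isPGroup [Finite S] {p : ℕ} [Fact p.Prime] (hS : IsPGroup p S)
    (F : FusionSystem S) (hF : F.IsSaturated p)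
    (hInn : ∀ ψ ∈ F.Hom S, ∃ s ∈ S, ∀ x : S, ψ x = s * (x : Ω) * s⁻¹)
    {Q : Subgroup Ω} (hQS : Q ≤ S)
    (hcomm : ∀ s ∈ S, ∀ t ∈ S, s * t * s⁻¹ * t⁻¹ ∈ Q)
    (hfrat : ∀ x : S, (x : Ω) ∈ Q → x ∈ frattini S) :
    IsPGroup p (F.autGroup Q) := by
  classical
  have hQn : ∀ g ∈ S, g ∈ Subgroup.normalizer (Q : Set Ω) := normal_of_comm le_rfl hQS hcomm
  obtain ⟨hFA, hRec⟩ := fullyAutomized_receptive_of_normal hS F hF hInn hQS hQn
  obtain ⟨Syl, hSyl⟩ := hFA.2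
  have hfinQ : Finite Q := finite_of_le hQS
  have hQp : IsPGroup p Q := hS.to_le hQS
  have hfinM : Finite (Q →* Multiplicative (ZMod p)) :=
    Finite.of_injective (fun f => (f : Q → Multiplicative (ZMod p))) DFunLike.coe_injective
  let θ : S →* MulAut Q := conjS hQn
  let θA : S →* F.autGroup Q :=
    θ.codRestrict (F.autGroup Q) (fun s => autInducedBy_le_autGroup F hQS (conjS_mem hQn s))
  let ρ : F.autGroup Q →* MulAut (Q →* Multiplicative (ZMod p)) :=
    (dualAct Q (Multiplicative (ZMod p))).comp (F.autGroup Q).subtype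
  have hρ : ∀ (a : F.autGroup Q) (ν : Q →* Multiplicative (ZMod p)) (x : Q),
      ρ a ν x = ν ((a : MulAut Q)⁻¹ x) := fun a ν x => rfl
  -- the kernel of ρ is a p-group
  have hker : IsPGroup p ρ.ker := by
    apply isPGroup_of_forall_prime
    intro q hq hqp g hg
    have := Fact.mk hq
    have h1 : ((g : F.autGroup Q) : MulAut Q) = 1 := by
      apply mulAut_eq_one_of_fix_homs hQp (Ne.symm hqp) _ 1
      · have h2 := congrArg (fun x : ρ.ker => ((x : F.autGroup Q) : MulAut Q)) hg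
        simpa using h2
      · intro ν x
        have h2 : ρ (g : F.autGroup Q) = 1 := g.2
        have h3 : ρ (g : F.autGroup Q) ν (((g : F.autGroup Q) : MulAut Q) x) =
            ν (((g : F.autGroup Q) : MulAut Q) x) := by rw [h2]; rfl
        rw [hρ, MulAut.inv_apply_self] at h3
        exact h3.symm
    exact Subtype.ext (Subtype.ext h1)
  have hkerSyl : ρ.ker ≤ (Syl : Subgroup (F.autGroup Q)) := hker.le_sylow_of_normal Syl
  have hθQ : ∀ s : S, (s : Ω) ∈ Q → ρ (θA s) = 1 := by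
    intro s hs
    ext ν x
    show ν ((θ s)⁻¹ x) = ν x
    have h1 : (θ s)⁻¹ x = (⟨s, hs⟩ : Q)⁻¹ * x * ⟨s, hs⟩ := by
      rw [← map_inv]
      apply Subtype.ext
      show ((conjS hQn s⁻¹ x : Q) : Ω) = _
      rw [conjS_apply]
      simp
    rw [h1, map_mul, map_mul, map_inv, mul_comm, mul_inv_cancel_left]
  have hSylθ : ∀ r : F.autGroup Q, r ∈ (Syl : Subgroup (F.autGroup Q)) ↔ ∃ s : S, θA s = r := by
    intro r
    rw [hSyl, Subgroup.mem_subgroupOf]
    constructor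
    · intro h
      obtain ⟨s, hs⟩ := exists_conjS_eq hQn h
      exact ⟨s, Subtype.ext hs⟩
    · rintro ⟨s, rfl⟩
      exact conjS_mem hQn s
  let ρ' : F.autGroup Q →* ρ.range := ρ.rangeRestrict
  have hρ'surj : Function.Surjective ρ' := ρ.rangeRestrict_surjective
  have hρ'ker : ρ'.ker = ρ.ker := ρ.ker_rangeRestrict
  have hfinR : Finite ρ.range := Finite.of_surjective ρ' hρ'surj
  let θ' : S →* ρ.range := ρ'.comp θA
  let Phat : Sylow p ρ.range := Syl.mapSurjective hρ'surj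
  have hPhat : ∀ y : ρ.range, y ∈ (Phat : Subgroup ρ.range) ↔ ∃ s : S, θ' s = y := by
    intro y
    rw [Sylow.coe_mapSurjective, Subgroup.mem_map]
    constructor
    · rintro ⟨r, hr, rfl⟩
      obtain ⟨s, rfl⟩ := (hSylθ r).1 hr
      exact ⟨s, rfl⟩
    · rintro ⟨s, rfl⟩
      exact ⟨θA s, (hSylθ _).2 ⟨s, rfl⟩, rfl⟩
  have hθ'Q : ∀ s : S, (s : Ω) ∈ Q → θ' s = 1 := fun s hs => Subtype.ext (hθQ s hs)
  have hθ'comm : ∀ s t : S, θ' s * θ' t = θ' t * θ' s := by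
    intro s t
    have h1 : s * t = (s * t * s⁻¹ * t⁻¹) * (t * s) := by group
    rw [← map_mul, ← map_mul, h1, map_mul, hθ'Q _ (hcomm s s.2 t t.2), one_mul]
  have hNC : Subgroup.normalizer ((Phat : Subgroup ρ.range) : Set ρ.range) ≤
      Subgroup.centralizer ((Phat : Subgroup ρ.range) : Set ρ.range) := by
    intro y hy
    obtain ⟨b, rfl⟩ := hρ'surj y
    have hb : b ∈ (Syl : Subgroup (F.autGroup Q)) := by
      have hnorm : ∀ r ∈ (Syl : Subgroup (F.autGroup Q)),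
          b * r * b⁻¹ ∈ (Syl : Subgroup (F.autGroup Q)) := by
        intro r hr
        have h1 : ρ' (b * r * b⁻¹) ∈ (Phat : Subgroup ρ.range) := by
          rw [map_mul, map_mul, map_inv]
          refine (Subgroup.mem_normalizer_iff.mp hy (ρ' r)).mp ?_
          rw [Sylow.coe_mapSurjective]
          exact Subgroup.mem_map_of_mem ρ' hr
        rw [Sylow.coe_mapSurjective, Subgroup.mem_map] at h1
        obtain ⟨r', hr', hrr'⟩ := h1
        have h2 : (b * r * b⁻¹) * r'⁻¹ ∈ ρ'.ker := by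
          rw [MonoidHom.mem_ker, map_mul, map_inv, hrr', mul_inv_cancel]
        rw [hρ'ker] at h2
        have h3 := hkerSyl h2
        have h4 : b * r * b⁻¹ = ((b * r * b⁻¹) * r'⁻¹) * r' := by group
        rw [h4]
        exact Subgroup.mul_mem _ h3 hr'
      rw [hSyl, Subgroup.mem_subgroupOf]
      apply mem_autInducedBy_of_normalizes F hInn hQS hQn hRec (b : MulAut Q) b.2
      intro δ hδ
      have h1 := hnorm ⟨δ, autInducedBy_le_autGroup F hQS hδ⟩
        (by rw [hSyl, Subgroup.mem_subgroupOf]; exact hδ)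
      rw [hSyl, Subgroup.mem_subgroupOf] at h1
      exact h1
    obtain ⟨s, rfl⟩ := (hSylθ b).1 hb
    rw [Subgroup.mem_centralizer_iff]
    intro z hz
    obtain ⟨t, rfl⟩ := (hPhat z).1 hz
    exact hθ'comm t s
  let K : Subgroup ρ.range := (MonoidHom.transferSylow Phat hNC).ker
  have hKnormal : K.Normal := MonoidHom.normal_ker _
  have hKcard : ¬ p ∣ Nat.card K := MonoidHom.not_dvd_card_ker_transferSylow Phat hNC
  have hKcompl : K.IsComplement' (Phat : Subgroup ρ.range) :=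
    MonoidHom.ker_transferSylow_isComplement' Phat hNC
  let _ : Fintype K := Fintype.ofFinite K
  let act : MulAction S K := MulAction.compHom K ((MulAut.conjNormal (H := K)).comp θ')
  have hact : ∀ (s : S) (k : K), ((s • k : K) : ρ.range) = θ' s * (k : ρ.range) * (θ' s)⁻¹ :=
    fun s k => rfl
  have hstab : ∀ (k : K) (s : S), s ∈ MulAction.stabilizer S k ↔
      θ' s * (k : ρ.range) = (k : ρ.range) * θ' s := by
    intro k s
    rw [MulAction.mem_stabilizer_iff]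
    constructor
    · intro h
      have h1 : θ' s * (k : ρ.range) * (θ' s)⁻¹ = (k : ρ.range) := by
        rw [← hact, h]
      calc θ' s * (k : ρ.range) = (θ' s * (k : ρ.range) * (θ' s)⁻¹) * θ' s := by group
        _ = (k : ρ.range) * θ' s := by rw [h1]
    · intro h
      apply Subtype.ext
      rw [hact, h]
      group
  -- the transfer relation for each `k`
  have hF4 : ∀ (ν : Q →* Multiplicative (ZMod p)), (∀ (s : S) (x : Q), ν (θ s x) = ν x) →
      ∀ k : K, ∏ᶠ q : S ⧸ MulAction.stabilizer S k,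
        ν / ((((q.out • k : K) : ρ.range) : MulAut (Q →* Multiplicative (ZMod p)))⁻¹ ν) = 1 := by
    intro ν hν k
    obtain ⟨a, ha⟩ := hρ'surj (k : ρ.range)
    have hQstab : ∀ x : S, (x : Ω) ∈ Q → x ∈ MulAction.stabilizer S k := by
      intro x hx
      rw [hstab, hθ'Q x hx, one_mul, mul_one]
    have hA : ∀ s ∈ MulAction.stabilizer S k, ∃ t : S,
        (a : MulAut Q) * conjS hQn s * (a : MulAut Q)⁻¹ = conjS hQn t := by
      intro s hs
      rw [hstab] at hs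
      have h1 : a * θA s * a⁻¹ * (θA s)⁻¹ ∈ ρ'.ker := by
        rw [MonoidHom.mem_ker, map_mul, map_mul, map_mul, map_inv, map_inv, ha]
        show (k : ρ.range) * θ' s * (k : ρ.range)⁻¹ * (θ' s)⁻¹ = 1
        rw [← hs]
        group
      rw [hρ'ker] at h1
      obtain ⟨t₀, ht₀⟩ := (hSylθ _).1 (hkerSyl h1)
      refine ⟨t₀ * s, ?_⟩
      have h2 : a * θA s * a⁻¹ = θA (t₀ * s) := by
        rw [map_mul, ht₀]
        group
      exact congrArg Subtype.val h2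
    have hC : ∀ s ∈ MulAction.stabilizer S k, ∀ t : S,
        (a : MulAut Q) * conjS hQn s * (a : MulAut Q)⁻¹ = conjS hQn t →
          t ∈ MulAction.stabilizer S k := by
      intro s hs t ht
      rw [hstab] at hs ⊢
      have h1 : a * θA s * a⁻¹ = θA t := Subtype.ext ht
      have h2 : (k : ρ.range) * θ' s * (k : ρ.range)⁻¹ = θ' t := by
        have := congrArg ρ' h1
        rw [map_mul, map_mul, map_inv, ha] at this
        exact this
      have h3 : θ' t = θ' s := by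
        rw [← h2, ← hs]
        group
      rw [h3, hs]
    apply MonoidHom.ext
    intro z
    have hrel := fun z => transfer_relation hS F hF hInn hQS hcomm hfrat hQn hRec (a : MulAut Q) a.2
      (MulAction.stabilizer S k) hQstab hA hC ν hν z
    have hrelz := hrel z
    let _ : Fintype (S ⧸ MulAction.stabilizer S k) := Fintype.ofFinite _
    rw [finprod_eq_prod_of_fintype] at hrelz ⊢
    rw [MonoidHom.finsetProd_apply, MonoidHom.one_apply, ← hrelz]
    refine Finset.prod_congr rfl (fun q _ => ?_)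
    have hk : (((q.out • k : K) : ρ.range) : MulAut (Q →* Multiplicative (ZMod p))) =
        dualAct Q (Multiplicative (ZMod p))
          (conjS hQn q.out * (a : MulAut Q) * (conjS hQn q.out)⁻¹) := by
      rw [hact, ← ha]
      show ρ (θA q.out) * ρ a * (ρ (θA q.out))⁻¹ = _
      rw [← map_inv, ← map_mul, ← map_mul]
      rfl
    rw [hk, ← map_inv]
    show ν z / ν (((conjS hQn q.out * (a : MulAut Q) * (conjS hQn q.out)⁻¹)⁻¹)⁻¹ z) = _
    rw [inv_inv]
  -- summing over the orbits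
  have hF5 : ∀ (ν : Q →* Multiplicative (ZMod p)), (∀ (s : S) (x : Q), ν (θ s x) = ν x) →
      ∏ k : K, ν / ((((k⁻¹ : K) : ρ.range) : MulAut (Q →* Multiplicative (ZMod p))) ν) = 1 := by
    intro ν hν
    have h1 := prod_eq_one_of_orbit_prod (G := S) (X := K)
      (fun k : K => ν / (((k : ρ.range) : MulAut (Q →* Multiplicative (ZMod p)))⁻¹ ν)) (hF4 ν hν)
    rw [← h1]
    rfl
  -- the norm argument
  have hMp : ∀ ν : Q →* Multiplicative (ZMod p), ν ^ p = 1 := by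
    intro ν
    ext x
    show (ν x) ^ p = 1
    have h1 : Nat.card (Multiplicative (ZMod p)) = p := by simp
    have h2 := pow_card_eq_one' (G := Multiplicative (ZMod p)) (x := ν x)
    rw [h1] at h2
    exact h2
  have hKcard' : ¬ p ∣ Fintype.card K := by
    rw [← Nat.card_eq_fintype_card]; exact hKcard
  have htriv := norm_argument hMp (ρ.range.subtype) K hKcard' hS θ' (by
    intro ν hν
    apply hF5 ν
    intro s x
    have h1 : (θ' s : MulAut (Q →* Multiplicative (ZMod p))) ν (θ s x) = ν (θ s x) := by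
      have := hν s
      exact congrArg (fun f : Q →* Multiplicative (ZMod p) => f (θ s x)) this
    have h2 : (θ' s : MulAut (Q →* Multiplicative (ZMod p))) ν (θ s x) = ν ((θ s)⁻¹ (θ s x)) := rfl
    rw [h2, MulAut.inv_apply_self] at h1
    exact h1.symm)
  have hKbot : K = ⊥ := by
    rw [eq_bot_iff]
    intro k hk
    rw [Subgroup.mem_bot]
    apply Subtype.ext
    ext ν x
    have := htriv k hk ν
    exact congrArg (fun f : Q →* Multiplicative (ZMod p) => f x) this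
  have hPtop : (Phat : Subgroup ρ.range) = ⊤ := by
    have h1 := hKcompl.sup_eq_top
    rw [hKbot, bot_sup_eq] at h1
    exact h1
  have hall : ∀ a : F.autGroup Q, a ∈ (Syl : Subgroup (F.autGroup Q)) := by
    intro a
    have h1 : ρ' a ∈ (Phat : Subgroup ρ.range) := by rw [hPtop]; trivial
    rw [Sylow.coe_mapSurjective, Subgroup.mem_map] at h1
    obtain ⟨r, hr, hra⟩ := h1
    have h2 : a * r⁻¹ ∈ ρ'.ker := by
      rw [MonoidHom.mem_ker, map_mul, map_inv, hra, mul_inv_cancel]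
    rw [hρ'ker] at h2
    have h3 : a = (a * r⁻¹) * r := by group
    rw [h3]
    exact Subgroup.mul_mem _ (hkerSyl h2) hr
  intro a
  obtain ⟨n, hn⟩ := Syl.isPGroup' ⟨a, hall a⟩
  exact ⟨n, by simpa using congrArg Subtype.val hn⟩

/-- Transport of an automorphism of the system along an isomorphism of the system. -/
theorem congr_mem_autGroup (F : FusionSystem S) {P R : Subgroup Ω} (hPS : P ≤ S) (hRS : R ≤ S)
    (e : P ≃* R) (he : R.subtype.comp e.toMonoidHom ∈ F.Hom P) (α : MulAut P)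
    (hα : α ∈ F.autGroup P) : MulAut.congr e α ∈ F.autGroup R := by
  rw [mem_autGroup_iff F hRS]
  have hα' : P.subtype.comp α.toMonoidHom ∈ F.Hom P := (mem_autGroup_iff F hPS).1 hα
  have hrange : (R.subtype.comp e.toMonoidHom).range = R := by
    ext y
    constructor
    · rintro ⟨x, rfl⟩; exact (e x).2
    · intro hy
      refine ⟨e.symm ⟨y, hy⟩, ?_⟩
      show ((e (e.symm ⟨y, hy⟩) : R) : Ω) = y
      rw [MulEquiv.apply_symm_apply]
  obtain ⟨ψ, hψ, -, h1, -⟩ := hom_inv F he hrange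
  have hψ' : ∀ y : R, ψ y = ((e.symm y : P) : Ω) := by
    intro y
    have h2 := h1 (e.symm y) (e (e.symm y)).2
    have h3 : (⟨(R.subtype.comp e.toMonoidHom) (e.symm y), (e (e.symm y)).2⟩ : R) = y := by
      apply Subtype.ext
      show ((e (e.symm y) : R) : Ω) = y
      rw [MulEquiv.apply_symm_apply]
    rw [h3] at h2
    exact h2
  have c1 : P.subtype.comp (α.toMonoidHom.comp e.symm.toMonoidHom) ∈ F.Hom R := by
    refine hom_of_comp F hψ hα' (fun y => by rw [hψ']; exact (e.symm y).2) (fun y => ?_)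
    show ((α (e.symm y) : P) : Ω) = ((α ⟨ψ y, _⟩ : P) : Ω)
    congr 2
    exact Subtype.ext (hψ' y).symm
  exact hom_of_comp F c1 he (fun y => (α (e.symm y)).2) (fun y => rfl)

/-- Under the hypotheses of `autGroup_isPGroup`, an automorphism of the system of a subgroup `H ≥ Q` that maps
`Q` into `Q` is induced by an element of `S`. -/
theorem mem_autInducedBy_of_stab [Finite S] {p : ℕ} [Fact p.Prime] (hS : IsPGroup p S)
    (F : FusionSystem S) (hF : F.IsSaturated p)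
    (hInn : ∀ ψ ∈ F.Hom S, ∃ s ∈ S, ∀ x : S, ψ x = s * (x : Ω) * s⁻¹)
    {Q H : Subgroup Ω} (hQH : Q ≤ H) (hHS : H ≤ S)
    (hcomm : ∀ s ∈ S, ∀ t ∈ S, s * t * s⁻¹ * t⁻¹ ∈ Q)
    (hfrat : ∀ x : S, (x : Ω) ∈ Q → x ∈ frattini S)
    (β : MulAut H) (hβ : β ∈ F.autGroup H) (hβQ : ∀ x : H, (x : Ω) ∈ Q → ((β x : H) : Ω) ∈ Q) :
    β ∈ autInducedBy S H := by
  classical
  have hQS : Q ≤ S := hQH.trans hHS
  have hQn : ∀ g ∈ S, g ∈ Subgroup.normalizer (Q : Set Ω) := normal_of_comm le_rfl hQS hcomm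
  have hHn : ∀ g ∈ S, g ∈ Subgroup.normalizer (H : Set Ω) := normal_of_comm hQH hHS hcomm
  obtain ⟨hFA, hRec⟩ := fullyAutomized_receptive_of_normal hS F hF hInn hHS hHn
  obtain ⟨Syl, hSyl⟩ := hFA.2
  have hfinH : Finite H := finite_of_le hHS
  have hfinQ : Finite Q := finite_of_le hQS
  have hAQ : IsPGroup p (F.autGroup Q) := autGroup_isPGroup hS F hF hInn hQS hcomm hfrat
  -- elements of the system stabilizing `Q` of prime order `q ≠ p` are trivial
  have key : ∀ q : ℕ, q.Prime → q ≠ p → ∀ γ : MulAut H, γ ∈ F.autGroup H →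
      (∀ x : H, (x : Ω) ∈ Q → ((γ x : H) : Ω) ∈ Q) → γ ^ q = 1 → γ = 1 := by
    intro q hq hqp γ hγ hγQ hγq
    have := Fact.mk hq
    -- restriction to Q
    let r : Q →* Q :=
      { toFun := fun x => ⟨((γ ⟨x, hQH x.2⟩ : H) : Ω), hγQ _ x.2⟩
        map_one' := by
          apply Subtype.ext
          have h1 : (⟨((1 : Q) : Ω), hQH (1 : Q).2⟩ : H) = 1 := rfl
          show ((γ ⟨((1 : Q) : Ω), hQH (1 : Q).2⟩ : H) : Ω) = 1
          rw [h1, map_one]; rfl
        map_mul' := by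
          intro x y
          apply Subtype.ext
          have h1 : (⟨((x * y : Q) : Ω), hQH (x * y).2⟩ : H) = ⟨x, hQH x.2⟩ * ⟨y, hQH y.2⟩ := rfl
          show ((γ ⟨((x * y : Q) : Ω), hQH (x * y).2⟩ : H) : Ω) = _
          rw [h1, map_mul]; rfl }
    have hrinj : Function.Injective r := by
      intro x y hxy
      have h1 : ((γ ⟨x, hQH x.2⟩ : H) : Ω) = ((γ ⟨y, hQH y.2⟩ : H) : Ω) :=
        congrArg (fun z : Q => (z : Ω)) hxy
      have h2 := γ.injective (Subtype.ext h1)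
      exact Subtype.ext (congrArg (fun z : H => (z : Ω)) h2)
    let γQ : MulAut Q := MulEquiv.ofBijective r (Finite.injective_iff_bijective.mp hrinj)
    have hγQ' : ∀ x : Q, ((γQ x : Q) : Ω) = ((γ ⟨x, hQH x.2⟩ : H) : Ω) := fun x => rfl
    have hγQmem : γQ ∈ F.autGroup Q := by
      rw [mem_autGroup_iff F hQS]
      exact hom_of_restrict F ((mem_autGroup_iff F hHS).1 hγ) hQH (fun x => rfl)
    have hpow : ∀ (n : ℕ) (x : Q), (((γQ ^ n) x : Q) : Ω) = (((γ ^ n) ⟨x, hQH x.2⟩ : H) : Ω) := by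
      intro n
      induction n with
      | zero => intro x; rfl
      | succ n ih =>
        intro x
        rw [pow_succ, MulAut.mul_apply, ih, pow_succ, MulAut.mul_apply]
        rfl
    have hγQq : γQ ^ q = 1 := by
      ext x
      rw [hpow, hγq]
      rfl
    have hγQ1 : γQ = 1 := by
      obtain ⟨k, hk⟩ := hAQ ⟨γQ, hγQmem⟩
      have hk' : γQ ^ p ^ k = 1 := by simpa using congrArg Subtype.val hk
      have hcop : Nat.Coprime (p ^ k) q :=
        Nat.Coprime.pow_left k ((Nat.coprime_primes (Fact.out : p.Prime) hq).2 (Ne.symm hqp))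
      have h8 : orderOf γQ ∣ 1 := by
        rw [← hcop.gcd_eq_one]
        exact Nat.dvd_gcd (orderOf_dvd_of_pow_eq_one hk') (orderOf_dvd_of_pow_eq_one hγQq)
      exact orderOf_eq_one_iff.mp (Nat.dvd_one.mp h8)
    have hfix : ∀ x : H, (x : Ω) ∈ Q → γ x = x := by
      intro x hx
      apply Subtype.ext
      have h1 := hγQ' ⟨x, hx⟩
      rw [hγQ1] at h1
      exact h1.symm
    have hD := aut_mul_inv_mem hS F hF hInn hQH hHS hcomm γ hγ hγQ
    have hN : IsPGroup p (Q.subgroupOf H) := (hS.to_le hQS).comap_subtype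
    have hαN : ∀ x : H, x⁻¹ * γ x ∈ Q.subgroupOf H := by
      intro x
      rw [Subgroup.mem_subgroupOf]
      have h1 := hD x
      have h2 := (Subgroup.mem_normalizer_iff.mp (hQn _ (S.inv_mem (hHS x.2))) _).mp h1
      have h3 : ((x⁻¹ * γ x : H) : Ω) = (x : Ω)⁻¹ * (((γ x : H) : Ω) * (x : Ω)⁻¹) * (x : Ω)⁻¹⁻¹ := by
        rw [Subgroup.coe_mul, Subgroup.coe_inv]; group
      rw [h3]
      exact h2
    ext x
    obtain ⟨y, hy, hxy⟩ := exists_fixed_in_coset (Q.subgroupOf H) hN (Ne.symm hqp) γ 1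
      (by rw [pow_one]; exact hγq) hαN x
    rw [map_mul, hfix y (Subgroup.mem_subgroupOf.mp hy)] at hxy
    have := mul_right_cancel hxy
    rw [this]; rfl
  -- the stabilizer of Q in Aut_F(H)
  let B : Subgroup (F.autGroup H) :=
    { carrier := {γ | ∀ x : H, (x : Ω) ∈ Q ↔ (((γ : MulAut H) x : H) : Ω) ∈ Q}
      mul_mem' := by
        intro γ δ hγ hδ x
        rw [Subgroup.coe_mul, MulAut.mul_apply, ← hγ, ← hδ]
      one_mem' := by
        intro x
        rfl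
      inv_mem' := by
        intro γ hγ x
        rw [Subgroup.coe_inv, hγ ((γ : MulAut H)⁻¹ x), MulAut.apply_inv_self] }
  have hBp : IsPGroup p B := by
    apply isPGroup_of_forall_prime
    intro q hq hqp g hg
    have h1 : ((g : F.autGroup H) : MulAut H) = 1 := by
      apply key q hq hqp _ (g : F.autGroup H).2 (fun x hx => (g.2 x).1 hx)
      have h2 := congrArg (fun x : B => ((x : F.autGroup H) : MulAut H)) hg
      simpa using h2
    exact Subtype.ext (Subtype.ext h1)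
  have hSylB : (Syl : Subgroup (F.autGroup H)) ≤ B := by
    intro γ hγ
    rw [hSyl, Subgroup.mem_subgroupOf] at hγ
    obtain ⟨g, hg, hγ'⟩ := mem_autInducedBy_iff.1 hγ
    intro x
    rw [hγ']
    exact Subgroup.mem_normalizer_iff.mp (hQn g hg) x
  have hBS : B = (Syl : Subgroup (F.autGroup H)) := Syl.is_maximal' hBp hSylB
  -- β stabilizes Q
  have hβB : (⟨β, hβ⟩ : F.autGroup H) ∈ B := by
    intro x
    constructor
    · exact hβQ x
    · intro hx
      let r : Q → Q := fun y => ⟨((β ⟨y, hQH y.2⟩ : H) : Ω), hβQ _ y.2⟩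
      have hrinj : Function.Injective r := by
        intro a b hab
        have h1 : ((β ⟨a, hQH a.2⟩ : H) : Ω) = ((β ⟨b, hQH b.2⟩ : H) : Ω) :=
          congrArg (fun z : Q => (z : Ω)) hab
        have h2 := β.injective (Subtype.ext h1)
        exact Subtype.ext (congrArg (fun z : H => (z : Ω)) h2)
      obtain ⟨y, hy⟩ := (Finite.injective_iff_surjective.mp hrinj) ⟨_, hx⟩
      have h1 : ((β ⟨y, hQH y.2⟩ : H) : Ω) = ((β x : H) : Ω) :=
        congrArg (fun z : Q => (z : Ω)) hy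
      have h2 := β.injective (Subtype.ext h1)
      rw [← h2]
      exact y.2
  rw [hBS, hSyl, Subgroup.mem_subgroupOf] at hβB
  exact hβB

/-- Under the hypotheses of `autGroup_isPGroup`, a map of the system defined on a subgroup `H ≥ Q` that maps
`Q` into `Q` is conjugation by an element of `S`. -/
theorem hom_eq_conj_of_stab [Finite S] {p : ℕ} [Fact p.Prime] (hS : IsPGroup p S)
    (F : FusionSystem S) (hF : F.IsSaturated p)
    (hInn : ∀ ψ ∈ F.Hom S, ∃ s ∈ S, ∀ x : S, ψ x = s * (x : Ω) * s⁻¹)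
    {Q H : Subgroup Ω} (hQH : Q ≤ H) (hHS : H ≤ S)
    (hcomm : ∀ s ∈ S, ∀ t ∈ S, s * t * s⁻¹ * t⁻¹ ∈ Q)
    (hfrat : ∀ x : S, (x : Ω) ∈ Q → x ∈ frattini S)
    (ψ : H →* Ω) (hψ : ψ ∈ F.Hom H) (hψQ : ∀ x : H, (x : Ω) ∈ Q → ψ x ∈ Q) :
    ∃ s ∈ S, ∀ x : H, ψ x = s * (x : Ω) * s⁻¹ := by
  classical
  have hQS : Q ≤ S := hQH.trans hHS
  have hQn : ∀ g ∈ S, g ∈ Subgroup.normalizer (Q : Set Ω) := normal_of_comm le_rfl hQS hcomm
  have hHn : ∀ g ∈ S, g ∈ Subgroup.normalizer (H : Set Ω) := normal_of_comm hQH hHS hcomm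
  have hfinQ : Finite Q := finite_of_le hQS
  obtain ⟨e, he⟩ := exists_equiv_of_hom F hψ (rfl : ψ.range = ψ.range)
  have hH'S : ψ.range ≤ S := by
    rintro _ ⟨x, rfl⟩
    exact (F.le_of_mem hψ).2 x
  -- ψ maps Q onto Q
  let r : Q → Q := fun y => ⟨ψ ⟨y, hQH y.2⟩, hψQ _ y.2⟩
  have hrinj : Function.Injective r := by
    intro a b hab
    have h1 : ψ ⟨a, hQH a.2⟩ = ψ ⟨b, hQH b.2⟩ := congrArg Subtype.val hab
    have h2 := F.injective_of_mem hψ h1
    exact Subtype.ext (congrArg (fun z : H => (z : Ω)) h2)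
  have hrsurj : Function.Surjective r := Finite.injective_iff_surjective.mp hrinj
  have hQH' : Q ≤ ψ.range := by
    intro y hy
    obtain ⟨x, hx⟩ := hrsurj ⟨y, hy⟩
    exact ⟨⟨x, hQH x.2⟩, congrArg Subtype.val hx⟩
  have hH'n : ∀ g ∈ S, g ∈ Subgroup.normalizer ((ψ.range : Subgroup Ω) : Set Ω) :=
    normal_of_comm hQH' hH'S hcomm
  obtain ⟨-, hRec'⟩ := fullyAutomized_receptive_of_normal hS F hF hInn hH'S hH'n
  have he_mem : (ψ.range).subtype.comp e.toMonoidHom ∈ F.Hom H := hom_of_eq F hψ (fun x => he x)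
  have hesymmQ : ∀ y : ψ.range, (y : Ω) ∈ Q → ((e.symm y : H) : Ω) ∈ Q := by
    intro y hy
    obtain ⟨x, hx⟩ := hrsurj ⟨y, hy⟩
    have h1 : e ⟨x, hQH x.2⟩ = y := by
      apply Subtype.ext
      rw [he]
      exact congrArg Subtype.val hx
    rw [← h1, MulEquiv.symm_apply_apply]
    exact x.2
  have hext : ∀ g ∈ S, ∃ h ∈ S, ∀ (x : H) (hx : g * (x : Ω) * g⁻¹ ∈ H),
      ψ ⟨g * x * g⁻¹, hx⟩ = h * ψ x * h⁻¹ := by
    intro g hg
    have hcg : conjAut H g (hHn g hg) ∈ F.autGroup H :=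
      autInducedBy_le_autGroup F hHS (conjAut_mem H hg (hHn g hg))
    have hβ := congr_mem_autGroup F hHS hH'S e he_mem _ hcg
    have hβQ : ∀ y : ψ.range, (y : Ω) ∈ Q →
        ((MulAut.congr e (conjAut H g (hHn g hg)) y : ψ.range) : Ω) ∈ Q := by
      intro y hy
      show ((e (conjAut H g (hHn g hg) (e.symm y)) : ψ.range) : Ω) ∈ Q
      rw [he]
      apply hψQ
      rw [conjAut_apply]
      exact (Subgroup.mem_normalizer_iff.mp (hQn g hg) _).mp (hesymmQ y hy)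
    have hmem := mem_autInducedBy_of_stab hS F hF hInn hQH' hH'S hcomm hfrat _ hβ hβQ
    obtain ⟨h, hh, Hh⟩ := mem_autInducedBy_iff.1 hmem
    refine ⟨h, hh, fun x hx => ?_⟩
    have H1 := Hh (e x)
    rw [he] at H1
    rw [← H1]
    show ψ ⟨g * x * g⁻¹, hx⟩ = ((e (conjAut H g (hHn g hg) (e.symm (e x))) : ψ.range) : Ω)
    rw [MulEquiv.symm_apply_apply, he]
    rfl
  exact eq_conj_of_forall_extends F hInn hRec' ψ hψ rfl hHn hext

end Cfsg.Agent.Helper86
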